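import Cfsg.Agent.Lib.IsoClassCount.Classes
import Cfsg.Prelude.Def_Classical

/-!
The standard symplectic and orthogonal groups as isometry groups of Gram matrices on `Fin n`.
-/

set_option autoImplicit false
set_option linter.unusedSectionVars false

namespace Cfsg.Agent.Lib.IsoClassCount

open Matrix

universe u
variable {F : Type u} [Field F] [Fintype F] {ι : Type} [Fintype ι] [DecidableEq ι] {n : ℕ}

theorem card_classes_congr {A B : Type*} [Group A] [Group B] (e : A ≃* B) :
    Nat.card (ConjClasses A) = Nat.card (ConjClasses B) := by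
  refine Nat.card_eq_of_bijective (ConjClasses.map e.toMonoidHom) ⟨fun a b => ?_, fun b => ?_⟩
  · obtain ⟨x, rfl⟩ := ConjClasses.mk_surjective a
    obtain ⟨y, rfl⟩ := ConjClasses.mk_surjective b
    intro h
    have h' : IsConj (e x) (e y) := ConjClasses.mk_eq_mk_iff_isConj.1 h
    refine ConjClasses.mk_eq_mk_iff_isConj.2 ?_
    have := e.symm.toMonoidHom.map_isConj h'
    simpa using this
  · obtain ⟨y, rfl⟩ := ConjClasses.mk_surjective b
    exact ⟨ConjClasses.mk (e.symm y), congrArg ConjClasses.mk (e.apply_symm_apply y)⟩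

/-- Reindexed invertible matrices. -/
noncomputable def glE (e : ι ≃ Fin n) : GL ι F ≃* GL (Fin n) F :=
  Units.mapEquiv (Matrix.reindexAlgEquiv F F e).toMulEquiv

theorem glE_val (e : ι ≃ Fin n) (g : GL ι F) :
    ((glE e g : GL (Fin n) F) : Matrix (Fin n) (Fin n) F) = Matrix.reindex e e (g : Matrix ι ι F) := rfl

theorem glE_mem (e : ι ≃ Fin n) (g : GL ι F) (M : Matrix ι ι F) :
    glE e g ∈ Iso (Matrix.reindex e e M) ↔ (g : Matrix ι ι F)ᵀ * M * g = M := by
  rw [mem_Iso, glE_val]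
  simp only [Matrix.reindex_apply, Matrix.transpose_submatrix, Matrix.submatrix_mul_equiv]
  exact ⟨fun h => (Matrix.reindex e e).injective h, fun h => by rw [h]⟩

/-- The symplectic group as an isometry group. -/
noncomputable def spEquiv {m : ℕ} (e : Fin m ⊕ Fin m ≃ Fin n) :
    ↥(Matrix.symplecticGroup (Fin m) F) ≃* ↥(Iso (Matrix.reindex e e (Matrix.J (Fin m) F))) where
  toFun A := ⟨glE e ((Matrix.symplecticGroup (Fin m) F).subtype.toHomUnits A),
    (glE_mem e _ _).2 (SymplecticGroup.mem_iff'.1 A.2)⟩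
  invFun g := ⟨(((glE e).symm (g : GL (Fin n) F) : GL (Fin m ⊕ Fin m) F) : Matrix _ _ F),
    SymplecticGroup.mem_iff'.2 ((glE_mem e _ _).1 (by rw [MulEquiv.apply_symm_apply]; exact g.2))⟩
  left_inv A := Subtype.ext (by
    show Units.val ((glE e).symm (glE e ((Matrix.symplecticGroup (Fin m) F).subtype.toHomUnits A))) = A.1
    rw [MulEquiv.symm_apply_apply]; rfl)
  right_inv g := Subtype.ext (by
    show glE e _ = (g : GL (Fin n) F)
    refine Units.ext ?_
    rw [glE_val]
    exact (congrArg (fun x : GL (Fin n) F => (x : Matrix (Fin n) (Fin n) F)) ((glE e).apply_symm_apply (g : GL (Fin n) F))))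
  map_mul' A B := Subtype.ext (by
    show glE e _ = glE e _ * glE e _
    rw [← map_mul, ← map_mul])

/-- Symmetric matrices with equal quadratic values are equal. -/
theorem eq_of_quad (h2 : (2 : F) ≠ 0) {A B : Matrix ι ι F} (hA : Aᵀ = A) (hB : Bᵀ = B)
    (h : ∀ v : ι → F, v ⬝ᵥ A *ᵥ v = v ⬝ᵥ B *ᵥ v) : A = B := by
  ext i j
  have key : ∀ M : Matrix ι ι F, Mᵀ = M → (Pi.single i 1 + Pi.single j 1 : ι → F) ⬝ᵥ M *ᵥ (Pi.single i 1 + Pi.single j 1) =
      M i i + M j j + 2 * M i j := by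
    intro M hM
    have e : M j i = M i j := congrFun (congrFun hM i) j
    simp only [Matrix.mulVec_add, dotProduct_add, add_dotProduct, single_dotProduct, one_mul,
      Matrix.mulVec_single_one, Matrix.col_apply, e]
    ring
  have hd : ∀ k, A k k = B k k := fun k => by
    have := h (Pi.single k 1)
    simpa using this
  have := h (Pi.single i 1 + Pi.single j 1)
  rw [key A hA, key B hB, hd, hd] at this
  exact mul_left_cancel₀ h2 (add_left_cancel this)

theorem iso_map (h2 : (2 : F) ≠ 0) (Q : (ι → F) → F) (M : Matrix ι ι F) (hM : Mᵀ = M)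
    (hQ : ∀ v, 2 * Q v = v ⬝ᵥ M *ᵥ v) (e : ι ≃ Fin n) :
    (Cfsg.isometryGroup F Q).map (glE e).toMonoidHom = Iso (Matrix.reindex e e M) := by
  have hmem : ∀ g : GL ι F, g ∈ Cfsg.isometryGroup F Q ↔ (g : Matrix ι ι F)ᵀ * M * g = M := by
    intro g
    have hq : g ∈ Cfsg.isometryGroup F Q ↔ ∀ v, Q ((g : Matrix ι ι F) *ᵥ v) = Q v :=
      ⟨fun h v => h v v, fun h u _ => h u⟩
    rw [hq]
    have hv : ∀ v, v ⬝ᵥ ((g : Matrix ι ι F)ᵀ * M * (g : Matrix ι ι F)) *ᵥ v = 2 * Q ((g : Matrix ι ι F) *ᵥ v) := fun v => by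
      rw [hQ, ← Matrix.mulVec_mulVec, ← Matrix.mulVec_mulVec, Matrix.dotProduct_mulVec v (g : Matrix ι ι F)ᵀ,
        Matrix.vecMul_transpose]
    constructor
    · intro h
      refine eq_of_quad h2 (by rw [transpose_mul, transpose_mul, transpose_transpose, hM, mul_assoc]) hM fun v => ?_
      rw [hv, h, hQ]
    · intro h v
      refine mul_left_cancel₀ h2 ?_
      rw [← hv, h, hQ]
  ext x
  constructor
  · rintro ⟨g, hg, rfl⟩
    exact (glE_mem e g M).2 ((hmem g).1 hg)
  · intro hx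
    obtain ⟨g, rfl⟩ := (glE e).surjective x
    exact ⟨g, (hmem g).2 ((glE_mem e g M).1 hx), rfl⟩

theorem card_iso_classes (h2 : (2 : F) ≠ 0) (Q : (ι → F) → F) (M : Matrix ι ι F) (hM : Mᵀ = M)
    (hQ : ∀ v, 2 * Q v = v ⬝ᵥ M *ᵥ v) (e : ι ≃ Fin n) :
    Nat.card (ConjClasses ↥(Cfsg.isometryGroup F Q)) = Nat.card (ConjClasses ↥(Iso (Matrix.reindex e e M))) := by
  refine card_classes_congr ((Subgroup.equivMapOfInjective _ (glE e).toMonoidHom (glE e).injective).trans
    (MulEquiv.subgroupCongr (iso_map h2 Q M hM hQ e)))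

end Cfsg.Agent.Lib.IsoClassCount
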