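import Cfsg.Agent.Lib.IsoClassCount.Parts

/-!
Classes of isometry groups against similarity invariants and discriminants.
-/

set_option autoImplicit false
set_option linter.unusedSectionVars false

namespace Cfsg.Agent.Lib.IsoClassCount

open Polynomial Matrix Cfsg.Agent.Lib.Jordan Cfsg.Agent.Lib.GLn.ClassInvariant

universe u
variable {F : Type u} [Field F] [Fintype F] {n : ℕ}

/-- The isometry group of a Gram matrix. -/
def Iso (G : Matrix (Fin n) (Fin n) F) : Subgroup (GL (Fin n) F) where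
  carrier := {g | (g : Matrix (Fin n) (Fin n) F)ᵀ * G * g = G}
  mul_mem' {a b} ha hb := by
    show ((a * b : GL (Fin n) F) : Matrix (Fin n) (Fin n) F)ᵀ * G * _ = G
    calc _ = (b : Matrix (Fin n) (Fin n) F)ᵀ * ((a : Matrix (Fin n) (Fin n) F)ᵀ * G * a) * b := by
          simp only [Units.val_mul, transpose_mul, mul_assoc]
      _ = G := by rw [(ha : _ * _ * _ = G)]; exact hb
  one_mem' := by simp
  inv_mem' {a} ha := by
    show ((a⁻¹ : GL (Fin n) F) : Matrix (Fin n) (Fin n) F)ᵀ * G * _ = G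
    conv_lhs => rw [← (ha : _ * _ * _ = G)]
    calc _ = ((a : Matrix (Fin n) (Fin n) F) * ((a⁻¹ : GL (Fin n) F) : Matrix (Fin n) (Fin n) F))ᵀ * G *
          ((a : Matrix (Fin n) (Fin n) F) * ((a⁻¹ : GL (Fin n) F) : Matrix (Fin n) (Fin n) F)) := by
          simp only [transpose_mul, mul_assoc]
      _ = G := by rw [Units.mul_inv, transpose_one, one_mul, mul_one]

theorem mem_Iso {G : Matrix (Fin n) (Fin n) F} {g : GL (Fin n) F} :
    g ∈ Iso G ↔ (g : Matrix (Fin n) (Fin n) F)ᵀ * G * g = G := Iff.rfl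

theorem isSquare_mul_of_iff {a b : F} (ha : a ≠ 0) (hb : b ≠ 0) (h : IsSquare a ↔ IsSquare b) :
    IsSquare (a * b) := by
  classical
  by_cases hs : IsSquare a
  · exact hs.mul (h.1 hs)
  · have hF : ringChar F ≠ 2 := fun e => hs (FiniteField.isSquare_of_char_two e a)
    refine (quadraticChar_one_iff_isSquare (mul_ne_zero ha hb)).1 ?_
    rw [map_mul, quadraticChar_neg_one_iff_not_isSquare.2 hs,
      quadraticChar_neg_one_iff_not_isSquare.2 (fun e => hs (h.2 e))]
    ring

theorem isSquare_prod {α : Type*} (S : Finset α) (f : α → F) (h : ∀ a ∈ S, IsSquare (f a)) :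
    IsSquare (∏ a ∈ S, f a) :=
  Finset.prod_induction _ IsSquare (fun _ _ => IsSquare.mul) IsSquare.one h

variable {s : F}

/-- A discriminant indexed by any block size. -/
noncomputable def Part.dsc {ι : Type} [Fintype ι] [DecidableEq ι] {g : Matrix ι ι F} {ε : F} (P : Part g ε)
    (G : Matrix ι ι F) (i : ℕ) : F :=
  if h : i ∈ Finset.range (Finset.univ.sup P.d + 1) then P.disc G ⟨i, h⟩ else 1

theorem Part.dsc_eq {ι : Type} [Fintype ι] [DecidableEq ι] {g : Matrix ι ι F} {ε : F} (P : Part g ε)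
    (G : Matrix ι ι F) (i : UCent.Rng P.d) : P.dsc G (i : ℕ) = P.disc G i := by
  rw [Part.dsc, dif_pos i.2]

theorem Part.disc_ne {ι : Type} [Fintype ι] [DecidableEq ι] {g G : Matrix ι ι F} {ε : F} (P : Part g ε)
    (hs : s * s = 1) (hε : ε * ε = 1) (hG : Form s g G) (i : UCent.Rng P.d) : P.disc G i ≠ 0 :=
  SpC.bm_det P.d P.hd (P.inv_rest hG hε) (P.C.rest_det hG.det (P.orth hG hs hε)) i

theorem Part.disc_empty {ι : Type} [Fintype ι] [DecidableEq ι] {g : Matrix ι ι F} {ε : F} (P : Part g ε)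
    (G : Matrix ι ι F) (i : UCent.Rng P.d) (h : mult P.d (i : ℕ) = 0) : P.disc G i = 1 := by
  haveI : IsEmpty (Fin (mult P.d (i : ℕ))) := by rw [h]; infer_instance
  exact Matrix.det_isEmpty

open scoped _root_.Classical in
variable (s) in
/-- The sign slots of a tuple. -/
noncomputable def slots (T : Fin n → F[X]) : Finset (Fin n × Bool) :=
  Finset.univ.filter fun a => s * (-1) ^ (a.1 : ℕ) = 1 ∧ (T a.1).IsRoot (if a.2 then 1 else -1)

/-- Data attached to one tuple: a representative, its two parts and their properties. -/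
structure Base (G : Matrix (Fin n) (Fin n) F) (hn : 1 ≤ n) (g : GL (Fin n) F) where
  P : Part (g : Matrix (Fin n) (Fin n) F) 1
  Q : Part (g : Matrix (Fin n) (Fin n) F) (-1)
  hPQ : P.E * Q.E = 0
  hQP : Q.E * P.E = 0
  hP : ∀ i : Fin n, mult P.d ((i : ℕ) + 1) = rootMultiplicity 1 ((tup hn g).1 i)
  hQ : ∀ i : Fin n, mult Q.d ((i : ℕ) + 1) = rootMultiplicity (-1) ((tup hn g).1 i)
  hPi : ∀ i, mult P.d i ≠ 0 → 1 ≤ i ∧ i ≤ n
  hQi : ∀ i, mult Q.d i ≠ 0 → 1 ≤ i ∧ i ≤ n

theorem exists_base (h2 : (2 : F) ≠ 0) (G : Matrix (Fin n) (Fin n) F) (hn : 1 ≤ n) (g : GL (Fin n) F) :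
    Nonempty (Base G hn g) := by
  classical
  set D := (exists_decomp g hn).some
  obtain ⟨P, hP, hPE⟩ := exists_part D hn (show (1 : F) * 1 = 1 from one_mul 1)
  obtain ⟨Q, hQ, hQE⟩ := exists_part D hn (show (-1 : F) * -1 = 1 by ring)
  obtain ⟨h1, h3⟩ := parts_orth D h2 hPE hQE
  have hc : ∀ (P : F[X]) (i : ℕ), D.count P i ≠ 0 → 1 ≤ i ∧ i ≤ n := fun P i h => by
    rw [Decomp.count, Finset.card_ne_zero] at h
    obtain ⟨j, hj⟩ := h
    rw [← (Finset.mem_filter.1 hj).2.1]
    exact ⟨(D.hpe j).2.2.2, D.e_le j⟩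
  exact ⟨⟨P, Q, h1, h3, fun i => (hP _).trans (rootMultiplicity_tupFun D 1 i).symm,
    fun i => (hQ _).trans (rootMultiplicity_tupFun D (-1) i).symm,
    fun i h => hc _ i (by rwa [hP] at h), fun i h => hc _ i (by rwa [hQ] at h)⟩⟩

variable (G : Matrix (Fin n) (Fin n) F)

open scoped _root_.Classical in
variable (s) in
/-- Admissible entries of the tuples. -/
noncomputable def cand (i : Fin n) : Finset F[X] :=
  if s * (-1) ^ (i : ℕ) = 1 then (Finset.range (n + 1)).biUnion (sdF F) else (Finset.range (n + 1)).biUnion (palF F)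

open scoped _root_.Classical in
variable (s) in
/-- The weight of an entry. -/
noncomputable def wgt (i : Fin n) (P : F[X]) : ℕ := if s * (-1) ^ (i : ℕ) = 1 then wt P else 1

open scoped _root_.Classical in
variable (s) in
/-- Entries without sign slots. -/
noncomputable def free (i : Fin n) (P : F[X]) : Prop := s * (-1) ^ (i : ℕ) = 1 → ¬ P.IsRoot 1 ∧ ¬ P.IsRoot (-1)

open scoped _root_.Classical in
variable (n F s) in
/-- Admissible tuples. -/
noncomputable def tuples : Finset (Fin n → F[X]) :=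
  (Fintype.piFinset (cand (F := F) (n := n) s)).filter fun T => ∑ i : Fin n, ((i : ℕ) + 1) * (T i).natDegree = n

theorem pow_slots (T : Fin n → F[X]) : 2 ^ (slots s T).card = ∏ i, wgt s i (T i) := by
  classical
  rw [slots, Finset.card_filter, ← Finset.prod_pow_eq_pow_sum, Fintype.prod_prod_type]
  refine Finset.prod_congr rfl fun i _ => ?_
  rw [Fintype.prod_bool, wgt]
  by_cases h : s * (-1) ^ (i : ℕ) = 1
  · simp only [h, true_and, if_true, Bool.false_eq_true, if_false]
    unfold wt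
    by_cases a : (T i).IsRoot 1 <;> by_cases b : (T i).IsRoot (-1) <;> simp only [a, b, if_true, if_false, pow_one,
      pow_zero, one_mul, mul_one, reduceIte]
  · simp only [h, false_and, if_false, pow_zero, mul_one]

theorem slots_eq_empty_iff (T : Fin n → F[X]) : slots s T = ∅ ↔ ∀ i, free s i (T i) := by
  classical
  rw [slots, Finset.filter_eq_empty_iff]
  constructor
  · intro h i hi
    exact ⟨fun e => h (Finset.mem_univ (i, true)) ⟨hi, by simpa using e⟩,
      fun e => h (Finset.mem_univ (i, false)) ⟨hi, by simpa using e⟩⟩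
  · rintro h ⟨i, b⟩ - ⟨hi, hr⟩
    cases b
    · exact (h i hi).2 (by simpa using hr)
    · exact (h i hi).1 (by simpa using hr)

open scoped _root_.Classical in
/-- The classes inject into tuples with signs; for symmetric forms half of the signs are missed. -/
theorem classes_le (hs : s * s = 1) (h2 : (2 : F) ≠ 0) (hn : 1 ≤ n) (hG : G.det ≠ 0) (hGs : Gᵀ = s • G) :
    Nat.card (ConjClasses ↥(Iso G)) ≤ ∑ T ∈ tuples F n s, ∏ i, wgt s i (T i) ∧
      (s = 1 → 2 * Nat.card (ConjClasses ↥(Iso G)) ≤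
        ∑ T ∈ tuples F n s, ((∏ i, wgt s i (T i)) + if ∀ i, free s i (T i) then 1 else 0)) := by
  classical
  obtain ⟨p, hp0⟩ := CharP.exists F
  obtain ⟨e, hpp, -⟩ := FiniteField.card F p
  haveI := Fact.mk hpp
  have hp : p ≠ 2 := fun e => h2 (by
    subst e; exact_mod_cast CharP.cast_eq_zero F 2)
  have hm1 : (-1 : F) * -1 = 1 := by ring
  haveI : Nonempty ↥(Iso G) := ⟨1⟩
  let inv : ↥(Iso G) → (Fin n → F[X]) := fun h => (tup hn (h : GL (Fin n) F)).1
  let r : (Fin n → F[X]) → ↥(Iso G) := Function.invFun inv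
  let B : ∀ T, Base G hn (r T : GL (Fin n) F) := fun T => (exists_base h2 G hn _).some
  have hr : ∀ h, inv (r (inv h)) = inv h := fun h => Function.invFun_eq ⟨h, rfl⟩
  have hx : ∀ h : ↥(Iso G), ∃ x : GL (Fin n) F, x * (r (inv h) : GL (Fin n) F) * x⁻¹ = (h : GL (Fin n) F) := fun h =>
    isConj_iff.1 (isConj_of_tup_eq hn (Subtype.ext (hr h)))
  choose x hx using hx
  let Gh : ↥(Iso G) → Matrix (Fin n) (Fin n) F := fun h =>
    (x h : Matrix (Fin n) (Fin n) F)ᵀ * G * (x h : Matrix (Fin n) (Fin n) F)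
  have hform : ∀ h, Form s ((r (inv h) : GL (Fin n) F) : Matrix (Fin n) (Fin n) F) (Gh h) := by
    intro h
    refine ⟨?_, ?_, ?_⟩
    · have hd : (x h : Matrix (Fin n) (Fin n) F).det ≠ 0 := Matrix.GeneralLinearGroup.det_ne_zero _
      simp only [Gh, det_mul, det_transpose]
      exact mul_ne_zero (mul_ne_zero hd hG) hd
    · simp only [Gh, transpose_mul, transpose_transpose, hGs, Matrix.smul_mul, Matrix.mul_smul, mul_assoc]
    · have e : (x h : Matrix (Fin n) (Fin n) F) * ((r (inv h) : GL (Fin n) F) : Matrix (Fin n) (Fin n) F) =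
          ((h : GL (Fin n) F) : Matrix (Fin n) (Fin n) F) * (x h : Matrix (Fin n) (Fin n) F) := by
        rw [← Units.val_mul, ← Units.val_mul, ← mul_inv_eq_iff_eq_mul.1 (hx h)]
      calc _ = ((x h : Matrix (Fin n) (Fin n) F) * ((r (inv h) : GL (Fin n) F) : Matrix (Fin n) (Fin n) F))ᵀ * G *
            ((x h : Matrix (Fin n) (Fin n) F) * ((r (inv h) : GL (Fin n) F) : Matrix (Fin n) (Fin n) F)) := by
            simp only [Gh, transpose_mul, mul_assoc]
        _ = (x h : Matrix (Fin n) (Fin n) F)ᵀ * (((h : GL (Fin n) F) : Matrix (Fin n) (Fin n) F)ᵀ * G *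
            ((h : GL (Fin n) F) : Matrix (Fin n) (Fin n) F)) * (x h : Matrix (Fin n) (Fin n) F) := by
            rw [e]; simp only [transpose_mul, mul_assoc]
        _ = _ := by rw [mem_Iso.1 h.2]
  let sgnT : (Fin n → F[X]) → Matrix (Fin n) (Fin n) F → (Fin n × Bool) → Bool := fun T M a =>
    decide (IsSquare (if a.2 then (B T).P.dsc M ((a.1 : ℕ) + 1) else (B T).Q.dsc M ((a.1 : ℕ) + 1)))
  let sgn : ↥(Iso G) → (Fin n × Bool) → Bool := fun h a => sgnT (inv h) (Gh h) a
  have hroot : ∀ (c : F) (h : ↥(Iso G)) (i : Fin n), rootMultiplicity c (inv h i) ≠ 0 → (inv h i).IsRoot c :=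
    fun c h i hne => (rootMultiplicity_pos ((tup hn (h : GL (Fin n) F)).2.1 i).1.ne_zero).1 (Nat.pos_of_ne_zero hne)
  -- equal tuples: the discriminant products
  have prodP : ∀ (h : ↥(Iso G)) (G₁ G₂ : Matrix (Fin n) (Fin n) F),
      Form s ((r (inv h) : GL (Fin n) F) : Matrix (Fin n) (Fin n) F) G₁ →
      Form s ((r (inv h) : GL (Fin n) F) : Matrix (Fin n) (Fin n) F) G₂ →
      ∀ (A : Fin n → Prop), (∀ i : Fin n, A i → (i, true) ∈ slots s (inv h) →
        (IsSquare ((B (inv h)).P.dsc G₁ ((i : ℕ) + 1)) ↔ IsSquare ((B (inv h)).P.dsc G₂ ((i : ℕ) + 1)))) →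
      ∀ i : UCent.Rng (B (inv h)).P.d, s * (-1 : F) ^ ((i : ℕ) - 1) = 1 →
        (∀ i' : Fin n, (i' : ℕ) + 1 = (i : ℕ) → A i') →
        IsSquare ((B (inv h)).P.disc G₁ i * (B (inv h)).P.disc G₂ i) := by
    intro h G₁ G₂ hG₁ hG₂ A hA i hi hAi
    by_cases hm : mult (B (inv h)).P.d (i : ℕ) = 0
    · rw [Part.disc_empty _ _ _ hm, Part.disc_empty _ _ _ hm, one_mul]; exact IsSquare.one
    obtain ⟨h1, h3⟩ := (B (inv h)).hPi _ hm
    let i' : Fin n := ⟨(i : ℕ) - 1, by omega⟩
    have e : (i' : ℕ) + 1 = (i : ℕ) := Nat.sub_add_cancel h1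
    have hmem : (i', true) ∈ slots s (inv h) := by
      refine Finset.mem_filter.2 ⟨Finset.mem_univ _, hi, ?_⟩
      rw [if_pos rfl]
      refine hroot 1 h i' ?_
      rw [← congrFun (hr h) i']
      show rootMultiplicity 1 ((tup hn (r (inv h) : GL (Fin n) F)).1 i') ≠ 0
      rw [← (B (inv h)).hP i', e]; exact hm
    have := hA i' (hAi i' e) hmem
    rw [e, Part.dsc_eq, Part.dsc_eq] at this
    exact isSquare_mul_of_iff ((B (inv h)).P.disc_ne hs (one_mul 1) hG₁ i) ((B (inv h)).P.disc_ne hs (one_mul 1) hG₂ i) this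
  have prodQ : ∀ (h : ↥(Iso G)) (G₁ G₂ : Matrix (Fin n) (Fin n) F),
      Form s ((r (inv h) : GL (Fin n) F) : Matrix (Fin n) (Fin n) F) G₁ →
      Form s ((r (inv h) : GL (Fin n) F) : Matrix (Fin n) (Fin n) F) G₂ →
      ∀ (A : Fin n → Prop), (∀ i : Fin n, A i → (i, false) ∈ slots s (inv h) →
        (IsSquare ((B (inv h)).Q.dsc G₁ ((i : ℕ) + 1)) ↔ IsSquare ((B (inv h)).Q.dsc G₂ ((i : ℕ) + 1)))) →
      ∀ i : UCent.Rng (B (inv h)).Q.d, s * (-1 : F) ^ ((i : ℕ) - 1) = 1 →
        (∀ i' : Fin n, (i' : ℕ) + 1 = (i : ℕ) → A i') →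
        IsSquare ((B (inv h)).Q.disc G₁ i * (B (inv h)).Q.disc G₂ i) := by
    intro h G₁ G₂ hG₁ hG₂ A hA i hi hAi
    by_cases hm : mult (B (inv h)).Q.d (i : ℕ) = 0
    · rw [Part.disc_empty _ _ _ hm, Part.disc_empty _ _ _ hm, one_mul]; exact IsSquare.one
    obtain ⟨h1, h3⟩ := (B (inv h)).hQi _ hm
    let i' : Fin n := ⟨(i : ℕ) - 1, by omega⟩
    have e : (i' : ℕ) + 1 = (i : ℕ) := Nat.sub_add_cancel h1
    have hmem : (i', false) ∈ slots s (inv h) := by
      refine Finset.mem_filter.2 ⟨Finset.mem_univ _, hi, ?_⟩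
      rw [if_neg (by simp)]
      refine hroot (-1) h i' ?_
      rw [← congrFun (hr h) i']
      show rootMultiplicity (-1) ((tup hn (r (inv h) : GL (Fin n) F)).1 i') ≠ 0
      rw [← (B (inv h)).hQ i', e]; exact hm
    have := hA i' (hAi i' e) hmem
    rw [e, Part.dsc_eq, Part.dsc_eq] at this
    exact isSquare_mul_of_iff ((B (inv h)).Q.disc_ne hs hm1 hG₁ i) ((B (inv h)).Q.disc_ne hs hm1 hG₂ i) this
  have conj_of : ∀ h h', inv h' = inv h → (∀ a ∈ slots s (inv h), sgn h a = sgn h' a) → IsConj h h' := by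
    intro h h' hT hσ
    have hG' := hform h'
    have hx' := hx h'
    simp only [sgn] at hσ
    rw [hT] at hσ
    simp only [sgnT] at hσ
    rw [hT] at hG' hx'
    obtain ⟨c, hcg, hc⟩ := (glue p hp hs (hform h) hG' (B (inv h)).P (B (inv h)).Q (B (inv h)).hPQ (B (inv h)).hQP).1
      (fun i hi => prodP h _ _ (hform h) hG' (fun _ => True)
        (fun i _ ha => by simpa using hσ _ ha) i hi (fun _ _ => trivial))
      (fun i hi => prodQ h _ _ (hform h) hG' (fun _ => True)
        (fun i _ ha => by simpa using hσ _ ha) i hi (fun _ _ => trivial))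
    have hcu : IsUnit c := (Matrix.isUnit_iff_isUnit_det _).2 (isUnit_iff_ne_zero.2 fun h0 => hG'.det (by
      rw [← hc, det_mul, h0, mul_zero]))
    set C := hcu.unit with hC
    set y := x h * C * (x h')⁻¹ with hy
    have hCg : Commute C (r (inv h) : GL (Fin n) F) := Units.ext hcg.eq
    have hyI : y ∈ Iso G := by
      rw [mem_Iso, hy, Units.val_mul, Units.val_mul]
      calc _ = ((x h')⁻¹ : GL (Fin n) F).1ᵀ * (cᵀ * Gh h * c) * ((x h')⁻¹ : GL (Fin n) F).1 := by
            simp only [Gh, transpose_mul, mul_assoc, hC, IsUnit.unit_spec]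
        _ = ((x h' : Matrix (Fin n) (Fin n) F) * ((x h')⁻¹ : GL (Fin n) F).1)ᵀ * G *
            ((x h' : Matrix (Fin n) (Fin n) F) * ((x h')⁻¹ : GL (Fin n) F).1) := by
            rw [hc]; simp only [Gh, transpose_mul, mul_assoc]
        _ = G := by rw [Units.mul_inv, transpose_one, one_mul, mul_one]
    refine (isConj_iff.2 ⟨⟨y, hyI⟩, Subtype.ext ?_⟩).symm
    show y * (h' : GL (Fin n) F) * y⁻¹ = (h : GL (Fin n) F)
    rw [← hx', ← hx h, hy]
    calc x h * C * (x h')⁻¹ * (x h' * (r (inv h) : GL (Fin n) F) * (x h')⁻¹) * (x h * C * (x h')⁻¹)⁻¹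
        = x h * (C * (r (inv h) : GL (Fin n) F)) * C⁻¹ * (x h)⁻¹ := by group
      _ = _ := by rw [hCg.eq]; group
  have flip_no : s = 1 → ∀ h h', inv h' = inv h → ∀ a₀ ∈ slots s (inv h),
      (∀ a ∈ slots s (inv h), a ≠ a₀ → sgn h a = sgn h' a) → sgn h a₀ = sgn h' a₀ := by
    intro hs1 h h' hT a₀ ha₀ hσ
    have hG' := hform h'
    simp only [sgn] at hσ ⊢
    rw [hT] at hσ ⊢
    simp only [sgnT] at hσ ⊢
    rw [hT] at hG'
    by_contra hne
    obtain ⟨v, hv⟩ := (glue p hp hs (hform h) hG' (B (inv h)).P (B (inv h)).Q (B (inv h)).hPQ (B (inv h)).hQP).2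
    have hdet : IsSquare ((Gh h).det * (Gh h').det) := ⟨(x h : Matrix (Fin n) (Fin n) F).det *
      (x h' : Matrix (Fin n) (Fin n) F).det * G.det, by simp only [Gh, det_mul, det_transpose]; ring⟩
    obtain ⟨i₀, b₀⟩ := a₀
    obtain ⟨hg₀, hr₀⟩ := (Finset.mem_filter.1 ha₀).2
    have hodd : Odd ((i₀ : ℕ) + 1) := by
      rw [hs1, one_mul] at hg₀
      rcases Nat.even_or_odd (i₀ : ℕ) with he | ho
      · exact he.add_one
      · rw [ho.neg_one_pow] at hg₀
        exact absurd (by linear_combination -hg₀) h2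
    have hbad : ∀ k : ℕ, s * (-1 : F) ^ (k - 1) ≠ 1 → Even k := by
      intro k hk
      rw [hs1, one_mul] at hk
      rcases Nat.even_or_odd k with he | ⟨m, rfl⟩
      · exact he
      · exact absurd (by rw [Nat.add_sub_cancel, pow_mul, neg_one_sq, one_pow]) hk
    cases b₀ with
    | true =>
      have hQsq : IsSquare (∏ i : UCent.Rng (B (inv h)).Q.d,
          ((B (inv h)).Q.disc (Gh h) i * (B (inv h)).Q.disc (Gh h') i) ^ (i : ℕ)) :=
        isSquare_prod _ _ fun i _ => by
          by_cases hi : s * (-1 : F) ^ ((i : ℕ) - 1) = 1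
          · exact (prodQ h _ _ (hform h) hG' (fun _ => True)
              (fun j _ ha => by simpa using hσ _ ha (by simp)) i hi (fun _ _ => trivial)).pow _
          · exact (hbad _ hi).isSquare_pow _
      have hm : mult (B (inv h)).P.d ((i₀ : ℕ) + 1) ≠ 0 := by
        rw [(B (inv h)).hP i₀, show (tup hn (r (inv h) : GL (Fin n) F)).1 i₀ = inv h i₀ from congrFun (hr h) i₀]
        exact ((rootMultiplicity_pos ((tup hn (h : GL (Fin n) F)).2.1 i₀).1.ne_zero).2 (by simpa using hr₀)).ne'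
      obtain ⟨k, hk⟩ := Finset.card_pos.1 (Nat.pos_of_ne_zero hm)
      let j₀ : UCent.Rng (B (inv h)).P.d := ⟨(i₀ : ℕ) + 1, (Finset.mem_filter.1 hk).2 ▸ UCent.mem_rng _ k⟩
      have hrest : IsSquare (∏ i ∈ Finset.univ.erase j₀,
          ((B (inv h)).P.disc (Gh h) i * (B (inv h)).P.disc (Gh h') i) ^ (i : ℕ)) :=
        isSquare_prod _ _ fun i hi0 => by
          by_cases hi : s * (-1 : F) ^ ((i : ℕ) - 1) = 1
          · exact (prodP h _ _ (hform h) hG' (fun j => j ≠ i₀)
              (fun j hj ha => by simpa using hσ _ ha (by simp [hj])) i hi (fun j ej hj => (Finset.mem_erase.1 hi0).1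
                (Subtype.ext (by rw [← ej, hj])))).pow _
          · exact (hbad _ hi).isSquare_pow _
      rw [← Finset.mul_prod_erase _ _ (Finset.mem_univ j₀)] at hv
      obtain ⟨a, ha⟩ := hdet
      obtain ⟨b, hb⟩ := hrest
      obtain ⟨c, hc⟩ := hQsq
      obtain ⟨m, hm2⟩ := hodd
      have hne1 := (B (inv h)).P.disc_ne hs (one_mul 1) (hform h) j₀
      have hne2 := (B (inv h)).P.disc_ne hs (one_mul 1) hG' j₀
      have hsq : IsSquare ((B (inv h)).P.disc (Gh h) j₀ * (B (inv h)).P.disc (Gh h') j₀) := by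
        set d := (B (inv h)).P.disc (Gh h) j₀ * (B (inv h)).P.disc (Gh h') j₀ with hd
        have hd0 : d ≠ 0 := mul_ne_zero hne1 hne2
        rw [show (j₀ : ℕ) = 2 * m + 1 from hm2, hb, hc, ha] at hv
        have ha0 : a ≠ 0 := fun e => mul_ne_zero (hform h).det hG'.det (by rw [ha, e, mul_zero])
        have hb0 : b ≠ 0 := fun e => by
          rw [e, mul_zero] at hb
          obtain ⟨i, -, hi⟩ := Finset.prod_eq_zero_iff.1 hb
          exact mul_ne_zero ((B (inv h)).P.disc_ne hs (one_mul 1) (hform h) i)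
            ((B (inv h)).P.disc_ne hs (one_mul 1) hG' i) (eq_zero_of_pow_eq_zero hi)
        have hc0 : c ≠ 0 := fun e => by
          rw [e, mul_zero] at hc
          obtain ⟨i, -, hi⟩ := Finset.prod_eq_zero_iff.1 hc
          exact mul_ne_zero ((B (inv h)).Q.disc_ne hs hm1 (hform h) i)
            ((B (inv h)).Q.disc_ne hs hm1 hG' i) (eq_zero_of_pow_eq_zero hi)
        refine ⟨v / (a * b * c * d ^ m), ?_⟩
        field_simp
        linear_combination hv
      apply hne
      simp only [Bool.decide_coe, if_true, decide_eq_decide]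
      rw [show (i₀ : ℕ) + 1 = (j₀ : ℕ) from rfl, Part.dsc_eq, Part.dsc_eq]
      obtain ⟨w, hw⟩ := hsq
      constructor <;> rintro ⟨t, ht⟩ <;> refine ⟨w / t, ?_⟩
      · have : t ≠ 0 := fun e => hne1 (by rw [ht, e, mul_zero])
        rw [ht] at hw; field_simp; linear_combination hw
      · have : t ≠ 0 := fun e => hne2 (by rw [ht, e, mul_zero])
        rw [ht] at hw; field_simp; linear_combination hw
    | false =>
      have hPsq : IsSquare (∏ i : UCent.Rng (B (inv h)).P.d,
          ((B (inv h)).P.disc (Gh h) i * (B (inv h)).P.disc (Gh h') i) ^ (i : ℕ)) :=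
        isSquare_prod _ _ fun i _ => by
          by_cases hi : s * (-1 : F) ^ ((i : ℕ) - 1) = 1
          · exact (prodP h _ _ (hform h) hG' (fun _ => True)
              (fun j _ ha => by simpa using hσ _ ha (by simp)) i hi (fun _ _ => trivial)).pow _
          · exact (hbad _ hi).isSquare_pow _
      have hm : mult (B (inv h)).Q.d ((i₀ : ℕ) + 1) ≠ 0 := by
        rw [(B (inv h)).hQ i₀, show (tup hn (r (inv h) : GL (Fin n) F)).1 i₀ = inv h i₀ from congrFun (hr h) i₀]
        exact ((rootMultiplicity_pos ((tup hn (h : GL (Fin n) F)).2.1 i₀).1.ne_zero).2 (by simpa using hr₀)).ne'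
      obtain ⟨k, hk⟩ := Finset.card_pos.1 (Nat.pos_of_ne_zero hm)
      let j₀ : UCent.Rng (B (inv h)).Q.d := ⟨(i₀ : ℕ) + 1, (Finset.mem_filter.1 hk).2 ▸ UCent.mem_rng _ k⟩
      have hrest : IsSquare (∏ i ∈ Finset.univ.erase j₀,
          ((B (inv h)).Q.disc (Gh h) i * (B (inv h)).Q.disc (Gh h') i) ^ (i : ℕ)) :=
        isSquare_prod _ _ fun i hi0 => by
          by_cases hi : s * (-1 : F) ^ ((i : ℕ) - 1) = 1
          · exact (prodQ h _ _ (hform h) hG' (fun j => j ≠ i₀)
              (fun j hj ha => by simpa using hσ _ ha (by simp [hj])) i hi (fun j ej hj => (Finset.mem_erase.1 hi0).1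
                (Subtype.ext (by rw [← ej, hj])))).pow _
          · exact (hbad _ hi).isSquare_pow _
      rw [← Finset.mul_prod_erase _ (fun i : UCent.Rng (B (inv h)).Q.d =>
        ((B (inv h)).Q.disc (Gh h) i * (B (inv h)).Q.disc (Gh h') i) ^ (i : ℕ)) (Finset.mem_univ j₀)] at hv
      obtain ⟨a, ha⟩ := hdet
      obtain ⟨b, hb⟩ := hrest
      obtain ⟨c, hc⟩ := hPsq
      obtain ⟨m, hm2⟩ := hodd
      have hne1 := (B (inv h)).Q.disc_ne hs hm1 (hform h) j₀
      have hne2 := (B (inv h)).Q.disc_ne hs hm1 hG' j₀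
      have hsq : IsSquare ((B (inv h)).Q.disc (Gh h) j₀ * (B (inv h)).Q.disc (Gh h') j₀) := by
        set d := (B (inv h)).Q.disc (Gh h) j₀ * (B (inv h)).Q.disc (Gh h') j₀ with hd
        have hd0 : d ≠ 0 := mul_ne_zero hne1 hne2
        rw [show (j₀ : ℕ) = 2 * m + 1 from hm2, hb, hc, ha] at hv
        have ha0 : a ≠ 0 := fun e => mul_ne_zero (hform h).det hG'.det (by rw [ha, e, mul_zero])
        have hb0 : b ≠ 0 := fun e => by
          rw [e, mul_zero] at hb
          obtain ⟨i, -, hi⟩ := Finset.prod_eq_zero_iff.1 hb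
          exact mul_ne_zero ((B (inv h)).Q.disc_ne hs hm1 (hform h) i)
            ((B (inv h)).Q.disc_ne hs hm1 hG' i) (eq_zero_of_pow_eq_zero hi)
        have hc0 : c ≠ 0 := fun e => by
          rw [e, mul_zero] at hc
          obtain ⟨i, -, hi⟩ := Finset.prod_eq_zero_iff.1 hc
          exact mul_ne_zero ((B (inv h)).P.disc_ne hs (one_mul 1) (hform h) i)
            ((B (inv h)).P.disc_ne hs (one_mul 1) hG' i) (eq_zero_of_pow_eq_zero hi)
        refine ⟨v / (a * b * c * d ^ m), ?_⟩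
        field_simp
        linear_combination hv
      apply hne
      simp only [Bool.false_eq_true, if_false, decide_eq_decide]
      rw [show (i₀ : ℕ) + 1 = (j₀ : ℕ) from rfl, Part.dsc_eq, Part.dsc_eq]
      obtain ⟨w, hw⟩ := hsq
      constructor <;> rintro ⟨t, ht⟩ <;> refine ⟨w / t, ?_⟩
      · have : t ≠ 0 := fun e => hne1 (by rw [ht, e, mul_zero])
        rw [ht] at hw; field_simp; linear_combination hw
      · have : t ≠ 0 := fun e => hne2 (by rw [ht, e, mul_zero])
        rw [ht] at hw; field_simp; linear_combination hw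
  have hmem : ∀ h : ↥(Iso G), inv h ∈ tuples F n s := by
    intro h
    have hg : Form s ((h : GL (Fin n) F) : Matrix (Fin n) (Fin n) F) G := ⟨hG, hGs, mem_Iso.1 h.2⟩
    have hsum := (tup hn (h : GL (Fin n) F)).2.2
    refine Finset.mem_filter.2 ⟨Fintype.mem_piFinset.2 fun i => ?_, hsum⟩
    have hsd : SD (inv h i) := sd_tupFun (exists_decomp (h : GL (Fin n) F) hn).some hg i
    have hdeg : (inv h i).natDegree ≤ n := by
      refine le_trans ?_ ((Finset.single_le_sum (f := fun i : Fin n => ((i : ℕ) + 1) * ((tup hn (h : GL (Fin n) F)).1 i).natDegree)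
        (fun _ _ => Nat.zero_le _) (Finset.mem_univ i)).trans hsum.le)
      exact Nat.le_mul_of_pos_left _ (Nat.succ_pos _)
    unfold cand
    split_ifs with hi
    · exact Finset.mem_biUnion.2 ⟨_, Finset.mem_range.2 (by omega), mem_sdF hsd h2⟩
    · obtain ⟨B'⟩ := exists_base h2 G hn (h : GL (Fin n) F)
      have hev : ∀ {c : F} (P : Part ((h : GL (Fin n) F) : Matrix (Fin n) (Fin n) F) c), c * c = 1 →
          mult P.d ((i : ℕ) + 1) = rootMultiplicity c (inv h i) → Even (rootMultiplicity c (inv h i)) := by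
        intro c P hc hm
        rw [← hm]
        by_cases h0 : mult P.d ((i : ℕ) + 1) = 0
        · rw [h0]; exact Even.zero
        obtain ⟨k, hk⟩ := Finset.card_pos.1 (Nat.pos_of_ne_zero h0)
        exact JF.even_mult P.d P.hd h2 (P.inv_rest hg hc) (P.C.rest_det hG (P.orth hg hs hc))
          (P.C.rest_transpose hGs) hs ⟨(i : ℕ) + 1, (Finset.mem_filter.1 hk).2 ▸ UCent.mem_rng _ k⟩
          (by show s * (-1 : F) ^ ((i : ℕ) + 1 - 1) ≠ 1; rwa [Nat.add_sub_cancel])
      obtain ⟨d, hd⟩ := hsd.pal_of_even h2 (hev B'.P (one_mul 1) (B'.hP i)) (hev B'.Q hm1 (B'.hQ i))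
      exact Finset.mem_biUnion.2 ⟨d, Finset.mem_range.2 (by have := hd.2.1; omega), mem_palF.2 hd⟩
  -- the injection
  let Fib : ↥(tuples F n s) → Type := fun T =>
    {σ : ↥(slots s T.1) → Bool // ∃ h, inv h = T.1 ∧ ∀ a, sgn h a.1 = σ a}
  let Θ : ConjClasses ↥(Iso G) → Σ T, Fib T := fun c =>
    ⟨⟨_, hmem (Quotient.out c)⟩, ⟨fun a => sgn (Quotient.out c) a.1, Quotient.out c, rfl, fun _ => rfl⟩⟩
  have hΘ : Function.Injective Θ := by
    intro c c' e
    rw [← Quotient.out_eq c, ← Quotient.out_eq c']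
    refine Quotient.sound (conj_of _ _ (congrArg (fun z : Σ T, Fib T => (z.1 : Fin n → F[X])) e).symm fun a ha => ?_)
    have key : ∀ z z' : Σ T, Fib T, z = z' → ∀ (ha : a ∈ slots s z.1.1) (ha' : a ∈ slots s z'.1.1),
        z.2.1 ⟨a, ha⟩ = z'.2.1 ⟨a, ha'⟩ := by rintro z _ rfl _ _; rfl
    have ha' : a ∈ slots s (inv (Quotient.out c')) := by
      have e1 : inv (Quotient.out c) = inv (Quotient.out c') := congrArg (fun z : Σ T, Fib T => (z.1 : Fin n → F[X])) e
      rw [← e1]; exact ha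
    exact key _ _ e ha ha'
  have hle := Nat.card_le_card_of_injective Θ hΘ
  rw [Nat.card_sigma] at hle
  have hfib : ∀ T, Nat.card (Fib T) ≤ 2 ^ (slots s T.1).card := fun T =>
    (Finite.card_subtype_le _).trans (by rw [Nat.card_fun, Nat.card_eq_fintype_card, Fintype.card_bool,
      Nat.card_eq_fintype_card, Fintype.card_coe])
  refine ⟨hle.trans ?_, fun hs1 => ?_⟩
  · rw [Finset.univ_eq_attach, ← Finset.sum_attach (tuples F n s) (fun T => ∏ i, wgt s i (T i))]
    exact Finset.sum_le_sum fun T _ => (hfib T).trans_eq (pow_slots T.1)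
  · refine (Nat.mul_le_mul_left 2 hle).trans ?_
    rw [Finset.mul_sum, Finset.univ_eq_attach,
      ← Finset.sum_attach (tuples F n s) (fun T => (∏ i, wgt s i (T i)) + if ∀ i, free s i (T i) then 1 else 0)]
    refine Finset.sum_le_sum fun T' _ => ?_
    obtain ⟨T, hT⟩ := T'
    simp only
    rw [← pow_slots]
    by_cases hemp : slots s T = ∅
    · rw [if_pos ((slots_eq_empty_iff T).1 hemp), hemp, Finset.card_empty, pow_zero]
      have := hfib ⟨T, hT⟩
      rw [show (slots s (⟨T, hT⟩ : ↥(tuples F n s)).1).card = 0 by rw [hemp, Finset.card_empty], pow_zero] at this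
      omega
    · rw [if_neg (fun h => hemp ((slots_eq_empty_iff T).2 h)), add_zero]
      obtain ⟨a₀, ha₀⟩ := Finset.nonempty_iff_ne_empty.2 hemp
      let fl : Fib ⟨T, hT⟩ × Bool → (↥(slots s T) → Bool) := fun z =>
        Function.update z.1.1 ⟨a₀, ha₀⟩ (xor z.2 (z.1.1 ⟨a₀, ha₀⟩))
      have hfl : Function.Injective fl := by
        rintro ⟨σ, b⟩ ⟨σ', b'⟩ e
        have hoff : ∀ a, a ≠ ⟨a₀, ha₀⟩ → σ.1 a = σ'.1 a := fun a ha => by
          have := congrFun e a
          simpa [fl, Function.update_of_ne ha] using this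
        have h0 : σ.1 ⟨a₀, ha₀⟩ = σ'.1 ⟨a₀, ha₀⟩ := by
          obtain ⟨h, hh, hσ⟩ := σ.2
          obtain ⟨h', hh', hσ'⟩ := σ'.2
          rw [← hσ, ← hσ']
          refine flip_no hs1 h h' (hh'.trans hh.symm) a₀ (by rw [hh]; exact ha₀) fun a ha hne => ?_
          have ha' : a ∈ slots s T := by rw [hh] at ha; exact ha
          have := hoff ⟨a, ha'⟩ (fun e => hne (congrArg Subtype.val e))
          rwa [← hσ, ← hσ'] at this
        have hσeq : σ = σ' := Subtype.ext (funext fun a => by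
          by_cases ha : a = ⟨a₀, ha₀⟩
          · rw [ha]; exact h0
          · exact hoff a ha)
        subst hσeq
        have := congrFun e ⟨a₀, ha₀⟩
        simp only [fl, Function.update_self] at this
        exact Prod.ext rfl (by simpa using this)
      have := Nat.card_le_card_of_injective fl hfl
      rw [Nat.card_prod, Nat.card_fun, Nat.card_eq_fintype_card (α := Bool), Fintype.card_bool,
        Nat.card_eq_fintype_card (α := ↥(slots s T)), Fintype.card_coe] at this
      omega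

end Cfsg.Agent.Lib.IsoClassCount
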