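import Cfsg.Agent.Lib.IsoClassCount.Classes

/-!
The weighted tuple counts against products of geometric series.
-/

set_option autoImplicit false
set_option linter.unusedSectionVars false

namespace Cfsg.Agent.Lib.IsoClassCount

open Polynomial Finset

universe u
variable {F : Type u} [Field F] [Fintype F]

open scoped _root_.Classical in
/-- Peel the first factor off a weighted sum over tuples. -/
theorem peel {α : Type*} {N : ℕ} (A : Fin (N + 1) → Finset α) (f : Fin (N + 1) → α → ℝ)
    (hf : ∀ i P, 0 ≤ f i P) (deg : α → ℕ) (m : ℕ) (K : ℝ) (hK0 : 0 ≤ K)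
    (hK : ∀ D, ∑ P ∈ (A 0).filter (fun P => deg P = D), f 0 P ≤ K) :
    ∑ T ∈ (Fintype.piFinset A).filter (fun T => ∑ i : Fin (N + 1), ((i : ℕ) + 1) * deg (T i) = m), ∏ i, f i (T i) ≤
      K * ∏ i : Fin N, ∑ P ∈ A i.succ, f i.succ P := by
  classical
  rw [Finset.prod_univ_sum, Finset.mul_sum]
  refine le_trans (le_of_eq (Finset.sum_fiberwise_of_maps_to (g := Fin.tail)
    (t := Fintype.piFinset fun i : Fin N => A i.succ) ?_ _).symm) (Finset.sum_le_sum fun S _ => ?_)
  · intro T hT
    exact Fintype.mem_piFinset.2 fun i => Fintype.mem_piFinset.1 (Finset.mem_filter.1 hT).1 i.succ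
  · set R : ℕ := ∑ i : Fin N, ((i : ℕ) + 2) * deg (S i)
    have h1 : ∀ T : Fin (N + 1) → α, Fin.tail T = S →
        ∏ i, f i (T i) = f 0 (T 0) * ∏ i : Fin N, f i.succ (S i) ∧
        ∑ i : Fin (N + 1), ((i : ℕ) + 1) * deg (T i) = deg (T 0) + R := by
      intro T hT
      subst hT
      refine ⟨Fin.prod_univ_succ _, ?_⟩
      rw [Fin.sum_univ_succ]
      simp only [R, Fin.val_zero, zero_add, one_mul, Fin.val_succ]
      rfl
    rw [Finset.sum_congr rfl (fun T hT => (h1 T (Finset.mem_filter.1 hT).2).1), ← Finset.sum_mul]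
    refine mul_le_mul_of_nonneg_right ?_ (Finset.prod_nonneg fun i _ => hf _ _)
    refine le_trans ?_ (hK (m - R))
    rw [← Finset.sum_image (f := f 0) (g := fun T : Fin (N + 1) → α => T 0)]
    · refine Finset.sum_le_sum_of_subset_of_nonneg ?_ fun _ _ _ => hf _ _
      intro P hP
      obtain ⟨T, hT, rfl⟩ := Finset.mem_image.1 hP
      obtain ⟨hT1, hT2⟩ := Finset.mem_filter.1 hT
      obtain ⟨hT3, hT4⟩ := Finset.mem_filter.1 hT1
      rw [(h1 T hT2).2] at hT4
      exact Finset.mem_filter.2 ⟨Fintype.mem_piFinset.1 hT3 0, by omega⟩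
    · intro T hT T' hT' e
      have a := (Finset.mem_filter.1 hT).2
      have b := (Finset.mem_filter.1 hT').2
      rw [← Fin.cons_self_tail T, ← Fin.cons_self_tail T', a, b]
      have e0 : T 0 = T' 0 := e
      rw [e0]

theorem geom_le' {t : ℝ} (h0 : 0 ≤ t) (h1 : t < 1) (M : ℕ) : ∑ d ∈ range M, t ^ d ≤ 1 / (1 - t) := by
  rw [le_div_iff₀ (by linarith)]
  have : (∑ d ∈ range M, t ^ d) * (1 - t) = 1 - t ^ M := by
    induction M with
    | zero => simp
    | succ M ih => rw [Finset.sum_range_succ, add_mul, ih]; ring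
  rw [this]
  linarith [pow_nonneg h0 M]

/-- The series of palindromic polynomials. -/
theorem pal_series {y : ℝ} (hy : 0 ≤ y) (h1 : (Fintype.card F : ℝ) * y ^ 2 < 1) (M : ℕ) :
    ∑ d ∈ range M, ∑ P ∈ palF F d, y ^ P.natDegree ≤ 1 / (1 - (Fintype.card F : ℝ) * y ^ 2) := by
  refine le_trans (le_of_eq (Finset.sum_congr rfl fun d _ => ?_)) (geom_le' (by positivity) h1 M)
  rw [Finset.sum_congr rfl fun P hP => by rw [(mem_palF.1 hP).2.1], Finset.sum_const, card_palF, nsmul_eq_mul,
    ← two_mul, pow_mul, mul_pow, Nat.cast_pow]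

/-- The series of self-reciprocal polynomials. -/
theorem sd_series (h2 : (2 : F) ≠ 0) {y : ℝ} (hy : 0 ≤ y) (h1 : (Fintype.card F : ℝ) * y ^ 2 < 1) (M : ℕ) :
    ∑ D ∈ range M, (((∑ P ∈ sdF F D, wt P : ℕ) : ℝ) * y ^ D) ≤ (1 + y) ^ 4 / (1 - (Fintype.card F : ℝ) * y ^ 2) := by
  set q : ℝ := (Fintype.card F : ℝ) with hq
  set t : ℝ := q * y ^ 2 with ht
  have hq0 : 0 ≤ q := Nat.cast_nonneg _
  have ht0 : 0 ≤ t := by positivity
  have key : ∀ K : ℕ, ∑ D ∈ range (K + K), (((∑ P ∈ sdF F D, wt P : ℕ) : ℝ) * y ^ D) ≤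
      (∑ d ∈ range K, t ^ d) + (6 * y ^ 2) * (∑ d ∈ range (K - 1), t ^ d) + y ^ 4 * (∑ d ∈ range (K - 2), t ^ d) +
        (4 * y) * (∑ d ∈ range K, t ^ d) + (4 * y ^ 3) * (∑ d ∈ range (K - 1), t ^ d) := by
    intro K
    induction K with
    | zero => simp
    | succ K ih =>
      rw [show K + 1 + (K + 1) = K + K + 1 + 1 by omega, Finset.sum_range_succ, Finset.sum_range_succ]
      have he := wt_even h2 K
      have ho := wt_odd h2 K
      rw [← Nat.cast_le (α := ℝ)] at he ho
      have he' := mul_le_mul_of_nonneg_right he (pow_nonneg hy (K + K))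
      have ho' := mul_le_mul_of_nonneg_right ho (pow_nonneg hy (K + K + 1))
      rcases Nat.lt_or_ge K 2 with hK | hK
      · interval_cases K
        · simp at he' ho' ih ⊢; nlinarith
        · simp [Finset.sum_range_succ, ← hq, ht] at he' ho' ih ⊢; nlinarith
      · obtain ⟨k, rfl⟩ : ∃ k, K = k + 2 := ⟨K - 2, by omega⟩
        simp only [show k + 2 ≠ 0 by omega, show ¬ k + 2 < 2 by omega, if_false, Nat.cast_add, Nat.cast_mul,
          Nat.cast_pow, Nat.cast_ofNat, show k + 2 - 1 = k + 1 by omega, show k + 2 - 2 = k by omega, ← hq] at he' ho' ih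
        rw [show k + 2 + 1 - 1 = k + 2 by omega, show k + 2 + 1 - 2 = k + 1 by omega,
          Finset.sum_range_succ _ (k + 2), Finset.sum_range_succ _ (k + 1), Finset.sum_range_succ _ k]
        simp only [Finset.sum_range_succ _ (k + 1), Finset.sum_range_succ _ k] at ih
        rw [ht, mul_pow, mul_pow, mul_pow, ← pow_mul, ← pow_mul, ← pow_mul] at *
        simp only [show ∀ j : ℕ, (k + 2 + (k + 2) + j) = 2 * k + (4 + j) from fun j => by omega,
          show k + 2 + (k + 2) = 2 * k + 4 by omega, pow_add, show 2 * (k + 1) = 2 * k + 2 by omega,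
          show 2 * (k + 2) = 2 * k + 4 by omega] at *
        ring_nf at he' ho' ih ⊢
        nlinarith
  have hM : ∑ D ∈ range M, (((∑ P ∈ sdF F D, wt P : ℕ) : ℝ) * y ^ D) ≤
      ∑ D ∈ range (M + M), (((∑ P ∈ sdF F D, wt P : ℕ) : ℝ) * y ^ D) :=
    Finset.sum_le_sum_of_subset_of_nonneg (Finset.range_mono (Nat.le_add_right _ _)) fun _ _ _ => by positivity
  refine hM.trans ((key M).trans ?_)
  have g := fun N => geom_le' ht0 h1 N
  have e : (1 + y) ^ 4 / (1 - t) = 1 / (1 - t) + 6 * y ^ 2 * (1 / (1 - t)) + y ^ 4 * (1 / (1 - t)) +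
      4 * y * (1 / (1 - t)) + 4 * y ^ 3 * (1 / (1 - t)) := by ring
  rw [e]
  have := g M; have := g (M - 1); have := g (M - 2)
  gcongr

variable {n : ℕ} {s : F}

open scoped _root_.Classical in
/-- The entry sums. -/
theorem entry_le (h2 : (2 : F) ≠ 0) (i : Fin n) {y : ℝ} (hy : 0 ≤ y) (h1 : (Fintype.card F : ℝ) * y ^ 2 < 1) :
    (∑ P ∈ cand (F := F) s i, (wgt s i P : ℝ) * y ^ P.natDegree ≤
      (if s * (-1) ^ (i : ℕ) = 1 then (1 + y) ^ 4 else 1) / (1 - (Fintype.card F : ℝ) * y ^ 2)) ∧
    (∑ P ∈ cand (F := F) s i, (if free s i P then 1 else 0 : ℝ) * y ^ P.natDegree ≤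
      1 / (1 - (Fintype.card F : ℝ) * y ^ 2)) := by
  classical
  have sum_bU : ∀ (t : ℕ → Finset F[X]) (f : F[X] → ℝ), (∀ P, 0 ≤ f P) →
      ∑ P ∈ (Finset.range (n + 1)).biUnion t, f P ≤ ∑ d ∈ Finset.range (n + 1), ∑ P ∈ t d, f P := fun t f hf => by
    induction (Finset.range (n + 1)) using Finset.induction_on with
    | empty => simp
    | @insert a S ha ih =>
      rw [Finset.biUnion_insert, Finset.sum_insert ha]
      refine le_trans ?_ (add_le_add_right ih _)
      rw [← Finset.sum_union_inter]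
      exact le_add_of_nonneg_right (Finset.sum_nonneg fun P _ => hf P)
  have hdeg : ∀ D, ∀ P ∈ sdF F D, P.natDegree = D := by
    intro D P hP
    rw [sdF] at hP
    have e : ∀ (c : F) (d : ℕ) (R : F[X]), Pal d R → ((X - C c) * R).natDegree = d + d + 1 := fun c d R hR => by
      rw [(monic_X_sub_C c).natDegree_mul hR.1, natDegree_X_sub_C, hR.2.1]; omega
    split_ifs at hP with he h0
    · rw [Finset.union_empty] at hP
      obtain ⟨k, rfl⟩ := he
      rw [(mem_palF.1 hP).2.1]; omega
    · obtain ⟨k, rfl⟩ := he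
      rcases Finset.mem_union.1 hP with h | h
      · rw [(mem_palF.1 h).2.1]; omega
      · obtain ⟨R, hR, rfl⟩ := Finset.mem_image.1 h
        rw [(monic_X_sub_C (1 : F)).natDegree_mul ((monic_X_sub_C _).mul (mem_palF.1 hR).1), natDegree_X_sub_C,
          e _ _ _ (mem_palF.1 hR)]
        omega
    · obtain ⟨k, rfl⟩ := Nat.not_even_iff_odd.1 he
      rcases Finset.mem_union.1 hP with h | h <;> obtain ⟨R, hR, rfl⟩ := Finset.mem_image.1 h <;>
        rw [e _ _ _ (mem_palF.1 hR)] <;> omega
  constructor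
  · unfold cand wgt
    by_cases hi : s * (-1) ^ (i : ℕ) = 1
    · simp only [hi, if_true]
      refine (sum_bU _ _ fun P => by positivity).trans (le_trans (le_of_eq ?_) (sd_series h2 hy h1 (n + 1)))
      refine Finset.sum_congr rfl fun D _ => ?_
      rw [Nat.cast_sum, Finset.sum_mul]
      exact Finset.sum_congr rfl fun P hP => by rw [hdeg D P hP]
    · simp only [hi, if_false, Nat.cast_one, one_mul]
      exact (sum_bU _ _ fun P => by positivity).trans (pal_series hy h1 (n + 1))
  · have hpal : ∀ P ∈ cand (F := F) s i, free s i P → P ∈ (Finset.range (n + 1)).biUnion (palF F) := by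
      intro P hP hfree
      unfold cand at hP
      split_ifs at hP with hi
      · obtain ⟨D, hD, hPD⟩ := Finset.mem_biUnion.1 hP
        rw [Finset.mem_range] at hD
        rw [sdF] at hPD
        have hr : ∀ (c : F) (R : F[X]), ((X - C c) * R).IsRoot c := fun c R =>
          root_mul_right_of_isRoot _ (root_X_sub_C.2 rfl)
        split_ifs at hPD with he h0
        · rw [Finset.union_empty] at hPD
          exact Finset.mem_biUnion.2 ⟨D / 2, Finset.mem_range.2 (by omega), hPD⟩
        · rcases Finset.mem_union.1 hPD with h | h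
          · exact Finset.mem_biUnion.2 ⟨D / 2, Finset.mem_range.2 (by omega), h⟩
          · obtain ⟨R, hR, rfl⟩ := Finset.mem_image.1 h
            exact absurd (hr 1 _) (hfree hi).1
        · rcases Finset.mem_union.1 hPD with h | h <;> obtain ⟨R, hR, rfl⟩ := Finset.mem_image.1 h
          · exact absurd (hr 1 _) (hfree hi).1
          · exact absurd (hr (-1) _) (hfree hi).2
      · exact hP
    calc ∑ P ∈ cand (F := F) s i, (if free s i P then 1 else 0 : ℝ) * y ^ P.natDegree
        = ∑ P ∈ (cand (F := F) s i).filter (free s i), y ^ P.natDegree := by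
          rw [Finset.sum_filter]
          refine Finset.sum_congr rfl fun P _ => ?_
          split_ifs <;> simp
      _ ≤ ∑ P ∈ (Finset.range (n + 1)).biUnion (palF F), y ^ P.natDegree :=
          Finset.sum_le_sum_of_subset_of_nonneg
            (fun P hP => hpal P (Finset.mem_filter.1 hP).1 (Finset.mem_filter.1 hP).2) fun _ _ _ => by positivity
      _ ≤ _ := (sum_bU _ _ fun P => by positivity).trans (pal_series hy h1 (n + 1))

open scoped _root_.Classical in
/-- The bound with weight one peeled off. -/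
theorem total_le (h2 : (2 : F) ≠ 0) {N : ℕ} {x : ℝ} (hx : 0 < x) (hqx : (Fintype.card F : ℝ) * x ^ 2 = 1)
    (hx1 : x < 1) (K : ℝ) (hK0 : 0 ≤ K)
    (hK : ∀ D, ∑ P ∈ (cand (F := F) (n := N + 1) s 0).filter (fun P => P.natDegree = D),
      (wgt s (0 : Fin (N + 1)) P : ℝ) * x ^ D ≤ K) :
    ((∑ T ∈ tuples F (N + 1) s, ∏ i, wgt s i (T i) : ℕ) : ℝ) * x ^ (N + 1) ≤
      K * ((∏ i ∈ range N, (if s * (-1) ^ (i + 1) = 1 then (1 + x ^ (i + 2)) ^ 4 else 1)) *
        ∏ i ∈ range N, 1 / (1 - (x ^ 2) ^ (i + 1))) ∧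
    ((∑ T ∈ tuples F (N + 1) s, if ∀ i, free s i (T i) then 1 else 0 : ℕ) : ℝ) * x ^ (N + 1) ≤
      ∏ i ∈ range N, 1 / (1 - (x ^ 2) ^ (i + 1)) := by
  classical
  have hq : ∀ i : ℕ, (Fintype.card F : ℝ) * (x ^ (i + 2)) ^ 2 = (x ^ 2) ^ (i + 1) := fun i => by
    calc (Fintype.card F : ℝ) * (x ^ (i + 2)) ^ 2 = ((Fintype.card F : ℝ) * x ^ 2) * (x ^ 2) ^ (i + 1) := by ring
      _ = _ := by rw [hqx, one_mul]
  have hlt : ∀ i : ℕ, (Fintype.card F : ℝ) * (x ^ (i + 2)) ^ 2 < 1 := fun i => by
    rw [hq]; exact pow_lt_one₀ (by positivity) (pow_lt_one₀ hx.le hx1 two_ne_zero) (Nat.succ_ne_zero i)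
  have hfin : ∀ T ∈ tuples F (N + 1) s, x ^ (N + 1) = ∏ i : Fin (N + 1), (x ^ ((i : ℕ) + 1)) ^ (T i).natDegree := by
    intro T hT
    rw [show (∏ i : Fin (N + 1), (x ^ ((i : ℕ) + 1)) ^ (T i).natDegree) =
        ∏ i : Fin (N + 1), x ^ (((i : ℕ) + 1) * (T i).natDegree) from Finset.prod_congr rfl fun i _ => (pow_mul _ _ _).symm,
      Finset.prod_pow_eq_pow_sum, (Finset.mem_filter.1 hT).2]
  constructor
  · rw [Nat.cast_sum, Finset.sum_mul]
    refine le_trans (le_of_eq (Finset.sum_congr rfl fun T hT => ?_))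
      ((peel (cand (F := F) (n := N + 1) s) (fun i P => (wgt s i P : ℝ) * (x ^ ((i : ℕ) + 1)) ^ P.natDegree)
        (fun i P => by positivity) natDegree (N + 1) K hK0 fun D => ?_).trans ?_)
    · rw [Nat.cast_prod, hfin T hT, ← Finset.prod_mul_distrib]
    · refine le_trans (le_of_eq (Finset.sum_congr rfl fun P hP => ?_)) (hK D)
      rw [(Finset.mem_filter.1 hP).2]
      simp
    · refine mul_le_mul_of_nonneg_left ?_ hK0
      rw [← Finset.prod_mul_distrib, ← Fin.prod_univ_eq_prod_range
        (fun i => (if s * (-1) ^ (i + 1) = 1 then (1 + x ^ (i + 2)) ^ 4 else 1) * (1 / (1 - (x ^ 2) ^ (i + 1)))) N]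
      refine Finset.prod_le_prod (fun i _ => Finset.sum_nonneg fun P _ => by positivity) fun i _ => ?_
      refine ((entry_le h2 i.succ (pow_nonneg hx.le _) (by rw [Fin.val_succ]; exact hlt i)).1).trans_eq ?_
      rw [Fin.val_succ, hq, mul_one_div]
  · rw [Nat.cast_sum, Finset.sum_mul]
    refine le_trans (le_of_eq (Finset.sum_congr rfl fun T hT => ?_))
      ((peel (cand (F := F) (n := N + 1) s)
        (fun i P => (if free s i P then 1 else 0 : ℝ) * (x ^ ((i : ℕ) + 1)) ^ P.natDegree)
        (fun i P => by positivity) natDegree (N + 1) 1 zero_le_one fun D => ?_).trans ?_)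
    · rw [hfin T hT, Finset.prod_mul_distrib]
      congr 1
      by_cases h : ∀ i, free s i (T i)
      · rw [if_pos h, Nat.cast_one]
        exact (Finset.prod_eq_one fun i _ => if_pos (h i)).symm
      · obtain ⟨i, hi⟩ := not_forall.1 h
        rw [if_neg h, Nat.cast_zero]
        exact (Finset.prod_eq_zero (Finset.mem_univ i) (if_neg hi)).symm
    · -- a single degree
      have hpal : ∀ P ∈ (cand (F := F) (n := N + 1) s 0).filter (fun P => P.natDegree = D),
          free s (0 : Fin (N + 1)) P → P ∈ palF F (D / 2) ∧ D = D / 2 + D / 2 := by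
        intro P hP hfree
        obtain ⟨hP1, hP2⟩ := Finset.mem_filter.1 hP
        have hex : ∃ d, Pal d P := by
          unfold cand at hP1
          split_ifs at hP1 with hi
          · obtain ⟨D', -, hPD⟩ := Finset.mem_biUnion.1 hP1
            rw [sdF] at hPD
            have hr : ∀ (c : F) (R : F[X]), ((X - C c) * R).IsRoot c := fun c R =>
              root_mul_right_of_isRoot _ (root_X_sub_C.2 rfl)
            split_ifs at hPD with he h0
            · rw [Finset.union_empty] at hPD
              exact ⟨_, mem_palF.1 hPD⟩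
            · rcases Finset.mem_union.1 hPD with h | h
              · exact ⟨_, mem_palF.1 h⟩
              · obtain ⟨R, hR, rfl⟩ := Finset.mem_image.1 h
                exact absurd (hr 1 _) (hfree hi).1
            · rcases Finset.mem_union.1 hPD with h | h <;> obtain ⟨R, hR, rfl⟩ := Finset.mem_image.1 h
              · exact absurd (hr 1 _) (hfree hi).1
              · exact absurd (hr (-1) _) (hfree hi).2
          · obtain ⟨d, -, hd⟩ := Finset.mem_biUnion.1 hP1
            exact ⟨d, mem_palF.1 hd⟩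
        obtain ⟨d, hd⟩ := hex
        have := hd.2.1
        rw [hP2] at this
        exact ⟨by rw [show D / 2 = d by omega]; exact mem_palF.2 hd, by omega⟩
      calc _ = ∑ P ∈ ((cand (F := F) (n := N + 1) s 0).filter (fun P => P.natDegree = D)).filter (free (F := F) (n := N + 1) s 0), x ^ D := by
            rw [Finset.sum_filter (p := free (F := F) (n := N + 1) s 0)]
            refine Finset.sum_congr rfl fun P hP => ?_
            rw [(Finset.mem_filter.1 hP).2]
            split_ifs <;> simp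
        _ ≤ 1 := by
            rcases Finset.eq_empty_or_nonempty
              (((cand (F := F) (n := N + 1) s 0).filter (fun P => P.natDegree = D)).filter (free (F := F) (n := N + 1) s 0)) with h | ⟨P, hP⟩
            · rw [h, Finset.sum_empty]; exact zero_le_one
            · obtain ⟨-, hD⟩ := hpal P (Finset.mem_filter.1 hP).1 (Finset.mem_filter.1 hP).2
              refine (Finset.sum_le_sum_of_subset_of_nonneg
                (fun P hP => (hpal P (Finset.mem_filter.1 hP).1 (Finset.mem_filter.1 hP).2).1)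
                fun _ _ _ => by positivity).trans ?_
              rw [Finset.sum_const, card_palF, nsmul_eq_mul, Nat.cast_pow, show x ^ D = (x ^ 2) ^ (D / 2) by
                rw [← pow_mul, two_mul, ← hD], ← mul_pow, hqx, one_pow]
    · rw [one_mul, ← Fin.prod_univ_eq_prod_range (fun i => 1 / (1 - (x ^ 2) ^ (i + 1))) N]
      refine Finset.prod_le_prod (fun i _ => Finset.sum_nonneg fun P _ => by positivity) fun i _ => ?_
      refine ((entry_le h2 i.succ (pow_nonneg hx.le _) (by rw [Fin.val_succ]; exact hlt i)).2).trans_eq ?_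
      rw [Fin.val_succ, hq]

end Cfsg.Agent.Lib.IsoClassCount
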