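import Cfsg.Agent.Lib.IsoClassCount.JordanForms
import Cfsg.Agent.Lib.InvolNorm

/-!
Forms invariant under one matrix: congruence under its centraliser, part by part.
-/

set_option autoImplicit false
set_option linter.unusedSectionVars false

namespace Cfsg.Agent.Lib.IsoClassCount

open Matrix Cfsg.Agent.Lib.Jordan

universe u
variable {F : Type u} [Field F] [Fintype F] {ι κ : Type} [Fintype ι] [DecidableEq ι] [Fintype κ] [DecidableEq κ]

/-- A nondegenerate form of symmetry `s` fixed by `g`. -/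
structure Form (s : F) (g G : Matrix ι ι F) : Prop where
  det : G.det ≠ 0
  symm : Gᵀ = s • G
  inv : gᵀ * G * g = G

variable {s : F} {g G : Matrix ι ι F}

theorem Form.det_g (h : Form s g G) : IsUnit g.det := by
  refine isUnit_iff_ne_zero.2 fun h0 => h.det ?_
  rw [← h.inv, det_mul, h0, mul_zero]

theorem Form.move (h : Form s g G) : G * g = (g⁻¹)ᵀ * G := by
  calc G * g = (g * g⁻¹)ᵀ * G * g := by rw [mul_nonsing_inv _ h.det_g, transpose_one, one_mul]
    _ = (g⁻¹)ᵀ * (gᵀ * G * g) := by rw [transpose_mul]; simp only [mul_assoc]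
    _ = _ := by rw [h.inv]

/-- An idempotent killed by a power of `g - ε`, the complement being divisible by it, is self-adjoint. -/
theorem Form.orth (h : Form s g G) (hs : s * s = 1) {ε : F} (hε : ε * ε = 1) {m : ℕ} {E M : Matrix ι ι F}
    (hE : (g - ε • 1) ^ m * E = 0) (hM : 1 - E = (g - ε • 1) ^ m * M) : G * E = Eᵀ * G := by
  set A : Matrix ι ι F := g⁻¹ - ε • 1 with hA
  have hs1 : SemiconjBy G (g - ε • 1) Aᵀ := by
    show G * _ = _ * G
    rw [hA, transpose_sub, transpose_smul, transpose_one, mul_sub, sub_mul, h.move]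
    simp
  have hA2 : A = (-ε • g⁻¹) * (g - ε • 1) := by
    rw [hA, mul_sub, smul_mul_assoc, nonsing_inv_mul _ h.det_g, Matrix.mul_smul, mul_one, smul_smul, mul_neg, hε,
      neg_smul, neg_smul, one_smul, sub_neg_eq_add, sub_eq_neg_add]
  have hc : Commute (-ε • g⁻¹) (g - ε • 1) :=
    ((show Commute g⁻¹ g by
      show _ * _ = _ * _
      rw [nonsing_inv_mul _ h.det_g, mul_nonsing_inv _ h.det_g]).sub_right
      ((Commute.one_right _).smul_right _)).smul_left _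
  have h1 : Eᵀ * G * (1 - E) = 0 := by
    rw [hM, mul_assoc Eᵀ G, ← mul_assoc G, (hs1.pow_right m).eq, ← Matrix.transpose_pow, ← mul_assoc,
      ← mul_assoc, ← transpose_mul, hA2, hc.mul_pow, mul_assoc (_ ^ m) (_ ^ m) E, hE, mul_zero, transpose_zero,
      zero_mul, zero_mul]
  have h2 : (1 - E)ᵀ * G * E = 0 := by
    have := congrArg Matrix.transpose h1
    rw [transpose_mul, transpose_mul, transpose_transpose, h.symm, smul_mul_assoc, Matrix.mul_smul, transpose_zero,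
      ← mul_assoc] at this
    have hs0 : s ≠ 0 := fun h0 => one_ne_zero (α := F) (by rw [← hs, h0, mul_zero])
    exact (smul_eq_zero.1 this).resolve_left hs0
  rw [mul_sub, mul_one, sub_eq_zero] at h1
  rw [transpose_sub, transpose_one, sub_mul, one_mul, sub_mul, sub_eq_zero] at h2
  exact h2.trans h1.symm

/-- Coordinates on the range of an idempotent. -/
structure Coord (κ : Type) [Fintype κ] [DecidableEq κ] (E : Matrix ι ι F) where
  Φ : Matrix ι κ F
  Ψ : Matrix κ ι F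
  left : Ψ * Φ = 1
  right : Φ * Ψ = E

namespace Coord

theorem idem {E : Matrix ι ι F} (C : Coord κ E) : E * E = E := by
  calc E * E = C.Φ * C.Ψ * (C.Φ * C.Ψ) := by rw [C.right]
    _ = C.Φ * (C.Ψ * C.Φ) * C.Ψ := by simp only [Matrix.mul_assoc]
    _ = E := by rw [C.left, Matrix.mul_one, C.right]

variable {E : Matrix ι ι F} (C : Coord κ E)

theorem EΦ : E * C.Φ = C.Φ := by
  calc E * C.Φ = C.Φ * C.Ψ * C.Φ := by rw [C.right]
    _ = C.Φ := by rw [Matrix.mul_assoc, C.left, Matrix.mul_one]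

theorem ΨE : C.Ψ * E = C.Ψ := by
  calc C.Ψ * E = C.Ψ * (C.Φ * C.Ψ) := by rw [C.right]
    _ = C.Ψ := by rw [← Matrix.mul_assoc, C.left, Matrix.one_mul]

/-- The restricted form. -/
def rest (H : Matrix ι ι F) : Matrix κ κ F := C.Φᵀ * H * C.Φ

theorem rest_transpose {H : Matrix ι ι F} (h : Hᵀ = s • H) : (C.rest H)ᵀ = s • C.rest H := by
  rw [rest, transpose_mul, transpose_mul, transpose_transpose, h, Matrix.smul_mul, Matrix.mul_smul, Matrix.mul_assoc]

theorem rest_mul_inv {H : Matrix ι ι F} (hH : H.det ≠ 0) (hHE : H * E = Eᵀ * H) :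
    C.rest H * (C.Ψ * H⁻¹ * C.Ψᵀ) = 1 := by
  calc C.rest H * (C.Ψ * H⁻¹ * C.Ψᵀ) = C.Φᵀ * (H * (C.Φ * C.Ψ)) * H⁻¹ * C.Ψᵀ := by
        simp only [rest, Matrix.mul_assoc]
    _ = C.Φᵀ * Eᵀ * (H * H⁻¹) * C.Ψᵀ := by rw [C.right, hHE]; simp only [Matrix.mul_assoc]
    _ = (C.Ψ * E * C.Φ)ᵀ := by
        rw [mul_nonsing_inv _ (isUnit_iff_ne_zero.2 hH), Matrix.mul_one]
        simp only [transpose_mul, Matrix.mul_assoc]
    _ = 1 := by rw [C.ΨE, C.left, transpose_one]

theorem rest_det {H : Matrix ι ι F} (hH : H.det ≠ 0) (hHE : H * E = Eᵀ * H) : (C.rest H).det ≠ 0 :=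
  ((Matrix.isUnit_iff_isUnit_det _).1 (IsUnit.of_mul_eq_one _ (C.rest_mul_inv hH hHE))).ne_zero

/-- An endomorphism of the range, on the whole space. -/
def lift (A : Matrix κ κ F) : Matrix ι ι F := C.Φ * A * C.Ψ

theorem E_lift (A : Matrix κ κ F) : E * C.lift A = C.lift A := by
  rw [lift, ← Matrix.mul_assoc, ← Matrix.mul_assoc, C.EΦ]

theorem lift_E (A : Matrix κ κ F) : C.lift A * E = C.lift A := by rw [lift, Matrix.mul_assoc, C.ΨE]

theorem det_one_add_lift (A : Matrix κ κ F) : (1 + C.lift (A - 1)).det = A.det := by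
  rw [lift, Matrix.det_one_add_mul_comm, ← Matrix.mul_assoc, C.left, Matrix.one_mul, add_sub_cancel]

theorem congr_lift (A : Matrix κ κ F) (H : Matrix ι ι F) :
    (C.lift A)ᵀ * H * C.lift A = C.Ψᵀ * (Aᵀ * C.rest H * A) * C.Ψ := by
  simp only [lift, rest, transpose_mul, Matrix.mul_assoc]

theorem split (H : Matrix ι ι F) : C.Ψᵀ * C.rest H * C.Ψ = Eᵀ * H * E := by
  calc C.Ψᵀ * C.rest H * C.Ψ = (C.Φ * C.Ψ)ᵀ * H * (C.Φ * C.Ψ) := by simp only [rest, transpose_mul, Matrix.mul_assoc]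
    _ = _ := by rw [C.right]

/-- The quotient of two forms on the range. -/
theorem lift_quot {H H' : Matrix ι ι F} (hH : H.det ≠ 0) (hHE : H * E = Eᵀ * H) (hHE' : H' * E = Eᵀ * H') :
    H * C.lift ((C.rest H)⁻¹ * C.rest H') = H' * E := by
  rw [Matrix.inv_eq_right_inv (C.rest_mul_inv hH hHE), lift, rest]
  calc H * (C.Φ * (C.Ψ * H⁻¹ * C.Ψᵀ * (C.Φᵀ * H' * C.Φ)) * C.Ψ)
      = H * (C.Φ * C.Ψ) * H⁻¹ * (C.Φ * C.Ψ)ᵀ * H' * (C.Φ * C.Ψ) := by
        simp only [transpose_mul, Matrix.mul_assoc]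
    _ = Eᵀ * (H * H⁻¹) * Eᵀ * H' * E := by rw [C.right, hHE]; simp only [Matrix.mul_assoc]
    _ = Eᵀ * H' * E := by rw [mul_nonsing_inv _ (isUnit_iff_ne_zero.2 hH), Matrix.mul_one, ← transpose_mul, C.idem]
    _ = _ := by rw [← hHE', Matrix.mul_assoc, C.idem]

end Coord

/-- The range of an idempotent has coordinates. -/
theorem exists_coord {E : Matrix ι ι F} (hE : E * E = E) : ∃ r : ℕ, Nonempty (Coord (Fin r) E) := by
  classical
  set f := Matrix.toLin' E with hf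
  let b := Module.finBasis F (LinearMap.range f)
  refine ⟨_, ⟨⟨LinearMap.toMatrix' ((LinearMap.range f).subtype.comp (b.equivFun.symm : _ →ₗ[F] _)),
    LinearMap.toMatrix' (b.equivFun.toLinearMap.comp f.rangeRestrict), ?_, ?_⟩⟩⟩
  · rw [← LinearMap.toMatrix'_comp]
    convert LinearMap.toMatrix'_id using 2
    refine LinearMap.ext fun v => ?_
    show b.equivFun (f.rangeRestrict ((b.equivFun.symm v : LinearMap.range f) : ι → F)) = v
    have hfix : ∀ w : LinearMap.range f, f.rangeRestrict (w : ι → F) = w := by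
      rintro ⟨_, z, rfl⟩
      refine Subtype.ext ?_
      show f (f z) = f z
      rw [hf, Matrix.toLin'_apply, Matrix.toLin'_apply, Matrix.mulVec_mulVec, hE]
    rw [hfix, LinearEquiv.apply_symm_apply]
  · rw [← LinearMap.toMatrix'_comp]
    refine Eq.trans (congrArg LinearMap.toMatrix' (LinearMap.ext fun v => ?_)) (LinearMap.toMatrix'_toLin' E)
    show ((b.equivFun.symm (b.equivFun (f.rangeRestrict v)) : LinearMap.range f) : ι → F) = f v
    rw [LinearEquiv.symm_apply_apply]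
    rfl

/-- Away from the eigenvalues `±1` invariant forms are congruent under the centraliser. -/
theorem congr_generic {g G G' : Matrix κ κ F} (hs : s * s = 1) (hG : Form s g G) (hG' : Form s g G')
    (hT : IsUnit (g - g⁻¹)) : ∃ c : Matrix κ κ F, Commute c g ∧ cᵀ * G * c = G' := by
  classical
  set Gi := G⁻¹ with hGi
  have hGu : IsUnit G.det := isUnit_iff_ne_zero.2 hG.det
  let j : Matrix κ κ F → Matrix κ κ F := fun A => Gi * Aᵀ * G
  have hjmul : ∀ A B, j (A * B) = j B * j A := fun A B => by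
    simp only [j, hGi, transpose_mul, mul_assoc, mul_nonsing_inv_cancel_left _ _ hGu]
  have hjadd : ∀ A B, j (A + B) = j A + j B := fun A B => by simp only [j, transpose_add, mul_add, add_mul]
  have hjs : ∀ (c : F) A, j (c • A) = c • j A := fun c A => by
    simp only [j, transpose_smul, Matrix.mul_smul, Matrix.smul_mul]
  have hj1 : j 1 = 1 := by simp only [j, hGi, transpose_one, mul_one, nonsing_inv_mul _ hGu]
  have hGiT : Giᵀ = s • Gi := by
    rw [hGi, transpose_nonsing_inv, hG.symm]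
    refine inv_eq_right_inv ?_
    rw [Matrix.smul_mul, Matrix.mul_smul, smul_smul, hs, one_smul, mul_nonsing_inv _ hGu]
  have hjj : ∀ A, j (j A) = A := fun A => by
    show Gi * (Gi * Aᵀ * G)ᵀ * G = A
    rw [transpose_mul, transpose_mul, transpose_transpose, hG.symm, hGiT]
    simp only [Matrix.mul_smul, Matrix.smul_mul, smul_smul, hs, one_smul, hGi, mul_assoc,
      nonsing_inv_mul_cancel_left _ _ hGu, nonsing_inv_mul _ hGu, mul_one]
  have hgi : g * g⁻¹ = 1 := mul_nonsing_inv _ hG.det_g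
  have hgi' : g⁻¹ * g = 1 := nonsing_inv_mul _ hG.det_g
  have hjg : j g = g⁻¹ := by
    calc Gi * gᵀ * G = Gi * gᵀ * G * (g * g⁻¹) := by rw [hgi, mul_one]
      _ = Gi * (gᵀ * G * g) * g⁻¹ := by simp only [mul_assoc]
      _ = _ := by rw [hG.inv, hGi, nonsing_inv_mul _ hGu, one_mul]
  have hjgi : j g⁻¹ = g := by rw [← hjg, hjj]
  set y := Gi * G' with hy
  have hjy : j y = y := by
    show Gi * (Gi * G')ᵀ * G = Gi * G'
    rw [transpose_mul, hG'.symm, hGiT, Matrix.mul_smul, Matrix.smul_mul, smul_smul, hs, one_smul, hGi, mul_assoc,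
      mul_assoc, nonsing_inv_mul _ hGu, mul_one]
  have hyg : Commute y g := by
    have hinv' : Commute (g⁻¹)ᵀ (1 : Matrix κ κ F) := Commute.one_right _
    show Gi * G' * g = g * (Gi * G')
    rw [mul_assoc, hG'.move, ← mul_assoc g]
    have h1 : Gi * (g⁻¹)ᵀ = g * Gi := by
      calc Gi * (g⁻¹)ᵀ = Gi * (g⁻¹)ᵀ * (G * Gi) := by rw [hGi, mul_nonsing_inv _ hGu, mul_one]
        _ = j g⁻¹ * Gi := by simp only [j, mul_assoc]
        _ = g * Gi := by rw [hjgi]
    rw [← mul_assoc, h1]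
  have hgg : Commute g g⁻¹ := hgi.trans hgi'.symm
  have hygi : Commute y g⁻¹ := by
    show _ * _ = _ * _
    calc y * g⁻¹ = g⁻¹ * (g * y) * g⁻¹ := by rw [← mul_assoc, hgi', one_mul]
      _ = g⁻¹ * y * (g * g⁻¹) := by rw [← hyg.eq]; simp only [mul_assoc]
      _ = _ := by rw [hgi, mul_one]
  set S := Algebra.adjoin F ({g, g⁻¹, y} : Set (Matrix κ κ F)) with hS
  have hgS : g ∈ S := Algebra.subset_adjoin (by simp)
  have hgiS : g⁻¹ ∈ S := Algebra.subset_adjoin (by simp)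
  have hyS : y ∈ S := Algebra.subset_adjoin (by simp)
  letI : CommRing S := Algebra.adjoinCommRingOfComm F (by
    rintro a (rfl | rfl | rfl) b (rfl | rfl | rfl)
    exacts [rfl, hgg.eq, hyg.eq.symm, hgg.eq.symm, rfl, hygi.eq.symm, hyg.eq, hygi.eq, rfl])
  have hjS : ∀ a ∈ S, j a ∈ S := by
    intro a ha
    induction ha using Algebra.adjoin_induction with
    | mem x hx =>
      rcases hx with rfl | rfl | rfl
      · rw [hjg]; exact hgiS
      · rw [hjgi]; exact hgS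
      · rw [hjy]; exact hyS
    | algebraMap r => rw [Algebra.algebraMap_eq_smul_one, hjs, hj1]; exact S.smul_mem S.one_mem _
    | add x z _ _ hx hz => rw [hjadd]; exact S.add_mem hx hz
    | mul x z _ _ hx hz => rw [hjmul]; exact S.mul_mem hz hx
  let σ : S ≃+* S :=
    { toFun := fun a => ⟨j a, hjS a a.2⟩
      invFun := fun a => ⟨j a, hjS a a.2⟩
      left_inv := fun a => Subtype.ext (hjj a)
      right_inv := fun a => Subtype.ext (hjj a)
      map_mul' := fun a b => Subtype.ext (by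
        show j ((a : Matrix κ κ F) * b) = j a * j b
        rw [hjmul]
        exact congrArg Subtype.val (mul_comm (⟨_, hjS b b.2⟩ : S) ⟨_, hjS a a.2⟩))
      map_add' := fun a b => Subtype.ext (hjadd _ _) }
  haveI : Finite (Matrix κ κ F) := Finite.of_fintype _
  haveI : Finite S := Subtype.finite
  have hunit : ∀ a : S, IsUnit (a : Matrix κ κ F) → IsUnit a := fun a ha => by
    obtain ⟨b, hb⟩ := Finite.surjective_of_injective
      (fun x z e => Subtype.ext (ha.mul_left_cancel (congrArg Subtype.val e)) : Function.Injective fun x : S => a * x) 1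
    exact IsUnit.of_mul_eq_one b hb
  have hyu : IsUnit y :=
    ((Matrix.isUnit_iff_isUnit_det _).2 (by rw [hGi]; exact isUnit_nonsing_inv_det _ hGu)).mul
      ((Matrix.isUnit_iff_isUnit_det _).2 (isUnit_iff_ne_zero.2 hG'.det))
  obtain ⟨c, -, hc⟩ := InvolNorm.exists_mul_eq σ (fun a => Subtype.ext (hjj a)) ⟨g, hgS⟩
    (hunit _ (by show IsUnit (g - j g); rw [hjg]; exact hT)) ⟨y, hyS⟩ (Subtype.ext hjy) (hunit _ hyu)
  refine ⟨c, congrArg Subtype.val (mul_comm c ⟨g, hgS⟩), ?_⟩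
  have h := congrArg Subtype.val hc
  change Gi * (c : Matrix κ κ F)ᵀ * G * c = Gi * G' at h
  rw [mul_assoc, mul_assoc] at h
  have h' := congrArg (G * ·) h
  simp only [hGi, mul_nonsing_inv_cancel_left _ _ hGu] at h'
  rw [← h', mul_assoc]

/-- The part of `g` at the eigenvalue `ε`, in Jordan form. -/
structure Part (g : Matrix ι ι F) (ε : F) where
  t : ℕ
  d : Fin t → ℕ
  hd : ∀ k, 1 ≤ d k
  E : Matrix ι ι F
  C : Coord (Idx d) E
  hgΦ : g * C.Φ = ε • (C.Φ * Cfsg.jordanTypeMatrix d F)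
  hgE : Commute g E
  m : ℕ
  M : Matrix ι ι F
  hgM : Commute g M
  hE : (g - ε • 1) ^ m * E = 0
  hM : 1 - E = (g - ε • 1) ^ m * M
  hm : 1 ≤ m

namespace Part

variable {ε : F} (P : Part g ε)

theorem orth (h : Form s g G) (hs : s * s = 1) (hε : ε * ε = 1) : G * P.E = P.Eᵀ * G := h.orth hs hε P.hE P.hM

theorem Ψg : P.C.Ψ * g = ε • (Cfsg.jordanTypeMatrix P.d F * P.C.Ψ) := by
  calc P.C.Ψ * g = P.C.Ψ * P.E * g := by rw [P.C.ΨE]
    _ = P.C.Ψ * (g * (P.C.Φ * P.C.Ψ)) := by rw [P.C.right, Matrix.mul_assoc, P.hgE.eq]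
    _ = P.C.Ψ * ((ε • (P.C.Φ * Cfsg.jordanTypeMatrix P.d F)) * P.C.Ψ) := by
        rw [← Matrix.mul_assoc g, P.hgΦ]
    _ = _ := by
        rw [Matrix.smul_mul, Matrix.mul_smul, ← Matrix.mul_assoc, ← Matrix.mul_assoc, P.C.left, Matrix.one_mul]

theorem inv_rest (h : Form s g G) (hε : ε * ε = 1) : SpC.Inv P.d (P.C.rest G) := by
  have e : P.C.Φ * Cfsg.jordanTypeMatrix P.d F = ε • (g * P.C.Φ) := by rw [P.hgΦ, smul_smul, hε, one_smul]
  show _ * _ * _ = _
  calc (Cfsg.jordanTypeMatrix P.d F)ᵀ * P.C.rest G * Cfsg.jordanTypeMatrix P.d F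
      = (P.C.Φ * Cfsg.jordanTypeMatrix P.d F)ᵀ * G * (P.C.Φ * Cfsg.jordanTypeMatrix P.d F) := by
        simp only [Coord.rest, transpose_mul, Matrix.mul_assoc]
    _ = (g * P.C.Φ)ᵀ * G * (g * P.C.Φ) := by
        rw [e, transpose_smul, Matrix.smul_mul, Matrix.smul_mul, Matrix.mul_smul, smul_smul, hε, one_smul]
    _ = P.C.Φᵀ * (gᵀ * G * g) * P.C.Φ := by simp only [transpose_mul, Matrix.mul_assoc]
    _ = _ := by rw [h.inv]; rfl

theorem lift_comm {A : Matrix (Idx P.d) (Idx P.d) F} (hA : Commute A (Cfsg.jordanTypeMatrix P.d F)) :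
    Commute (P.C.lift A) g := by
  show P.C.lift A * g = g * P.C.lift A
  rw [Coord.lift, Matrix.mul_assoc, P.Ψg, ← Matrix.mul_assoc g, ← Matrix.mul_assoc g, P.hgΦ]
  simp only [Matrix.mul_smul, Matrix.smul_mul]
  rw [Matrix.mul_assoc P.C.Φ A, ← Matrix.mul_assoc A, hA.eq]
  simp only [Matrix.mul_assoc]

/-- The discriminant class of the leading form of block size `i`. -/
noncomputable def disc (G : Matrix ι ι F) (i : UCent.Rng P.d) : F := (SpC.bm P.d (P.C.rest G) i).det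

end Part

variable {G' : Matrix ι ι F}

theorem coords (P : Part g 1) (Q : Part g (-1)) (hPQ : P.E * Q.E = 0) (hQP : Q.E * P.E = 0) :
    ∃ (r : ℕ) (C : Coord (Fin r) (1 - P.E - Q.E)), g * C.Φ = C.Φ * (C.Ψ * g * C.Φ) ∧
      C.Ψ * g = (C.Ψ * g * C.Φ) * C.Ψ ∧
      (IsUnit g.det → IsUnit (C.Ψ * g * C.Φ - C.Ψ * g⁻¹ * C.Φ) ∧ (C.Ψ * g * C.Φ) * (C.Ψ * g⁻¹ * C.Φ) = 1) := by
  set E := 1 - P.E - Q.E with hEdef
  have hprod : E = (1 - P.E) * (1 - Q.E) := by rw [mul_sub, mul_one, sub_mul, one_mul, hPQ, sub_zero]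
  have hidem : E * E = E := by
    simp only [hEdef, mul_sub, sub_mul, mul_one, one_mul, P.C.idem, Q.C.idem, hPQ, hQP]
    abel
  obtain ⟨r, ⟨C⟩⟩ := exists_coord hidem
  have hgE : Commute g E := ((Commute.one_right g).sub_right P.hgE).sub_right Q.hgE
  refine ⟨r, C, ?_, ?_, fun hg => ?_⟩
  · calc g * C.Φ = g * (E * C.Φ) := by rw [C.EΦ]
      _ = E * (g * C.Φ) := by rw [← Matrix.mul_assoc, hgE.eq, Matrix.mul_assoc]
      _ = C.Φ * C.Ψ * (g * C.Φ) := by rw [C.right]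
      _ = _ := by simp only [Matrix.mul_assoc]
  · calc C.Ψ * g = C.Ψ * E * g := by rw [C.ΨE]
      _ = C.Ψ * g * E := by rw [Matrix.mul_assoc, ← hgE.eq, Matrix.mul_assoc]
      _ = C.Ψ * g * (C.Φ * C.Ψ) := by rw [C.right]
      _ = _ := by simp only [Matrix.mul_assoc]
  have hmul : ∀ A B : Matrix ι ι F, Commute A E → (C.Ψ * A * C.Φ) * (C.Ψ * B * C.Φ) = C.Ψ * (A * B) * C.Φ := by
    intro A B hA
    calc (C.Ψ * A * C.Φ) * (C.Ψ * B * C.Φ) = C.Ψ * (A * (C.Φ * C.Ψ)) * B * C.Φ := by simp only [Matrix.mul_assoc]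
      _ = C.Ψ * E * A * B * C.Φ := by rw [C.right, hA.eq]; simp only [Matrix.mul_assoc]
      _ = _ := by rw [C.ΨE]; simp only [Matrix.mul_assoc]
  refine ⟨?_, by rw [hmul _ _ hgE, mul_nonsing_inv _ hg, Matrix.mul_one, C.left]⟩
  have hgiE : Commute g⁻¹ E := by
    show _ * _ = _ * _
    calc g⁻¹ * E = g⁻¹ * (E * g) * g⁻¹ := by rw [mul_assoc, mul_assoc E, mul_nonsing_inv _ hg, mul_one]
      _ = g⁻¹ * g * E * g⁻¹ := by rw [← hgE.eq]; simp only [mul_assoc]
      _ = _ := by rw [nonsing_inv_mul _ hg, one_mul]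
  set Mp := (g - (1 : F) • 1) ^ (P.m - 1) * P.M with hMp
  set Mq := (g - (-1 : F) • 1) ^ (Q.m - 1) * Q.M with hMq
  have hP' : 1 - P.E = (g - 1) * Mp := by
    rw [P.hM, hMp, ← mul_assoc, one_smul, ← pow_succ', Nat.sub_add_cancel P.hm]
  have hQ' : 1 - Q.E = (g + 1) * Mq := by
    rw [Q.hM, hMq, ← mul_assoc, neg_one_smul, sub_neg_eq_add, ← pow_succ', Nat.sub_add_cancel Q.hm]
  have hMpc : Commute Mp (g + 1) := by
    refine (Commute.add_right ?_ (Commute.one_right _))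
    exact ((((Commute.refl g).sub_left ((Commute.one_left g).smul_left (1 : F))).pow_left _).mul_left P.hgM.symm)
  have key : (g - g⁻¹) * (g * (Mp * Mq)) = E := by
    rw [← mul_assoc, sub_mul, nonsing_inv_mul _ hg, show g * g - 1 = (g - 1) * (g + 1) by
      rw [mul_add, sub_mul, mul_one, one_mul]; abel,
      hprod, hP', hQ', mul_assoc, ← mul_assoc (g + 1), ← hMpc.eq]
    simp only [mul_assoc]
  rw [← Matrix.sub_mul, ← Matrix.mul_sub]
  refine IsUnit.of_mul_eq_one (C.Ψ * (g * (Mp * Mq)) * C.Φ) ?_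
  rw [hmul _ _ (hgE.sub_left hgiE), key, C.ΨE, C.left]

theorem cross {κ' : Type} [Fintype κ'] [DecidableEq κ'] {E E' : Matrix ι ι F} (C : Coord κ E) (C' : Coord κ' E')
    (hE : E * E' = 0) (hG : G * E' = E'ᵀ * G) (hT : E' * E = 0) (A : Matrix κ κ F) (B : Matrix κ' κ' F) :
    (C.lift A)ᵀ * G * C'.lift B = 0 ∧ C.lift A * C'.lift B = 0 := by
  constructor
  · calc (C.lift A)ᵀ * G * C'.lift B = (C.lift A)ᵀ * (G * E') * C'.lift B := by
          rw [Matrix.mul_assoc (C.lift A)ᵀ (G * E'), Matrix.mul_assoc G, C'.E_lift, Matrix.mul_assoc]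
      _ = (E' * (E * C.lift A))ᵀ * G * C'.lift B := by
          rw [hG, C.E_lift, transpose_mul]; simp only [Matrix.mul_assoc]
      _ = _ := by rw [← Matrix.mul_assoc E', hT, Matrix.zero_mul, transpose_zero, Matrix.zero_mul, Matrix.zero_mul]
  · calc C.lift A * C'.lift B = C.lift A * E * (E' * C'.lift B) := by rw [C.lift_E, C'.E_lift]
      _ = C.lift A * (E * E') * C'.lift B := by simp only [mul_assoc]
      _ = 0 := by rw [hE, mul_zero, zero_mul]

/-- Forms with the same discriminants are congruent under the centraliser; discriminant relation. -/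
theorem glue (p : ℕ) [Fact p.Prime] [CharP F p] (hp : p ≠ 2) (hs : s * s = 1) (hG : Form s g G)
    (hG' : Form s g G') (P : Part g 1) (Q : Part g (-1)) (hPQ : P.E * Q.E = 0) (hQP : Q.E * P.E = 0) :
    ((∀ i : UCent.Rng P.d, s * (-1 : F) ^ ((i : ℕ) - 1) = 1 → IsSquare (P.disc G i * P.disc G' i)) →
      (∀ i : UCent.Rng Q.d, s * (-1 : F) ^ ((i : ℕ) - 1) = 1 → IsSquare (Q.disc G i * Q.disc G' i)) →
      ∃ c : Matrix ι ι F, Commute c g ∧ cᵀ * G * c = G') ∧
    IsSquare (G.det * G'.det * ((∏ i : UCent.Rng P.d, (P.disc G i * P.disc G' i) ^ (i : ℕ)) *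
      ∏ i : UCent.Rng Q.d, (Q.disc G i * Q.disc G' i) ^ (i : ℕ))) := by
  classical
  set E := 1 - P.E - Q.E with hEdef
  have hc0 : ∃ (r : ℕ) (C : Coord (Fin r) E), g * C.Φ = C.Φ * (C.Ψ * g * C.Φ) ∧
      C.Ψ * g = (C.Ψ * g * C.Φ) * C.Ψ ∧
      (IsUnit g.det → IsUnit (C.Ψ * g * C.Φ - C.Ψ * g⁻¹ * C.Φ) ∧ (C.Ψ * g * C.Φ) * (C.Ψ * g⁻¹ * C.Φ) = 1) :=
    coords P Q hPQ hQP
  obtain ⟨r, C, hCg, hgC, hCu⟩ := hc0
  obtain ⟨hT, hginv⟩ := hCu hG.det_g
  have h1 : (1 : F) * 1 = 1 := one_mul 1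
  have h2 : (-1 : F) * -1 = 1 := by ring
  have hE1 : P.E + Q.E + E = 1 := by rw [hEdef]; abel
  have orth : ∀ {H : Matrix ι ι F}, Form s g H →
      H * P.E = P.Eᵀ * H ∧ H * Q.E = Q.Eᵀ * H ∧ H * E = Eᵀ * H := by
    intro H hH
    refine ⟨P.orth hH hs h1, Q.orth hH hs h2, ?_⟩
    rw [hEdef, mul_sub, mul_sub, P.orth hH hs h1, Q.orth hH hs h2, transpose_sub, transpose_sub, transpose_one,
      sub_mul, sub_mul, one_mul, mul_one]
  obtain ⟨oP, oQ, oE⟩ := orth hG
  obtain ⟨oP', oQ', oE'⟩ := orth hG'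
  have hPE : P.E * E = 0 ∧ E * P.E = 0 ∧ Q.E * E = 0 ∧ E * Q.E = 0 := by
    refine ⟨?_, ?_, ?_, ?_⟩ <;>
      simp only [hEdef, mul_sub, sub_mul, mul_one, one_mul, P.C.idem, Q.C.idem, hPQ, hQP] <;> abel
  have hgi : (C.Ψ * g * C.Φ)⁻¹ = C.Ψ * g⁻¹ * C.Φ := inv_eq_right_inv hginv
  have hform : ∀ {H : Matrix ι ι F}, Form s g H → Form s (C.Ψ * g * C.Φ) (C.rest H) := by
    intro H hH
    refine ⟨C.rest_det hH.det (orth hH).2.2, C.rest_transpose hH.symm, ?_⟩
    calc (C.Ψ * g * C.Φ)ᵀ * C.rest H * (C.Ψ * g * C.Φ)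
        = (C.Φ * (C.Ψ * g * C.Φ))ᵀ * H * (C.Φ * (C.Ψ * g * C.Φ)) := by
          simp only [Coord.rest, transpose_mul, Matrix.mul_assoc]
      _ = C.Φᵀ * (gᵀ * H * g) * C.Φ := by rw [← hCg]; simp only [transpose_mul, Matrix.mul_assoc]
      _ = _ := by rw [hH.inv]; rfl
  obtain ⟨A0, hA0, hA0'⟩ := congr_generic hs (hform hG) (hform hG') (by rw [hgi]; exact hT)
  constructor
  · intro hsP hsQ
    obtain ⟨A, hA, -, hA'⟩ := JF.congr_of_disc P.d P.hd p hp hs (P.C.rest_transpose hG.symm)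
      (P.C.rest_transpose hG'.symm) (P.inv_rest hG h1) (P.inv_rest hG' h1) (P.C.rest_det hG.det oP)
      (P.C.rest_det hG'.det oP') hsP
    obtain ⟨B, hB, -, hB'⟩ := JF.congr_of_disc Q.d Q.hd p hp hs (Q.C.rest_transpose hG.symm)
      (Q.C.rest_transpose hG'.symm) (Q.inv_rest hG h2) (Q.inv_rest hG' h2) (Q.C.rest_det hG.det oQ)
      (Q.C.rest_det hG'.det oQ') hsQ
    refine ⟨P.C.lift A + Q.C.lift B + C.lift A0, ((P.lift_comm hA).add_left (Q.lift_comm hB)).add_left ?_, ?_⟩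
    · show C.lift A0 * g = g * C.lift A0
      rw [Coord.lift, Matrix.mul_assoc, hgC, ← Matrix.mul_assoc g, ← Matrix.mul_assoc g, hCg]
      simp only [Matrix.mul_assoc]
      rw [← Matrix.mul_assoc A0, ← Matrix.mul_assoc _ A0]
      congr 1
      simp only [← Matrix.mul_assoc]
      rw [← hA0.eq]
      simp only [Matrix.mul_assoc]
    · simp only [transpose_add, Matrix.add_mul, Matrix.mul_add]
      rw [(cross P.C Q.C hPQ oQ hQP A B).1, (cross P.C C hPE.1 oE hPE.2.1 A A0).1,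
        (cross Q.C P.C hQP oP hPQ B A).1, (cross Q.C C hPE.2.2.1 oE hPE.2.2.2 B A0).1,
        (cross C P.C hPE.2.1 oP hPE.1 A0 A).1, (cross C Q.C hPE.2.2.2 oQ hPE.2.2.1 A0 B).1,
        P.C.congr_lift, Q.C.congr_lift, C.congr_lift, hA', hB', hA0', P.C.split, Q.C.split, C.split]
      rw [← oP', ← oQ', ← oE', mul_assoc G', mul_assoc G', mul_assoc G', P.C.idem, Q.C.idem, C.idem, hEdef]
      simp only [mul_sub, mul_one, add_zero, zero_add]
      abel
  · obtain ⟨a, ha⟩ := JF.disc_rel P.d P.hd (P.inv_rest hG h1) (P.inv_rest hG' h1) (P.C.rest_det hG.det oP)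
    obtain ⟨b, hb⟩ := JF.disc_rel Q.d Q.hd (Q.inv_rest hG h2) (Q.inv_rest hG' h2) (Q.C.rest_det hG.det oQ)
    set XP := (P.C.rest G)⁻¹ * P.C.rest G'
    set XQ := (Q.C.rest G)⁻¹ * Q.C.rest G'
    set X0 := (C.rest G)⁻¹ * C.rest G'
    have hM : G * (P.C.lift XP + Q.C.lift XQ + C.lift X0) = G' := by
      rw [mul_add, mul_add, P.C.lift_quot hG.det oP oP', Q.C.lift_quot hG.det oQ oQ', C.lift_quot hG.det oE oE',
        ← mul_add, ← mul_add, hEdef, show P.E + Q.E + (1 - P.E - Q.E) = 1 by abel, mul_one]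
    have hfac : P.C.lift XP + Q.C.lift XQ + C.lift X0 =
        (1 + P.C.lift (XP - 1)) * (1 + Q.C.lift (XQ - 1)) * (1 + C.lift (X0 - 1)) := by
      have e : ∀ {κ : Type} [Fintype κ] [DecidableEq κ] {E : Matrix ι ι F} (C : Coord κ E) (X : Matrix κ κ F),
          C.lift (X - 1) = C.lift X - E := fun C X => by
        rw [Coord.lift, Coord.lift, Matrix.mul_sub, Matrix.sub_mul, Matrix.mul_one, C.right]
      simp only [add_mul, mul_add, one_mul, mul_one]
      rw [(cross P.C Q.C hPQ oQ hQP _ _).2, (cross P.C C hPE.1 oE hPE.2.1 _ _).2,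
        (cross Q.C C hPE.2.2.1 oE hPE.2.2.2 _ _).2, zero_mul, e, e, e]
      conv_rhs => arg 1; arg 1; arg 1; rw [← hE1]
      abel
    have hd : G'.det = G.det * (XP.det * XQ.det * X0.det) := by
      conv_lhs => rw [← hM, hfac, det_mul, det_mul, det_mul, P.C.det_one_add_lift, Q.C.det_one_add_lift,
        C.det_one_add_lift]
    have q : ∀ {κ : Type} [Fintype κ] [DecidableEq κ] (X Y : Matrix κ κ F), (X⁻¹ * Y).det = (X.det)⁻¹ * Y.det :=
      fun X Y => by rw [det_mul, det_nonsing_inv, Ring.inverse_eq_inv']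
    have dP := P.C.rest_det hG.det oP
    have dQ := Q.C.rest_det hG.det oQ
    have d0 := C.rest_det hG.det oE
    refine ⟨G.det * A0.det * (P.C.rest G).det⁻¹ * (Q.C.rest G).det⁻¹ * a * b, ?_⟩
    rw [hd, q, q, q, ← hA0', det_mul, det_mul, det_transpose]
    unfold Part.disc
    field_simp
    linear_combination (G.det ^ 2 * A0.det ^ 2 *
      ((Q.C.rest G).det * (Q.C.rest G').det *
        ∏ i : UCent.Rng Q.d, ((SpC.bm Q.d (Q.C.rest G) i).det * (SpC.bm Q.d (Q.C.rest G') i).det) ^ (i : ℕ))) * ha +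
      (G.det ^ 2 * A0.det ^ 2 * (a * a)) * hb

end Cfsg.Agent.Lib.IsoClassCount
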