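import Cfsg.Agent.Lib.IsoClassCount.OddIdem

/-!
Isometries in odd dimension all of whose invariant odd-dimensional orthogonal summands have the
discriminant of the whole space: at most one block of each odd size at `±1`, and no freedom of sign.
-/

set_option autoImplicit false
set_option linter.unusedSectionVars false

namespace Cfsg.Agent.Lib.IsoClassCount

open Polynomial Matrix Cfsg.Agent.Lib.Jordan Cfsg.Agent.Lib.GLn.ClassInvariant

universe u
variable {F : Type u} [Field F] [Fintype F] {ι : Type} [Fintype ι] [DecidableEq ι]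

/-- Every invariant odd-dimensional orthogonal summand has the discriminant of the whole space. -/
def Good (g G : Matrix ι ι F) : Prop :=
  ∀ (E : Matrix ι ι F) (r : ℕ) (C : Coord (Fin r) E), Commute E g → G * E = Eᵀ * G → Odd r →
    IsSquare ((C.rest G).det * G.det)

/-- `Good` passes along congruences intertwining the two matrices. -/
theorem Good.transfer {g g' G : Matrix ι ι F} (h : Good g' G) {c : Matrix ι ι F} (hc : IsUnit c)
    (hcg : c * g = g' * c) : Good g (cᵀ * G * c) := by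
  intro E r C hE hs hr
  have hu : IsUnit c.det := (Matrix.isUnit_iff_isUnit_det _).1 hc
  have hci : c * c⁻¹ = 1 := mul_nonsing_inv _ hu
  have hic : c⁻¹ * c = 1 := nonsing_inv_mul _ hu
  let C' : Coord (Fin r) (c * E * c⁻¹) :=
    { Φ := c * C.Φ
      Ψ := C.Ψ * c⁻¹
      left := by rw [Matrix.mul_assoc, ← Matrix.mul_assoc c⁻¹, hic, Matrix.one_mul, C.left]
      right := by
        calc c * C.Φ * (C.Ψ * c⁻¹) = c * (C.Φ * C.Ψ) * c⁻¹ := by simp only [Matrix.mul_assoc]
          _ = _ := by rw [C.right] }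
  have hrest : C'.rest G = C.rest (cᵀ * G * c) := by
    simp only [Coord.rest, C', transpose_mul, Matrix.mul_assoc]
  have hgc : c⁻¹ * g' = g * c⁻¹ := by
    calc c⁻¹ * g' = c⁻¹ * (g' * c) * c⁻¹ := by
          rw [mul_assoc c⁻¹ (g' * c), mul_assoc g', hci, mul_one]
      _ = _ := by rw [← hcg, ← mul_assoc c⁻¹, hic, one_mul]
  have h' := h _ r C' (by
      show c * E * c⁻¹ * g' = g' * (c * E * c⁻¹)
      rw [mul_assoc (c * E), hgc, ← mul_assoc (c * E), mul_assoc c, hE.eq, ← mul_assoc c, hcg]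
      simp only [mul_assoc])
    (by
      calc G * (c * E * c⁻¹) = (c * c⁻¹)ᵀ * G * (c * E * c⁻¹) := by rw [hci, transpose_one, one_mul]
        _ = (c⁻¹)ᵀ * (cᵀ * G * c * E) * c⁻¹ := by simp only [transpose_mul, mul_assoc]
        _ = (c⁻¹)ᵀ * Eᵀ * cᵀ * G * (c * c⁻¹) := by rw [hs]; simp only [mul_assoc]
        _ = _ := by rw [hci, mul_one]; simp only [transpose_mul, mul_assoc]) hr
  rw [hrest] at h'
  obtain ⟨v, hv⟩ := h'
  exact ⟨v * c.det, by rw [det_mul, det_mul, det_transpose]; linear_combination c.det * c.det * hv⟩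

variable {g G : Matrix ι ι F}

theorem rest_lift {κ : Type} [Fintype κ] [DecidableEq κ] {E : Matrix ι ι F} (C : Coord κ E) (A : Matrix κ κ F) :
    C.rest (G * C.lift A) = C.rest G * A := by
  simp only [Coord.rest, Coord.lift, Matrix.mul_assoc, C.left, Matrix.mul_one]

theorem rest_lift_other {κ κ' : Type} [Fintype κ] [DecidableEq κ] [Fintype κ'] [DecidableEq κ'] {E E' : Matrix ι ι F}
    (C : Coord κ E) (C' : Coord κ' E') (h : E' * E = 0) (B : Matrix κ' κ' F) : C.rest (G * C'.lift B) = 0 := by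
  have h0 : C'.Ψ * C.Φ = 0 := by
    calc C'.Ψ * C.Φ = C'.Ψ * E' * (E * C.Φ) := by rw [C'.ΨE, C.EΦ]
      _ = C'.Ψ * (E' * E) * C.Φ := by simp only [Matrix.mul_assoc]
      _ = 0 := by rw [h, Matrix.mul_zero, Matrix.zero_mul]
  simp only [Coord.rest, Coord.lift, Matrix.mul_assoc, h0, Matrix.mul_zero]

theorem rest_add {κ : Type} [Fintype κ] [DecidableEq κ] {E : Matrix ι ι F} (C : Coord κ E) (A B : Matrix ι ι F) :
    C.rest (A + B) = C.rest A + C.rest B := by
  simp only [Coord.rest, Matrix.mul_add, Matrix.add_mul]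

theorem rest_smul {κ : Type} [Fintype κ] [DecidableEq κ] {E : Matrix ι ι F} (C : Coord κ E) (a : F) (A : Matrix ι ι F) :
    C.rest (a • A) = a • C.rest A := by
  simp only [Coord.rest, Matrix.mul_smul, Matrix.smul_mul]

theorem lift_idem {κ : Type} [Fintype κ] [DecidableEq κ] {E : Matrix ι ι F} (C : Coord κ E) (A B : Matrix κ κ F) :
    C.lift A * C.lift B = C.lift (A * B) := by
  rw [Coord.lift, Coord.lift, Coord.lift]
  calc C.Φ * A * C.Ψ * (C.Φ * B * C.Ψ) = C.Φ * A * (C.Ψ * C.Φ) * B * C.Ψ := by simp only [Matrix.mul_assoc]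
    _ = _ := by rw [C.left, Matrix.mul_one]; simp only [Matrix.mul_assoc]

theorem lift_selfadj {κ : Type} [Fintype κ] [DecidableEq κ] {E : Matrix ι ι F} (C : Coord κ E) (hGd : G.det ≠ 0)
    (hGE : G * E = Eᵀ * G) {A : Matrix κ κ F} (hA : C.rest G * A = Aᵀ * C.rest G) :
    G * C.lift A = (C.lift A)ᵀ * G := by
  calc G * C.lift A = G * (E * C.lift A) * E := by rw [C.E_lift, Matrix.mul_assoc, C.lift_E]
    _ = Eᵀ * G * C.Φ * A * C.Ψ := by
        rw [← Matrix.mul_assoc G, hGE, Matrix.mul_assoc (Eᵀ * G), C.lift_E, Coord.lift]; simp only [Matrix.mul_assoc]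
    _ = (C.Φ * C.Ψ)ᵀ * G * C.Φ * A * C.Ψ := by rw [C.right]
    _ = C.Ψᵀ * (C.rest G * A) * C.Ψ := by simp only [Coord.rest, transpose_mul, Matrix.mul_assoc]
    _ = C.Ψᵀ * Aᵀ * C.Φᵀ * G * (C.Φ * C.Ψ) := by rw [hA]; simp only [Coord.rest, Matrix.mul_assoc]
    _ = (C.lift A)ᵀ * (G * E) := by rw [C.right]; simp only [Coord.lift, transpose_mul, Matrix.mul_assoc]
    _ = (E * C.lift A)ᵀ * G := by rw [hGE, transpose_mul]; simp only [Matrix.mul_assoc]
    _ = _ := by rw [C.E_lift]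

variable {ν : F}

/-- Rescaling by a nonsquare on two orthogonal invariant summands, the first of odd dimension. -/
theorem scale {ε δ : F} (hε : ε * ε = 1) (hδ : δ * δ = 1) (h2 : (2 : F) ≠ 0) (hν : ¬ IsSquare ν)
    (hG : Form 1 g G) (P : Part g ε) (Q : Part g δ) (hPQ : P.E * Q.E = 0) (hQP : Q.E * P.E = 0)
    (e1 e2 : ∀ i : UCent.Rng P.d, Matrix (Fin (mult P.d i)) (Fin (mult P.d i)) F)
    (eQ : ∀ i : UCent.Rng Q.d, Matrix (Fin (mult Q.d i)) (Fin (mult Q.d i)) F)
    (hes : ∀ i, SpC.bm P.d (P.C.rest G) i * e1 i = (e1 i)ᵀ * SpC.bm P.d (P.C.rest G) i ∧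
      SpC.bm P.d (P.C.rest G) i * e2 i = (e2 i)ᵀ * SpC.bm P.d (P.C.rest G) i)
    (hei : ∀ i, e1 i * e1 i = e1 i ∧ e2 i * e2 i = e2 i ∧ e1 i * e2 i = 0 ∧ e2 i * e1 i = 0)
    (hQs : ∀ i, SpC.bm Q.d (Q.C.rest G) i * eQ i = (eQ i)ᵀ * SpC.bm Q.d (Q.C.rest G) i)
    (hQi : ∀ i, eQ i * eQ i = eQ i)
    (hodd : ∏ i, (1 - (2 : F) • e1 i).det ^ (i : ℕ) = -1) :
    ∃ Y : Matrix ι ι F, Form 1 g Y ∧
      (∀ i, P.disc Y i = P.disc G i * (1 + (ν - 1) • (e1 i + e2 i)).det) ∧
      (∀ i, Q.disc Y i = Q.disc G i * (1 + (ν - 1) • eQ i).det) ∧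
      (Good g G → Good g Y → IsSquare (G.det * Y.det) → False) := by
  have hν0 : ν ≠ 0 := fun e => hν (by rw [e]; exact IsSquare.zero)
  have hGs : Gᵀ = G := by rw [hG.symm, one_smul]
  have oP := P.orth hG (one_mul 1) hε
  have oQ := Q.orth hG (one_mul 1) hδ
  have hXd := P.C.rest_det hG.det oP
  have hQd := Q.C.rest_det hG.det oQ
  have hXs : (P.C.rest G)ᵀ = P.C.rest G := by
    have := P.C.rest_transpose hG.symm; rwa [one_smul] at this
  have hQsym : (Q.C.rest G)ᵀ = Q.C.rest G := by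
    have := Q.C.rest_transpose hG.symm; rwa [one_smul] at this
  obtain ⟨A1, A2, ⟨hA1c, hA1s, hA1i, hA1L⟩, ⟨hA2c, hA2s, hA2i, hA2L⟩, hA12, hA21⟩ :=
    Idem.exists_pair P.hd (P.inv_rest hG hε) hXd h2 hXs e1 e2 hes hei
  obtain ⟨B, -, ⟨hBc, hBs, hBi, hBL⟩, -, -, -⟩ :=
    Idem.exists_pair Q.hd (Q.inv_rest hG hδ) hQd h2 hQsym eQ (fun _ => 0) (fun i => ⟨hQs i, by simp⟩)
      (fun i => ⟨hQi i, by simp, by simp, by simp⟩)
  set E1 := P.C.lift A1 with hE1
  set E := P.C.lift A1 + P.C.lift A2 + Q.C.lift B with hE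
  have z1 : ∀ A B', P.C.lift A * Q.C.lift B' = 0 := fun A B' => (cross P.C Q.C hPQ oQ hQP A B').2
  have z2 : ∀ A B', Q.C.lift B' * P.C.lift A = 0 := fun A B' => (cross Q.C P.C hQP oP hPQ B' A).2
  have l0 : P.C.lift (0 : Matrix (Idx P.d) (Idx P.d) F) = 0 := by rw [Coord.lift, Matrix.mul_zero, Matrix.zero_mul]
  have hEE : E * E = E := by
    rw [hE]
    simp only [add_mul, mul_add, z1, z2, lift_idem, hA1i, hA2i, hA12, hA21, hBi, l0]
    abel
  have hEE1 : E * E1 = E1 := by
    rw [hE, hE1]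
    simp only [add_mul, z2, lift_idem, hA1i, hA21, l0]
    abel
  have hGE : G * E = Eᵀ * G := by
    rw [hE, mul_add, mul_add, lift_selfadj P.C hG.det oP hA1s, lift_selfadj P.C hG.det oP hA2s,
      lift_selfadj Q.C hG.det oQ hBs, transpose_add, transpose_add, add_mul, add_mul]
  have hgE : Commute E g := ((P.lift_comm hA1c).add_left (P.lift_comm hA2c)).add_left (Q.lift_comm hBc)
  set S := 1 + (ν - 1) • E with hS
  have hSu : S * (1 + (ν⁻¹ - 1) • E) = 1 := by
    rw [hS, mul_add, mul_one, add_mul, one_mul, Matrix.smul_mul, Matrix.mul_smul, hEE, smul_smul, add_assoc,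
      ← add_smul, ← add_smul, show ν - 1 + ((ν⁻¹ - 1) + (ν - 1) * (ν⁻¹ - 1)) = 0 by field_simp; ring, zero_smul,
      add_zero]
  have hSd : S.det ≠ 0 := fun h0 => one_ne_zero (α := F) (by
    have := congrArg Matrix.det hSu
    rwa [det_mul, h0, zero_mul, det_one, eq_comm] at this)
  have hSg : Commute S g := (Commute.one_left g).add_left (hgE.smul_left _)
  have hGS : G * S = Sᵀ * G := by
    clear_value E
    rw [hS, mul_add, mul_one, Matrix.mul_smul, hGE, transpose_add, transpose_one, transpose_smul, add_mul, one_mul,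
      Matrix.smul_mul]
  have hY : Form 1 g (G * S) := by
    refine ⟨by rw [det_mul]; exact mul_ne_zero hG.det hSd, by rw [one_smul, transpose_mul, hGs, hGS], ?_⟩
    rw [← mul_assoc, mul_assoc (gᵀ * G), hSg.eq, ← mul_assoc, hG.inv]
  refine ⟨G * S, hY, fun i => ?_, fun i => ?_, ?_⟩
  · have e : P.C.rest (G * S) = P.C.rest G * (1 + (ν - 1) • (A1 + A2)) := by
      rw [hS, hE, mul_add, mul_one, Matrix.mul_smul, mul_add, mul_add, rest_add, rest_smul, rest_add, rest_add,
        rest_lift, rest_lift, rest_lift_other P.C Q.C hQP, add_zero, mul_add, mul_one, Matrix.mul_smul, mul_add]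
    rw [Part.disc, e, Idem.bm_mul P.hd (P.inv_rest hG hε) hXd, det_mul,
      Idem.L_add P.hd (P.inv_rest hG hε) hXd, Idem.L_one P.hd (P.inv_rest hG hε) hXd,
      Idem.L_smul P.hd (P.inv_rest hG hε) hXd, Idem.L_add P.hd (P.inv_rest hG hε) hXd, hA1L, hA2L]
    rfl
  · have e : Q.C.rest (G * S) = Q.C.rest G * (1 + (ν - 1) • B) := by
      rw [hS, hE, mul_add, mul_one, Matrix.mul_smul, mul_add, mul_add, rest_add, rest_smul, rest_add, rest_add,
        rest_lift, rest_lift_other Q.C P.C hPQ, rest_lift_other Q.C P.C hPQ, zero_add, zero_add, mul_add, mul_one,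
        Matrix.mul_smul]
    rw [Part.disc, e, Idem.bm_mul Q.hd (Q.inv_rest hG hδ) hQd, det_mul,
      Idem.L_add Q.hd (Q.inv_rest hG hδ) hQd, Idem.L_one Q.hd (Q.inv_rest hG hδ) hQd,
      Idem.L_smul Q.hd (Q.inv_rest hG hδ) hQd, hBL]
    rfl
  · intro hgood hgood' hsq
    obtain ⟨r, ⟨C1⟩⟩ := exists_coord (show E1 * E1 = E1 by rw [hE1, lift_idem, hA1i])
    have hr : Odd r := by
      have h1 : (1 + C1.lift ((-1 : Matrix (Fin r) (Fin r) F) - 1)).det = (-1) ^ r := by
        rw [C1.det_one_add_lift, det_neg, det_one, mul_one, Fintype.card_fin]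
      have h3 : C1.lift ((-1 : Matrix (Fin r) (Fin r) F) - 1) = P.C.lift ((1 - (2 : F) • A1) - 1) := by
        rw [show (-1 : Matrix (Fin r) (Fin r) F) - 1 = -((2 : F) • 1) by rw [two_smul]; abel, sub_sub_cancel_left,
          Coord.lift, Coord.lift]
        simp only [Matrix.mul_neg, Matrix.neg_mul, Matrix.mul_smul, Matrix.smul_mul, Matrix.mul_one, C1.right]
        rfl
      rw [h3, P.C.det_one_add_lift, Idem.det_eq P.hd (P.inv_rest hG hε) hXd
        ((Commute.one_left _).sub_left (hA1c.smul_left _))] at h1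
      simp only [Idem.L_sub P.hd (P.inv_rest hG hε) hXd, Idem.L_one P.hd (P.inv_rest hG hε) hXd,
        Idem.L_smul P.hd (P.inv_rest hG hε) hXd, hA1L] at h1
      rw [hodd] at h1
      rcases Nat.even_or_odd r with hev | ho
      · rw [hev.neg_one_pow] at h1
        exact absurd (show (2 : F) = 0 by linear_combination -h1) h2
      · exact ho
    have hE1g : Commute E1 g := P.lift_comm hA1c
    have hE1s : G * E1 = E1ᵀ * G := lift_selfadj P.C hG.det oP hA1s
    have hYE1 : G * S * E1 = ν • (G * E1) := by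
      rw [mul_assoc, hS, add_mul, one_mul, Matrix.smul_mul, hEE1]
      nth_rewrite 1 [show E1 = (1 : F) • E1 from (one_smul F E1).symm]
      rw [← add_smul, add_sub_cancel, Matrix.mul_smul]
    have hrest : C1.rest (G * S) = ν • C1.rest G := by
      calc C1.rest (G * S) = C1.Φᵀ * (G * S * E1) * C1.Φ := by
            rw [Coord.rest, Matrix.mul_assoc _ (G * S * E1), Matrix.mul_assoc (G * S), C1.EΦ, Matrix.mul_assoc]
        _ = C1.Φᵀ * (ν • (G * E1)) * C1.Φ := by rw [hYE1]
        _ = _ := by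
            rw [Coord.rest, Matrix.mul_smul, Matrix.smul_mul, Matrix.mul_assoc _ (G * E1), Matrix.mul_assoc G, C1.EΦ,
              Matrix.mul_assoc]
    have hE1Y : G * S * E1 = E1ᵀ * (G * S) := by
      calc G * S * E1 = ν • (G * E1) := hYE1
        _ = (ν • (G * E1))ᵀ := by rw [transpose_smul, transpose_mul, hGs, ← hE1s]
        _ = (G * S * E1)ᵀ := by rw [hYE1]
        _ = _ := by rw [transpose_mul, transpose_mul G, hGs, hGS]
    obtain ⟨a, ha⟩ := hgood E1 r C1 hE1g hE1s hr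
    obtain ⟨b, hb⟩ := hgood' E1 r C1 hE1g hE1Y hr
    obtain ⟨v, hv⟩ := hsq
    rw [hrest, det_smul, Fintype.card_fin] at hb
    obtain ⟨m, rfl⟩ := hr
    have hd1 : (C1.rest G).det ≠ 0 := C1.rest_det hG.det hE1s
    have hb0 : (ν ^ m * (C1.rest G).det * G.det * (G * S).det) ≠ 0 :=
      mul_ne_zero (mul_ne_zero (mul_ne_zero (pow_ne_zero _ hν0) hd1) hG.det) hY.det
    refine hν ⟨a * b * v / (ν ^ m * (C1.rest G).det * G.det * (G * S).det), ?_⟩
    rw [show ν ^ (2 * m + 1) = ν ^ m * ν ^ m * ν by ring] at hb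
    rw [div_mul_div_comm, eq_div_iff (mul_ne_zero hb0 hb0)]
    linear_combination (ν ^ m * ν ^ m * ν * (C1.rest G).det * (G * S).det * (G.det * (G * S).det)) * ha +
      (a * a * (G.det * (G * S).det)) * hb + (a * a * b * b) * hv

variable {n : ℕ}

theorem s1_iff {k : ℕ} (h2 : (2 : F) ≠ 0) (hk : 1 ≤ k) : (1 : F) * (-1) ^ (k - 1) = 1 ↔ Odd k := by
  obtain ⟨j, rfl⟩ : ∃ j, k = j + 1 := ⟨k - 1, by omega⟩
  rw [Nat.add_sub_cancel, one_mul]
  rcases Nat.even_or_odd j with he | ho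
  · simp [he.neg_one_pow, he.add_one]
  · simp only [ho.neg_one_pow, Nat.odd_add_one, ho, not_true_eq_false, iff_false]
    exact fun h => h2 (by linear_combination -h)

/-- At most one block of an odd size. -/
theorem mult_le_one (p : ℕ) [Fact p.Prime] [CharP F p] (hp : p ≠ 2) (h2 : (2 : F) ≠ 0)
    {ε δ : F} (hε : ε * ε = 1) (hδ : δ * δ = 1) (hG : Form 1 g G) (P : Part g ε) (Q : Part g δ)
    (hPQ : P.E * Q.E = 0) (hQP : Q.E * P.E = 0)
    (glue' : ∀ Y, Form 1 g Y → (∀ i, IsSquare (P.disc Y i * P.disc G i)) → (∀ i, IsSquare (Q.disc Y i * Q.disc G i)) →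
      ∃ c : Matrix ι ι F, Commute c g ∧ cᵀ * Y * c = G)
    (hgood : Good g G) (a : UCent.Rng P.d) (ha : Odd (a : ℕ)) : mult P.d (a : ℕ) ≤ 1 := by
  classical
  by_contra hm
  obtain ⟨ν, hν⟩ := FiniteField.exists_nonsquare (F := F) (fun h => h2 (by
    have := ringChar.Nat.cast_ringChar (R := F)
    rw [h] at this; exact_mod_cast this))
  have hν0 : ν ≠ 0 := fun e => hν (by rw [e]; exact IsSquare.zero)
  have hXs : (P.C.rest G)ᵀ = (1 : F) • P.C.rest G := P.C.rest_transpose hG.symm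
  have hbs : (SpC.bm P.d (P.C.rest G) a)ᵀ = SpC.bm P.d (P.C.rest G) a := by
    have := JF.bm_sym P.d P.hd (P.inv_rest hG hε) hXs (one_mul 1) a
    rwa [(s1_iff h2 ha.pos).2 ha, one_smul] at this
  have hb0 : (SpC.bm P.d (P.C.rest G) a).det ≠ 0 :=
    SpC.bm_det P.d P.hd (P.inv_rest hG hε) (P.C.rest_det hG.det (P.orth hG (one_mul 1) hε)) a
  let i0 : Fin (mult P.d (a : ℕ)) := ⟨0, by omega⟩
  let i1 : Fin (mult P.d (a : ℕ)) := ⟨1, by omega⟩
  have h01 : i0 ≠ i1 := by simp [i0, i1, Fin.ext_iff]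
  let w : Fin (mult P.d (a : ℕ)) → F := Function.update (fun _ => 1) i0 (SpC.bm P.d (P.C.rest G) a).det
  obtain ⟨Pm, hPm⟩ := AutPSL.congr_symm h2 hbs (Matrix.diagonal_transpose w) hb0
    (by rw [det_diagonal, Finset.prod_update_of_mem (Finset.mem_univ i0)]; simpa using hb0)
    (by rw [det_diagonal, Finset.prod_update_of_mem (Finset.mem_univ i0)]; simp)
  set b := SpC.bm P.d (P.C.rest G) a with hb
  set M : Matrix (Fin (mult P.d (a : ℕ))) (Fin (mult P.d (a : ℕ))) F := ((Pm : GL (Fin (mult P.d (a : ℕ))) F) : Matrix (Fin (mult P.d (a : ℕ))) (Fin (mult P.d (a : ℕ))) F) with hM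
  set Mi : Matrix (Fin (mult P.d (a : ℕ))) (Fin (mult P.d (a : ℕ))) F :=
    ((Pm⁻¹ : GL (Fin (mult P.d (a : ℕ))) F) : Matrix (Fin (mult P.d (a : ℕ))) (Fin (mult P.d (a : ℕ))) F) with hMi
  have hMM : M * Mi = 1 := Units.mul_inv Pm
  have hMiM : Mi * M = 1 := Units.inv_mul Pm
  let Δ : Fin (mult P.d (a : ℕ)) → Matrix (Fin (mult P.d (a : ℕ))) (Fin (mult P.d (a : ℕ))) F := fun j =>
    M * Matrix.diagonal (Pi.single j 1) * Mi
  have hΔm : ∀ j k, Δ j * Δ k = if j = k then Δ j else 0 := by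
    intro j k
    calc Δ j * Δ k = M * Matrix.diagonal (Pi.single j 1) * (Mi * M) * Matrix.diagonal (Pi.single k 1) * Mi := by
          simp only [Δ, mul_assoc]
      _ = M * Matrix.diagonal (fun x => (Pi.single j (1 : F) : Fin (mult P.d (a : ℕ)) → F) x *
            (Pi.single k (1 : F) : Fin (mult P.d (a : ℕ)) → F) x) * Mi := by
          rw [hMiM, mul_one, mul_assoc M, Matrix.diagonal_mul_diagonal]
      _ = _ := by
          by_cases h : j = k
          · subst h
            rw [if_pos rfl]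
            congr 3
            funext x
            simp [Pi.single_apply]
          · rw [if_neg h, show (fun x => (Pi.single j (1 : F) : Fin (mult P.d (a : ℕ)) → F) x *
                (Pi.single k (1 : F) : Fin (mult P.d (a : ℕ)) → F) x) = fun _ => 0 from funext fun x => by
              by_cases hx : x = j
              · subst hx; rw [Pi.single_eq_of_ne h, mul_zero]
              · rw [Pi.single_eq_of_ne hx, zero_mul], Matrix.diagonal_zero, mul_zero, zero_mul]
  have hΔs : ∀ j, b * Δ j = (Δ j)ᵀ * b := by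
    intro j
    have e : b = Miᵀ * Matrix.diagonal w * Mi := by
      rw [← hPm]
      calc b = (M * Mi)ᵀ * b * (M * Mi) := by rw [hMM, transpose_one, one_mul, mul_one]
        _ = _ := by simp only [transpose_mul, mul_assoc]
    calc b * Δ j = Miᵀ * Matrix.diagonal w * (Mi * M) * Matrix.diagonal (Pi.single j 1) * Mi := by
          rw [e]; simp only [Δ, mul_assoc]
      _ = Miᵀ * (Matrix.diagonal (Pi.single j 1) * Matrix.diagonal w) * Mi := by
          rw [hMiM, mul_one, mul_assoc Miᵀ, Matrix.diagonal_mul_diagonal, Matrix.diagonal_mul_diagonal]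
          simp only [mul_comm]
      _ = Miᵀ * Matrix.diagonal (Pi.single j 1) * (M * 1)ᵀ * (Miᵀ * Matrix.diagonal w * Mi) := by
          rw [mul_one]
          simp only [mul_assoc]
          rw [← mul_assoc Mᵀ Miᵀ, ← transpose_mul, hMiM, transpose_one, one_mul]
      _ = _ := by rw [← e, mul_one]; simp only [Δ, transpose_mul, Matrix.diagonal_transpose, mul_assoc]
  have hdetΔ : ∀ (c : F) (v : Fin (mult P.d (a : ℕ)) → F),
      (1 + c • (M * Matrix.diagonal v * Mi)).det = ∏ x, (1 + c * v x) := by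
    intro c v
    have e : (1 : Matrix (Fin (mult P.d (a : ℕ))) (Fin (mult P.d (a : ℕ))) F) + c • (M * Matrix.diagonal v * Mi) =
        M * Matrix.diagonal (fun x => 1 + c * v x) * Mi := by
      rw [← Matrix.diagonal_add, mul_add, add_mul, Matrix.diagonal_one, mul_one, hMM]
      congr 1
      rw [← Matrix.smul_mul, ← Matrix.mul_smul, ← Matrix.diagonal_smul]
      rfl
    rw [e, det_mul, det_mul, mul_right_comm, ← det_mul, hMM, det_one, one_mul, det_diagonal]
  let e1 : ∀ i : UCent.Rng P.d, Matrix (Fin (mult P.d i)) (Fin (mult P.d i)) F := Function.update 0 a (Δ i0)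
  let e2 : ∀ i : UCent.Rng P.d, Matrix (Fin (mult P.d i)) (Fin (mult P.d i)) F := Function.update 0 a (Δ i1)
  obtain ⟨Y, hY, hYP, hYQ, hbad⟩ := scale (ν := ν) hε hδ h2 hν hG P Q hPQ hQP e1 e2 (fun _ => 0)
    (fun i => by
      by_cases hi : i = a
      · subst hi; simp only [e1, e2, Function.update_self]; exact ⟨hΔs i0, hΔs i1⟩
      · simp [e1, e2, Function.update_of_ne hi])
    (fun i => by
      by_cases hi : i = a
      · subst hi; simp [e1, e2, hΔm, h01, h01.symm]
      · simp [e1, e2, Function.update_of_ne hi])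
    (fun i => by simp) (fun i => by simp)
    (by
      rw [Finset.prod_eq_single a]
      · simp only [e1, Function.update_self, sub_eq_add_neg, ← neg_smul]
        rw [hdetΔ, Finset.prod_eq_single i0]
        · rw [Pi.single_eq_same, show (1 : F) + -2 * 1 = -1 by ring, ha.neg_one_pow]
        · intro x _ hx; rw [Pi.single_eq_of_ne hx, mul_zero, add_zero]
        · simp
      · intro i _ hi; simp [e1, Function.update_of_ne hi]
      · simp)
  obtain ⟨c, hcg, hc⟩ := glue' Y hY (fun i => by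
    rw [hYP i]
    by_cases hi : i = a
    · subst hi
      simp only [e1, e2, Function.update_self, Δ, ← add_mul, ← mul_add, Matrix.diagonal_add]
      rw [hdetΔ, Finset.prod_eq_mul i0 i1 h01]
      · rw [Pi.single_eq_same, Pi.single_eq_same, Pi.single_eq_of_ne h01, Pi.single_eq_of_ne h01.symm]
        exact ⟨ν * P.disc G i, by ring⟩
      · rintro x - ⟨hx0, hx1⟩; rw [Pi.single_eq_of_ne hx0, Pi.single_eq_of_ne hx1]; ring
      · simp
      · simp
    · simp [e1, e2, Function.update_of_ne hi]) (fun i => by rw [hYQ i]; simp)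
  have hcu : IsUnit c := (Matrix.isUnit_iff_isUnit_det _).2 (isUnit_iff_ne_zero.2 fun h0 => hG.det (by
    rw [← hc, det_mul, h0, mul_zero]))
  refine hbad hgood ?_ ⟨Y.det * c.det, by rw [← hc, det_mul, det_mul, det_transpose]; ring⟩
  obtain ⟨ci, hci⟩ := hcu
  have hY' : Y = ((ci⁻¹ : (Matrix ι ι F)ˣ) : Matrix ι ι F)ᵀ * G * ((ci⁻¹ : (Matrix ι ι F)ˣ) : Matrix ι ι F) := by
    rw [← hc, ← hci]
    calc Y = ((ci : Matrix ι ι F) * ((ci⁻¹ : (Matrix ι ι F)ˣ) : Matrix ι ι F))ᵀ * Y *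
          ((ci : Matrix ι ι F) * ((ci⁻¹ : (Matrix ι ι F)ˣ) : Matrix ι ι F)) := by
          rw [Units.mul_inv, transpose_one, one_mul, mul_one]
      _ = _ := by simp only [transpose_mul, mul_assoc]
  rw [hY']
  exact hgood.transfer (Units.isUnit _) (by
    rw [← hci] at hcg
    exact (Commute.units_inv_left hcg).eq)

open scoped _root_.Classical in
/-- Two forms of equal discriminant that are both good agree at a slot occurring once. -/
theorem disc_agree (h2 : (2 : F) ≠ 0)
    {ε δ : F} (hε : ε * ε = 1) (hδ : δ * δ = 1) {G' : Matrix ι ι F} (hG : Form 1 g G) (hG' : Form 1 g G')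
    (P : Part g ε) (Q : Part g δ) (hPQ : P.E * Q.E = 0) (hQP : Q.E * P.E = 0)
    (glue' : ∀ Y, Form 1 g Y → (∀ i : UCent.Rng P.d, Odd (i : ℕ) → IsSquare (P.disc Y i * P.disc G' i)) →
      (∀ i : UCent.Rng Q.d, Odd (i : ℕ) → IsSquare (Q.disc Y i * Q.disc G' i)) →
      ∃ c : Matrix ι ι F, Commute c g ∧ cᵀ * Y * c = G')
    (hgood : Good g G) (hgood' : Good g G') (hdet : IsSquare (G.det * G'.det))
    (hmP : ∀ i : UCent.Rng P.d, Odd (i : ℕ) → mult P.d (i : ℕ) ≤ 1)
    (hmQ : ∀ i : UCent.Rng Q.d, Odd (i : ℕ) → mult Q.d (i : ℕ) ≤ 1)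
    (a : UCent.Rng P.d) (ha : Odd (a : ℕ)) : IsSquare (P.disc G a * P.disc G' a) := by
  by_contra hbad
  obtain ⟨ν, hν⟩ := FiniteField.exists_nonsquare (F := F) (fun h => h2 (by
    have := ringChar.Nat.cast_ringChar (R := F)
    rw [h] at this; exact_mod_cast this))
  have hν0 : ν ≠ 0 := fun e => hν (by rw [e]; exact IsSquare.zero)
  have hm1 : ∀ {k : ℕ} {α : F} {R : Part g α} (hα : α * α = 1) (i : UCent.Rng R.d),
      mult R.d (i : ℕ) = k → k ≤ 1 → ¬ IsSquare (R.disc G i * R.disc G' i) → k = 1 := by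
    intro k α R hα i hk hk1 hns
    rcases Nat.eq_zero_or_pos k with h0 | h0
    · exact absurd (by rw [R.disc_empty _ _ (hk.trans h0), R.disc_empty _ _ (hk.trans h0), one_mul]; exact IsSquare.one) hns
    · omega
  have hma : mult P.d (a : ℕ) = 1 := hm1 hε a rfl (hmP a ha) hbad
  let flag : ∀ {α : F} (R : Part g α), UCent.Rng R.d → Prop := fun R i =>
    Odd (i : ℕ) ∧ ¬ IsSquare (R.disc G i * R.disc G' i)
  let e1 : ∀ i : UCent.Rng P.d, Matrix (Fin (mult P.d i)) (Fin (mult P.d i)) F := fun i => if i = a then 1 else 0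
  let e2 : ∀ i : UCent.Rng P.d, Matrix (Fin (mult P.d i)) (Fin (mult P.d i)) F := fun i =>
    if i ≠ a ∧ flag P i then 1 else 0
  let eQ : ∀ i : UCent.Rng Q.d, Matrix (Fin (mult Q.d i)) (Fin (mult Q.d i)) F := fun i => if flag Q i then 1 else 0
  obtain ⟨Y, hY, hYP, hYQ, hcon⟩ := scale (ν := ν) hε hδ h2 hν hG P Q hPQ hQP e1 e2 eQ
    (fun i => by constructor <;> simp only [e1, e2] <;> split_ifs <;> simp)
    (fun i => by
      simp only [e1, e2]
      by_cases hi : i = a
      · simp [hi]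
      · by_cases hf : flag P i <;> simp [hi, hf])
    (fun i => by simp only [eQ]; split_ifs <;> simp) (fun i => by simp only [eQ]; split_ifs <;> simp)
    (by
      rw [Finset.prod_eq_single a]
      · simp only [e1, if_true]
        rw [show (1 : Matrix (Fin (mult P.d (a : ℕ))) (Fin (mult P.d (a : ℕ))) F) - (2 : F) • 1 = -1 by
          rw [two_smul]; abel, det_neg, det_one, mul_one, Fintype.card_fin, hma, pow_one, ha.neg_one_pow]
      · intro i _ hi; simp [e1, hi]
      · simp)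
  have key : ∀ {α : F} (R : Part g α) (hα : α * α = 1) (i : UCent.Rng R.d), Odd (i : ℕ) →
      mult R.d (i : ℕ) ≤ 1 → ∀ M : Matrix (Fin (mult R.d i)) (Fin (mult R.d i)) F,
      M = (if flag R i then 1 else 0) → R.disc Y i = R.disc G i * (1 + (ν - 1) • M).det →
      IsSquare (R.disc Y i * R.disc G' i) := by
    intro α R hα i hi hk M hM hR
    rw [hR, hM]
    by_cases hf : flag R i
    · rw [if_pos hf]
      have h1 := hm1 hα i rfl hk hf.2
      rw [show (1 : Matrix (Fin (mult R.d (i : ℕ))) (Fin (mult R.d (i : ℕ))) F) + (ν - 1) • 1 = ν • 1 by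
        rw [sub_smul, one_smul, add_sub_cancel], det_smul, det_one, mul_one, Fintype.card_fin, h1, pow_one,
        show R.disc G i * ν * R.disc G' i = ν * (R.disc G i * R.disc G' i) by ring]
      refine isSquare_mul_of_iff hν0 (mul_ne_zero (R.disc_ne (one_mul 1) hα hG i) (R.disc_ne (one_mul 1) hα hG' i))
        ⟨fun h => absurd h hν, fun h => absurd h hf.2⟩
    · rw [if_neg hf, smul_zero, add_zero, det_one, mul_one]
      exact not_not.1 fun h => hf ⟨hi, h⟩
  obtain ⟨c, hcg, hc⟩ := glue' Y hY (fun i hi => key P hε i hi (hmP i hi) (e1 i + e2 i) (by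
      simp only [e1, e2]
      by_cases hia : i = a
      · subst hia; rw [if_pos rfl, if_neg (fun h => h.1 rfl), add_zero, if_pos ⟨hi, hbad⟩]
      · simp [hia]) (hYP i))
    (fun i hi => key Q hδ i hi (hmQ i hi) (eQ i) rfl (hYQ i))
  obtain ⟨ci, hci⟩ : IsUnit c := (Matrix.isUnit_iff_isUnit_det _).2 (isUnit_iff_ne_zero.2 fun h0 => hG'.det (by
    rw [← hc, det_mul, h0, mul_zero]))
  have hY' : Y = ((ci⁻¹ : (Matrix ι ι F)ˣ) : Matrix ι ι F)ᵀ * G' * ((ci⁻¹ : (Matrix ι ι F)ˣ) : Matrix ι ι F) := by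
    rw [← hc, ← hci]
    calc Y = ((ci : Matrix ι ι F) * ((ci⁻¹ : (Matrix ι ι F)ˣ) : Matrix ι ι F))ᵀ * Y *
          ((ci : Matrix ι ι F) * ((ci⁻¹ : (Matrix ι ι F)ˣ) : Matrix ι ι F)) := by
          rw [Units.mul_inv, transpose_one, one_mul, mul_one]
      _ = _ := by simp only [transpose_mul, mul_assoc]
  refine hcon hgood (by
    rw [hY']
    exact hgood'.transfer (Units.isUnit _) (by
      rw [← hci] at hcg
      exact (Commute.units_inv_left hcg).eq)) ?_
  obtain ⟨v, hv⟩ := hdet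
  have hd0 : c.det ≠ 0 := fun h0 => hG'.det (by rw [← hc, det_mul, h0, mul_zero])
  refine ⟨v / c.det, ?_⟩
  rw [← hc, det_mul, det_mul, det_transpose] at hv
  field_simp
  linear_combination hv

end Cfsg.Agent.Lib.IsoClassCount
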