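import Mathlib

/-!
Class numbers of a subgroup of index at most two, and of a direct factor by a central involution.
-/

set_option autoImplicit false

namespace Cfsg.Agent.Lib.IsoClassCount.IndexTwo

variable {G : Type*} [Group G] [Finite G]

/-- A class number is the number of commuting pairs over the order. -/
theorem commPairs (H : Subgroup G) :
    Nat.card {p : G × G // (p.1 ∈ H ∧ p.2 ∈ H) ∧ Commute p.1 p.2} = Nat.card (ConjClasses ↥H) * Nat.card ↥H := by
  rw [← card_comm_eq_card_conjClasses_mul_card ↥H]
  exact Nat.card_congr
    { toFun := fun p => ⟨(⟨p.1.1, p.2.1.1⟩, ⟨p.1.2, p.2.1.2⟩), Subtype.ext p.2.2⟩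
      invFun := fun p => ⟨(p.1.1.1, p.1.2.1), ⟨p.1.1.2, p.1.2.2⟩, congrArg Subtype.val p.2⟩
      left_inv := fun _ => rfl
      right_inv := fun _ => rfl }

/-- For a subgroup of index two, twice its class number is the class number of the group plus three times
the number of classes with centraliser inside. -/
theorem two_mul_classes (H : Subgroup G) (hH : H.index = 2) (P : ConjClasses G → Prop)
    (hP : ∀ g : G, P (ConjClasses.mk g) ↔ ∀ z : G, Commute z g → z ∈ H) :
    2 * Nat.card (ConjClasses ↥H) = Nat.card (ConjClasses G) + 3 * Nat.card {c // P c} := by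
  classical
  haveI : Fintype G := Fintype.ofFinite _
  haveI : Fintype (ConjClasses G) := Fintype.ofFinite _
  have hmem : ∀ a b : G, (a * b ∈ H) ↔ (a ∈ H ↔ b ∈ H) := fun a b => Subgroup.mul_mem_iff_of_index_two hH
  have hcard : Nat.card G = 2 * Nat.card ↥H := by rw [← H.index_mul_card, hH]
  let A : Finset (G × G) := Finset.univ.filter fun p => Commute p.1 p.2
  let pp : Bool → Bool → ℕ := fun u v => (A.filter fun p => decide (p.1 ∈ H) = u ∧ decide (p.2 ∈ H) = v).card
  -- the four kinds of pairs
  have h_tt : pp true true = Nat.card (ConjClasses ↥H) * Nat.card ↥H := by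
    rw [← commPairs H, Nat.card_eq_fintype_card, Fintype.card_subtype]
    simp only [pp, A, Finset.filter_filter, decide_eq_true_eq]
    congr 1; ext p; simp [and_comm]
  have h_swap : pp true false = pp false true := by
    refine Finset.card_equiv (Equiv.prodComm G G) fun p => ?_
    simp only [A, Finset.mem_filter, Finset.mem_univ, true_and, decide_eq_true_eq, decide_eq_false_iff_not,
      Equiv.prodComm_apply, Prod.fst_swap, Prod.snd_swap]
    exact ⟨fun h => ⟨h.1.symm, h.2.2, h.2.1⟩, fun h => ⟨h.1.symm, h.2.2, h.2.1⟩⟩
  have h_shear : pp false false = pp false true := by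
    refine Finset.card_equiv ⟨fun p => (p.1, p.1 * p.2), fun p => (p.1, p.1⁻¹ * p.2), fun p => by simp, fun p => by simp⟩
      fun p => ?_
    simp only [A, Finset.mem_filter, Finset.mem_univ, true_and, Equiv.coe_fn_mk, decide_eq_false_iff_not,
      decide_eq_true_eq, hmem]
    constructor
    · rintro ⟨hc, h1, h2⟩
      exact ⟨(Commute.refl p.1).mul_right hc, h1, by simp [h1, h2]⟩
    · rintro ⟨hc, h1, h2⟩
      refine ⟨?_, h1, fun h => h1 (h2.2 h)⟩
      simpa using (Commute.refl p.1).inv_right.mul_right hc
  have h_tot : pp true true + pp true false + pp false true + pp false false =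
      Nat.card (ConjClasses G) * Nat.card G := by
    rw [← card_comm_eq_card_conjClasses_mul_card G, Nat.card_eq_fintype_card, Fintype.card_subtype]
    simp only [pp]
    rw [← Finset.card_union_of_disjoint, ← Finset.card_union_of_disjoint, ← Finset.card_union_of_disjoint]
    · congr 1
      ext p
      simp [A]
      tauto
    all_goals
      rw [Finset.disjoint_left]
      intro p
      simp
      tauto
  -- second entry inside
  have h_right : 2 * (pp true true + pp false true) =
      (Nat.card (ConjClasses G) + Nat.card {c // P c}) * Nat.card G := by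
    have e1 : pp true true + pp false true = ∑ g : G, (Finset.univ.filter fun z => Commute z g ∧ z ∈ H).card := by
      simp only [pp]
      rw [← Finset.card_union_of_disjoint]
      · rw [← Finset.card_sigma]
        refine Finset.card_equiv ⟨fun p => ⟨p.1, p.2⟩, fun s => (s.1, s.2), fun _ => rfl, fun _ => rfl⟩ fun p => ?_
        simp only [A, Finset.mem_union, Finset.mem_filter, Finset.mem_univ, true_and, decide_eq_true_eq,
          decide_eq_false_iff_not, Equiv.coe_fn_mk, Finset.mem_sigma]
        constructor
        · rintro (⟨hc, -, h2⟩ | ⟨hc, -, h2⟩) <;> exact ⟨hc.symm, h2⟩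
        · rintro ⟨hc, h2⟩
          by_cases h1 : p.1 ∈ H
          · exact Or.inl ⟨hc.symm, h1, h2⟩
          · exact Or.inr ⟨hc.symm, h1, h2⟩
      · rw [Finset.disjoint_left]; intro p; simp; tauto
    have e2 : ∀ g : G, 2 * (Finset.univ.filter fun z => Commute z g ∧ z ∈ H).card =
        (Finset.univ.filter fun z => Commute z g).card * (if P (ConjClasses.mk g) then 2 else 1) := by
      intro g
      by_cases hg : P (ConjClasses.mk g)
      · rw [if_pos hg, mul_comm]
        congr 2
        ext z
        simp only [Finset.mem_filter, Finset.mem_univ, true_and]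
        exact ⟨fun h => h.1, fun h => ⟨h, (hP g).1 hg z h⟩⟩
      · rw [if_neg hg, mul_one]
        obtain ⟨w, hw, hwH⟩ : ∃ w, Commute w g ∧ w ∉ H := by
          by_contra h
          exact hg ((hP g).2 fun z hz => by_contra fun hzH => h ⟨z, hz, hzH⟩)
        have e : (Finset.univ.filter fun z => Commute z g ∧ z ∈ H).card =
            (Finset.univ.filter fun z => Commute z g ∧ z ∉ H).card := by
          refine Finset.card_equiv (Equiv.mulLeft w) fun z => ?_
          simp only [Finset.mem_filter, Finset.mem_univ, true_and, Equiv.coe_mulLeft, hmem]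
          constructor
          · rintro ⟨h1, h2⟩; exact ⟨hw.mul_left h1, fun h => hwH (h.2 h2)⟩
          · rintro ⟨h1, h2⟩
            refine ⟨?_, by_contra fun h => h2 ⟨fun h' => absurd h' hwH, fun h' => absurd h' h⟩⟩
            simpa using hw.inv_left.mul_left h1
        rw [two_mul]
        conv_lhs => arg 2; rw [e]
        rw [← Finset.card_union_of_disjoint]
        · congr 1; ext z; simp; tauto
        · rw [Finset.disjoint_left]; intro z; simp; tauto
    rw [e1, Finset.mul_sum, Finset.sum_congr rfl fun g _ => e2 g]
    -- class equation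
    rw [← Finset.sum_fiberwise_of_maps_to (g := ConjClasses.mk) (t := Finset.univ) fun _ _ => Finset.mem_univ _]
    have e3 : ∀ c : ConjClasses G, ∑ g ∈ Finset.univ.filter (fun g => ConjClasses.mk g = c),
        (Finset.univ.filter fun z => Commute z g).card * (if P (ConjClasses.mk g) then 2 else 1) =
        Nat.card G * (if P c then 2 else 1) := by
      intro c
      rw [Finset.sum_congr rfl fun g hg => by rw [(Finset.mem_filter.1 hg).2], ← Finset.sum_mul]
      congr 1
      obtain ⟨g₀, rfl⟩ := ConjClasses.mk_surjective c
      have e4 : ∀ g, ConjClasses.mk g = ConjClasses.mk g₀ → (Finset.univ.filter fun z => Commute z g).card =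
          (Finset.univ.filter fun z => Commute z g₀).card := by
        intro g hg
        obtain ⟨x, rfl⟩ := isConj_iff.1 (ConjClasses.mk_eq_mk_iff_isConj.1 hg.symm)
        refine Finset.card_equiv (MulAut.conj x⁻¹).toEquiv fun z => ?_
        simp only [Finset.mem_filter, Finset.mem_univ, true_and, MulEquiv.toEquiv_eq_coe, MulEquiv.coe_toEquiv,
          MulAut.conj_apply, inv_inv]
        constructor
        · intro h
          have := h.map (MulAut.conj x⁻¹).toMonoidHom
          simpa [MulAut.conj_apply, mul_assoc] using this
        · intro h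
          have := h.map (MulAut.conj x).toMonoidHom
          simpa [MulAut.conj_apply, mul_assoc] using this
      rw [Finset.sum_congr rfl fun g hg => e4 g (Finset.mem_filter.1 hg).2, Finset.sum_const, smul_eq_mul]
      have h1 := MulAction.card_orbit_mul_card_stabilizer_eq_card_group (ConjAct G) g₀
      rw [← Nat.card_eq_fintype_card, ← Nat.card_eq_fintype_card, ← Nat.card_eq_fintype_card] at h1
      have a1 : Nat.card (MulAction.orbit (ConjAct G) g₀) =
          (Finset.univ.filter fun g => ConjClasses.mk g = ConjClasses.mk g₀).card := by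
        rw [ConjAct.orbit_eq_carrier_conjClasses]
        exact Nat.subtype_card _ fun g => by simp [ConjClasses.mem_carrier_iff_mk_eq]
      have a2 : Nat.card (MulAction.stabilizer (ConjAct G) g₀) = (Finset.univ.filter fun z => Commute z g₀).card := by
        refine (Nat.card_congr (Equiv.subtypeEquiv ConjAct.ofConjAct.toEquiv fun z => ?_)).trans
          (Nat.subtype_card (p := fun z : G => Commute z g₀) _ fun z => by simp)
        rw [MulAction.mem_stabilizer_iff, ConjAct.smul_def]
        exact mul_inv_eq_iff_eq_mul
      rw [← a1, ← a2, h1]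
      rfl
    rw [Finset.sum_congr rfl fun c _ => e3 c, ← Finset.mul_sum, mul_comm, Finset.sum_ite, Finset.sum_const,
      Finset.sum_const, smul_eq_mul, smul_eq_mul, Nat.card_eq_fintype_card (α := {c // P c}), Fintype.card_subtype,
      Nat.card_eq_fintype_card (α := ConjClasses G), ← Finset.card_univ,
      ← Finset.card_filter_add_card_filter_not (s := (Finset.univ : Finset (ConjClasses G))) P]
    ring
  rw [h_swap, h_shear, h_tt, hcard] at h_tot
  rw [h_tt, hcard] at h_right
  have hpos : 0 < Nat.card ↥H := Nat.card_pos
  have : (2 * Nat.card (ConjClasses ↥H)) * Nat.card ↥H =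
      (Nat.card (ConjClasses G) + 3 * Nat.card {c // P c}) * Nat.card ↥H := by linarith
  exact Nat.eq_of_mul_eq_mul_right hpos this

end Cfsg.Agent.Lib.IsoClassCount.IndexTwo
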