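import Cfsg.Agent.Lib.IsoClassCount.Good
import Cfsg.Agent.Lib.IsoClassCount.Bridge
import Cfsg.Agent.Lib.Classical.QuadOmega.General
import Cfsg.Agent.Lib.Classical.QuadOmega.Generation

/-!
Spinor norms of involutions of an odd-dimensional orthogonal group in matrix form.
-/

set_option autoImplicit false
set_option linter.unusedSectionVars false

namespace Cfsg.Agent.Lib.IsoClassCount

open Matrix QuadraticMap
open Cfsg.Agent.Lib.Classical.Quad Cfsg.Agent.Lib.Classical.QuadOmega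

universe u
variable {F : Type u} [Field F] [Fintype F] {n : ℕ}

/-- The quadratic form of a Gram matrix. -/
noncomputable def quad (G : Matrix (Fin n) (Fin n) F) : QuadraticForm F (Fin n → F) :=
  ((2 : F)⁻¹ • G).toQuadraticMap'

variable {G : Matrix (Fin n) (Fin n) F}

theorem quad_apply (v : Fin n → F) : quad G v = (2 : F)⁻¹ * (v ⬝ᵥ G *ᵥ v) := by
  show Matrix.toLinearMap₂' F ((2 : F)⁻¹ • G) v v = _
  rw [Matrix.toLinearMap₂'_apply', Matrix.smul_mulVec, dotProduct_smul, smul_eq_mul]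

theorem polar_quad (h2 : (2 : F) ≠ 0) (hGs : Gᵀ = G) (u v : Fin n → F) : polar (quad G) u v = u ⬝ᵥ G *ᵥ v := by
  have hsym : v ⬝ᵥ G *ᵥ u = u ⬝ᵥ G *ᵥ v := by
    rw [Matrix.dotProduct_mulVec, ← Matrix.mulVec_transpose, hGs, dotProduct_comm]
  rw [polar, quad_apply, quad_apply, quad_apply, Matrix.mulVec_add, dotProduct_add, add_dotProduct, add_dotProduct,
    hsym]
  field_simp
  ring

theorem quad_nd (h2 : (2 : F) ≠ 0) (hGs : Gᵀ = G) (hG : G.det ≠ 0) : Nd (quad G) := by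
  intro x hx
  have h : G *ᵥ x = 0 := by
    funext i
    have := hx (Pi.single i 1)
    rw [polar_comm, polar_quad h2 hGs] at this
    simpa using this
  by_contra hne
  exact hG (Matrix.exists_mulVec_eq_zero_iff.1 ⟨x, hne, h⟩)

theorem iso_eq (h2 : (2 : F) ≠ 0) (hGs : Gᵀ = G) : Cfsg.isometryGroup F ⇑(quad G) = Iso G := by
  have h := iso_map h2 (⇑(quad G)) G hGs (fun v => by rw [quad_apply]; field_simp) (Equiv.refl (Fin n))
  have e : (glE (F := F) (Equiv.refl (Fin n))).toMonoidHom = MonoidHom.id (GL (Fin n) F) :=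
    MonoidHom.ext fun g => Units.ext (glE_val _ g)
  rw [e, Subgroup.map_id] at h
  simpa using h

/-- The isometry group of a Gram matrix as linear isometries. -/
noncomputable def isoL (h2 : (2 : F) ≠ 0) (hGs : Gᵀ = G) : ↥(Iso G) ≃* isoG (quad G) :=
  (MulEquiv.subgroupCongr (iso_eq h2 hGs).symm).trans (matEquiv (quad G))

theorem isoL_apply (h2 : (2 : F) ≠ 0) (hGs : Gᵀ = G) (z : ↥(Iso G)) (v : Fin n → F) :
    (isoL h2 hGs z).1 v = ((z : GL (Fin n) F) : Matrix (Fin n) (Fin n) F) *ᵥ v := rfl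

theorem dick_isoL (h2 : (2 : F) ≠ 0) (hGs : Gᵀ = G) (hG : G.det ≠ 0) (z : ↥(Iso G)) :
    dick (quad_nd h2 hGs hG) (isoL h2 hGs z) = 1 ↔ ((z : GL (Fin n) F) : Matrix (Fin n) (Fin n) F).det = 1 := by
  rw [isoL, MulEquiv.trans_apply, ← special_eq_dick (quad G) (quad_nd h2 hGs hG) h2,
    mem_special_iff (quad G)]
  rfl

/-- The commutator subgroup. -/
theorem mem_commutator_Iso (h2 : (2 : F) ≠ 0) (hGs : Gᵀ = G) (hG : G.det ≠ 0) (z : ↥(Iso G)) :
    z ∈ commutator ↥(Iso G) ↔ ((z : GL (Fin n) F) : Matrix (Fin n) (Fin n) F).det = 1 ∧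
      spn (quad_nd h2 hGs hG) (isoL h2 hGs z) = 1 := by
  rw [← dick_isoL h2 hGs hG, ← mem_commutator_iff (quad_nd h2 hGs hG) h2]
  have h : (commutator ↥(Iso G)).map (isoL h2 hGs).toMonoidHom = commutator ↥(isoG (quad G)) := by
    rw [commutator_def, commutator_def, Subgroup.map_commutator,
      Subgroup.map_top_of_surjective _ (isoL h2 hGs).surjective]
  rw [← h]
  exact (Subgroup.mem_map_iff_mem (f := (isoL h2 hGs).toMonoidHom) (isoL h2 hGs).injective).symm

theorem sqSign_prod_two (h2 : (2 : F) ≠ 0) {r : ℕ} (hr : Even r) (w : Fin r → F) (hw : ∀ i, w i ≠ 0) :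
    ∏ i, sqSign ((2 : F)⁻¹ * w i) = sqSign (∏ i, w i) := by
  have h1 : ∀ (s : Finset (Fin r)), ∏ i ∈ s, sqSign ((2 : F)⁻¹ * w i) =
      sqSign ((2 : F)⁻¹) ^ s.card * sqSign (∏ i ∈ s, w i) := by
    intro s
    induction s using Finset.induction_on with
    | empty => simp [sqSign_one]
    | @insert a s ha ih =>
      rw [Finset.prod_insert ha, Finset.prod_insert ha, ih, Finset.card_insert_of_notMem ha,
        sqSign_mul (inv_ne_zero h2) (hw a), sqSign_mul (hw a) (Finset.prod_ne_zero_iff.2 fun i _ => hw i), pow_succ]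
      ac_rfl
  obtain ⟨k, rfl⟩ := hr
  rw [h1, Finset.card_univ, Fintype.card_fin, pow_add, Int.units_mul_self, one_mul]

/-- Minus one on an even-dimensional invariant orthogonal summand, and its spinor norm. -/
theorem exists_invol (h2 : (2 : F) ≠ 0) (hGs : Gᵀ = G) (hG : G.det ≠ 0) {r : ℕ} (hr : Even r)
    {E : Matrix (Fin n) (Fin n) F} (C : Coord (Fin r) E) (hGE : G * E = Eᵀ * G) :
    ∃ z : ↥(Iso G), ((z : GL (Fin n) F) : Matrix (Fin n) (Fin n) F) = 1 - (2 : F) • E ∧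
      ((z : GL (Fin n) F) : Matrix (Fin n) (Fin n) F).det = 1 ∧
      spn (quad_nd h2 hGs hG) (isoL h2 hGs z) = sqSign (C.rest G).det := by
  classical
  set δ := (C.rest G).det with hδ
  have hd : δ ≠ 0 := C.rest_det hG hGE
  have hbs : (C.rest G)ᵀ = C.rest G := by
    have := C.rest_transpose (s := (1 : F)) (H := G) (by rw [one_smul]; exact hGs); rwa [one_smul] at this
  let w : Fin r → F := fun i => if (i : ℕ) = 0 then δ else 1
  have hw : ∀ i, w i ≠ 0 := fun i => by simp only [w]; split_ifs <;> simp [hd]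
  have hprod : ∏ i, w i = δ := by
    rcases Nat.eq_zero_or_pos r with h0 | h0
    · subst h0
      rw [Finset.univ_eq_empty, Finset.prod_empty]
      exact (Matrix.det_isEmpty (A := C.rest G)).symm
    · rw [Finset.prod_eq_single (⟨0, h0⟩ : Fin r)]
      · simp [w]
      · intro i _ hi; simp only [w]; rw [if_neg (fun e => hi (Fin.ext e))]
      · simp
  obtain ⟨Pm, hPm⟩ := AutPSL.congr_symm h2 hbs (Matrix.diagonal_transpose w) hd
    (by rw [det_diagonal, hprod]; exact hd) (by rw [det_diagonal, hprod]; exact ⟨δ, rfl⟩)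
  set Φ : Matrix (Fin n) (Fin r) F := C.Φ * (Pm : Matrix (Fin r) (Fin r) F) with hΦ
  let C' : Coord (Fin r) E :=
    { Φ := Φ
      Ψ := ((Pm⁻¹ : GL (Fin r) F) : Matrix (Fin r) (Fin r) F) * C.Ψ
      left := by rw [hΦ, Matrix.mul_assoc, ← Matrix.mul_assoc C.Ψ, C.left, Matrix.one_mul, Units.inv_mul]
      right := by rw [hΦ, Matrix.mul_assoc, ← Matrix.mul_assoc (Pm : Matrix (Fin r) (Fin r) F), Units.mul_inv,
        Matrix.one_mul, C.right] }
  have hdiag : Φᵀ * G * Φ = Matrix.diagonal w := by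
    rw [hΦ, ← hPm, Coord.rest, transpose_mul]; simp only [Matrix.mul_assoc]
  let φ : Fin r → (Fin n → F) := fun j => Φᵀ j
  have hφφ : ∀ i j, φ i ⬝ᵥ G *ᵥ φ j = if i = j then w i else 0 := by
    intro i j
    have := congrFun (congrFun hdiag i) j
    rw [Matrix.diagonal_apply] at this
    rw [← this]
    simp only [φ, Matrix.mul_apply, Matrix.mulVec, dotProduct, Matrix.transpose_apply, Finset.sum_mul, Finset.mul_sum]
    rw [Finset.sum_comm]
    exact Finset.sum_congr rfl fun a _ => Finset.sum_congr rfl fun b _ => by ring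
  have hQ : ∀ j, quad G (φ j) = (2 : F)⁻¹ * w j := fun j => by rw [quad_apply, hφφ, if_pos rfl]
  have hQ0 : ∀ j, quad G (φ j) ≠ 0 := fun j => by rw [hQ]; exact mul_ne_zero (inv_ne_zero h2) (hw j)
  have key : ∀ S : Finset (Fin r), ∃ y : isoG (quad G),
      (∀ v, y.1 v = v - ∑ j ∈ S, (2 * (φ j ⬝ᵥ G *ᵥ v) / w j) • φ j) ∧
      dick (quad_nd h2 hGs hG) y = (-1) ^ S.card ∧
      spn (quad_nd h2 hGs hG) y = ∏ j ∈ S, sqSign ((2 : F)⁻¹ * w j) := by
    intro S
    induction S using Finset.induction_on with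
    | empty => exact ⟨1, fun v => by simp, by simp, by simp⟩
    | @insert a S ha ih =>
      obtain ⟨y, hy, hy1, hy2⟩ := ih
      refine ⟨refl (quad G) (φ a) * y, fun v => ?_, ?_, ?_⟩
      · have hz : φ a ⬝ᵥ G *ᵥ (∑ j ∈ S, (2 * (φ j ⬝ᵥ G *ᵥ v) / w j) • φ j) = 0 := by
          rw [Matrix.mulVec_sum, dotProduct_sum]
          refine Finset.sum_eq_zero fun j hj => ?_
          rw [Matrix.mulVec_smul, dotProduct_smul, hφφ, if_neg (fun e : a = j => ha (e ▸ hj)), smul_zero]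
        rw [Subgroup.coe_mul, LinearEquiv.mul_apply, refl_apply (hQ0 a), hQ, hy, polar_comm, polar_quad h2 hGs,
          Finset.sum_insert ha, Matrix.mulVec_sub, dotProduct_sub, hz, sub_zero, sub_sub, add_comm]
        congr 3
        field_simp
      · rw [map_mul, dick_refl _ (hQ0 a), hy1, Finset.card_insert_of_notMem ha, pow_succ']
      · rw [map_mul, spn_refl _ h2 (hQ0 a), hQ, hy2, Finset.prod_insert ha]
  obtain ⟨y, hy, hy1, hy2⟩ := key Finset.univ
  refine ⟨(isoL h2 hGs).symm y, ?_, ?_, ?_⟩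
  · have hrow : C'.Ψ = Matrix.diagonal (fun j => (w j)⁻¹) * (Φᵀ * G) := by
      have h1 : Φᵀ * G = Matrix.diagonal w * C'.Ψ := by
        calc Φᵀ * G = (E * C'.Φ)ᵀ * G := by rw [C'.EΦ]
          _ = C'.Φᵀ * (Eᵀ * G) := by rw [transpose_mul, Matrix.mul_assoc]
          _ = C'.Φᵀ * G * (C'.Φ * C'.Ψ) := by rw [← hGE, C'.right, Matrix.mul_assoc]
          _ = _ := by rw [← Matrix.mul_assoc]; exact congrArg (· * C'.Ψ) hdiag
      rw [h1, ← Matrix.mul_assoc, Matrix.diagonal_mul_diagonal,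
        show (fun j => (w j)⁻¹ * w j) = fun _ => (1 : F) from funext fun j => inv_mul_cancel₀ (hw j),
        Matrix.diagonal_one, Matrix.one_mul]
    refine Matrix.ext_iff_mulVec.2 fun v => ?_
    rw [← isoL_apply h2 hGs, MulEquiv.apply_symm_apply, hy, Matrix.sub_mulVec, Matrix.one_mulVec, Matrix.smul_mulVec,
      ← C'.right, hrow, ← Matrix.mulVec_mulVec v C'.Φ]
    have e1 : ∀ j, ((Matrix.diagonal (fun j => (w j)⁻¹) * (Φᵀ * G)) *ᵥ v) j = (w j)⁻¹ * (φ j ⬝ᵥ G *ᵥ v) := fun j => by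
      rw [← Matrix.mulVec_mulVec, Matrix.mulVec_diagonal, ← Matrix.mulVec_mulVec]
      rfl
    congr 1
    funext i
    rw [Finset.sum_apply, Pi.smul_apply, smul_eq_mul]
    show _ = 2 * ∑ j, Φ i j * ((Matrix.diagonal (fun j => (w j)⁻¹) * (Φᵀ * G)) *ᵥ v) j
    rw [Finset.mul_sum]
    refine Finset.sum_congr rfl fun j _ => ?_
    rw [e1, Pi.smul_apply, smul_eq_mul]
    show _ * Φ i j = _
    ring
  · rw [← dick_isoL h2 hGs hG, MulEquiv.apply_symm_apply, hy1, Finset.card_univ, Fintype.card_fin]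
    exact hr.neg_one_pow
  · rw [MulEquiv.apply_symm_apply, hy2, sqSign_prod_two h2 hr w hw, hprod]

/-- A centraliser inside the commutator subgroup forces `Good`. -/
theorem good_of_cent (h2 : (2 : F) ≠ 0) (hn : Odd n) (hGs : Gᵀ = G) (hG : G.det ≠ 0) (h : ↥(Iso G))
    (hc : ∀ z : ↥(Iso G), Commute z h → ((z : GL (Fin n) F) : Matrix (Fin n) (Fin n) F).det = 1 →
      z ∈ commutator ↥(Iso G)) :
    Good ((h : GL (Fin n) F) : Matrix (Fin n) (Fin n) F) G := by
  classical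
  intro E r C hE hGE hr
  have hi : (1 - E) * (1 - E) = 1 - E := by rw [sub_mul, one_mul, mul_sub, mul_one, C.idem, sub_self, sub_zero]
  obtain ⟨r', ⟨C'⟩⟩ := exists_coord hi
  have hGE' : G * (1 - E) = (1 - E)ᵀ * G := by
    rw [mul_sub, mul_one, transpose_sub, transpose_one, sub_mul, one_mul, hGE]
  have z1 : C'.Ψ * C.Φ = 0 := by
    calc C'.Ψ * C.Φ = C'.Ψ * (1 - E) * (E * C.Φ) := by rw [C'.ΨE, C.EΦ]
      _ = C'.Ψ * ((1 - E) * E) * C.Φ := by simp only [Matrix.mul_assoc]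
      _ = 0 := by rw [sub_mul, one_mul, C.idem, sub_self, Matrix.mul_zero, Matrix.zero_mul]
  have z2 : C.Ψ * C'.Φ = 0 := by
    calc C.Ψ * C'.Φ = C.Ψ * E * ((1 - E) * C'.Φ) := by rw [C.ΨE, C'.EΦ]
      _ = C.Ψ * (E * (1 - E)) * C'.Φ := by simp only [Matrix.mul_assoc]
      _ = 0 := by rw [mul_sub, mul_one, C.idem, sub_self, Matrix.mul_zero, Matrix.zero_mul]
  set W : Matrix (Fin n) (Fin r ⊕ Fin r') F := Matrix.fromCols C.Φ C'.Φ with hW
  set V : Matrix (Fin r ⊕ Fin r') (Fin n) F := Matrix.fromRows C.Ψ C'.Ψ with hV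
  have hWV : W * V = 1 := by rw [hW, hV, Matrix.fromCols_mul_fromRows, C.right, C'.right, add_sub_cancel]
  have hVW : V * W = 1 := by
    rw [hW, hV, Matrix.fromRows_mul_fromCols, C.left, C'.left, z1, z2, Matrix.fromBlocks_one]
  have hcard : r + r' = n := by
    have := Matrix.square_of_invertible W V hWV hVW
    simpa using this.symm
  have hr' : Even r' := by
    obtain ⟨a, ha⟩ := hr
    obtain ⟨b, hb⟩ := hn
    exact ⟨b - a, by omega⟩
  obtain ⟨z, hz, hzd, hzs⟩ := exists_invol h2 hGs hG hr' C' hGE'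
  have hcomm : Commute z h := Subtype.ext (Units.ext (by
    show ((z : GL (Fin n) F) : Matrix (Fin n) (Fin n) F) * _ = _ * _
    rw [hz]
    exact ((Commute.one_left _).sub_left (((Commute.one_left _).sub_left hE).smul_left _)).eq))
  have hmem := ((mem_commutator_Iso h2 hGs hG z).1 (hc z hcomm hzd)).2
  rw [hzs, sqSign_eq_one_iff] at hmem
  obtain ⟨b, hb⟩ := hmem
  -- the determinant splits
  have hsplit : Wᵀ * G * W = Matrix.fromBlocks (C.rest G) 0 0 (C'.rest G) := by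
    have c1 : C.Φᵀ * G * C'.Φ = 0 := by
      calc C.Φᵀ * G * C'.Φ = (E * C.Φ)ᵀ * G * C'.Φ := by rw [C.EΦ]
        _ = C.Φᵀ * (Eᵀ * G) * C'.Φ := by simp only [transpose_mul, Matrix.mul_assoc]
        _ = C.Φᵀ * G * (E * ((1 - E) * C'.Φ)) := by rw [← hGE, C'.EΦ]; simp only [Matrix.mul_assoc]
        _ = 0 := by rw [← Matrix.mul_assoc E, mul_sub, mul_one, C.idem, sub_self, Matrix.zero_mul, Matrix.mul_zero]
    have c2 : C'.Φᵀ * G * C.Φ = 0 := by
      have := congrArg Matrix.transpose c1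
      rwa [transpose_mul, transpose_mul, transpose_transpose, hGs, transpose_zero, ← Matrix.mul_assoc] at this
    rw [hW, Matrix.transpose_fromCols, Matrix.fromRows_mul, Matrix.fromRows_mul_fromCols, c1, c2]
    rfl
  let e : Fin r ⊕ Fin r' ≃ Fin n := finSumFinEquiv.trans (finCongr hcard)
  have hd := congrArg Matrix.det hsplit
  rw [Matrix.det_fromBlocks_zero₂₁] at hd
  have hW2 : (Wᵀ * G * W).det = G.det * ((W.submatrix id e.symm).det) ^ 2 := by
    rw [← Matrix.det_submatrix_equiv_self e.symm (Wᵀ * G * W)]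
    rw [Matrix.submatrix_mul _ _ _ id _ Function.bijective_id, Matrix.submatrix_mul _ _ _ id _ Function.bijective_id,
      Matrix.submatrix_id_id, ← Matrix.transpose_submatrix, det_mul, det_mul, det_transpose]
    ring
  rw [hW2, hb] at hd
  have hb0 : b ≠ 0 := fun e0 => C'.rest_det hG hGE' (by rw [hb, e0, mul_zero])
  refine ⟨G.det * (W.submatrix id e.symm).det / b, ?_⟩
  field_simp
  linear_combination -hd

end Cfsg.Agent.Lib.IsoClassCount
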