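import Cfsg.Agent.Lib.Jordan.SympClasses

/-!
Invariant forms of either symmetry for a unipotent Jordan matrix: congruence under the centraliser and
discriminants.
-/

set_option autoImplicit false
set_option linter.unusedSectionVars false

namespace Cfsg.Agent.Lib.IsoClassCount.JF

open Matrix Cfsg.Agent.Lib.Jordan Cfsg.Agent.Lib.Jordan.SpC

universe u
variable {F : Type u} [Field F] [Fintype F] {t : ℕ} (d : Fin t → ℕ) (hd : ∀ k, 1 ≤ d k)

include hd in
/-- Forms with equal leading parts are congruent. -/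
theorem congr_of_bm_eq (p : ℕ) [Fact p.Prime] [CharP F p] (hp : p ≠ 2) {X Y : Matrix (Idx d) (Idx d) F} {s : F}
    (hs0 : s ≠ 0) (hXs : Xᵀ = s • X) (hYs : Yᵀ = s • Y) (hX : Inv d X) (hY : Inv d Y) (hd0 : X.det ≠ 0)
    (hb : ∀ i, bm d X i = bm d Y i) :
    ∃ A : Matrix (Idx d) (Idx d) F, Commute A (Cfsg.jordanTypeMatrix d F) ∧ IsUnit A ∧ Aᵀ * X * A = Y := by
  classical
  obtain ⟨h, rfl⟩ := exists_quot d hd hX hY hd0
  have hlead : ∀ i, UCent.lead d h i = 1 := by
    intro i
    have h1 := bm_mul_right d hd hX h i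
    rw [← hb] at h1
    have h2 : bm d X i * 1 = bm d X i * (UCent.lead d h i)ᵀ := by rw [mul_one]; exact h1
    have h3 := ((Matrix.isUnit_iff_isUnit_det _).mpr (isUnit_iff_ne_zero.mpr (bm_det d hd hX hd0 i))).mul_left_cancel h2
    rw [← Matrix.transpose_transpose (UCent.lead d h i), ← h3, Matrix.transpose_one]
  -- the group of elements of the commutant with trivial leading part
  have hmul : ∀ a b : Par d → F, ∀ c, cmat d c = cmat d a * cmat d b → ∀ i,
      UCent.lead d c i = UCent.lead d b i * UCent.lead d a i := by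
    intro a b c hc i
    have h1 := bm_mul_right d hd hX c i
    have hXa : Inv d (X * cmat d a) := by
      have := hX.mul d 1 (cmat d a) (Commute.one_left _) (commute_jordan d a)
      rwa [Matrix.transpose_one, one_mul] at this
    rw [hc, ← mul_assoc, bm_mul_right d hd hXa, bm_mul_right d hd hX, mul_assoc, ← Matrix.transpose_mul] at h1
    have h3 := ((Matrix.isUnit_iff_isUnit_det _).mpr (isUnit_iff_ne_zero.mpr (bm_det d hd hX hd0 i))).mul_left_cancel h1
    exact (Matrix.transpose_injective h3).symm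
  let U : Submonoid (GL (Idx d) F) :=
    { carrier := {g | ∃ c, cmat d c = (g : Matrix (Idx d) (Idx d) F) ∧ ∀ i, UCent.lead d c i = 1}
      one_mem' := by
        obtain ⟨o, ho⟩ := exists_par d (Commute.one_left (Cfsg.jordanTypeMatrix d F))
        refine ⟨o, ho, fun i => ?_⟩
        have h1 := bm_mul_right d hd hX o i
        rw [ho, mul_one] at h1
        have h2 : bm d X i * 1 = bm d X i * (UCent.lead d o i)ᵀ := by rw [mul_one]; exact h1
        have h3 := ((Matrix.isUnit_iff_isUnit_det _).mpr (isUnit_iff_ne_zero.mpr (bm_det d hd hX hd0 i))).mul_left_cancel h2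
        rw [← Matrix.transpose_transpose (UCent.lead d o i), ← h3, Matrix.transpose_one]
      mul_mem' := by
        rintro g g' ⟨a, ha, ha'⟩ ⟨b, hb', hb''⟩
        obtain ⟨c, hc⟩ := exists_par d ((commute_jordan d a).mul_left (commute_jordan d b))
        refine ⟨c, by rw [hc, ha, hb', Units.val_mul], fun i => ?_⟩
        rw [hmul a b c hc, ha', hb'', one_mul] }
  let H : Subgroup (GL (Idx d) F) :=
    { U with
      inv_mem' := fun {g} hg => by
        obtain ⟨n, hn⟩ := (isOfFinOrder_of_finite g).mem_powers_iff_mem_zpowers.mpr (inv_mem (Subgroup.mem_zpowers g))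
        show g⁻¹ ∈ U
        rw [← show g ^ n = g⁻¹ from hn]
        exact pow_mem hg n }
  have hcard : Nat.card H = Nat.card (UCent.lead (K := F) d).ker := by
    obtain ⟨o, ho, ho'⟩ := U.one_mem
    have hunit : ∀ c, (∀ i, UCent.lead d c i = 1) → IsUnit (cmat (F := F) d c) := fun c hc =>
      (UCent.isUnit_iff_lead d hd c).mpr fun i => by rw [hc, Matrix.det_one]; exact one_ne_zero
    symm
    refine Nat.card_eq_of_bijective (fun c => ⟨(hunit (c.1 + o) fun i => by
        rw [map_add, Pi.add_apply, show UCent.lead d c.1 = 0 from c.2, Pi.zero_apply, zero_add, ho']).unit,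
      c.1 + o, rfl, fun i => by
        rw [map_add, Pi.add_apply, show UCent.lead d c.1 = 0 from c.2, Pi.zero_apply, zero_add, ho']⟩) ⟨?_, ?_⟩
    · intro a b hab
      have e := congrArg (fun x : H => ((x : GL (Idx d) F) : Matrix (Idx d) (Idx d) F)) hab
      exact Subtype.ext (add_right_cancel (cmat_injective d e))
    · rintro ⟨g, c, hc, hc'⟩
      refine ⟨⟨c - o, ?_⟩, Subtype.ext (Units.ext ?_)⟩
      · rw [AddMonoidHom.mem_ker, map_sub]
        funext i
        rw [Pi.sub_apply, hc', ho', sub_self, Pi.zero_apply]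
      · show cmat d (c - o + o) = _
        rw [sub_add_cancel]; exact hc
  have hodd : Odd (Nat.card H) := by
    obtain ⟨f, -, hf⟩ := FiniteField.card F p
    have h1 : Nat.card (UCent.lead (K := F) d).ker ∣ p ^ ((f : ℕ) * Fintype.card (Par d)) := by
      rw [pow_mul, ← hf]
      have := (UCent.lead (K := F) d).ker.card_addSubgroup_dvd_card
      rwa [Nat.card_fun, Nat.card_eq_fintype_card (α := F), Nat.card_eq_fintype_card (α := Par d)] at this
    rw [← hcard] at h1
    obtain ⟨j, -, hj⟩ := (Nat.dvd_prime_pow Fact.out).mp h1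
    rw [hj]
    exact ((Fact.out : p.Prime).odd_of_ne_two hp).pow
  obtain ⟨hu, hhu⟩ : IsUnit (cmat d h) := (UCent.isUnit_iff_lead d hd h).mpr fun i => by
    rw [hlead, Matrix.det_one]; exact one_ne_zero
  have hhH : hu ∈ H := ⟨h, hhu.symm, hlead⟩
  obtain ⟨r, hr⟩ := hodd
  have hpow : hu ^ (2 * r + 1) = 1 := by
    rw [← hr]
    exact congrArg Subtype.val (pow_card_eq_one' (x := (⟨hu, hhH⟩ : H)))
  set w : Matrix (Idx d) (Idx d) F := (cmat d h) ^ (r + 1) with hs
  have hss : w * w = cmat d h := by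
    rw [hs, ← hhu, ← Units.val_pow_eq_pow_val, ← Units.val_mul, ← pow_add,
      show r + 1 + (r + 1) = 2 * r + 1 + 1 by omega, pow_succ, hpow, one_mul]
  have hsym : SemiconjBy X (cmat d h) (cmat d h)ᵀ := by
    show X * cmat d h = (cmat d h)ᵀ * X
    have := hYs
    rw [Matrix.transpose_mul, hXs, Matrix.mul_smul] at this
    replace this := (smul_right_injective (Matrix (Idx d) (Idx d) F) hs0) this
    exact this.symm
  refine ⟨w, (commute_jordan d h).pow_left _, by rw [hs, ← hhu]; exact hu.isUnit.pow _, ?_⟩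
  have h2 := (hsym.pow_right (r + 1)).eq
  rw [← Matrix.transpose_pow, ← hs] at h2
  rw [← h2, mul_assoc, hss]

include hd in
/-- The symmetry of the leading forms. -/
theorem bm_sym {X : Matrix (Idx d) (Idx d) F} (h : Inv d X) {s : F} (hXs : Xᵀ = s • X) (hs : s * s = 1)
    (i : UCent.Rng d) : (bm d X i)ᵀ = (s * (-1 : F) ^ ((i : ℕ) - 1)) • bm d X i := by
  have h1 := bm_transpose d hd h i
  rw [hXs, bm_smul] at h1
  have h2 := congrArg (fun M => ((-1 : F) ^ ((i : ℕ) - 1)) • M) h1
  simp only [smul_smul, ← mul_pow, neg_mul_neg, one_mul, one_pow, one_smul] at h2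
  rw [← h2, mul_comm]

theorem sign_cases {s : F} (hs : s * s = 1) (a : ℕ) : s * (-1 : F) ^ a = 1 ∨ s * (-1 : F) ^ a = -1 := by
  apply mul_self_eq_one_iff.1
  rw [mul_mul_mul_comm, hs, ← mul_pow, neg_mul_neg, one_mul, one_mul, one_pow]

theorem alt_of_skew {ι : Type} [Fintype ι] [DecidableEq ι] (h2 : (2 : F) ≠ 0) {M : Matrix ι ι F}
    (hM : Mᵀ = (-1 : F) • M) (x : ι → F) : Matrix.toBilin' M x x = 0 := by
  have h := AutPSL.bilin_flip hM x x
  rw [neg_one_mul, eq_neg_iff_add_eq_zero, ← two_mul] at h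
  exact (mul_eq_zero.mp h).resolve_left h2

include hd in
/-- Block sizes of the skew kind occur with even multiplicity. -/
theorem even_mult (h2 : (2 : F) ≠ 0) {X : Matrix (Idx d) (Idx d) F} (h : Inv d X) (hdX : X.det ≠ 0) {s : F}
    (hXs : Xᵀ = s • X) (hs : s * s = 1) (i : UCent.Rng d) (hi : s * (-1 : F) ^ ((i : ℕ) - 1) ≠ 1) :
    Even (mult d (i : ℕ)) := by
  have hM := bm_sym d hd h hXs hs i
  rw [(sign_cases hs _).resolve_left hi] at hM
  have := AutPSL.alt_even (Matrix.toBilin' (bm d X i)) (alt_of_skew h2 hM)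
    (fun x hx => AutPSL.bilin_nondeg (bm_det d hd h hdX i) hx)
  rwa [Module.finrank_fin_fun] at this

include hd in
/-- Forms with the same discriminants on the symmetric leading spaces are congruent. -/
theorem congr_of_disc (p : ℕ) [Fact p.Prime] [CharP F p] (hp : p ≠ 2) {X Y : Matrix (Idx d) (Idx d) F}
    {s : F} (hs : s * s = 1) (hXs : Xᵀ = s • X) (hYs : Yᵀ = s • Y) (hX : Inv d X) (hY : Inv d Y)
    (hdX : X.det ≠ 0) (hdY : Y.det ≠ 0)
    (hsq : ∀ i : UCent.Rng d, s * (-1 : F) ^ ((i : ℕ) - 1) = 1 → IsSquare ((bm d X i).det * (bm d Y i).det)) :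
    ∃ A : Matrix (Idx d) (Idx d) F, Commute A (Cfsg.jordanTypeMatrix d F) ∧ IsUnit A ∧ Aᵀ * X * A = Y := by
  have h2 : (2 : F) ≠ 0 := Ring.two_ne_zero (by rw [ringChar.eq F p]; exact hp)
  have hs0 : s ≠ 0 := fun h => one_ne_zero (α := F) (by rw [← hs, h, mul_zero])
  have hP : ∀ i : UCent.Rng d, AutPSL.Congr (bm d X i) (bm d Y i) := by
    intro i
    have hx := bm_sym d hd hX hXs hs i
    have hy := bm_sym d hd hY hYs hs i
    rcases sign_cases hs ((i : ℕ) - 1) with h | h <;> rw [h] at hx hy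
    · exact AutPSL.congr_symm h2 (by rw [hx, one_smul]) (by rw [hy, one_smul]) (bm_det d hd hX hdX i)
        (bm_det d hd hY hdY i) (hsq i h)
    · exact AutPSL.congr_alt (bm_det d hd hX hdX i) (bm_det d hd hY hdY i) (alt_of_skew h2 hx) (alt_of_skew h2 hy)
  choose P hP using hP
  obtain ⟨c, hc⟩ := UCent.lead_surjective (K := F) d hd (fun i => (P i : Matrix _ _ F)ᵀ)
  have hcu : IsUnit (cmat d c) := (UCent.isUnit_iff_lead d hd c).mpr fun i => by
    rw [hc, Matrix.det_transpose]; exact Matrix.GeneralLinearGroup.det_ne_zero _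
  set Z := (cmat d c)ᵀ * X * cmat d c with hZ
  have hZi : Inv d Z := hX.mul d _ _ (commute_jordan d c) (commute_jordan d c)
  have hZs : Zᵀ = s • Z := by
    rw [hZ, Matrix.transpose_mul, Matrix.transpose_mul, Matrix.transpose_transpose, hXs]
    simp [mul_assoc]
  have hZd : Z.det ≠ 0 := by
    rw [hZ, Matrix.det_mul, Matrix.det_mul, Matrix.det_transpose]
    have := ((Matrix.isUnit_iff_isUnit_det _).mp hcu).ne_zero
    exact mul_ne_zero (mul_ne_zero this hdX) this
  obtain ⟨A, hA, hAu, hAZ⟩ := congr_of_bm_eq d hd p hp hs0 hZs hYs hZi hY hZd (fun i => by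
    rw [hZ, bm_comp d hd hX, hc, Matrix.transpose_transpose]; exact hP i)
  exact ⟨cmat d c * A, (commute_jordan d c).mul_left hA, hcu.mul hAu, by
    rw [← hAZ, hZ, Matrix.transpose_mul]; simp only [mul_assoc]⟩

include hd in
/-- The determinant of an element of the commutant. -/
theorem det_cmat (c : Par d → F) : (cmat d c).det = ∏ i : UCent.Rng d, (UCent.lead d c i).det ^ (i : ℕ) := by
  classical
  set M := Finset.univ.sup d with hM
  have hle : ∀ k, d k ≤ M := fun k => Finset.le_sup (Finset.mem_univ k)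
  let b : Idx d → Lex (Fin M × UCent.Rng d) := fun x =>
    toLex ((Fin.castLE (hle x.1) x.2).rev, ⟨d x.1, UCent.mem_rng d x.1⟩)
  have htri : (cmat d c).BlockTriangular b := by
    rintro ⟨l, i⟩ ⟨k, j⟩ h
    have hor : (i : ℕ) < j ∨ ((i : ℕ) = j ∧ d k < d l) := by
      simp only [b, Prod.Lex.lt_iff, ofLex_toLex] at h
      rcases h with h | ⟨h1, h2⟩
      · rw [Fin.rev_lt_rev] at h
        exact Or.inl h
      · exact Or.inr ⟨(Fin.ext_iff.1 (Fin.rev_injective h1)).symm, h2⟩
    simp only [cmat, Matrix.of_apply]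
    rcases hor with h' | ⟨h1, h2⟩
    · rw [if_neg (by omega)]
    · rw [if_pos h1.ge, cext, dif_neg (by simp only; omega)]
  rw [htri.det_fintype]
  have hblock : ∀ (p : Fin M) (s : UCent.Rng d), ((cmat d c).toSquareBlock b (toLex (p, s))).det =
      if (p.rev : ℕ) < (s : ℕ) then (UCent.lead d c s).det else 1 := by
    intro p s
    by_cases hps : (p.rev : ℕ) < (s : ℕ)
    · rw [if_pos hps]
      let e : Fin (mult d (s : ℕ)) ≃ {x : Idx d // b x = toLex (p, s)} := Equiv.ofBijective
        (fun a => ⟨⟨(UCent.enum d s a).1, ⟨(p.rev : ℕ), by rw [(UCent.enum d s a).2]; exact hps⟩⟩, by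
          simp only [b]
          refine congrArg toLex (Prod.ext ?_ (Subtype.ext (UCent.enum d s a).2))
          exact Fin.rev_eq_iff.2 (Fin.ext rfl)⟩)
        ⟨fun a a' h => (UCent.enum d s).injective (Subtype.ext (congrArg (fun x : {x : Idx d // b x = toLex (p, s)} => x.1.1) h)),
         fun x => by
          obtain ⟨⟨l, i⟩, hx⟩ := x
          obtain ⟨h1, h2⟩ := Prod.ext_iff.1 (toLex.injective hx)
          have h3 : d l = (s : ℕ) := congrArg Subtype.val h2
          refine ⟨(UCent.enum d s).symm ⟨l, h3⟩, Subtype.ext ?_⟩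
          have h4 : (i : ℕ) = (p.rev : ℕ) := congrArg Fin.val (Fin.rev_eq_iff.1 h1)
          simp only
          have h5 : ((UCent.enum d s) ((UCent.enum d s).symm ⟨l, h3⟩)).1 = l := by rw [Equiv.apply_symm_apply]
          exact Sigma.ext h5 ((Fin.heq_ext_iff (congrArg d h5)).2 (by simpa using h4.symm))⟩
      rw [← Matrix.det_submatrix_equiv_self e, ← Matrix.det_transpose (UCent.lead d c s)]
      congr 1
      ext a a'
      show cmat d c ⟨(UCent.enum d s a).1, _⟩ ⟨(UCent.enum d s a').1, _⟩ = mlead d c _ _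
      exact UCent.cmat_diag d c _ _ ((UCent.enum d s a).2.trans (UCent.enum d s a').2.symm) _ _ rfl
    · rw [if_neg hps]
      haveI : IsEmpty {x : Idx d // b x = toLex (p, s)} := ⟨fun ⟨⟨l, i⟩, hx⟩ => by
        obtain ⟨h1, h2⟩ := Prod.ext_iff.1 (toLex.injective hx)
        have h3 : d l = (s : ℕ) := congrArg Subtype.val h2
        have h4 : (i : ℕ) = (p.rev : ℕ) := congrArg Fin.val (Fin.rev_eq_iff.1 h1)
        have := i.2
        omega⟩
      exact Matrix.det_isEmpty
  rw [← toLex.prod_comp (fun k => ((cmat d c).toSquareBlock b k).det), Fintype.prod_prod_type, Finset.prod_comm]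
  refine Finset.prod_congr rfl fun s _ => ?_
  simp only [hblock]
  rw [← Equiv.prod_comp Fin.revPerm, Finset.prod_ite, Finset.prod_const_one, mul_one, Finset.prod_const]
  congr 1
  simp only [Fin.revPerm_apply, Fin.rev_rev]
  have := Finset.mem_range.1 s.2
  rw [show (Finset.univ.filter fun x : Fin M => (x : ℕ) < (s : ℕ)) =
      (Finset.range (s : ℕ)).attachFin (fun n hn => by rw [Finset.mem_range] at hn; omega) by
    ext x; simp, Finset.card_attachFin, Finset.card_range]

include hd in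
/-- The discriminant of a form in terms of the leading discriminants. -/
theorem disc_rel {X Y : Matrix (Idx d) (Idx d) F} (hX : Inv d X) (hY : Inv d Y) (hdX : X.det ≠ 0) :
    IsSquare (X.det * Y.det * ∏ i : UCent.Rng d, ((bm d X i).det * (bm d Y i).det) ^ (i : ℕ)) := by
  obtain ⟨c, rfl⟩ := exists_quot d hd hX hY hdX
  refine ⟨X.det * (∏ i : UCent.Rng d, (bm d X i).det ^ (i : ℕ)) * ∏ i : UCent.Rng d, (UCent.lead d c i).det ^ (i : ℕ), ?_⟩
  have e : ∀ i : UCent.Rng d, ((bm d X i).det * (bm d (X * cmat d c) i).det) ^ (i : ℕ) =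
      (bm d X i).det ^ (i : ℕ) * (bm d X i).det ^ (i : ℕ) * (UCent.lead d c i).det ^ (i : ℕ) := fun i => by
    rw [bm_mul_right d hd hX, Matrix.det_mul, Matrix.det_transpose]; ring
  rw [Finset.prod_congr rfl fun i _ => e i, Finset.prod_mul_distrib, Finset.prod_mul_distrib, Matrix.det_mul,
    det_cmat d hd]
  ring

end Cfsg.Agent.Lib.IsoClassCount.JF
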