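import Cfsg.Agent.Lib.Classical.SympSemisimpleClasses

/-!
Self-reciprocal polynomials, counted with weight two for each of the roots `±1`.
-/

set_option autoImplicit false
set_option linter.unusedSectionVars false

namespace Cfsg.Agent.Lib.IsoClassCount

open Polynomial Finset

universe u
variable {F : Type u} [Field F]

/-- The monic reciprocal polynomial. -/
noncomputable def dualP (P : F[X]) : F[X] := C (P.coeff 0)⁻¹ * P.reverse

theorem dualP_mul (P Q : F[X]) : dualP (P * Q) = dualP P * dualP Q := by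
  rw [dualP, dualP, dualP, reverse_mul_of_domain, mul_coeff_zero, mul_inv, C_mul]
  ring

theorem dualP_one : dualP (1 : F[X]) = 1 := by
  rw [dualP, coeff_one_zero, inv_one, C_1, one_mul, ← C_1, reverse_C]

theorem natDegree_dualP {P : F[X]} (h0 : P.coeff 0 ≠ 0) : (dualP P).natDegree = P.natDegree := by
  rw [dualP, natDegree_C_mul (inv_ne_zero h0), reverse_natDegree,
    natTrailingDegree_eq_zero.2 (Or.inr h0), Nat.sub_zero]

theorem coeff_dualP (P : F[X]) {i : ℕ} (hi : i ≤ P.natDegree) :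
    (dualP P).coeff i = (P.coeff 0)⁻¹ * P.coeff (P.natDegree - i) := by
  rw [dualP, coeff_C_mul, coeff_reverse, revAt_le hi]

theorem monic_dualP {P : F[X]} (h0 : P.coeff 0 ≠ 0) : (dualP P).Monic := by
  rw [Monic, leadingCoeff, natDegree_dualP h0, coeff_dualP P le_rfl, Nat.sub_self, inv_mul_cancel₀ h0]

theorem coeff_zero_dualP {P : F[X]} (hP : P.Monic) : (dualP P).coeff 0 = (P.coeff 0)⁻¹ := by
  rw [coeff_dualP P (Nat.zero_le _), Nat.sub_zero, hP.coeff_natDegree, mul_one]

theorem dualP_dualP {P : F[X]} (hP : P.Monic) (h0 : P.coeff 0 ≠ 0) : dualP (dualP P) = P := by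
  have hd := natDegree_dualP h0
  ext i
  rcases le_or_gt i P.natDegree with hi | hi
  · rw [coeff_dualP _ (hd.symm ▸ hi), coeff_zero_dualP hP, coeff_dualP P (by omega), hd, inv_inv, ← mul_assoc,
      mul_inv_cancel₀ h0, one_mul, Nat.sub_sub_self hi]
  · have h0' : (dualP P).coeff 0 ≠ 0 := by rw [coeff_zero_dualP hP]; exact inv_ne_zero h0
    rw [coeff_eq_zero_of_natDegree_lt (by rw [natDegree_dualP h0', hd]; omega), coeff_eq_zero_of_natDegree_lt hi]

theorem irreducible_dualP {f : F[X]} (hfm : f.Monic) (hf : Irreducible f) (h0 : f.coeff 0 ≠ 0) :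
    Irreducible (dualP f) := by
  refine (monic_dualP h0).irreducible_iff_natDegree.2 ⟨fun h => ?_, fun a b ha hb hab => ?_⟩
  · have := hf.natDegree_pos
    rw [← natDegree_dualP h0, h, natDegree_one] at this
    exact lt_irrefl 0 this
  · have hne : a.coeff 0 ≠ 0 ∧ b.coeff 0 ≠ 0 := by
      have h1 := congrArg (fun P : F[X] => P.coeff 0) hab
      simp only [mul_coeff_zero, coeff_zero_dualP hfm] at h1
      exact mul_ne_zero_iff.1 (h1 ▸ inv_ne_zero h0)
    have h2 := congrArg dualP hab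
    rw [dualP_mul, dualP_dualP hfm h0] at h2
    rcases (hfm.irreducible_iff_natDegree.1 hf).2 _ _ (monic_dualP hne.1) (monic_dualP hne.2) h2 with h | h
    · exact Or.inl (by rwa [natDegree_dualP hne.1] at h)
    · exact Or.inr (by rwa [natDegree_dualP hne.2] at h)

/-- Self-reciprocal up to sign. -/
def SD (P : F[X]) : Prop := P.Monic ∧ P.coeff 0 ≠ 0 ∧ dualP P = P

/-- Palindromic of even degree. -/
def Pal (d : ℕ) (P : F[X]) : Prop := P.Monic ∧ P.natDegree = d + d ∧ P.reverse = P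

theorem Pal.coeff_zero {d : ℕ} {P : F[X]} (h : Pal d P) : P.coeff 0 = 1 :=
  Classical.SympSemisimpleClasses.coeff_zero_of_reverse h.1 h.2.2

theorem Pal.sd {d : ℕ} {P : F[X]} (h : Pal d P) : SD P :=
  ⟨h.1, by rw [h.coeff_zero]; exact one_ne_zero, by rw [dualP, h.coeff_zero, inv_one, C_1, one_mul, h.2.2]⟩

theorem SD.sq {P : F[X]} (h : SD P) : P.coeff 0 * P.coeff 0 = 1 := by
  have h1 := coeff_zero_dualP h.1
  rw [h.2.2] at h1
  nth_rewrite 2 [h1]
  exact mul_inv_cancel₀ h.2.1

theorem SD.pal {P : F[X]} (h : SD P) {d : ℕ} (hd : P.natDegree = d + d) (hc : P.coeff 0 = 1) : Pal d P := by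
  refine ⟨h.1, hd, ?_⟩
  have := h.2.2
  rwa [dualP, hc, inv_one, C_1, one_mul] at this

theorem SD.root {P : F[X]} (h : SD P) {r : F} (hr : r * r = 1) (hne : P.coeff 0 * r ^ P.natDegree ≠ 1) :
    P.IsRoot r := by
  letI : Invertible r := ⟨r, hr, hr⟩
  have h1 := eval₂_reverse_mul_pow (RingHom.id F) r P
  rw [show ⅟r = r from rfl] at h1
  have hrev : P.reverse = C (P.coeff 0) * P := by
    have := h.2.2
    rw [dualP] at this
    calc P.reverse = C (P.coeff 0) * (C (P.coeff 0)⁻¹ * P.reverse) := by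
          rw [← mul_assoc, ← C_mul, mul_inv_cancel₀ h.2.1, C_1, one_mul]
      _ = _ := by rw [this]
  rw [hrev, eval₂_id, eval₂_id, eval_mul, eval_C] at h1
  show P.eval r = 0
  have h2 : (P.coeff 0 * r ^ P.natDegree - 1) * P.eval r = 0 := by linear_combination h1
  exact (mul_eq_zero.1 h2).resolve_left (sub_ne_zero.2 hne)

theorem dualP_X_sub_C {r : F} (hr : r * r = 1) : dualP (X - C r) = X - C r := by
  have hr0 : r ≠ 0 := fun h => one_ne_zero (α := F) (by rw [← hr, h, mul_zero])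
  have h0 : (X - C r).coeff 0 ≠ 0 := by simpa using hr0
  ext i
  rcases Nat.lt_or_ge i 2 with hi | hi
  · rw [coeff_dualP _ (by rw [natDegree_X_sub_C]; omega), natDegree_X_sub_C]
    have e : r⁻¹ = r := inv_eq_of_mul_eq_one_right hr
    interval_cases i <;> simp [e, hr]
  · rw [coeff_eq_zero_of_natDegree_lt (by rw [natDegree_dualP h0, natDegree_X_sub_C]; omega),
      coeff_eq_zero_of_natDegree_lt (by rw [natDegree_X_sub_C]; omega)]

theorem SD.factor {P : F[X]} (h : SD P) {r : F} (hr : r * r = 1) (hroot : P.IsRoot r) :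
    ∃ R, P = (X - C r) * R ∧ SD R ∧ R.natDegree + 1 = P.natDegree ∧ R.coeff 0 = -(r * P.coeff 0) := by
  obtain ⟨R, rfl⟩ := dvd_iff_isRoot.2 hroot
  have hR : R.Monic := (monic_X_sub_C r).of_mul_monic_left h.1
  have h0 := h.2.1
  rw [mul_coeff_zero] at h0
  refine ⟨R, rfl, ⟨hR, right_ne_zero_of_mul h0, ?_⟩, ?_, ?_⟩
  · have h1 := h.2.2
    rw [dualP_mul, dualP_X_sub_C hr] at h1
    exact mul_left_cancel₀ (X_sub_C_ne_zero r) h1
  · rw [(monic_X_sub_C r).natDegree_mul hR, natDegree_X_sub_C, add_comm]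
  · rw [mul_coeff_zero, coeff_sub, coeff_X_zero, coeff_C_zero, zero_sub]
    linear_combination (-R.coeff 0) * hr

theorem Pal.factor_sq {d : ℕ} {P : F[X]} (h : Pal d P) (h2 : (2 : F) ≠ 0) {r : F} (hr : r * r = 1)
    (hroot : P.IsRoot r) :
    ∃ R, P = (X - C r) * ((X - C r) * R) ∧ 1 ≤ d ∧ Pal (d - 1) R := by
  obtain ⟨R1, rfl, hR1, hd1, hc1⟩ := h.sd.factor hr hroot
  rw [h.coeff_zero, mul_one] at hc1
  have hd := h.2.1
  have hodd : Odd R1.natDegree := ⟨d - 1, by omega⟩
  have hroot1 : R1.IsRoot r := hR1.root hr (by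
    rw [hc1]
    obtain ⟨k, hk⟩ := hodd
    rw [hk, pow_succ, pow_mul, pow_two r, hr, one_pow, one_mul, neg_mul, hr]
    intro e
    exact h2 (by linear_combination -e))
  obtain ⟨R2, rfl, hR2, hd2, hc2⟩ := hR1.factor hr hroot1
  refine ⟨R2, rfl, by omega, hR2.pal (by omega) ?_⟩
  rw [hc2, hc1, mul_neg, neg_neg, hr]

theorem Pal.mult_even (h2 : (2 : F) ≠ 0) {r : F} (hr : r * r = 1) :
    ∀ (d : ℕ) {P : F[X]}, Pal d P → Even (rootMultiplicity r P) := by
  intro d
  induction d using Nat.strong_induction_on with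
  | _ d ih =>
    intro P h
    by_cases hroot : P.IsRoot r
    · obtain ⟨R, rfl, hd, hR⟩ := h.factor_sq h2 hr hroot
      have hne : R ≠ 0 := hR.1.ne_zero
      rw [rootMultiplicity_mul (mul_ne_zero (X_sub_C_ne_zero r) (mul_ne_zero (X_sub_C_ne_zero r) hne)),
        rootMultiplicity_mul (mul_ne_zero (X_sub_C_ne_zero r) hne), rootMultiplicity_X_sub_C_self]
      obtain ⟨k, hk⟩ := ih (d - 1) (by omega) hR
      exact ⟨k + 1, by omega⟩
    · rw [rootMultiplicity_eq_zero hroot]; exact Even.zero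

/-- The four shapes. -/
theorem SD.cases {P : F[X]} (h : SD P) (h2 : (2 : F) ≠ 0) :
    (∃ d, Pal d P) ∨ (∃ d R, Pal d R ∧ P = (X - C 1) * R ∧ P.natDegree = d + d + 1) ∨
      (∃ d R, Pal d R ∧ P = (X - C (-1)) * R ∧ P.natDegree = d + d + 1) ∨
      (∃ d R, Pal d R ∧ P = (X - C 1) * ((X - C (-1)) * R) ∧ P.natDegree = d + d + 2) := by
  have hm1 : (-1 : F) * -1 = 1 := by ring
  have hne : (-1 : F) ≠ 1 := fun e => h2 (by linear_combination -e)
  rcases mul_self_eq_one_iff.1 h.sq with hc | hc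
  · rcases Nat.even_or_odd P.natDegree with ⟨d, hd⟩ | ⟨d, hd⟩
    · exact Or.inl ⟨d, h.pal hd hc⟩
    · obtain ⟨R, rfl, hR, hdR, hcR⟩ := h.factor hm1 (h.root hm1 (by
        rw [hc, one_mul, hd, pow_succ, pow_mul, neg_one_sq, one_pow, one_mul]; exact hne))
      exact Or.inr (Or.inr (Or.inl ⟨d, R, hR.pal (by omega) (by rw [hcR, hc]; ring), rfl, by omega⟩))
  · obtain ⟨R, rfl, hR, hdR, hcR⟩ := h.factor (one_mul 1) (h.root (one_mul 1) (by rw [hc, one_pow, mul_one]; exact hne))
    rw [hc, one_mul, neg_neg] at hcR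
    rcases Nat.even_or_odd R.natDegree with ⟨d, hd⟩ | ⟨d, hd⟩
    · exact Or.inr (Or.inl ⟨d, R, hR.pal hd hcR, rfl, by omega⟩)
    · obtain ⟨R', rfl, hR', hdR', hcR'⟩ := hR.factor hm1 (hR.root hm1 (by
        rw [hcR, one_mul, hd, pow_succ, pow_mul, neg_one_sq, one_pow, one_mul]; exact hne))
      exact Or.inr (Or.inr (Or.inr ⟨d, R', hR'.pal (by omega) (by rw [hcR', hcR]; ring), rfl, by omega⟩))

theorem SD.pal_of_even {P : F[X]} (h : SD P) (h2 : (2 : F) ≠ 0) (he : Even (rootMultiplicity (1 : F) P))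
    (he' : Even (rootMultiplicity (-1 : F) P)) : ∃ d, Pal d P := by
  have hm1 : (-1 : F) * -1 = 1 := by ring
  have hne : (-1 : F) ≠ 1 := fun e => h2 (by linear_combination -e)
  have hx : ∀ r s : F, r ≠ s → rootMultiplicity r (X - C s) = 0 := fun r s hrs =>
    rootMultiplicity_eq_zero (by rw [IsRoot, eval_sub, eval_X, eval_C]; exact sub_ne_zero.2 hrs)
  rcases h.cases h2 with hP | ⟨d, R, hR, rfl, -⟩ | ⟨d, R, hR, rfl, -⟩ | ⟨d, R, hR, rfl, -⟩
  · exact hP
  · rw [rootMultiplicity_mul h.1.ne_zero, rootMultiplicity_X_sub_C_self, Nat.even_add] at he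
    exact absurd (he.2 (hR.mult_even h2 (one_mul 1) d)) (by decide)
  · rw [rootMultiplicity_mul h.1.ne_zero, rootMultiplicity_X_sub_C_self, Nat.even_add] at he'
    exact absurd (he'.2 (hR.mult_even h2 hm1 d)) (by decide)
  · have hne' : (X - C (-1 : F)) * R ≠ 0 := mul_ne_zero (X_sub_C_ne_zero _) hR.1.ne_zero
    rw [rootMultiplicity_mul h.1.ne_zero, rootMultiplicity_mul hne', rootMultiplicity_X_sub_C_self,
      hx 1 (-1) hne.symm, zero_add, Nat.even_add] at he
    exact absurd (he.2 (hR.mult_even h2 (one_mul 1) d)) (by decide)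

/-! ### Counting -/

variable [Fintype F]

theorem pal_finite (d : ℕ) : {P : F[X] | Pal d P}.Finite ∧ Nat.card {P : F[X] // Pal d P} = Fintype.card F ^ d := by
  rcases Nat.eq_zero_or_pos d with rfl | hd
  · have e : {P : F[X] | Pal 0 P} = {1} := by
      ext P
      simp only [Set.mem_setOf_eq, Set.mem_singleton_iff]
      constructor
      · exact fun h => eq_one_of_monic_natDegree_zero h.1 h.2.1
      · rintro rfl; exact ⟨monic_one, natDegree_one, by rw [← C_1, reverse_C]⟩
    refine ⟨e ▸ Set.finite_singleton _, ?_⟩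
    show Nat.card {P : F[X] | Pal 0 P} = _
    rw [e, Nat.card_unique, pow_zero]
  · have h := Classical.SympSemisimpleClasses.card_reciprocal (F := F) hd
    haveI : Finite {P : F[X] // Pal d P} := Nat.finite_of_card_ne_zero (by
      show Nat.card {P : F[X] // P.Monic ∧ P.natDegree = d + d ∧ P.reverse = P} ≠ 0
      rw [h]; exact pow_ne_zero _ Fintype.card_ne_zero)
    exact ⟨Set.finite_coe_iff.1 ‹Finite {P : F[X] // Pal d P}›, h⟩

variable (F) in
/-- The palindromic polynomials of degree `2 d`. -/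
noncomputable def palF (d : ℕ) : Finset F[X] := (pal_finite (F := F) d).1.toFinset

theorem mem_palF {d : ℕ} {P : F[X]} : P ∈ palF F d ↔ Pal d P := Set.Finite.mem_toFinset _

theorem card_palF (d : ℕ) : (palF F d).card = Fintype.card F ^ d := by
  rw [← (pal_finite (F := F) d).2, palF, ← Set.ncard_eq_toFinset_card _ (pal_finite (F := F) d).1]
  rfl

open scoped _root_.Classical in
/-- Weight of the roots `±1`. -/
noncomputable def wt (P : F[X]) : ℕ := (if P.IsRoot 1 then 2 else 1) * (if P.IsRoot (-1) then 2 else 1)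

open scoped _root_.Classical in
variable (F) in
/-- All self-reciprocal polynomials of degree `D`. -/
noncomputable def sdF (D : ℕ) : Finset F[X] :=
  if Even D then palF F (D / 2) ∪ (if D = 0 then ∅ else (palF F (D / 2 - 1)).image fun R => (X - C 1) * ((X - C (-1)) * R))
  else ((palF F (D / 2)).image fun R => (X - C 1) * R) ∪ (palF F (D / 2)).image fun R => (X - C (-1)) * R

theorem mem_sdF {P : F[X]} (h : SD P) (h2 : (2 : F) ≠ 0) : P ∈ sdF F P.natDegree := by
  classical
  rw [sdF]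
  rcases h.cases h2 with ⟨d, hd⟩ | ⟨d, R, hR, hP, hd⟩ | ⟨d, R, hR, hP, hd⟩ | ⟨d, R, hR, hP, hd⟩
  · rw [hd.2.1, if_pos ⟨d, rfl⟩, show (d + d) / 2 = d by omega]
    exact Finset.mem_union_left _ (mem_palF.2 hd)
  · rw [hd, if_neg (by rw [Nat.even_iff]; omega), show (d + d + 1) / 2 = d by omega]
    exact Finset.mem_union_left _ (Finset.mem_image.2 ⟨R, mem_palF.2 hR, hP.symm⟩)
  · rw [hd, if_neg (by rw [Nat.even_iff]; omega), show (d + d + 1) / 2 = d by omega]
    exact Finset.mem_union_right _ (Finset.mem_image.2 ⟨R, mem_palF.2 hR, hP.symm⟩)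
  · rw [hd, if_pos ⟨d + 1, by omega⟩, if_neg (by omega), show (d + d + 2) / 2 - 1 = d by omega]
    exact Finset.mem_union_right _ (Finset.mem_image.2 ⟨R, mem_palF.2 hR, hP.symm⟩)

open scoped _root_.Classical in
theorem card_root (h2 : (2 : F) ≠ 0) {r : F} (hr : r * r = 1) (d : ℕ) :
    ((palF F d).filter fun P => P.IsRoot r).card ≤ if d = 0 then 0 else Fintype.card F ^ (d - 1) := by
  rcases Nat.eq_zero_or_pos d with rfl | hd
  · rw [if_pos rfl, Nat.le_zero, Finset.card_eq_zero, Finset.filter_eq_empty_iff]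
    intro P hP
    rw [eq_one_of_monic_natDegree_zero (mem_palF.1 hP).1 (mem_palF.1 hP).2.1, IsRoot, eval_one]
    exact one_ne_zero
  · rw [if_neg hd.ne', ← card_palF]
    refine (Finset.card_le_card (t := (palF F (d - 1)).image fun R => (X - C r) * ((X - C r) * R)) ?_).trans
      Finset.card_image_le
    intro P hP
    obtain ⟨h1, h3⟩ := Finset.mem_filter.1 hP
    obtain ⟨R, rfl, -, hR⟩ := (mem_palF.1 h1).factor_sq h2 hr h3
    exact Finset.mem_image.2 ⟨R, mem_palF.2 hR, rfl⟩

open scoped _root_.Classical in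
theorem card_both (h2 : (2 : F) ≠ 0) (d : ℕ) :
    ((palF F d).filter fun P => P.IsRoot 1 ∧ P.IsRoot (-1)).card ≤ if d < 2 then 0 else Fintype.card F ^ (d - 2) := by
  have hm1 : (-1 : F) * -1 = 1 := by ring
  have key : ∀ P ∈ (palF F d).filter (fun P => P.IsRoot 1 ∧ P.IsRoot (-1)), 2 ≤ d ∧
      P ∈ (palF F (d - 2)).image (fun R => (X - C 1) * ((X - C 1) * ((X - C (-1)) * ((X - C (-1)) * R)))) := by
    intro P hP
    obtain ⟨h1, h3, h4⟩ := Finset.mem_filter.1 hP
    obtain ⟨R, rfl, hd, hR⟩ := (mem_palF.1 h1).factor_sq h2 (one_mul 1) h3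
    have h5 : R.IsRoot (-1) := by
      simp only [IsRoot, eval_mul, eval_sub, eval_X, eval_C] at h4
      have h12 : (-1 - 1 : F) ≠ 0 := fun e => h2 (by linear_combination -e)
      exact (mul_eq_zero.1 ((mul_eq_zero.1 h4).resolve_left h12)).resolve_left h12
    obtain ⟨R', rfl, hd', hR'⟩ := hR.factor_sq h2 hm1 h5
    exact ⟨by omega, Finset.mem_image.2 ⟨R', mem_palF.2 (by rwa [show d - 1 - 1 = d - 2 by omega] at hR'), rfl⟩⟩
  split_ifs with hd
  · rw [Nat.le_zero, Finset.card_eq_zero, Finset.eq_empty_iff_forall_notMem]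
    intro P hP
    have := (key P hP).1
    omega
  · rw [← card_palF]
    exact (Finset.card_le_card fun P hP => (key P hP).2).trans Finset.card_image_le

theorem sum_union_le' {α : Type*} [DecidableEq α] (A B : Finset α) (f : α → ℕ) :
    ∑ x ∈ A ∪ B, f x ≤ ∑ x ∈ A, f x + ∑ x ∈ B, f x := by
  rw [← Finset.sum_union_inter]; exact Nat.le_add_right _ _

theorem sum_image_le' {α β : Type*} [DecidableEq β] (A : Finset α) (g : α → β) (f : β → ℕ) :
    ∑ x ∈ A.image g, f x ≤ ∑ x ∈ A, f (g x) :=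
  Finset.sum_image_le_of_nonneg (fun _ _ => Nat.zero_le _)

/-- Weighted count of even degree. -/
theorem wt_even (h2 : (2 : F) ≠ 0) (d : ℕ) :
    ∑ P ∈ sdF F (d + d), wt P ≤ Fintype.card F ^ d + (if d = 0 then 0 else 6 * Fintype.card F ^ (d - 1)) +
      (if d < 2 then 0 else Fintype.card F ^ (d - 2)) := by
  classical
  rw [sdF, if_pos ⟨d, rfl⟩, show (d + d) / 2 = d by omega]
  have h1 : ∑ P ∈ palF F d, wt P = (palF F d).card + ((palF F d).filter fun P => P.IsRoot 1).card +
      ((palF F d).filter fun P => P.IsRoot (-1)).card +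
      ((palF F d).filter fun P => P.IsRoot 1 ∧ P.IsRoot (-1)).card := by
    rw [Finset.card_filter, Finset.card_filter, Finset.card_filter, Finset.card_eq_sum_ones, ← Finset.sum_add_distrib,
      ← Finset.sum_add_distrib, ← Finset.sum_add_distrib]
    refine Finset.sum_congr rfl fun P _ => ?_
    unfold wt
    by_cases a : P.IsRoot 1 <;> by_cases b : P.IsRoot (-1) <;>
      simp only [a, b, and_self, and_true, and_false, if_true, if_false, mul_one, one_mul, add_zero, reduceIte]
  have h2' := card_root h2 (one_mul 1) d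
  have h3 := card_root h2 (show (-1 : F) * -1 = 1 by ring) d
  have h4 := card_both h2 d
  refine (sum_union_le' _ _ _).trans ?_
  rcases Nat.eq_zero_or_pos d with rfl | hd
  · rw [if_pos rfl] at h2' h3
    rw [if_pos (show (0 : ℕ) < 2 by omega)] at h4
    rw [if_pos (show (0 + 0 : ℕ) = 0 from rfl), Finset.sum_empty, h1, card_palF]
    simp only [if_true, reduceIte]
    omega
  · rw [if_neg (show d + d ≠ 0 by omega), if_neg hd.ne']
    rw [if_neg hd.ne'] at h2' h3
    have h5 : ∑ P ∈ (palF F (d - 1)).image (fun R => (X - C 1) * ((X - C (-1)) * R)), wt P ≤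
        4 * Fintype.card F ^ (d - 1) := by
      refine (sum_image_le' _ _ _).trans ?_
      refine (Finset.sum_le_card_nsmul _ _ 4 fun R _ => ?_).trans (by rw [card_palF, smul_eq_mul, mul_comm])
      unfold wt
      split_ifs <;> norm_num
    rw [h1, card_palF]
    omega

/-- Weighted count of odd degree. -/
theorem wt_odd (h2 : (2 : F) ≠ 0) (d : ℕ) :
    ∑ P ∈ sdF F (d + d + 1), wt P ≤ 4 * Fintype.card F ^ d + (if d = 0 then 0 else 4 * Fintype.card F ^ (d - 1)) := by
  classical
  have hne : (-1 : F) ≠ 1 := fun e => h2 (by linear_combination -e)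
  rw [sdF, if_neg (by rw [Nat.even_iff]; omega), show (d + d + 1) / 2 = d by omega]
  refine (sum_union_le' _ _ _).trans ?_
  have key : ∀ r s : F, (r = 1 ∧ s = -1) ∨ (r = -1 ∧ s = 1) → s * s = 1 →
      ∑ P ∈ (palF F d).image (fun R => (X - C r) * R), wt P ≤
        2 * Fintype.card F ^ d + (if d = 0 then 0 else 2 * Fintype.card F ^ (d - 1)) := by
    intro r s hrs hs
    refine (sum_image_le' _ _ _).trans ?_
    have e : ∀ R : F[X], wt ((X - C r) * R) = 2 + 2 * (if R.IsRoot s then 1 else 0) := by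
      intro R
      unfold wt
      rcases hrs with ⟨rfl, rfl⟩ | ⟨rfl, rfl⟩
      · have : ((X - C (1 : F)) * R).IsRoot (-1) ↔ R.IsRoot (-1) := by
          simp only [IsRoot, eval_mul, eval_sub, eval_X, eval_C, mul_eq_zero, sub_eq_zero, hne, false_or]
        have h1 : ((X - C (1 : F)) * R).IsRoot 1 := root_mul_right_of_isRoot _ (root_X_sub_C.2 rfl)
        by_cases h : R.IsRoot (-1) <;> simp only [this, h, h1, if_true, if_false, mul_one, mul_zero, add_zero, reduceIte]
      · have : ((X - C (-1 : F)) * R).IsRoot 1 ↔ R.IsRoot 1 := by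
          simp only [IsRoot, eval_mul, eval_sub, eval_X, eval_C, mul_eq_zero, sub_eq_zero, hne.symm, false_or]
        have h1 : ((X - C (-1 : F)) * R).IsRoot (-1) := root_mul_right_of_isRoot _ (root_X_sub_C.2 rfl)
        by_cases h : R.IsRoot 1 <;> simp only [this, h, h1, if_true, if_false, mul_one, one_mul, mul_zero, add_zero, reduceIte]
    simp only [e]
    rw [Finset.sum_add_distrib, Finset.sum_const, smul_eq_mul, card_palF, ← Finset.mul_sum, ← Finset.card_filter]
    have := card_root h2 hs d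
    split_ifs at this ⊢ <;> omega
  have := key 1 (-1) (Or.inl ⟨rfl, rfl⟩) (by ring)
  have := key (-1) 1 (Or.inr ⟨rfl, rfl⟩) (one_mul 1)
  split_ifs at * <;> omega

end Cfsg.Agent.Lib.IsoClassCount
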