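import Cfsg.Agent.Lib.IsoClassCount.Classes
import Cfsg.Agent.Lib.IsoClassCount.Poly

/-!
Lower bounds: characteristic polynomials of orthogonal matrices.
-/

set_option autoImplicit false
set_option linter.unusedSectionVars false

namespace Cfsg.Agent.Lib.IsoClassCount

open Matrix Polynomial

universe u
variable {F : Type u} [Field F] [Fintype F]

/-- `A` preserves a nondegenerate symmetric form of the given discriminant class. -/
def Realizes {ι : Type} [Fintype ι] [DecidableEq ι] (A B : Matrix ι ι F) (P : F[X]) : Prop :=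
  A.charpoly = P ∧ Bᵀ = B ∧ B.det ≠ 0 ∧ Aᵀ * B * A = B

theorem Realizes.reindex {ι κ : Type} [Fintype ι] [DecidableEq ι] [Fintype κ] [DecidableEq κ] {A B : Matrix ι ι F}
    {P : F[X]} (h : Realizes A B P) (e : ι ≃ κ) : Realizes (Matrix.reindex e e A) (Matrix.reindex e e B) P := by
  obtain ⟨h1, h2, h3, h4⟩ := h
  refine ⟨by rw [Matrix.charpoly_reindex, h1], by rw [Matrix.transpose_reindex, h2],
    by rw [Matrix.det_reindex_self]; exact h3, ?_⟩
  simp only [Matrix.reindex_apply, Matrix.transpose_submatrix, Matrix.submatrix_mul_equiv]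
  rw [h4]

theorem det_J {m : ℕ} : (Matrix.J (Fin m) F).det = 1 := by
  have h1 : Matrix.fromBlocks (1 : Matrix (Fin m) (Fin m) F) 1 0 1 * Matrix.J (Fin m) F =
      Matrix.fromBlocks 1 (-1) 1 0 := by
    simp [Matrix.J, Matrix.fromBlocks_multiply]
  have h2 := congrArg Matrix.det h1
  rw [det_mul, Matrix.det_fromBlocks_zero₂₁, det_one, one_mul, one_mul, Matrix.det_fromBlocks_one₁₁] at h2
  simpa using h2

/-- Without eigenvalues `±1`. -/
theorem realize_generic {d : ℕ} {P : F[X]} (hP : Pal d P) (h1 : ¬ P.IsRoot 1) (h1' : ¬ P.IsRoot (-1)) :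
    ∃ A B : Matrix (Fin (d + d)) (Fin (d + d)) F, Realizes A B P ∧ B.det = P.eval 1 * P.eval (-1) := by
  obtain ⟨S, hS⟩ := Classical.SympSemisimpleClasses.exists_symplectic hP.1 hP.2.1 hP.2.2
  set A : Matrix (Fin d ⊕ Fin d) (Fin d ⊕ Fin d) F := S.1 with hA
  set J : Matrix (Fin d ⊕ Fin d) (Fin d ⊕ Fin d) F := Matrix.J (Fin d) F with hJ
  have hu : IsUnit A.det := SymplecticGroup.symplectic_det S.2
  have hinv : Aᵀ * J * A = J := SymplecticGroup.mem_iff'.1 S.2
  have hmove : J * A⁻¹ = Aᵀ * J := by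
    conv_lhs => rw [← hinv, Matrix.mul_nonsing_inv_cancel_right _ _ hu]
  have hJT : Jᵀ = -J := Matrix.J_transpose _ _
  set B := J * A - J * A⁻¹ with hB
  have hBT : Bᵀ = B := by
    have h' : (A⁻¹)ᵀ * J = J * A := by
      calc (A⁻¹)ᵀ * J = (A⁻¹)ᵀ * (Aᵀ * J * A) := by rw [hinv]
        _ = (A * A⁻¹)ᵀ * J * A := by simp only [transpose_mul, mul_assoc]
        _ = _ := by rw [mul_nonsing_inv _ hu, transpose_one, one_mul]
    rw [hB, transpose_sub, transpose_mul, transpose_mul, hJT, Matrix.mul_neg, Matrix.mul_neg, h', ← hmove]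
    abel
  have hinvB : Aᵀ * B * A = B := by
    rw [hB, mul_sub, sub_mul]
    congr 1
    · rw [← mul_assoc Aᵀ J A, hinv]
    · rw [hmove]
      calc Aᵀ * (Aᵀ * J) * A = Aᵀ * (Aᵀ * J * A) := by simp only [mul_assoc]
        _ = _ := by rw [hinv]
  have hcard : Fintype.card (Fin d ⊕ Fin d) = d + d := by simp
  have hdA : A.det = 1 := by
    rw [Matrix.det_eq_sign_charpoly_coeff, hcard, hA, hS, hP.coeff_zero, mul_one, ← two_mul, pow_mul, neg_one_sq,
      one_pow]
  have hev : ∀ t : F, (A - t • 1).det = P.eval t := fun t => by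
    rw [← hS, Matrix.eval_charpoly, Matrix.scalar_apply, ← Matrix.smul_one_eq_diagonal]
    rw [show A - t • 1 = -(t • 1 - A) by abel, det_neg, hcard, ← two_mul, pow_mul, neg_one_sq, one_pow, one_mul]
  have hBd : B.det = P.eval 1 * P.eval (-1) := by
    have e : B * A = J * ((A - (1 : F) • 1) * (A - (-1 : F) • 1)) := by
      rw [hB, sub_mul, Matrix.nonsing_inv_mul_cancel_right _ _ hu, one_smul, neg_one_smul, sub_neg_eq_add, mul_add,
        sub_mul, sub_mul, one_mul, mul_one, mul_one]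
      simp only [mul_add, mul_sub, mul_one, mul_assoc]
      abel
    have := congrArg Matrix.det e
    rwa [det_mul, det_mul, det_mul, hdA, mul_one, hJ, det_J, one_mul, hev, hev] at this
  have hR : Realizes A B P := ⟨hS, hBT, by rw [hBd]; exact mul_ne_zero h1 h1', hinvB⟩
  exact ⟨_, _, hR.reindex finSumFinEquiv, by rw [Matrix.det_reindex_self, hBd]⟩

/-- Adding a plane on which the element is `r`. -/
theorem realize_plane {d : ℕ} {R : F[X]} {A B : Matrix (Fin (d + d)) (Fin (d + d)) F} (h : Realizes A B R)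
    {r : F} (hr : r * r = 1) {δ : F} (hδ : δ ≠ 0) :
    ∃ A' B' : Matrix (Fin (d + 1 + (d + 1))) (Fin (d + 1 + (d + 1))) F,
      Realizes A' B' ((X - C r) * ((X - C r) * R)) ∧ B'.det = B.det * δ := by
  obtain ⟨h1, h2, h3, h4⟩ := h
  let e : Fin (d + d) ⊕ Fin 2 ≃ Fin (d + 1 + (d + 1)) := finSumFinEquiv.trans (finCongr (by omega))
  let A0 : Matrix (Fin (d + d) ⊕ Fin 2) (Fin (d + d) ⊕ Fin 2) F := Matrix.fromBlocks A 0 0 (r • 1)
  let B0 : Matrix (Fin (d + d) ⊕ Fin 2) (Fin (d + d) ⊕ Fin 2) F := Matrix.fromBlocks B 0 0 (Matrix.diagonal ![1, δ])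
  have hdet : B0.det = B.det * δ := by
    simp [B0, Matrix.det_fromBlocks_zero₂₁, Matrix.det_diagonal, Fin.prod_univ_two]
  have hR : Realizes A0 B0 ((X - C r) * ((X - C r) * R)) := by
    refine ⟨?_, ?_, by rw [hdet]; exact mul_ne_zero h3 hδ, ?_⟩
    · rw [Matrix.charpoly_fromBlocks_zero₁₂, h1, Matrix.smul_one_eq_diagonal, Matrix.charpoly_diagonal,
        Fin.prod_univ_two]
      ring
    · simp [B0, Matrix.fromBlocks_transpose, h2, Matrix.diagonal_transpose]
    · have e2 : (r • (1 : Matrix (Fin 2) (Fin 2) F)) * Matrix.diagonal ![1, δ] * (r • 1) = Matrix.diagonal ![1, δ] := by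
        rw [Matrix.smul_mul, Matrix.smul_mul, Matrix.mul_smul, smul_smul, one_mul, mul_one, hr, one_smul]
      simp only [A0, B0, Matrix.fromBlocks_transpose, Matrix.fromBlocks_multiply, Matrix.transpose_zero, Matrix.transpose_smul,
        Matrix.transpose_one, mul_zero, zero_mul, Matrix.mul_zero, Matrix.zero_mul, add_zero, zero_add, h4, e2]
  exact ⟨_, _, hR.reindex e, by rw [Matrix.det_reindex_self, hdet]⟩

theorem realize_any (h2 : (2 : F) ≠ 0) : ∀ (d : ℕ) {P : F[X]}, Pal d P →
    ∃ A B : Matrix (Fin (d + d)) (Fin (d + d)) F, Realizes A B P := by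
  intro d
  induction d using Nat.strong_induction_on with
  | _ d ih =>
    intro P hP
    by_cases hroot : P.IsRoot 1 ∨ P.IsRoot (-1)
    · obtain ⟨r, hr, hr'⟩ : ∃ r : F, r * r = 1 ∧ P.IsRoot r :=
        hroot.elim (fun h => ⟨1, one_mul 1, h⟩) (fun h => ⟨-1, by ring, h⟩)
      obtain ⟨R, rfl, hd, hR⟩ := hP.factor_sq h2 hr hr'
      obtain ⟨A, B, h⟩ := ih (d - 1) (by omega) hR
      obtain ⟨e, rfl⟩ : ∃ e, d = e + 1 := ⟨d - 1, by omega⟩
      obtain ⟨A', B', h', -⟩ := realize_plane (d := e) (A := A) (B := B) h hr one_ne_zero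
      exact ⟨A', B', h'⟩
    · obtain ⟨A, B, h, -⟩ := realize_generic hP (fun h => hroot (Or.inl h)) (fun h => hroot (Or.inr h))
      exact ⟨A, B, h⟩

open scoped _root_.Classical in
/-- Half of all palindromic polynomials occur for each form. -/
theorem orth_lower (h2 : (2 : F) ≠ 0) {m : ℕ} (hm : 2 ≤ m) (G : Matrix (Fin (m + m)) (Fin (m + m)) F)
    (hG : G.det ≠ 0) (hGs : Gᵀ = G) :
    Fintype.card F ^ m ≤ 2 * Nat.card (ConjClasses ↥(Iso G)) := by
  classical
  let good : F[X] → Prop := fun P => IsSquare (P.eval 1 * P.eval (-1) * G.det)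
  have real : ∀ P, Pal m P → good P → ∃ g : ↥(Iso G), (Units.val (g : GL (Fin (m + m)) F)).charpoly = P := by
    intro P hP hgood
    obtain ⟨A, B, ⟨hAP, hBs, hBd, hBA⟩, hdet⟩ : ∃ A B : Matrix (Fin (m + m)) (Fin (m + m)) F,
        Realizes A B P ∧ IsSquare (B.det * G.det) := by
      by_cases hroot : P.IsRoot 1 ∨ P.IsRoot (-1)
      · obtain ⟨r, hr, hr'⟩ : ∃ r : F, r * r = 1 ∧ P.IsRoot r :=
          hroot.elim (fun h => ⟨1, one_mul 1, h⟩) (fun h => ⟨-1, by ring, h⟩)
        obtain ⟨R, rfl, -, hR⟩ := hP.factor_sq h2 hr hr'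
        obtain ⟨A, B, h⟩ := realize_any h2 (m - 1) hR
        obtain ⟨e, rfl⟩ : ∃ e, m = e + 1 := ⟨m - 1, by omega⟩
        have hB0 : B.det ≠ 0 := h.2.2.1
        obtain ⟨A', B', h', hd'⟩ := realize_plane (d := e) (A := A) (B := B) h hr
          (δ := G.det / B.det) (div_ne_zero hG hB0)
        refine ⟨A', B', h', ?_⟩
        rw [hd', mul_div_cancel₀ _ hB0]
        exact ⟨G.det, rfl⟩
      · obtain ⟨A, B, h, hd⟩ := realize_generic hP (fun h => hroot (Or.inl h)) (fun h => hroot (Or.inr h))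
        exact ⟨A, B, h, by rw [hd]; exact hgood⟩
    obtain ⟨p, hp⟩ := AutPSL.congr_symm h2 hBs hGs hBd hG hdet
    have hAu : IsUnit A := by
      refine (Matrix.isUnit_iff_isUnit_det _).2 (isUnit_iff_ne_zero.2 fun h0 => hBd ?_)
      rw [← hBA, det_mul, h0, mul_zero]
    set g : GL (Fin (m + m)) F := p⁻¹ * hAu.unit * p with hg
    have hgI : g ∈ Iso G := by
      have hpp : (p : Matrix (Fin (m + m)) (Fin (m + m)) F) * ((p⁻¹ : GL (Fin (m + m)) F) : Matrix _ _ F) = 1 :=
        Units.mul_inv p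
      rw [mem_Iso, hg, Units.val_mul, Units.val_mul, IsUnit.unit_spec]
      conv_rhs => rw [← hp, ← hBA]
      conv_lhs => rw [← hp]
      calc _ = (p : Matrix (Fin (m + m)) (Fin (m + m)) F)ᵀ * Aᵀ *
            ((p : Matrix (Fin (m + m)) (Fin (m + m)) F) * ((p⁻¹ : GL (Fin (m + m)) F) : Matrix _ _ F))ᵀ * B *
            ((p : Matrix (Fin (m + m)) (Fin (m + m)) F) * ((p⁻¹ : GL (Fin (m + m)) F) : Matrix _ _ F)) * A *
            (p : Matrix (Fin (m + m)) (Fin (m + m)) F) := by
            simp only [transpose_mul, mul_assoc]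
        _ = _ := by rw [hpp, transpose_one, mul_one, mul_one]; simp only [mul_assoc]
    refine ⟨⟨g, hgI⟩, ?_⟩
    show (Units.val g).charpoly = P
    rw [hg, Units.val_mul, Units.val_mul, IsUnit.unit_spec]
    have := Matrix.charpoly_units_conj' p A
    rw [← Matrix.coe_units_inv] at this
    rw [this, hAP]
  -- the good polynomials are at least half
  have hhalf : Fintype.card F ^ m ≤ 2 * ((palF F m).filter good).card := by
    obtain ⟨ν, hν⟩ := FiniteField.exists_nonsquare (F := F) (fun h => h2 (by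
      have := ringChar.Nat.cast_ringChar (R := F)
      rw [h] at this; exact_mod_cast this))
    let w : F[X] → F := fun P => (ν - 1) * P.eval (-1) * (-1) ^ m
    let T : F → F[X] := fun c => C (c / 2) * X ^ m - C (c / 4) * (X ^ (m - 1) + X ^ (m + 1))
    have h4 : (4 : F) ≠ 0 := by rw [show (4 : F) = 2 * 2 by norm_num]; exact mul_ne_zero h2 h2
    obtain ⟨k, hk⟩ : ∃ k, m = k + 1 := ⟨m - 1, by omega⟩
    have hTev : ∀ c, (T c).eval 1 = 0 ∧ (T c).eval (-1) = (-1) ^ m * c := by
      intro c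
      subst hk
      simp only [T, eval_sub, eval_mul, eval_C, eval_pow, eval_X, eval_add, one_pow, Nat.add_sub_cancel, pow_succ]
      constructor <;> field_simp <;> ring
    have hTc : ∀ c i, i ≤ m + m → (T c).coeff (m + m - i) = (T c).coeff i := by
      intro c i hi
      simp only [T, coeff_sub, coeff_C_mul, coeff_add, coeff_X_pow]
      split_ifs <;> (try omega) <;> ring
    have hTd : ∀ c, (T c).natDegree < m + m := fun c => by
      refine lt_of_le_of_lt (natDegree_sub_le _ _) (max_lt ?_ ?_)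
      · exact lt_of_le_of_lt (natDegree_C_mul_X_pow_le _ _) (by omega)
      · refine lt_of_le_of_lt (natDegree_C_mul_le _ _) (lt_of_le_of_lt (natDegree_add_le _ _) (max_lt ?_ ?_)) <;>
          exact lt_of_le_of_lt (natDegree_X_pow_le _) (by omega)
    have hpal : ∀ P, Pal m P → ∀ c, Pal m (P + T c) := by
      intro P hP c
      have hd : (P + T c).natDegree = m + m := by
        rw [natDegree_add_eq_left_of_natDegree_lt (by rw [hP.2.1]; exact hTd c), hP.2.1]
      refine ⟨?_, hd, ?_⟩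
      · rw [Monic, leadingCoeff, hd, coeff_add, coeff_eq_zero_of_natDegree_lt (hTd c), add_zero, ← hP.2.1]
        exact hP.1
      · ext i
        rw [coeff_reverse, hd]
        rcases le_or_gt i (m + m) with hi | hi
        · rw [revAt_le hi, coeff_add, coeff_add, hTc c i hi]
          congr 1
          conv_rhs => rw [← hP.2.2, coeff_reverse, hP.2.1, revAt_le hi]
        · rw [revAt_eq_self_of_lt hi]
    let φ : F[X] → F[X] := fun P => P + T (w P)
    have hev : ∀ P, (φ P).eval 1 = P.eval 1 ∧ (φ P).eval (-1) = ν * P.eval (-1) := by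
      intro P
      obtain ⟨e1, e2⟩ := hTev (w P)
      refine ⟨by rw [eval_add, e1, add_zero], ?_⟩
      rw [eval_add, e2]
      have hs : ((-1 : F) ^ m) * (-1) ^ m = 1 := by rw [← mul_pow, neg_mul_neg, one_mul, one_pow]
      simp only [w]
      linear_combination ((ν - 1) * P.eval (-1)) * hs
    have hbad : ((palF F m).filter fun P => ¬ good P).card ≤ ((palF F m).filter good).card := by
      refine Finset.card_le_card_of_injOn φ (fun P hP => ?_) fun P _ P' _ e => ?_
      · obtain ⟨hP1, hP2⟩ := Finset.mem_filter.1 (Finset.mem_coe.1 hP)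
        refine Finset.mem_coe.2 (Finset.mem_filter.2 ⟨mem_palF.2 (hpal P (mem_palF.1 hP1) _), ?_⟩)
        show IsSquare ((φ P).eval 1 * (φ P).eval (-1) * G.det)
        rw [(hev P).1, (hev P).2, show P.eval 1 * (ν * P.eval (-1)) * G.det = ν * (P.eval 1 * P.eval (-1) * G.det) by ring]
        have hz : P.eval 1 * P.eval (-1) * G.det ≠ 0 := fun e => hP2 (by
          show IsSquare (_ * _ * _); rw [e]; exact IsSquare.zero)
        exact isSquare_mul_of_iff (fun e => hν (by rw [e]; exact IsSquare.zero)) hz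
          ⟨fun h => absurd h hν, fun h => absurd h hP2⟩
      · have hν0 : ν ≠ 0 := fun e => hν (by rw [e]; exact IsSquare.zero)
        have h' := congrArg (fun Q : F[X] => Q.eval (-1)) e
        simp only [(hev P).2, (hev P').2] at h'
        have hw : w P = w P' := by simp only [w, mul_left_cancel₀ hν0 h']
        simp only [φ, hw] at e
        exact add_right_cancel e
    have := Finset.card_filter_add_card_filter_not (s := palF F m) good
    rw [card_palF] at this
    omega
  refine hhalf.trans (Nat.mul_le_mul_left 2 ?_)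
  let cp : ConjClasses ↥(Iso G) → F[X] := Quotient.lift
    (fun g => (Units.val (g : GL (Fin (m + m)) F)).charpoly) fun g g' h => by
      obtain ⟨c, hc⟩ := isConj_iff.1 h
      subst hc
      show _ = (Units.val (((c * g * c⁻¹ : ↥(Iso G)) : GL (Fin (m + m)) F))).charpoly
      rw [Subgroup.coe_mul, Subgroup.coe_mul, InvMemClass.coe_inv, Units.val_mul, Units.val_mul, Matrix.coe_units_inv,
        Matrix.charpoly_units_conj]
  haveI : Fintype (ConjClasses ↥(Iso G)) := Fintype.ofFinite _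
  rw [Nat.card_eq_fintype_card, ← Finset.card_univ]
  refine Finset.card_le_card_of_surjOn cp fun P hP => ?_
  obtain ⟨hP1, hP2⟩ := Finset.mem_filter.1 (Finset.mem_coe.1 hP)
  obtain ⟨g, hg⟩ := real P (mem_palF.1 hP1) hP2
  exact ⟨ConjClasses.mk g, Finset.mem_coe.2 (Finset.mem_univ _), hg⟩

end Cfsg.Agent.Lib.IsoClassCount
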