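import Mathlib

/-!
Numerical bounds for the products.
-/

set_option autoImplicit false

namespace Cfsg.Agent.Lib.IsoClassCount.Numeric

open Finset

theorem weier {c r : ℝ} (hc : 0 ≤ c) (hr0 : 0 ≤ r) (hr : r ≤ 1 / 3) (hc1 : c ≤ 1 / 2) (M : ℕ) :
    1 - 3 / 2 * c ≤ ∏ k ∈ range M, (1 - c * r ^ k) := by
  have key : ∀ M, 1 - c * ∑ k ∈ range M, r ^ k ≤ ∏ k ∈ range M, (1 - c * r ^ k) ∧
      ∑ k ∈ range M, r ^ k ≤ 3 / 2 := by
    intro M
    have hsum : ∀ M, ∑ k ∈ range M, r ^ k ≤ 3 / 2 := fun M => by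
      have : (∑ k ∈ range M, r ^ k) * (1 - r) = 1 - r ^ M := by
        induction M with
        | zero => simp
        | succ M ih => rw [Finset.sum_range_succ, add_mul, ih]; ring
      nlinarith [pow_nonneg hr0 M, Finset.sum_nonneg (fun k (_ : k ∈ range M) => pow_nonneg hr0 k)]
    refine ⟨?_, hsum M⟩
    induction M with
    | zero => simp
    | succ M ih =>
      rw [Finset.prod_range_succ, Finset.sum_range_succ]
      have h0 := pow_nonneg hr0 M
      have h1 : c * r ^ M ≤ 1 / 2 := le_trans (mul_le_of_le_one_right hc (pow_le_one₀ hr0 (by linarith))) hc1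
      have h2 := mul_le_mul_of_nonneg_right ih (show 0 ≤ 1 - c * r ^ M by linarith)
      have h3 := mul_nonneg (mul_nonneg hc (Finset.sum_nonneg (fun k (_ : k ∈ range M) => pow_nonneg hr0 k)))
        (mul_nonneg hc h0)
      nlinarith
  obtain ⟨h1, h2⟩ := key M
  nlinarith [mul_le_mul_of_nonneg_left h2 hc]

theorem prod_inv_le {c r : ℝ} (hc : 0 ≤ c) (hr0 : 0 ≤ r) (hr : r ≤ 1 / 3) (hc1 : c ≤ 1 / 2) (M : ℕ) :
    ∏ k ∈ range M, 1 / (1 - c * r ^ k) ≤ 1 / (1 - 3 / 2 * c) ∧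
      ∏ k ∈ range M, (1 + c * r ^ k) ≤ 1 / (1 - 3 / 2 * c) := by
  have hpos : ∀ k, 0 < 1 - c * r ^ k := fun k => by
    have := le_trans (mul_le_of_le_one_right hc (pow_le_one₀ (n := k) hr0 (by linarith))) hc1
    linarith
  have h1 : ∏ k ∈ range M, 1 / (1 - c * r ^ k) ≤ 1 / (1 - 3 / 2 * c) := by
    rw [show ∏ k ∈ range M, 1 / (1 - c * r ^ k) = 1 / ∏ k ∈ range M, (1 - c * r ^ k) by
      rw [Finset.prod_div_distrib, Finset.prod_const_one]]
    exact one_div_le_one_div_of_le (by linarith) (weier hc hr0 hr hc1 M)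
  refine ⟨h1, le_trans (Finset.prod_le_prod (fun k _ => by positivity) fun k _ => ?_) h1⟩
  rw [le_div_iff₀ (hpos k)]
  nlinarith [sq_nonneg (c * r ^ k)]

/-- Split off eight terms. -/
theorem split8 (f : ℕ → ℝ) (hf : ∀ k, 1 ≤ f k) (N : ℕ) {B : ℝ} (hB : ∀ M, ∏ k ∈ range M, f (8 + k) ≤ B) :
    ∏ k ∈ range N, f k ≤ (∏ k ∈ range 8, f k) * B := by
  refine le_trans (Finset.prod_le_prod_of_subset_of_one_le (Finset.range_mono (Nat.le_add_left N 8))
    (fun k _ => le_trans zero_le_one (hf k)) fun k _ _ => hf k) ?_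
  rw [Finset.prod_range_add]
  exact mul_le_mul_of_nonneg_left (hB N) (Finset.prod_nonneg fun k _ => le_trans zero_le_one (hf k))

theorem inv_prod_le {u : ℝ} (hu0 : 0 ≤ u) (hu : u ≤ 1 / 3) (N : ℕ) :
    ∏ k ∈ range N, 1 / (1 - u ^ (k + 1)) ≤ 1786 / 1000 := by
  have hlt : ∀ k, (1 / 3 : ℝ) ^ (k + 1) < 1 := fun k => pow_lt_one₀ (by norm_num) (by norm_num) (Nat.succ_ne_zero k)
  have hmono : ∀ k, u ^ (k + 1) ≤ (1 / 3 : ℝ) ^ (k + 1) := fun k => pow_le_pow_left₀ hu0 hu _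
  refine le_trans (Finset.prod_le_prod (g := fun k => 1 / (1 - (1 / 3 : ℝ) ^ (k + 1))) (fun k _ => by
    have := hmono k; have := hlt k
    exact div_nonneg zero_le_one (by linarith)) fun k _ => by
    have := hmono k; have := hlt k
    exact one_div_le_one_div_of_le (by linarith) (by linarith)) ?_
  refine le_trans (split8 (B := 1 / (1 - 3 / 2 * (1 / 3) ^ 9)) _ (fun k => ?_) N fun M => ?_) ?_
  · have := hlt k
    rw [le_div_iff₀ (by linarith)]
    linarith [pow_nonneg (show (0 : ℝ) ≤ 1 / 3 by norm_num) (k + 1)]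
  · refine le_trans (le_of_eq (Finset.prod_congr rfl fun k _ => ?_))
      (prod_inv_le (c := (1 / 3) ^ 9) (r := 1 / 3) (by norm_num) (by norm_num) le_rfl (by norm_num) M).1
    ring
  · norm_num [Finset.prod_range_succ]

theorem plus_prod_le {u w : ℝ} (hu0 : 0 ≤ u) (hu : u ≤ 1 / 3) (hw0 : 0 ≤ w) (hw : w ≤ 1) (N : ℕ) :
    ∏ k ∈ range N, (1 + w * u ^ (k + 1)) ^ 4 ≤
      (∏ k ∈ range 8, (1 + w * (1 / 3 : ℝ) ^ (k + 1))) ^ 4 * (1 / (1 - 3 / 2 * (1 / 3) ^ 9)) ^ 4 := by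
  rw [Finset.prod_pow, ← mul_pow]
  refine pow_le_pow_left₀ (Finset.prod_nonneg fun k _ => by positivity) ?_ 4
  refine le_trans (Finset.prod_le_prod (g := fun k => 1 + w * (1 / 3 : ℝ) ^ (k + 1)) (fun k _ => by positivity)
    fun k _ => by gcongr) ?_
  refine split8 _ (fun k => by simp only [le_add_iff_nonneg_right]; positivity) N fun M => ?_
  refine le_trans (Finset.prod_le_prod (g := fun k => 1 + (1 / 3 : ℝ) ^ 9 * (1 / 3) ^ k) (fun k _ => by positivity)
    fun k _ => ?_) (prod_inv_le (by norm_num) (by norm_num) le_rfl (by norm_num) M).2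
  rw [← pow_add]
  have : w * (1 / 3 : ℝ) ^ (8 + k + 1) ≤ 1 * (1 / 3 : ℝ) ^ (8 + k + 1) :=
    mul_le_mul_of_nonneg_right hw (by positivity)
  rw [show 9 + k = 8 + k + 1 by omega]
  linarith

/-- Thin out to one parity. -/
theorem parity_prod (f : ℕ → ℝ) (N : ℕ) :
    (∏ i ∈ range N, if Even i then f (i / 2) else 1) = ∏ j ∈ range ((N + 1) / 2), f j ∧
    (∏ i ∈ range N, if Even i then 1 else f (i / 2)) = ∏ j ∈ range (N / 2), f j := by
  induction N with
  | zero => simp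
  | succ N ih =>
    rw [Finset.prod_range_succ, Finset.prod_range_succ, ih.1, ih.2]
    rcases Nat.even_or_odd N with ⟨k, rfl⟩ | ⟨k, rfl⟩
    · rw [if_pos ⟨k, rfl⟩, if_pos ⟨k, rfl⟩, mul_one, show (k + k + 1) / 2 = k by omega, show (k + k) / 2 = k by omega,
        show (k + k + 1 + 1) / 2 = k + 1 by omega, Finset.prod_range_succ]
      exact ⟨rfl, rfl⟩
    · have h : ¬ Even (2 * k + 1) := Nat.not_even_iff_odd.2 ⟨k, rfl⟩
      rw [if_neg h, if_neg h, mul_one, show (2 * k + 1 + 1) / 2 = k + 1 by omega, show (2 * k + 1) / 2 = k by omega,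
        show (2 * k + 1 + 1 + 1) / 2 = k + 1 by omega, Finset.prod_range_succ]
      exact ⟨rfl, rfl⟩

end Cfsg.Agent.Lib.IsoClassCount.Numeric
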