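import Cfsg.Agent.Lib.IsoClassCount.Count
import Cfsg.Agent.Lib.IsoClassCount.Numeric

/-!
Counting self-reciprocal polynomials with simple roots `±1`, and the sums over tuples in odd dimension.
-/

set_option autoImplicit false
set_option linter.unusedSectionVars false

namespace Cfsg.Agent.Lib.IsoClassCount

open Polynomial Finset

universe u
variable {F : Type u} [Field F] [Fintype F]

theorem Pal.mul_sq {d : ℕ} {R : F[X]} (h : Pal d R) {r : F} (hr : r * r = 1) :
    Pal (d + 1) ((X - C r) * ((X - C r) * R)) := by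
  have hsd : SD ((X - C r) * ((X - C r) * R)) := by
    refine ⟨(monic_X_sub_C r).mul ((monic_X_sub_C r).mul h.1), ?_, ?_⟩
    · rw [mul_coeff_zero, mul_coeff_zero, coeff_sub, coeff_X_zero, coeff_C_zero, h.coeff_zero, zero_sub, mul_one,
        neg_mul_neg, hr]
      exact one_ne_zero
    · rw [dualP_mul, dualP_mul, dualP_X_sub_C hr, h.sd.2.2]
  refine hsd.pal ?_ ?_
  · rw [(monic_X_sub_C r).natDegree_mul ((monic_X_sub_C r).mul h.1), (monic_X_sub_C r).natDegree_mul h.1,
      natDegree_X_sub_C, h.2.1]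
    omega
  · rw [mul_coeff_zero, mul_coeff_zero, coeff_sub, coeff_X_zero, coeff_C_zero, h.coeff_zero, zero_sub, mul_one,
      neg_mul_neg, hr]

open scoped _root_.Classical in
variable (F) in
/-- Palindromic polynomials without the roots `±1`. -/
noncomputable def palN (d : ℕ) : Finset F[X] := (palF F d).filter fun P => ¬ P.IsRoot 1 ∧ ¬ P.IsRoot (-1)

theorem card_palN (h2 : (2 : F) ≠ 0) (d : ℕ) :
    (palN F d).card + (if d = 0 then 0 else 2 * Fintype.card F ^ (d - 1)) ≤
      Fintype.card F ^ d + (if d < 2 then 0 else Fintype.card F ^ (d - 2)) := by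
  classical
  have hroot : ∀ r : F, r * r = 1 → (if d = 0 then 0 else Fintype.card F ^ (d - 1)) ≤
      ((palF F d).filter fun P => P.IsRoot r).card := by
    intro r hr
    rcases Nat.eq_zero_or_pos d with rfl | hd
    · simp
    rw [if_neg hd.ne', ← card_palF]
    refine le_trans (le_of_eq (Finset.card_image_of_injective _ (f := fun R : F[X] => (X - C r) * ((X - C r) * R))
      fun R R' e => mul_left_cancel₀ (X_sub_C_ne_zero r) (mul_left_cancel₀ (X_sub_C_ne_zero r) e)).symm)
      (Finset.card_le_card fun P hP => ?_)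
    obtain ⟨R, hR, rfl⟩ := Finset.mem_image.1 hP
    refine Finset.mem_filter.2 ⟨mem_palF.2 ?_, root_mul_right_of_isRoot _ (root_X_sub_C.2 rfl)⟩
    have := (mem_palF.1 hR).mul_sq hr
    rwa [Nat.sub_add_cancel hd] at this
  have h3 := hroot 1 (one_mul 1)
  have h4 := hroot (-1) (by ring)
  have h5 := card_both h2 d
  have h6 : (palN F d).card + ((palF F d).filter fun P => P.IsRoot 1 ∨ P.IsRoot (-1)).card = (palF F d).card := by
    rw [add_comm, palN]
    convert Finset.card_filter_add_card_filter_not (s := palF F d) (fun P => P.IsRoot 1 ∨ P.IsRoot (-1)) using 4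
    simp only [not_or]
  have h7 := Finset.card_union_add_card_inter ((palF F d).filter fun P => P.IsRoot 1) ((palF F d).filter fun P => P.IsRoot (-1))
  rw [← Finset.filter_or, ← Finset.filter_and] at h7
  rw [card_palF] at h6
  split_ifs at * <;> omega

/-- The roots `±1` are at most simple. -/
def Smp (P : F[X]) : Prop := rootMultiplicity 1 P ≤ 1 ∧ rootMultiplicity (-1) P ≤ 1

open scoped _root_.Classical in
theorem smp_card (h2 : (2 : F) ≠ 0) (D : ℕ) :
    ((sdF F D).filter Smp).card ≤ if Even D then (palN F (D / 2)).card + (if D = 0 then 0 else (palN F (D / 2 - 1)).card)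
      else 2 * (palN F (D / 2)).card := by
  classical
  have key : ∀ (d : ℕ) (P R : F[X]), R ∈ palF F d → R ∣ P → P ≠ 0 → Smp P → R ∈ palN F d := by
    intro d P R hR hdvd hP hs
    refine Finset.mem_filter.2 ⟨hR, ?_⟩
    have hbad : ∀ r : F, r * r = 1 → rootMultiplicity r P ≤ 1 → ¬ R.IsRoot r := by
      intro r hr hle hroot
      obtain ⟨R', hR', -, -⟩ := (mem_palF.1 hR).factor_sq h2 hr hroot
      have h1 : (X - C r) ^ 2 ∣ P := dvd_trans ⟨R', by rw [hR']; ring⟩ hdvd
      have := (le_rootMultiplicity_iff hP).2 h1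
      omega
    exact ⟨hbad 1 (one_mul 1) hs.1, hbad (-1) (by ring) hs.2⟩
  have one : ∀ (d : ℕ) (c : F[X]), c ≠ 0 → (((palF F d).image fun R => c * R).filter Smp).card ≤ (palN F d).card := by
    intro d c hc
    refine (Finset.card_le_card (t := (palN F d).image fun R => c * R) fun P hP => ?_).trans Finset.card_image_le
    obtain ⟨hP1, hP2⟩ := Finset.mem_filter.1 hP
    obtain ⟨R, hR, rfl⟩ := Finset.mem_image.1 hP1
    exact Finset.mem_image.2 ⟨R, key d _ R hR (dvd_mul_left R c) (mul_ne_zero hc (mem_palF.1 hR).1.ne_zero) hP2, rfl⟩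
  rw [sdF]
  split_ifs with he hD
  · rw [Finset.union_empty, add_zero]
    exact Finset.card_le_card fun P hP =>
      key _ P P (Finset.mem_filter.1 hP).1 dvd_rfl (mem_palF.1 (Finset.mem_filter.1 hP).1).1.ne_zero (Finset.mem_filter.1 hP).2
  · rw [Finset.filter_union]
    refine (Finset.card_union_le _ _).trans (add_le_add ?_ ?_)
    · exact Finset.card_le_card fun P hP =>
        key _ P P (Finset.mem_filter.1 hP).1 dvd_rfl (mem_palF.1 (Finset.mem_filter.1 hP).1).1.ne_zero (Finset.mem_filter.1 hP).2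
    · have := one (D / 2 - 1) ((X - C 1) * (X - C (-1))) (mul_ne_zero (X_sub_C_ne_zero _) (X_sub_C_ne_zero _))
      simpa only [mul_assoc] using this
  · rw [Finset.filter_union, two_mul]
    exact (Finset.card_union_le _ _).trans (add_le_add (one _ _ (X_sub_C_ne_zero _)) (one _ _ (X_sub_C_ne_zero _)))

/-- The series of `palN`. -/
theorem palN_series (h2 : (2 : F) ≠ 0) {y : ℝ} (hy : 0 ≤ y) (hy1 : y ≤ 1) (h1 : (Fintype.card F : ℝ) * y ^ 2 < 1) (M : ℕ) :
    ∑ d ∈ range M, ((palN F d).card : ℝ) * y ^ (d + d) ≤ (1 - y ^ 2) ^ 2 / (1 - (Fintype.card F : ℝ) * y ^ 2) := by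
  set q : ℝ := (Fintype.card F : ℝ) with hq
  set t : ℝ := q * y ^ 2 with ht
  have hq2 : 2 ≤ q := by
    rw [hq]
    exact_mod_cast (Fintype.one_lt_card : 1 < Fintype.card F)
  have ha : ∀ j, ((palN F (j + 2)).card : ℝ) * y ^ (j + 2 + (j + 2)) ≤ (t - y ^ 2) ^ 2 * t ^ j := by
    intro j
    have h := card_palN h2 (j + 2)
    rw [if_neg (by omega), if_neg (by omega), show j + 2 - 1 = j + 1 by omega, show j + 2 - 2 = j by omega] at h
    rw [← Nat.cast_le (α := ℝ)] at h
    push_cast at h
    have h' := mul_le_mul_of_nonneg_right h (pow_nonneg hy (j + 2 + (j + 2)))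
    rw [← hq, show y ^ (j + 2 + (j + 2)) = (y ^ 2) ^ j * (y ^ 2) ^ 2 by rw [← pow_add, ← pow_mul]; congr 1; omega] at h'
    rw [show y ^ (j + 2 + (j + 2)) = (y ^ 2) ^ j * (y ^ 2) ^ 2 by rw [← pow_add, ← pow_mul]; congr 1; omega, ht, mul_pow q]
    linear_combination h'
  have h0 : ((palN F 0).card : ℝ) ≤ 1 := by
    have := card_palN h2 (0 : ℕ) (F := F)
    simp at this ⊢
    exact_mod_cast this
  have hN1 : ((palN F 1).card : ℝ) + 2 ≤ q := by
    have := card_palN h2 (1 : ℕ) (F := F)
    simp at this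
    rw [hq]; exact_mod_cast this
  have key : ∀ K, (∑ d ∈ range (K + 2), ((palN F d).card : ℝ) * y ^ (d + d)) * (1 - t) + (t - y ^ 2) ^ 2 * t ^ K ≤
      (1 - y ^ 2) ^ 2 := by
    intro K
    induction K with
    | zero =>
      simp only [Nat.reduceAdd, Finset.sum_range_succ, Finset.sum_range_zero, zero_add, pow_zero, mul_one]
      have e1 := mul_le_mul_of_nonneg_right h0 (show (0 : ℝ) ≤ 1 - t by linarith)
      have e2 := mul_le_mul_of_nonneg_right hN1 (mul_nonneg (sq_nonneg y) (show (0 : ℝ) ≤ 1 - t by linarith))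
      rw [ht] at *
      linear_combination e1 + e2
    | succ K ih =>
      rw [show K + 1 + 2 = K + 2 + 1 by omega, Finset.sum_range_succ, add_mul, pow_succ]
      have e1 := mul_le_mul_of_nonneg_right (ha K) (show (0 : ℝ) ≤ 1 - t by linarith)
      linear_combination ih + e1
  rw [le_div_iff₀ (by linarith)]
  refine le_trans ?_ ((le_add_of_nonneg_right (by positivity)).trans (key M))
  refine mul_le_mul_of_nonneg_right ?_ (by linarith)
  exact Finset.sum_le_sum_of_subset_of_nonneg (Finset.range_mono (Nat.le_add_right _ _)) fun _ _ _ => by positivity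

variable {n : ℕ}

open scoped _root_.Classical in
/-- The indicator of an admissible entry of a rigid element. -/
noncomputable def smpW (i : Fin n) (P : F[X]) : ℕ := if (1 : F) * (-1) ^ (i : ℕ) = 1 → Smp P then 1 else 0

open scoped _root_.Classical in
theorem smp_entry (h2 : (2 : F) ≠ 0) (i : Fin n) {y : ℝ} (hy : 0 ≤ y) (hy1 : y ≤ 1)
    (h1 : (Fintype.card F : ℝ) * y ^ 2 < 1) :
    ∑ P ∈ cand (F := F) 1 i, (smpW i P : ℝ) * y ^ P.natDegree ≤
      (if (1 : F) * (-1) ^ (i : ℕ) = 1 then (1 + y) ^ 2 * (1 - y ^ 2) ^ 2 else 1) / (1 - (Fintype.card F : ℝ) * y ^ 2) := by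
  classical
  by_cases hi : (1 : F) * (-1) ^ (i : ℕ) = 1
  swap
  · refine le_trans (Finset.sum_le_sum fun P _ => ?_) ((entry_le h2 i hy h1).1.trans_eq (by rw [if_neg hi, if_neg hi]))
    refine mul_le_mul_of_nonneg_right ?_ (pow_nonneg hy _)
    unfold smpW wgt
    rw [if_neg hi]
    split_ifs <;> simp
  rw [if_pos hi]
  have sum_bU : ∀ (t : ℕ → Finset F[X]) (f : F[X] → ℝ), (∀ P, 0 ≤ f P) →
      ∑ P ∈ (Finset.range (n + 1)).biUnion t, f P ≤ ∑ d ∈ Finset.range (n + 1), ∑ P ∈ t d, f P := fun t f hf => by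
    induction (Finset.range (n + 1)) using Finset.induction_on with
    | empty => simp
    | @insert a S ha ih =>
      rw [Finset.biUnion_insert, Finset.sum_insert ha]
      refine le_trans ?_ (add_le_add_right ih _)
      rw [← Finset.sum_union_inter]
      exact le_add_of_nonneg_right (Finset.sum_nonneg fun P _ => hf P)
  set N := fun d => ((palN F d).card : ℝ) with hN
  have hS : ∀ D, ∑ P ∈ sdF F D, (smpW i P : ℝ) * y ^ P.natDegree ≤ (((sdF F D).filter Smp).card : ℝ) * y ^ D := by
    intro D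
    rw [Finset.card_filter, Nat.cast_sum, Finset.sum_mul]
    refine Finset.sum_le_sum fun P hP => ?_
    have hdeg : P.natDegree = D := by
      rw [sdF] at hP
      have e : ∀ (c : F) (d : ℕ) (R : F[X]), Pal d R → ((X - C c) * R).natDegree = d + d + 1 := fun c d R hR => by
        rw [(monic_X_sub_C c).natDegree_mul hR.1, natDegree_X_sub_C, hR.2.1]; omega
      split_ifs at hP with he h0
      · rw [Finset.union_empty] at hP
        obtain ⟨k, rfl⟩ := he
        rw [(mem_palF.1 hP).2.1]; omega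
      · obtain ⟨k, rfl⟩ := he
        rcases Finset.mem_union.1 hP with h | h
        · rw [(mem_palF.1 h).2.1]; omega
        · obtain ⟨R, hR, rfl⟩ := Finset.mem_image.1 h
          rw [(monic_X_sub_C (1 : F)).natDegree_mul ((monic_X_sub_C _).mul (mem_palF.1 hR).1), natDegree_X_sub_C,
            e _ _ _ (mem_palF.1 hR)]
          omega
      · obtain ⟨k, rfl⟩ := Nat.not_even_iff_odd.1 he
        rcases Finset.mem_union.1 hP with h | h <;> obtain ⟨R, hR, rfl⟩ := Finset.mem_image.1 h <;>
          rw [e _ _ _ (mem_palF.1 hR)] <;> omega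
    rw [hdeg, smpW]
    by_cases hs : Smp P
    · rw [if_pos hs, if_pos fun _ => hs]
    · rw [if_neg hs, if_neg fun h => hs (h hi)]
  unfold cand
  rw [if_pos hi]
  refine (sum_bU _ _ fun P => by positivity).trans ((Finset.sum_le_sum fun D _ => hS D).trans ?_)
  have key : ∀ K, ∑ D ∈ range (K + K), (((sdF F D).filter Smp).card : ℝ) * y ^ D ≤
      (1 + 2 * y) * (∑ d ∈ range K, N d * y ^ (d + d)) + y ^ 2 * (∑ d ∈ range (K - 1), N d * y ^ (d + d)) := by
    intro K
    induction K with
    | zero => simp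
    | succ K ih =>
      rw [show K + 1 + (K + 1) = K + K + 1 + 1 by omega, Finset.sum_range_succ, Finset.sum_range_succ,
        Finset.sum_range_succ _ K, Nat.add_sub_cancel]
      have he := smp_card h2 (F := F) (K + K)
      have ho := smp_card h2 (F := F) (K + K + 1)
      rw [if_pos ⟨K, rfl⟩, show (K + K) / 2 = K by omega] at he
      rw [if_neg (by rw [Nat.even_iff]; omega), show (K + K + 1) / 2 = K by omega] at ho
      rw [← Nat.cast_le (α := ℝ)] at he ho
      have he' := mul_le_mul_of_nonneg_right he (pow_nonneg hy (K + K))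
      have ho' := mul_le_mul_of_nonneg_right ho (pow_nonneg hy (K + K + 1))
      push_cast at he' ho'
      rcases Nat.eq_zero_or_pos K with rfl | hK
      · simp [hN] at he' ho' ih ⊢
        rw [← Nat.cast_le (α := ℝ)] at he'; nlinarith
      · obtain ⟨k, rfl⟩ : ∃ k, K = k + 1 := ⟨K - 1, by omega⟩
        rw [if_neg (by omega), Nat.add_sub_cancel] at he'
        rw [Nat.add_sub_cancel] at ih
        rw [Finset.sum_range_succ _ k] at ih ⊢
        simp only [hN] at ih ⊢
        simp only [pow_add, pow_one] at he' ho' ih ⊢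
        nlinarith
  refine (Finset.sum_le_sum_of_subset_of_nonneg (Finset.range_mono (Nat.le_add_right _ (n + 1)))
    fun D _ _ => by positivity).trans ((key (n + 1)).trans ?_)
  have h3 := palN_series h2 hy hy1 h1 (F := F) (n + 1)
  have h4 := palN_series h2 hy hy1 h1 (F := F) (n + 1 - 1)
  rw [show (1 + y) ^ 2 * (1 - y ^ 2) ^ 2 / (1 - (Fintype.card F : ℝ) * y ^ 2) =
    (1 + 2 * y) * ((1 - y ^ 2) ^ 2 / (1 - (Fintype.card F : ℝ) * y ^ 2)) +
      y ^ 2 * ((1 - y ^ 2) ^ 2 / (1 - (Fintype.card F : ℝ) * y ^ 2)) by ring]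
  gcongr

/-- Splitting off the first entry. -/
theorem peel_split {α : Type*} {N : ℕ} (A : Fin (N + 1) → Finset α) (g : (Fin (N + 1) → α) → ℝ) (deg : α → ℕ) (m : ℕ)
    (H : (Fin N → α) → ℝ)
    (hH : ∀ S ∈ Fintype.piFinset (fun i : Fin N => A i.succ), ∀ T : Finset α, T ⊆ A 0 →
      (∀ P ∈ T, deg P + ∑ i : Fin N, ((i : ℕ) + 2) * deg (S i) = m) → ∑ P ∈ T, g (Fin.cons P S) ≤ H S) :
    ∑ T ∈ (Fintype.piFinset A).filter (fun T => ∑ i : Fin (N + 1), ((i : ℕ) + 1) * deg (T i) = m), g T ≤
      ∑ S ∈ Fintype.piFinset (fun i : Fin N => A i.succ), H S := by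
  classical
  refine le_trans (le_of_eq (Finset.sum_fiberwise_of_maps_to (g := Fin.tail)
    (t := Fintype.piFinset fun i : Fin N => A i.succ) ?_ _).symm) (Finset.sum_le_sum fun S hS => ?_)
  · intro T hT
    exact Fintype.mem_piFinset.2 fun i => Fintype.mem_piFinset.1 (Finset.mem_filter.1 hT).1 i.succ
  · set Φ := ((Fintype.piFinset A).filter (fun T => ∑ i : Fin (N + 1), ((i : ℕ) + 1) * deg (T i) = m)).filter
      fun T => Fin.tail T = S with hΦ
    have hcons : ∀ T ∈ Φ, Fin.cons (T 0) S = T := fun T hT => by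
      rw [← (Finset.mem_filter.1 hT).2, Fin.cons_self_tail]
    rw [show ∑ T ∈ Φ, g T = ∑ P ∈ Φ.image (fun T => T 0), g (Fin.cons P S) by
      rw [Finset.sum_image fun T hT T' hT' e => by rw [← hcons T hT, ← hcons T' hT', show T 0 = T' 0 from e]]
      exact Finset.sum_congr rfl fun T hT => by rw [hcons T hT]]
    refine hH S hS _ (fun P hP => ?_) fun P hP => ?_ <;> obtain ⟨T, hT, rfl⟩ := Finset.mem_image.1 hP
    · exact Fintype.mem_piFinset.1 (Finset.mem_filter.1 (Finset.mem_filter.1 hT).1).1 0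
    · have h := (Finset.mem_filter.1 (Finset.mem_filter.1 hT).1).2
      rw [← hcons T hT, Fin.sum_univ_succ] at h
      simpa only [Fin.cons_zero, Fin.cons_succ, Fin.val_zero, zero_add, one_mul, Fin.val_succ,
        show ∀ a : ℕ, a + 1 + 1 = a + 2 from fun a => rfl] using h

end Cfsg.Agent.Lib.IsoClassCount
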