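import Cfsg.Agent.Lib.IsoClassCount.Invol
import Cfsg.Agent.Lib.IsoClassCount.IndexTwo
import Cfsg.Agent.Lib.IsoClassCount.OddCount
import Cfsg.Agent.S4200

/-!
Classes of the odd-dimensional orthogonal group, of its special group and of the commutator subgroup,
against tuples of self-reciprocal polynomials.
-/

set_option autoImplicit false
set_option linter.unusedSectionVars false

namespace Cfsg.Agent.Lib.IsoClassCount

open Polynomial Matrix Cfsg.Agent.Lib.Jordan Cfsg.Agent.Lib.GLn.ClassInvariant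
open Cfsg.Agent.Lib.Classical.QuadOmega

universe u
variable {F : Type u} [Field F] [Fintype F] {n : ℕ} (G : Matrix (Fin n) (Fin n) F)

/-- The elements of determinant one. -/
def SOg : Subgroup ↥(Iso G) := ((Matrix.GeneralLinearGroup.det).comp (Iso G).subtype).ker

variable {G}

theorem mem_SOg (z : ↥(Iso G)) : z ∈ SOg G ↔ ((z : GL (Fin n) F) : Matrix (Fin n) (Fin n) F).det = 1 := by
  rw [SOg, MonoidHom.mem_ker, MonoidHom.comp_apply, ← Units.val_inj, Matrix.GeneralLinearGroup.val_det_apply,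
    Units.val_one]
  rfl

theorem det_cases (hG : G.det ≠ 0) (z : ↥(Iso G)) :
    ((z : GL (Fin n) F) : Matrix (Fin n) (Fin n) F).det = 1 ∨ ((z : GL (Fin n) F) : Matrix (Fin n) (Fin n) F).det = -1 := by
  have h := congrArg Matrix.det (mem_Iso.1 z.2)
  rw [det_mul, det_mul, det_transpose] at h
  refine mul_self_eq_one_iff.1 (mul_right_cancel₀ hG ?_)
  linear_combination h

variable (G) in
/-- Minus one. -/
def negI : ↥(Iso G) :=
  ⟨-1, by rw [mem_Iso, Units.val_neg, Units.val_one, transpose_neg, transpose_one, neg_one_mul, neg_mul_neg, mul_one]⟩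

theorem negI_val : ((negI G : GL (Fin n) F) : Matrix (Fin n) (Fin n) F) = -1 := rfl

theorem negI_comm (z : ↥(Iso G)) : Commute (negI G) z :=
  Subtype.ext (Units.ext (show (-1 : Matrix (Fin n) (Fin n) F) * _ = _ * -1 by rw [neg_one_mul, mul_neg, mul_one]))

theorem negI_sq : negI G * negI G = 1 :=
  Subtype.ext (Units.ext (show (-1 : Matrix (Fin n) (Fin n) F) * -1 = 1 by rw [neg_mul_neg, mul_one]))

theorem det_negI (hn : Odd n) : ((negI G : GL (Fin n) F) : Matrix (Fin n) (Fin n) F).det = -1 := by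
  rw [negI_val, det_neg, det_one, mul_one, Fintype.card_fin, hn.neg_one_pow]

/-- An odd-dimensional element is a sign times one of determinant one. -/
theorem exists_sign (h2 : (2 : F) ≠ 0) (hn : Odd n) (hG : G.det ≠ 0) (z : ↥(Iso G)) :
    ∃! b : Bool, (if b then z else negI G * z) ∈ SOg G := by
  have hne : (-1 : F) ≠ 1 := fun e => h2 (by linear_combination -e)
  have hd : ((negI G * z : ↥(Iso G)) : GL (Fin n) F).val.det = - ((z : GL (Fin n) F) : Matrix (Fin n) (Fin n) F).det := by
    rw [Subgroup.coe_mul, Units.val_mul, det_mul, det_negI hn, neg_one_mul]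
  rcases det_cases hG z with h | h
  · refine ⟨true, (mem_SOg z).2 h, fun b hb => ?_⟩
    cases b
    · have := (mem_SOg _).1 hb
      rw [show (if false = true then z else negI G * z) = negI G * z from rfl, hd, h] at this
      exact absurd this hne
    · rfl
  · refine ⟨false, (mem_SOg _).2 (by rw [show (if false = true then z else negI G * z) = negI G * z from rfl, hd, h, neg_neg]), fun b hb => ?_⟩
    cases b
    · rfl
    · have := (mem_SOg _).1 hb
      rw [show (if true = true then z else negI G * z) = z from rfl, h] at this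
      exact absurd this hne

variable (G) in
/-- A class of the special group and a sign give a class. -/
noncomputable def signed (c : ConjClasses ↥(SOg G) × Bool) : ConjClasses ↥(Iso G) :=
  ConjClasses.mk (if c.2 then (Quotient.out c.1 : ↥(SOg G)).1 else negI G * (Quotient.out c.1 : ↥(SOg G)).1)

theorem signed_bij (h2 : (2 : F) ≠ 0) (hn : Odd n) (hG : G.det ≠ 0) : Function.Bijective (signed G) := by
  constructor
  · rintro ⟨c, b⟩ ⟨c', b'⟩ e
    obtain ⟨x, hx⟩ := isConj_iff.1 (ConjClasses.mk_eq_mk_iff_isConj.1 e)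
    set u := (Quotient.out c : ↥(SOg G)).1
    set v := (Quotient.out c' : ↥(SOg G)).1
    simp only at hx
    have hxu : x * (if b then u else negI G * u) * x⁻¹ = if b then x * u * x⁻¹ else negI G * (x * u * x⁻¹) := by
      cases b
      · simp only [Bool.false_eq_true, if_false]
        rw [← mul_assoc x, ← (negI_comm x).eq]; simp only [mul_assoc]
      · rfl
    rw [hxu] at hx
    have hu : x * u * x⁻¹ ∈ SOg G := (MonoidHom.normal_ker _ : (SOg G).Normal).conj_mem _ (Quotient.out c).2 x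
    have hb : b = b' := by
      have h1 := (exists_sign h2 hn hG (if b' then v else negI G * v))
      refine h1.unique ?_ ?_
      · cases b
        · simp only [Bool.false_eq_true, if_false] at hx ⊢
          rw [← hx, ← mul_assoc, negI_sq, one_mul]
          exact hu
        · simp only [if_true] at hx ⊢
          rw [← hx]; exact hu
      · cases b'
        · simp only [Bool.false_eq_true, if_false]
          rw [← mul_assoc, negI_sq, one_mul]
          exact (Quotient.out c').2
        · exact (Quotient.out c').2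
    subst hb
    have hx' : x * u * x⁻¹ = v := by
      cases b
      · exact mul_left_cancel hx
      · exact hx
    refine Prod.ext ?_ rfl
    rw [← Quotient.out_eq c, ← Quotient.out_eq c']
    refine Quotient.sound (isConj_iff.2 ?_)
    obtain ⟨b0, hb0, -⟩ := exists_sign h2 hn hG x
    refine ⟨⟨_, hb0⟩, Subtype.ext ?_⟩
    show (if b0 then x else negI G * x) * u * (if b0 then x else negI G * x)⁻¹ = v
    cases b0
    · simp only [Bool.false_eq_true, if_false]
      rw [_root_.mul_inv_rev, ← mul_assoc, mul_assoc (negI G) x u, mul_assoc (negI G) (x * u) x⁻¹, hx', (negI_comm v).eq,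
        mul_inv_cancel_right]
    · exact hx'
  · intro d
    obtain ⟨z, rfl⟩ := ConjClasses.mk_surjective d
    obtain ⟨b, hb, -⟩ := exists_sign h2 hn hG z
    obtain ⟨x, hx⟩ := isConj_iff.1 (ConjClasses.mk_eq_mk_iff_isConj.1
      (Quotient.out_eq (ConjClasses.mk (⟨_, hb⟩ : ↥(SOg G)))))
    refine ⟨(ConjClasses.mk ⟨_, hb⟩, b), ConjClasses.mk_eq_mk_iff_isConj.2 (isConj_iff.2 ⟨x.1, ?_⟩)⟩
    have hx' := congrArg Subtype.val hx
    simp only [Subgroup.coe_mul, InvMemClass.coe_inv] at hx'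
    cases b
    · simp only [Bool.false_eq_true, if_false] at hx' ⊢
      rw [← mul_assoc x.1, ← (negI_comm x.1).eq, mul_assoc (negI G), mul_assoc (negI G),
        show x.1 * (Quotient.out (ConjClasses.mk (⟨negI G * z, hb⟩ : ↥(SOg G)))).1 * x.1⁻¹ = negI G * z from hx',
        ← mul_assoc, negI_sq, one_mul]
    · exact hx'

theorem classes_SOg (h2 : (2 : F) ≠ 0) (hn : Odd n) (hG : G.det ≠ 0) :
    Nat.card (ConjClasses ↥(Iso G)) = 2 * Nat.card (ConjClasses ↥(SOg G)) := by
  rw [← Nat.card_eq_of_bijective _ (signed_bij h2 hn hG), Nat.card_prod, Nat.card_eq_fintype_card (α := Bool),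
    Fintype.card_bool, mul_comm]

open scoped _root_.Classical in
variable (n F) in
/-- Tuples whose odd-size entries have simple roots `±1` at most. -/
noncomputable def smpTuples : Finset (Fin n → F[X]) :=
  (tuples F n 1).filter fun T => ∀ i : Fin n, (1 : F) * (-1) ^ (i : ℕ) = 1 → Smp (T i)

/-- No free tuples in odd dimension. -/
theorem not_free (h2 : (2 : F) ≠ 0) (hn : Odd n) {T : Fin n → F[X]} (hT : T ∈ tuples F n 1) :
    ¬ ∀ i, free 1 i (T i) := by
  classical
  intro h
  obtain ⟨h1, hsum⟩ := Finset.mem_filter.1 hT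
  have hev : ∀ i : Fin n, Even (((i : ℕ) + 1) * (T i).natDegree) := by
    intro i
    have hc := Fintype.mem_piFinset.1 h1 i
    rw [Nat.even_mul]
    unfold cand at hc
    split_ifs at hc with hi
    · right
      obtain ⟨D, -, hD⟩ := Finset.mem_biUnion.1 hc
      obtain ⟨hr1, hr2⟩ := h i hi
      have hr : ∀ (c : F) (R : F[X]), ((X - C c) * R).IsRoot c := fun c R =>
        root_mul_right_of_isRoot _ (root_X_sub_C.2 rfl)
      rw [sdF] at hD
      split_ifs at hD with he h0
      · rw [Finset.union_empty] at hD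
        exact ⟨_, (mem_palF.1 hD).2.1⟩
      · rcases Finset.mem_union.1 hD with hp | hp
        · exact ⟨_, (mem_palF.1 hp).2.1⟩
        · obtain ⟨R, -, e⟩ := Finset.mem_image.1 hp
          exact absurd (e ▸ hr 1 _) hr1
      · rcases Finset.mem_union.1 hD with hp | hp <;> obtain ⟨R, -, e⟩ := Finset.mem_image.1 hp
        · exact absurd (e ▸ hr 1 R) hr1
        · exact absurd (e ▸ hr (-1) R) hr2
    · obtain ⟨D, -, hD⟩ := Finset.mem_biUnion.1 hc
      exact Or.inr ⟨_, (mem_palF.1 hD).2.1⟩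
  have : Even n := by
    rw [← hsum]
    exact Finset.even_sum _ fun i _ => hev i
  exact (Nat.not_even_iff_odd.2 hn) this

theorem classes_Iso_le (h2 : (2 : F) ≠ 0) (hn : Odd n) (hGs : Gᵀ = G) (hG : G.det ≠ 0) :
    2 * Nat.card (ConjClasses ↥(Iso G)) ≤ ∑ T ∈ tuples F n 1, ∏ i, wgt 1 i (T i) := by
  classical
  refine ((classes_le G (one_mul (1 : F)) h2 hn.pos hG (by rw [one_smul]; exact hGs)).2 rfl).trans
    (le_of_eq (Finset.sum_congr rfl fun T hT => ?_))
  rw [if_neg (not_free h2 hn hT), add_zero]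

/-- The tuple of an element with good form. -/
theorem good_tuple (h2 : (2 : F) ≠ 0) (hn : Odd n) (hGs : Gᵀ = G) (hG : G.det ≠ 0) (h : ↥(Iso G))
    (hgood : Good ((h : GL (Fin n) F) : Matrix (Fin n) (Fin n) F) G) :
    (tup hn.pos (h : GL (Fin n) F)).1 ∈ smpTuples F n ∧
    ∀ h' : ↥(Iso G), Good ((h' : GL (Fin n) F) : Matrix (Fin n) (Fin n) F) G →
      (tup hn.pos (h' : GL (Fin n) F)).1 = (tup hn.pos (h : GL (Fin n) F)).1 → IsConj h h' := by
  classical
  obtain ⟨p, hp0⟩ := CharP.exists F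
  obtain ⟨e, hpp, -⟩ := FiniteField.card F p
  haveI := Fact.mk hpp
  have hp : p ≠ 2 := fun e => h2 (by subst e; exact_mod_cast CharP.cast_eq_zero F 2)
  have hm1 : (-1 : F) * -1 = 1 := by ring
  have hf : Form 1 ((h : GL (Fin n) F) : Matrix (Fin n) (Fin n) F) G :=
    ⟨hG, by rw [one_smul]; exact hGs, mem_Iso.1 h.2⟩
  obtain ⟨B⟩ := exists_base h2 G hn.pos (h : GL (Fin n) F)
  have hmP : ∀ i : UCent.Rng B.P.d, Odd (i : ℕ) → mult B.P.d (i : ℕ) ≤ 1 := fun i hi =>
    mult_le_one p hp h2 (one_mul 1) hm1 hf B.P B.Q B.hPQ B.hQP (fun Y hY hP hQ =>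
      (glue p hp (one_mul 1) hY hf B.P B.Q B.hPQ B.hQP).1 (fun i _ => hP i) fun i _ => hQ i) hgood i hi
  have hmQ : ∀ i : UCent.Rng B.Q.d, Odd (i : ℕ) → mult B.Q.d (i : ℕ) ≤ 1 := fun i hi =>
    mult_le_one p hp h2 hm1 (one_mul 1) hf B.Q B.P B.hQP B.hPQ (fun Y hY hQ hP =>
      (glue p hp (one_mul 1) hY hf B.P B.Q B.hPQ B.hQP).1 (fun i _ => hP i) fun i _ => hQ i) hgood i hi
  have hsmp : (tup hn.pos (h : GL (Fin n) F)).1 ∈ smpTuples F n := by
    refine Finset.mem_filter.2 ⟨?_, fun i hi => ?_⟩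
    · refine Finset.mem_filter.2 ⟨Fintype.mem_piFinset.2 fun i => ?_, (tup hn.pos (h : GL (Fin n) F)).2.2⟩
      set P := (tup hn.pos (h : GL (Fin n) F)).1 i with hP
      have hsd : SD P := sd_tupFun (exists_decomp (h : GL (Fin n) F) hn.pos).some hf i
      have hdeg : P.natDegree ≤ n := by
        refine le_trans ?_ ((Finset.single_le_sum (f := fun i : Fin n => ((i : ℕ) + 1) * ((tup hn.pos (h : GL (Fin n) F)).1 i).natDegree)
          (fun _ _ => Nat.zero_le _) (Finset.mem_univ i)).trans (tup hn.pos (h : GL (Fin n) F)).2.2.le)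
        exact Nat.le_mul_of_pos_left _ (Nat.succ_pos _)
      unfold cand
      split_ifs with hi
      · exact Finset.mem_biUnion.2 ⟨_, Finset.mem_range.2 (by omega), mem_sdF hsd h2⟩
      · have hev : ∀ {c : F} (Q : Part ((h : GL (Fin n) F) : Matrix (Fin n) (Fin n) F) c), c * c = 1 →
            mult Q.d ((i : ℕ) + 1) = rootMultiplicity c P → Even (rootMultiplicity c P) := by
          intro c Q hc hm
          rw [← hm]
          by_cases h0 : mult Q.d ((i : ℕ) + 1) = 0
          · rw [h0]; exact Even.zero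
          obtain ⟨k, hk⟩ := Finset.card_pos.1 (Nat.pos_of_ne_zero h0)
          exact JF.even_mult Q.d Q.hd h2 (Q.inv_rest hf hc) (Q.C.rest_det hG (Q.orth hf (one_mul 1) hc))
            (Q.C.rest_transpose hf.symm) (one_mul 1) ⟨(i : ℕ) + 1, (Finset.mem_filter.1 hk).2 ▸ UCent.mem_rng _ k⟩
            (by show (1 : F) * (-1) ^ ((i : ℕ) + 1 - 1) ≠ 1; rwa [Nat.add_sub_cancel])
        obtain ⟨d, hd⟩ := hsd.pal_of_even h2 (hev B.P (one_mul 1) (B.hP i)) (hev B.Q hm1 (B.hQ i))
        exact Finset.mem_biUnion.2 ⟨d, Finset.mem_range.2 (by have := hd.2.1; omega), mem_palF.2 hd⟩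
    · have hodd : Odd ((i : ℕ) + 1) := (s1_iff h2 (Nat.succ_pos _)).1 (by rwa [Nat.succ_eq_add_one, Nat.add_sub_cancel])
      constructor
      · rw [← B.hP i]
        by_cases h0 : mult B.P.d ((i : ℕ) + 1) = 0
        · omega
        obtain ⟨k, hk⟩ := Finset.card_pos.1 (Nat.pos_of_ne_zero h0)
        exact hmP ⟨(i : ℕ) + 1, (Finset.mem_filter.1 hk).2 ▸ UCent.mem_rng _ k⟩ hodd
      · rw [← B.hQ i]
        by_cases h0 : mult B.Q.d ((i : ℕ) + 1) = 0
        · omega
        obtain ⟨k, hk⟩ := Finset.card_pos.1 (Nat.pos_of_ne_zero h0)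
        exact hmQ ⟨(i : ℕ) + 1, (Finset.mem_filter.1 hk).2 ▸ UCent.mem_rng _ k⟩ hodd
  refine ⟨hsmp, fun h' hgood' hT => ?_⟩
  obtain ⟨x, hx⟩ := isConj_iff.1 (isConj_of_tup_eq hn.pos (Subtype.ext hT.symm) :
    IsConj (h : GL (Fin n) F) (h' : GL (Fin n) F))
  set c := (x : Matrix (Fin n) (Fin n) F) with hc
  set g := ((h : GL (Fin n) F) : Matrix (Fin n) (Fin n) F) with hg
  have hcg : c * g = ((h' : GL (Fin n) F) : Matrix (Fin n) (Fin n) F) * c := by
    rw [hc, hg, ← Units.val_mul, ← Units.val_mul, ← mul_inv_eq_iff_eq_mul.1 hx]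
  have hcd : c.det ≠ 0 := Matrix.GeneralLinearGroup.det_ne_zero _
  have hf' : Form 1 g (cᵀ * G * c) := by
    refine ⟨?_, ?_, ?_⟩
    · rw [det_mul, det_mul, det_transpose]; exact mul_ne_zero (mul_ne_zero hcd hG) hcd
    · rw [one_smul, transpose_mul, transpose_mul, transpose_transpose, hGs, mul_assoc]
    · calc gᵀ * (cᵀ * G * c) * g = (c * g)ᵀ * G * (c * g) := by simp only [transpose_mul, mul_assoc]
        _ = cᵀ * (((h' : GL (Fin n) F) : Matrix (Fin n) (Fin n) F)ᵀ * G * ((h' : GL (Fin n) F) : Matrix (Fin n) (Fin n) F)) * c := by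
            rw [hcg]; simp only [transpose_mul, mul_assoc]
        _ = _ := by rw [mem_Iso.1 h'.2]
  have hg2 : Good g (cᵀ * G * c) := hgood'.transfer (Units.isUnit x) hcg
  have hdet : IsSquare (G.det * (cᵀ * G * c).det) := ⟨G.det * c.det, by rw [det_mul, det_mul, det_transpose]; ring⟩
  obtain ⟨d, hdg, hd⟩ := (glue p hp (one_mul 1) hf hf' B.P B.Q B.hPQ B.hQP).1
    (fun i hi => by
      rcases Nat.eq_zero_or_pos (mult B.P.d (i : ℕ)) with h0 | h0
      · rw [B.P.disc_empty _ _ h0, B.P.disc_empty _ _ h0, one_mul]; exact IsSquare.one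
      refine disc_agree h2 (one_mul 1) hm1 hf hf' B.P B.Q B.hPQ B.hQP (fun Y hY hP hQ => ?_) hgood hg2 hdet hmP hmQ i
        ((s1_iff h2 (B.hPi _ h0.ne').1).1 hi)
      refine (glue p hp (one_mul 1) hY hf' B.P B.Q B.hPQ B.hQP).1 (fun j hj => ?_) fun j hj => ?_
      · rcases Nat.eq_zero_or_pos (mult B.P.d (j : ℕ)) with h1 | h1
        · rw [B.P.disc_empty _ _ h1, B.P.disc_empty _ _ h1, one_mul]; exact IsSquare.one
        · exact hP j ((s1_iff h2 (B.hPi _ h1.ne').1).1 hj)
      · rcases Nat.eq_zero_or_pos (mult B.Q.d (j : ℕ)) with h1 | h1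
        · rw [B.Q.disc_empty _ _ h1, B.Q.disc_empty _ _ h1, one_mul]; exact IsSquare.one
        · exact hQ j ((s1_iff h2 (B.hQi _ h1.ne').1).1 hj))
    (fun i hi => by
      rcases Nat.eq_zero_or_pos (mult B.Q.d (i : ℕ)) with h0 | h0
      · rw [B.Q.disc_empty _ _ h0, B.Q.disc_empty _ _ h0, one_mul]; exact IsSquare.one
      refine disc_agree h2 hm1 (one_mul 1) hf hf' B.Q B.P B.hQP B.hPQ (fun Y hY hQ hP => ?_) hgood hg2 hdet hmQ hmP i
        ((s1_iff h2 (B.hQi _ h0.ne').1).1 hi)
      refine (glue p hp (one_mul 1) hY hf' B.P B.Q B.hPQ B.hQP).1 (fun j hj => ?_) fun j hj => ?_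
      · rcases Nat.eq_zero_or_pos (mult B.P.d (j : ℕ)) with h1 | h1
        · rw [B.P.disc_empty _ _ h1, B.P.disc_empty _ _ h1, one_mul]; exact IsSquare.one
        · exact hP j ((s1_iff h2 (B.hPi _ h1.ne').1).1 hj)
      · rcases Nat.eq_zero_or_pos (mult B.Q.d (j : ℕ)) with h1 | h1
        · rw [B.Q.disc_empty _ _ h1, B.Q.disc_empty _ _ h1, one_mul]; exact IsSquare.one
        · exact hQ j ((s1_iff h2 (B.hQi _ h1.ne').1).1 hj))
  have hdu : IsUnit d := (Matrix.isUnit_iff_isUnit_det _).2 (isUnit_iff_ne_zero.2 fun h0 => hf'.det (by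
    rw [← hd, det_mul, h0, mul_zero]))
  set D := hdu.unit with hD
  have hCg : Commute D (h : GL (Fin n) F) := Units.ext hdg.eq
  have hyI : x * D⁻¹ ∈ Iso G := by
    rw [mem_Iso, Units.val_mul]
    calc _ = ((D⁻¹ : GL (Fin n) F).1)ᵀ * (cᵀ * G * c) * (D⁻¹ : GL (Fin n) F).1 := by
          simp only [hc, transpose_mul, mul_assoc]
      _ = (D.1 * (D⁻¹ : GL (Fin n) F).1)ᵀ * G * (D.1 * (D⁻¹ : GL (Fin n) F).1) := by
          rw [← hd]; simp only [transpose_mul, mul_assoc, hD, IsUnit.unit_spec]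
      _ = G := by rw [Units.mul_inv, transpose_one, one_mul, mul_one]
  refine isConj_iff.2 ⟨⟨x * D⁻¹, hyI⟩, Subtype.ext ?_⟩
  show x * D⁻¹ * (h : GL (Fin n) F) * (x * D⁻¹)⁻¹ = (h' : GL (Fin n) F)
  rw [← hx]
  calc x * D⁻¹ * (h : GL (Fin n) F) * (x * D⁻¹)⁻¹ = x * (D⁻¹ * ((h : GL (Fin n) F) * D)) * x⁻¹ := by group
    _ = _ := by rw [← hCg.eq, inv_mul_cancel_left]

theorem omega_le_SOg (h2 : (2 : F) ≠ 0) (hGs : Gᵀ = G) (hG : G.det ≠ 0) : commutator ↥(Iso G) ≤ SOg G :=
  fun z hz => (mem_SOg z).2 ((mem_commutator_Iso h2 hGs hG z).1 hz).1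

theorem index_omega (h2 : (2 : F) ≠ 0) (hn : Odd n) (hGs : Gᵀ = G) (hG : G.det ≠ 0) :
    ((commutator ↥(Iso G)).subgroupOf (SOg G)).index ≤ 2 ∧ (commutator ↥(Iso G)).index ≤ 4 := by
  set φ : ↥(SOg G) →* ℤˣ := (spn (quad_nd h2 hGs hG)).comp ((isoL h2 hGs).toMonoidHom.comp (SOg G).subtype)
  have hker : φ.ker = (commutator ↥(Iso G)).subgroupOf (SOg G) := by
    ext z
    rw [MonoidHom.mem_ker, Subgroup.mem_subgroupOf, mem_commutator_Iso h2 hGs hG]
    exact ⟨fun h => ⟨(mem_SOg z.1).1 z.2, h⟩, fun h => h.2⟩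
  have h1 : ((commutator ↥(Iso G)).subgroupOf (SOg G)).index ≤ 2 := by
    rw [← hker, Subgroup.index_ker]
    refine (Finite.card_subtype_le _).trans ?_
    rw [Nat.card_eq_fintype_card, Fintype.card_units_int]
  refine ⟨h1, ?_⟩
  rw [← Subgroup.relIndex_mul_index (omega_le_SOg h2 hGs hG)]
  have h3 : (SOg G).index ≤ 2 := by
    rw [Subgroup.index]
    refine (Nat.card_le_card_of_surjective (fun b : Bool => (QuotientGroup.mk (if b then 1 else negI G) : ↥(Iso G) ⧸ SOg G))
      fun z => ?_).trans (by rw [Nat.card_eq_fintype_card, Fintype.card_bool])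
    obtain ⟨z, rfl⟩ := QuotientGroup.mk_surjective z
    obtain ⟨b, hb, -⟩ := exists_sign h2 hn hG z
    refine ⟨b, QuotientGroup.eq.2 ?_⟩
    cases b
    · simp only [Bool.false_eq_true, if_false] at hb ⊢
      rwa [inv_eq_of_mul_eq_one_left (negI_sq (G := G))]
    · simpa using hb
  exact le_trans (Nat.mul_le_mul h1 h3) le_rfl

/-- Beyond dimension one the commutator subgroup is proper in the special group. -/
theorem omega_ne_SOg (h2 : (2 : F) ≠ 0) (hn : Odd n) (hn2 : 2 ≤ n) (hGs : Gᵀ = G) (hG : G.det ≠ 0) :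
    (commutator ↥(Iso G)).subgroupOf (SOg G) ≠ ⊤ := by
  classical
  intro htop
  have hgood : Good (1 : Matrix (Fin n) (Fin n) F) G := by
    have := good_of_cent h2 hn hGs hG 1 fun z _ hd =>
      Subgroup.subgroupOf_eq_top.1 htop ((mem_SOg z).2 hd)
    simpa using this
  obtain ⟨ν, hν⟩ := FiniteField.exists_nonsquare (F := F) (fun h => h2 (by
    have := ringChar.Nat.cast_ringChar (R := F)
    rw [h] at this; exact_mod_cast this))
  have hν0 : ν ≠ 0 := fun e => hν (by rw [e]; exact IsSquare.zero)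
  let i0 : Fin n := ⟨0, by omega⟩
  let i1 : Fin n := ⟨1, by omega⟩
  have h01 : i0 ≠ i1 := by simp [i0, i1, Fin.ext_iff]
  let w : Fin n → F := fun i => if i = i0 then ν * G.det else if i = i1 then ν⁻¹ else 1
  have hw : ∏ i, w i = G.det := by
    rw [Finset.prod_eq_mul i0 i1 h01]
    · simp only [w, if_true, h01.symm, if_false]; field_simp
    · rintro i - ⟨a, b⟩; simp [w, a, b]
    · simp
    · simp
  obtain ⟨Pm, hPm⟩ := AutPSL.congr_symm h2 hGs (Matrix.diagonal_transpose w) hG
    (by rw [det_diagonal, hw]; exact hG) (by rw [det_diagonal, hw]; exact ⟨G.det, rfl⟩)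
  have h' := hgood.transfer (c := (Pm : Matrix (Fin n) (Fin n) F)) (Units.isUnit Pm) (g := 1) (by rw [one_mul, mul_one])
  rw [hPm] at h'
  let E : Matrix (Fin n) (Fin n) F := Matrix.diagonal (Pi.single i0 1)
  let C : Coord (Fin 1) E :=
    { Φ := Matrix.of fun x _ => if x = i0 then 1 else 0
      Ψ := Matrix.of fun _ x => if x = i0 then 1 else 0
      left := by ext i j; fin_cases i; fin_cases j; simp [Matrix.mul_apply]
      right := by
        ext x y
        rw [Matrix.mul_apply, Fin.sum_univ_one]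
        simp only [Matrix.of_apply, E, Matrix.diagonal_apply, Pi.single_apply]
        by_cases hx : x = i0 <;> by_cases hy : y = i0 <;> simp [hx, hy, Ne.symm, eq_comm] }
  obtain ⟨v, hv⟩ := h' E 1 C (Commute.one_right _) (by
    rw [Matrix.diagonal_transpose, Matrix.diagonal_mul_diagonal, Matrix.diagonal_mul_diagonal]
    simp only [mul_comm]) odd_one
  have hr : (C.rest (Matrix.diagonal w)).det = ν * G.det := by
    rw [Matrix.det_fin_one, Coord.rest, Matrix.mul_apply, Finset.sum_eq_single i0]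
    · simp [C, w, Matrix.mul_apply, Matrix.diagonal_apply]
    · intro b _ hb; simp [C, hb]
    · simp
  rw [hr, det_diagonal, hw] at hv
  exact hν ⟨v / G.det, by field_simp; linear_combination hv⟩

/-- The class number of the commutator subgroup against tuples. -/
theorem omega_classes_le (h2 : (2 : F) ≠ 0) (hn : Odd n) (hn2 : 2 ≤ n) (hGs : Gᵀ = G) (hG : G.det ≠ 0) :
    2 * Nat.card (ConjClasses ↥(commutator ↥(Iso G))) ≤ ∑ T ∈ tuples F n 1, ∏ i, wgt 1 i (T i) ∧
    8 * Nat.card (ConjClasses ↥(commutator ↥(Iso G))) ≤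
      (∑ T ∈ tuples F n 1, ∏ i, wgt 1 i (T i)) + 6 * (smpTuples F n).card := by
  classical
  have hS := classes_Iso_le h2 hn hGs hG
  rw [classes_SOg h2 hn hG] at hS
  rw [← card_classes_congr (Subgroup.subgroupOfEquivOfLe (omega_le_SOg h2 hGs hG))]
  have h1 := (index_omega h2 hn hGs hG).1
  set W := (commutator ↥(Iso G)).subgroupOf (SOg G) with hW
  have h0 : W.index ≠ 0 := Subgroup.FiniteIndex.index_ne_zero
  rcases (show W.index = 1 ∨ W.index = 2 by omega) with he | he
  · exact absurd (Subgroup.index_eq_one.1 he) (omega_ne_SOg h2 hn hn2 hGs hG)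
  ·
    let P : ConjClasses ↥(SOg G) → Prop := fun c => ∀ z : ↥(SOg G), Commute z (Quotient.out c) → z ∈ W
    have hP : ∀ g : ↥(SOg G), P (ConjClasses.mk g) ↔ ∀ z, Commute z g → z ∈ W := by
      intro g
      have hWn : W.Normal := Subgroup.normal_of_index_eq_two he
      obtain ⟨x, hx⟩ := isConj_iff.1 (ConjClasses.mk_eq_mk_iff_isConj.1 (Quotient.out_eq (ConjClasses.mk g)))
      constructor
      · intro h z hz
        have h1 : Commute (x⁻¹ * z * x) (Quotient.out (ConjClasses.mk g)) := by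
          have := hz.map (MulAut.conj x⁻¹).toMonoidHom
          rw [← hx] at this
          simpa [MulAut.conj_apply, mul_assoc] using this
        simpa [mul_assoc] using hWn.conj_mem _ (h _ h1) x
      · intro h z hz
        have h1 : Commute (x * z * x⁻¹) g := by
          have := hz.map (MulAut.conj x).toMonoidHom
          rw [← hx]
          simpa [MulAut.conj_apply, mul_assoc] using this
        simpa [mul_assoc] using hWn.conj_mem' _ (h _ h1) x
    have hform := IndexTwo.two_mul_classes W he P hP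
    have hle : Nat.card {c // P c} ≤ Nat.card (ConjClasses ↥(SOg G)) := Finite.card_subtype_le _
    have hgoodP : ∀ c : {c // P c}, ∀ b : Bool,
        Good (((if b then (Quotient.out c.1 : ↥(SOg G)).1 else negI G * (Quotient.out c.1 : ↥(SOg G)).1 : ↥(Iso G)) :
          GL (Fin n) F) : Matrix (Fin n) (Fin n) F) G := by
      intro c b
      refine good_of_cent h2 hn hGs hG _ fun z hz hd => ?_
      have hu : Commute z (Quotient.out c.1 : ↥(SOg G)).1 := by
        cases b
        · simp only [Bool.false_eq_true, if_false] at hz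
          have := (negI_comm z).symm.mul_right hz
          rwa [← mul_assoc, negI_sq, one_mul] at this
        · exact hz
      exact c.2 ⟨z, (mem_SOg z).2 hd⟩ (Subtype.ext hu.eq)
    let Θ : {c // P c} × Bool → ↥(smpTuples F n) := fun cb =>
      ⟨(tup hn.pos (((if cb.2 then (Quotient.out cb.1.1 : ↥(SOg G)).1 else negI G * (Quotient.out cb.1.1 : ↥(SOg G)).1 :
          ↥(Iso G))) : GL (Fin n) F)).1,
        (good_tuple h2 hn hGs hG _ (hgoodP cb.1 cb.2)).1⟩
    have hΘ : Function.Injective Θ := by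
      rintro ⟨c, b⟩ ⟨c', b'⟩ e
      have := (good_tuple h2 hn hGs hG _ (hgoodP c b)).2 _ (hgoodP c' b') (congrArg Subtype.val e).symm
      have he2 := (signed_bij h2 hn hG).1 (a₁ := (c.1, b)) (a₂ := (c'.1, b')) (ConjClasses.mk_eq_mk_iff_isConj.2 this)
      exact Prod.ext (Subtype.ext (congrArg Prod.fst he2)) (congrArg Prod.snd he2 :)
    have hs := Nat.card_le_card_of_injective Θ hΘ
    rw [Nat.card_prod, Nat.card_eq_fintype_card (α := Bool), Fintype.card_bool, Nat.card_eq_fintype_card (α := ↥(smpTuples F n)),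
      Fintype.card_coe] at hs
    constructor
    · omega
    · omega

end Cfsg.Agent.Lib.IsoClassCount
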