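import Cfsg.Agent.Lib.IsoClassCount.Classes

/-!
Self-adjoint idempotents in the centraliser of a unipotent Jordan matrix with prescribed leading parts.
-/

set_option autoImplicit false
set_option linter.unusedSectionVars false

namespace Cfsg.Agent.Lib.IsoClassCount.Idem

open Matrix Cfsg.Agent.Lib.Jordan Cfsg.Agent.Lib.Jordan.SpC

universe u
variable {F : Type u} [Field F] [Fintype F] {t : ℕ} (d : Fin t → ℕ) (hd : ∀ k, 1 ≤ d k)
  (X : Matrix (Idx d) (Idx d) F)

/-- The leading part of an element of the commutant, read from a form. -/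
noncomputable def L (A : Matrix (Idx d) (Idx d) F) (i : UCent.Rng d) :
    Matrix (Fin (mult d i)) (Fin (mult d i)) F := (bm d X i)⁻¹ * bm d (X * A) i

variable {d X} (hX : Inv d X) (hXd : X.det ≠ 0)
include hd hX hXd

theorem L_cmat (c : Par d → F) (i : UCent.Rng d) : L d X (cmat d c) i = (UCent.lead d c i)ᵀ := by
  rw [L, bm_mul_right d hd hX, Matrix.nonsing_inv_mul_cancel_left _ _ (isUnit_iff_ne_zero.2 (bm_det d hd hX hXd i))]

theorem L_one (i : UCent.Rng d) : L d X 1 i = 1 := by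
  rw [L, mul_one, nonsing_inv_mul _ (isUnit_iff_ne_zero.2 (bm_det d hd hX hXd i))]

theorem bm_mul (A : Matrix (Idx d) (Idx d) F) (i : UCent.Rng d) : bm d (X * A) i = bm d X i * L d X A i := by
  rw [L, Matrix.mul_nonsing_inv_cancel_left _ _ (isUnit_iff_ne_zero.2 (bm_det d hd hX hXd i))]

theorem L_mul {A B : Matrix (Idx d) (Idx d) F} (hA : Commute A (Cfsg.jordanTypeMatrix d F))
    (hB : Commute B (Cfsg.jordanTypeMatrix d F)) (i : UCent.Rng d) :
    L d X (A * B) i = L d X A i * L d X B i := by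
  obtain ⟨b, rfl⟩ := exists_par d hB
  have hXA : Inv d (X * A) := by
    have := hX.mul d 1 A (Commute.one_left _) hA
    rwa [transpose_one, one_mul] at this
  rw [L_cmat hd hX hXd b i, L, L, ← mul_assoc X, bm_mul_right d hd hXA, mul_assoc]

theorem L_add (A B : Matrix (Idx d) (Idx d) F) (i : UCent.Rng d) : L d X (A + B) i = L d X A i + L d X B i := by
  rw [L, L, L, mul_add X, bm_add, mul_add]

theorem L_smul (a : F) (A : Matrix (Idx d) (Idx d) F) (i : UCent.Rng d) : L d X (a • A) i = a • L d X A i := by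
  rw [L, L, Matrix.mul_smul, bm_smul, Matrix.mul_smul]

theorem L_sub (A B : Matrix (Idx d) (Idx d) F) (i : UCent.Rng d) : L d X (A - B) i = L d X A i - L d X B i := by
  rw [sub_eq_add_neg, L_add hd hX hXd, ← neg_one_smul F B, L_smul hd hX hXd, neg_one_smul, ← sub_eq_add_neg]

theorem L_pow {A : Matrix (Idx d) (Idx d) F} (hA : Commute A (Cfsg.jordanTypeMatrix d F)) (N : ℕ) (i : UCent.Rng d) :
    L d X (A ^ N) i = L d X A i ^ N := by
  induction N with
  | zero => rw [pow_zero, pow_zero, L_one hd hX hXd]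
  | succ N ih => rw [pow_succ, pow_succ, L_mul hd hX hXd (hA.pow_left N) hA, ih]

theorem det_eq {A : Matrix (Idx d) (Idx d) F} (hA : Commute A (Cfsg.jordanTypeMatrix d F)) :
    A.det = ∏ i : UCent.Rng d, (L d X A i).det ^ (i : ℕ) := by
  obtain ⟨c, rfl⟩ := exists_par d hA
  rw [JF.det_cmat d hd]
  exact Finset.prod_congr rfl fun i _ => by rw [L_cmat hd hX hXd, det_transpose]

omit hd hX hXd in
/-- An idempotent power. -/
theorem exists_idem_pow {M : Type*} [Monoid M] [Finite M] (a : M) : ∃ N, 1 ≤ N ∧ a ^ N * a ^ N = a ^ N := by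
  obtain ⟨i, j, hne, e⟩ := Finite.exists_ne_map_eq_of_infinite (fun k : ℕ => a ^ k)
  wlog h : i < j generalizing i j
  · exact this j i hne.symm e.symm (by omega)
  have hper : ∀ k, i ≤ k → a ^ (k + (j - i)) = a ^ k := by
    intro k hk
    calc a ^ (k + (j - i)) = a ^ j * a ^ (k - i) := by rw [← pow_add]; congr 1; omega
      _ = a ^ i * a ^ (k - i) := by rw [show a ^ j = a ^ i from e.symm]
      _ = a ^ k := by rw [← pow_add]; congr 1; omega
  have hper2 : ∀ m k, i ≤ k → a ^ (k + (j - i) * m) = a ^ k := by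
    intro m
    induction m with
    | zero => simp
    | succ m ih =>
      intro k hk
      rw [show k + (j - i) * (m + 1) = k + (j - i) * m + (j - i) by ring, hper _ (by omega), ih k hk]
  refine ⟨(j - i) * (i + 1), ?_, ?_⟩
  · exact Nat.one_le_iff_ne_zero.2 (Nat.mul_ne_zero (by omega) (by omega))
  · rw [← pow_add]
    refine hper2 _ _ (le_trans (Nat.le_succ i) ?_)
    exact Nat.le_mul_of_pos_left _ (by omega)

/-- A symmetric element of the commutant with prescribed leading parts. -/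
theorem exists_sym (h2 : (2 : F) ≠ 0) (hXs : Xᵀ = X)
    (e : ∀ i : UCent.Rng d, Matrix (Fin (mult d i)) (Fin (mult d i)) F)
    (hes : ∀ i, bm d X i * e i = (e i)ᵀ * bm d X i) :
    ∃ A : Matrix (Idx d) (Idx d) F, Commute A (Cfsg.jordanTypeMatrix d F) ∧ X * A = Aᵀ * X ∧
      ∀ i, L d X A i = e i := by
  obtain ⟨c0, hc0⟩ := UCent.lead_surjective (K := F) d hd (fun i => (e i)ᵀ)
  set Z := X * cmat d c0 with hZ
  have hZi : Inv d Z := by
    have := hX.mul d 1 (cmat d c0) (Commute.one_left _) (commute_jordan d c0)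
    rwa [transpose_one, one_mul] at this
  set Y := (2 : F)⁻¹ • (Z + Zᵀ) with hY
  have hYi : Inv d Y := by
    show _ = _
    rw [hY, Matrix.mul_smul, Matrix.smul_mul, mul_add, add_mul]
    rw [(hZi : _ * _ * _ = Z), (hZi.transpose : _ * _ * _ = Zᵀ)]
  obtain ⟨c, hc⟩ := exists_quot d hd hX hYi hXd
  have hYs : Yᵀ = Y := by rw [hY, transpose_smul, transpose_add, transpose_transpose, add_comm]
  refine ⟨cmat d c, commute_jordan d c, ?_, fun i => ?_⟩
  · rw [hc]
    conv_lhs => rw [← hYs, ← hc, transpose_mul, hXs]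
  · have hb : bm d Z i = bm d X i * e i := by
      rw [hZ, bm_mul_right d hd hX, congrFun hc0 i, transpose_transpose]
    have hbs : (bm d X i)ᵀ = (-1 : F) ^ ((i : ℕ) - 1) • bm d X i := by
      have := JF.bm_sym d hd hX (s := 1) (by rw [one_smul]; exact hXs) (one_mul 1) i
      rwa [one_mul] at this
    have : bm d Y i = bm d X i * e i := by
      rw [hY, bm_smul, bm_add, bm_transpose d hd hZi, hb, transpose_mul, hbs, Matrix.mul_smul, smul_smul,
        ← mul_pow, neg_mul_neg, one_mul, one_pow, one_smul, ← hes, ← two_smul F (bm d X i * e i), smul_smul,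
        inv_mul_cancel₀ h2, one_smul]
    rw [L, hc, this, Matrix.nonsing_inv_mul_cancel_left _ _ (isUnit_iff_ne_zero.2 (bm_det d hd hX hXd i))]

/-- Two orthogonal idempotents with prescribed leading parts. -/
theorem exists_pair (h2 : (2 : F) ≠ 0) (hXs : Xᵀ = X)
    (e1 e2 : ∀ i : UCent.Rng d, Matrix (Fin (mult d i)) (Fin (mult d i)) F)
    (hes : ∀ i, bm d X i * e1 i = (e1 i)ᵀ * bm d X i ∧ bm d X i * e2 i = (e2 i)ᵀ * bm d X i)
    (hei : ∀ i, e1 i * e1 i = e1 i ∧ e2 i * e2 i = e2 i ∧ e1 i * e2 i = 0 ∧ e2 i * e1 i = 0) :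
    ∃ E1 E2 : Matrix (Idx d) (Idx d) F,
      (Commute E1 (Cfsg.jordanTypeMatrix d F) ∧ X * E1 = E1ᵀ * X ∧ E1 * E1 = E1 ∧ ∀ i, L d X E1 i = e1 i) ∧
      (Commute E2 (Cfsg.jordanTypeMatrix d F) ∧ X * E2 = E2ᵀ * X ∧ E2 * E2 = E2 ∧ ∀ i, L d X E2 i = e2 i) ∧
      E1 * E2 = 0 ∧ E2 * E1 = 0 := by
  haveI : Finite (Matrix (Idx d) (Idx d) F) := Finite.of_fintype _
  have hp : ∀ {α : Type u} [Monoid α] (a : α) (N : ℕ), 1 ≤ N → a * a = a → a ^ N = a := fun a N hN ha => by
    obtain ⟨k, rfl⟩ : ∃ k, N = k + 1 := ⟨N - 1, by omega⟩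
    clear hN
    induction k with
    | zero => rw [pow_one]
    | succ k ih => rw [pow_succ, ih, ha]
  have mk : ∀ A : Matrix (Idx d) (Idx d) F, Commute A (Cfsg.jordanTypeMatrix d F) → X * A = Aᵀ * X →
      ∀ e : ∀ i : UCent.Rng d, Matrix (Fin (mult d i)) (Fin (mult d i)) F, (∀ i, L d X A i = e i) →
      (∀ i, e i * e i = e i) → ∃ N, 1 ≤ N ∧ (Commute (A ^ N) (Cfsg.jordanTypeMatrix d F) ∧
        X * A ^ N = (A ^ N)ᵀ * X ∧ A ^ N * A ^ N = A ^ N ∧ ∀ i, L d X (A ^ N) i = e i) := by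
    intro A hA hs e he hee
    obtain ⟨N, hN, hN'⟩ := exists_idem_pow A
    refine ⟨N, hN, hA.pow_left N, ?_, hN', fun i => ?_⟩
    · rw [Matrix.transpose_pow]
      exact ((show SemiconjBy X A Aᵀ from hs).pow_right N).eq
    · rw [L_pow hd hX hXd hA, he, hp _ N hN (hee i)]
  obtain ⟨A1, hA1, hA1s, hA1L⟩ := exists_sym hd hX hXd h2 hXs e1 fun i => (hes i).1
  obtain ⟨N, -, hE1c, hE1s, hE1i, hE1L⟩ := mk A1 hA1 hA1s e1 hA1L fun i => (hei i).1
  set E1 := A1 ^ N
  obtain ⟨A0, hA0, hA0s, hA0L⟩ := exists_sym hd hX hXd h2 hXs e2 fun i => (hes i).2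
  set A2 := (1 - E1) * A0 * (1 - E1) with hA2
  have hc1 : Commute (1 - E1) (Cfsg.jordanTypeMatrix d F) := (Commute.one_left _).sub_left hE1c
  have hs1 : SemiconjBy X (1 - E1) (1 - E1)ᵀ := by
    show _ * _ = _ * _
    rw [mul_sub, mul_one, hE1s, transpose_sub, transpose_one, sub_mul, one_mul]
  have hA2L : ∀ i, L d X A2 i = e2 i := fun i => by
    rw [hA2, L_mul hd hX hXd (hc1.mul_left hA0) hc1, L_mul hd hX hXd hc1 hA0, L_sub hd hX hXd, L_one hd hX hXd, hE1L,
      hA0L, sub_mul, one_mul, mul_sub, mul_one, sub_mul]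
    obtain ⟨-, -, h12, h21⟩ := hei i
    simp [h12, h21]
  obtain ⟨M, hM, hE2⟩ := mk A2 ((hc1.mul_left hA0).mul_left hc1) (by
    rw [hA2, transpose_mul, transpose_mul, ← mul_assoc (1 - E1)ᵀ A0ᵀ]
    exact ((hs1.mul_right (show SemiconjBy X A0 A0ᵀ from hA0s)).mul_right hs1).eq) e2 hA2L fun i => (hei i).2.1
  refine ⟨E1, A2 ^ M, ⟨hE1c, hE1s, hE1i, hE1L⟩, hE2, ?_, ?_⟩
  all_goals
    obtain ⟨k, rfl⟩ : ∃ k, M = k + 1 := ⟨M - 1, by omega⟩
  · have z : E1 * (1 - E1) = 0 := by rw [mul_sub, mul_one, hE1i, sub_self]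
    rw [pow_succ', ← mul_assoc, hA2, ← mul_assoc E1, ← mul_assoc E1, z, zero_mul, zero_mul, zero_mul]
  · have z : (1 - E1) * E1 = 0 := by rw [sub_mul, one_mul, hE1i, sub_self]
    rw [pow_succ, mul_assoc, hA2, mul_assoc _ (1 - E1) E1, z, mul_zero, mul_zero]

end Cfsg.Agent.Lib.IsoClassCount.Idem
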