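import Cfsg.Agent.Lib.IsoClassCount.OddClasses
import Cfsg.Agent.Lib.IsoClassCount.Lower

/-!
A lower bound for the classes of an odd-dimensional orthogonal group.
-/

set_option autoImplicit false
set_option linter.unusedSectionVars false

namespace Cfsg.Agent.Lib.IsoClassCount

open Matrix Polynomial

universe u
variable {F : Type u} [Field F] [Fintype F]

theorem orth_lower_odd (h2 : (2 : F) ≠ 0) {m : ℕ} (G : Matrix (Fin (m + m + 1)) (Fin (m + m + 1)) F)
    (hG : G.det ≠ 0) (hGs : Gᵀ = G) :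
    2 * Fintype.card F ^ m ≤ Nat.card (ConjClasses ↥(Iso G)) := by
  classical
  have real : ∀ P, Pal m P → ∀ r : F, r * r = 1 →
      ∃ g : ↥(Iso G), (Units.val (g : GL (Fin (m + m + 1)) F)).charpoly = (X - C r) * P := by
    intro P hP r hr
    obtain ⟨A0, B0, h1, h2', h3, h4⟩ := realize_any h2 m hP
    let δ : F := G.det / B0.det
    have hδ : δ ≠ 0 := div_ne_zero hG h3
    let A1 : Matrix (Fin (m + m) ⊕ Fin 1) (Fin (m + m) ⊕ Fin 1) F := Matrix.fromBlocks A0 0 0 (r • 1)
    let B1 : Matrix (Fin (m + m) ⊕ Fin 1) (Fin (m + m) ⊕ Fin 1) F := Matrix.fromBlocks B0 0 0 (δ • 1)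
    have hdet : B1.det = G.det := by
      simp only [B1, Matrix.det_fromBlocks_zero₂₁, det_smul, det_one, mul_one, Fintype.card_fin, pow_one, δ]
      rw [mul_div_cancel₀ _ h3]
    have hR : Realizes A1 B1 ((X - C r) * P) := by
      refine ⟨?_, ?_, by rw [hdet]; exact hG, ?_⟩
      · rw [Matrix.charpoly_fromBlocks_zero₁₂, h1, Matrix.smul_one_eq_diagonal, Matrix.charpoly_diagonal,
          Fin.prod_univ_one, mul_comm]
      · simp [B1, Matrix.fromBlocks_transpose, h2']
      · simp only [A1, B1, Matrix.fromBlocks_transpose, Matrix.fromBlocks_multiply, Matrix.transpose_zero,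
          Matrix.transpose_smul, Matrix.transpose_one, Matrix.mul_zero, Matrix.zero_mul, add_zero, zero_add, h4,
          Matrix.smul_mul, Matrix.mul_smul, one_mul, smul_smul]
        rw [show r * (δ * r) = δ by linear_combination δ * hr, smul_zero]
    have hR2 := hR.reindex (finSumFinEquiv : Fin (m + m) ⊕ Fin 1 ≃ Fin (m + m + 1))
    set A := Matrix.reindex (finSumFinEquiv : Fin (m + m) ⊕ Fin 1 ≃ Fin (m + m + 1)) finSumFinEquiv A1
    obtain ⟨hAP, hBs, hBd, hBA⟩ := hR2
    obtain ⟨p, hp⟩ := AutPSL.congr_symm h2 hBs hGs hBd hG (by rw [Matrix.det_reindex_self, hdet]; exact ⟨G.det, rfl⟩)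
    have hAu : IsUnit A := by
      refine (Matrix.isUnit_iff_isUnit_det _).2 (isUnit_iff_ne_zero.2 fun h0 => hBd ?_)
      rw [← hBA, det_mul, h0, mul_zero]
    set g : GL (Fin (m + m + 1)) F := p⁻¹ * hAu.unit * p with hg
    have hgI : g ∈ Iso G := by
      have hpp : (p : Matrix (Fin (m + m + 1)) (Fin (m + m + 1)) F) * ((p⁻¹ : GL (Fin (m + m + 1)) F) : Matrix _ _ F) = 1 :=
        Units.mul_inv p
      rw [mem_Iso, hg, Units.val_mul, Units.val_mul, IsUnit.unit_spec]
      set B := Matrix.reindex (finSumFinEquiv : Fin (m + m) ⊕ Fin 1 ≃ Fin (m + m + 1)) finSumFinEquiv B1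
      conv_rhs => rw [← hp, ← hBA]
      conv_lhs => rw [← hp]
      calc _ = (p : Matrix (Fin (m + m + 1)) (Fin (m + m + 1)) F)ᵀ * Aᵀ *
            ((p : Matrix (Fin (m + m + 1)) (Fin (m + m + 1)) F) * ((p⁻¹ : GL (Fin (m + m + 1)) F) : Matrix _ _ F))ᵀ * B *
            ((p : Matrix (Fin (m + m + 1)) (Fin (m + m + 1)) F) * ((p⁻¹ : GL (Fin (m + m + 1)) F) : Matrix _ _ F)) * A *
            (p : Matrix (Fin (m + m + 1)) (Fin (m + m + 1)) F) := by
            simp only [transpose_mul, mul_assoc]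
        _ = _ := by rw [hpp, transpose_one, mul_one, mul_one]; simp only [mul_assoc]
    refine ⟨⟨g, hgI⟩, ?_⟩
    show (Units.val g).charpoly = _
    rw [hg, Units.val_mul, Units.val_mul, IsUnit.unit_spec]
    have := Matrix.charpoly_units_conj' p A
    rw [← Matrix.coe_units_inv] at this
    rw [this, hAP]
  let cp : ConjClasses ↥(Iso G) → F[X] := Quotient.lift
    (fun g => (Units.val (g : GL (Fin (m + m + 1)) F)).charpoly) fun g g' h => by
      obtain ⟨c, hc⟩ := isConj_iff.1 h
      subst hc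
      show _ = (Units.val (((c * g * c⁻¹ : ↥(Iso G)) : GL (Fin (m + m + 1)) F))).charpoly
      rw [Subgroup.coe_mul, Subgroup.coe_mul, InvMemClass.coe_inv, Units.val_mul, Units.val_mul, Matrix.coe_units_inv,
        Matrix.charpoly_units_conj]
  haveI : Fintype (ConjClasses ↥(Iso G)) := Fintype.ofFinite _
  let S : Finset F[X] := (palF F m).image (fun P => (X - C 1) * P) ∪ (palF F m).image fun P => (X - C (-1)) * P
  have hS : S.card = 2 * Fintype.card F ^ m := by
    rw [Finset.card_union_of_disjoint, Finset.card_image_of_injective _ (fun a b e => mul_left_cancel₀ (X_sub_C_ne_zero _) e),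
      Finset.card_image_of_injective _ (fun a b e => mul_left_cancel₀ (X_sub_C_ne_zero _) e), card_palF, two_mul]
    rw [Finset.disjoint_left]
    rintro Q hQ hQ'
    obtain ⟨P, hP, rfl⟩ := Finset.mem_image.1 hQ
    obtain ⟨P', hP', e⟩ := Finset.mem_image.1 hQ'
    have := congrArg (fun Q : F[X] => Q.coeff 0) e
    simp [(mem_palF.1 hP).coeff_zero, (mem_palF.1 hP').coeff_zero] at this
    exact h2 (by linear_combination this)
  rw [← hS, Nat.card_eq_fintype_card, ← Finset.card_univ]
  refine Finset.card_le_card_of_surjOn cp fun Q hQ => ?_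
  rcases Finset.mem_union.1 (Finset.mem_coe.1 hQ) with h | h <;> obtain ⟨P, hP, rfl⟩ := Finset.mem_image.1 h
  · obtain ⟨g, hg⟩ := real P (mem_palF.1 hP) 1 (one_mul 1)
    exact ⟨ConjClasses.mk g, Finset.mem_coe.2 (Finset.mem_univ _), hg⟩
  · obtain ⟨g, hg⟩ := real P (mem_palF.1 hP) (-1) (by ring)
    exact ⟨ConjClasses.mk g, Finset.mem_coe.2 (Finset.mem_univ _), hg⟩

end Cfsg.Agent.Lib.IsoClassCount
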