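import Cfsg.Agent.Lib.IsoClassCount.Count
import Cfsg.Agent.Lib.IsoClassCount.Numeric

/-!
Upper bounds for the class numbers of symplectic and orthogonal groups in odd characteristic.
-/

set_option autoImplicit false
set_option linter.unusedSectionVars false

namespace Cfsg.Agent.Lib.IsoClassCount

open Finset Matrix

universe u
variable {F : Type u} [Field F] [Fintype F]

/-- `1 / √q`. -/
noncomputable def xq (F : Type u) [Fintype F] : ℝ := Real.sqrt (1 / Fintype.card F)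

theorem three_le_card (h2 : (2 : F) ≠ 0) : 3 ≤ Fintype.card F := by
  by_contra h
  have h1 : Fintype.card F = 2 := by have := Fintype.one_lt_card (α := F); omega
  have : ((Fintype.card F : ℕ) : F) = 0 := Nat.cast_card_eq_zero F
  rw [h1] at this
  exact h2 (by exact_mod_cast this)

theorem xq_facts (h2 : (2 : F) ≠ 0) : 0 < xq F ∧ (Fintype.card F : ℝ) * xq F ^ 2 = 1 ∧ xq F < 1 ∧
    xq F ^ 2 ≤ 1 / 3 ∧ xq F ≤ 5774 / 10000 := by
  have h3 : (3 : ℝ) ≤ Fintype.card F := by exact_mod_cast three_le_card h2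
  have hq : (0 : ℝ) < Fintype.card F := by linarith
  have e : xq F ^ 2 = 1 / (Fintype.card F : ℝ) := Real.sq_sqrt (by positivity)
  have h4 : xq F ^ 2 ≤ 1 / 3 := by rw [e]; exact one_div_le_one_div_of_le (by norm_num) h3
  have h5 : 0 < xq F := Real.sqrt_pos.2 (by positivity)
  refine ⟨h5, by rw [e]; field_simp, by nlinarith, h4, by nlinarith⟩

theorem symp_upper (h2 : (2 : F) ≠ 0) {m : ℕ} (hm : 1 ≤ m) (G : Matrix (Fin (m + m)) (Fin (m + m)) F)
    (hG : G.det ≠ 0) (hGs : Gᵀ = (-1 : F) • G) :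
    5 * Nat.card (ConjClasses ↥(Iso G)) ≤ 54 * Fintype.card F ^ m := by
  classical
  obtain ⟨hx, hqx, hx1, hu, -⟩ := xq_facts h2
  obtain ⟨N, hN⟩ : ∃ N, m + m = N + 1 := ⟨m + m - 1, by omega⟩
  have hle := (classes_le G (show (-1 : F) * -1 = 1 by ring) h2 (by omega) hG hGs).1
  generalize Nat.card (ConjClasses ↥(Iso G)) = k at hle ⊢
  rw [hN] at hle
  have hne : (-1 : F) ≠ 1 := fun e => h2 (by linear_combination -e)
  have hb := (total_le (F := F) (s := -1) h2 (N := N) hx hqx hx1 1 zero_le_one fun D => ?_).1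
  · rw [one_mul] at hb
    have h1 : (∏ i ∈ range N, if (-1 : F) * (-1) ^ (i + 1) = 1 then (1 + xq F ^ (i + 2)) ^ 4 else 1) =
        ∏ j ∈ range ((N + 1) / 2), (1 + 1 * (xq F ^ 2) ^ (j + 1)) ^ 4 := by
      rw [← (Numeric.parity_prod (fun j => (1 + 1 * (xq F ^ 2) ^ (j + 1)) ^ 4) N).1]
      refine Finset.prod_congr rfl fun i _ => ?_
      rcases Nat.even_or_odd i with he | ho
      · obtain ⟨k, rfl⟩ := he
        rw [if_pos (show (-1 : F) * (-1) ^ (k + k + 1) = 1 by rw [pow_succ, ← two_mul k, pow_mul, neg_one_sq, one_pow]; ring),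
          if_pos (show Even (k + k) from ⟨k, rfl⟩),
          show (k + k) / 2 = k by omega, ← pow_mul, one_mul, show 2 * (k + 1) = k + k + 2 by omega]
      · rw [if_neg (Nat.not_even_iff_odd.2 ho), if_neg (by
          rw [pow_succ, ho.neg_one_pow, neg_mul_neg, one_mul, mul_one]; exact hne)]
    have hp1 := Numeric.plus_prod_le (w := 1) (sq_nonneg (xq F)) hu zero_le_one le_rfl ((N + 1) / 2)
    have hp2 := Numeric.inv_prod_le (sq_nonneg (xq F)) hu N
    have hnum : ((∏ k ∈ range 8, (1 + 1 * (1 / 3 : ℝ) ^ (k + 1))) ^ 4 * (1 / (1 - 3 / 2 * (1 / 3) ^ 9)) ^ 4) *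
        (1786 / 1000) ≤ 54 / 5 := by
      norm_num [Finset.prod_range_succ]
    rw [h1] at hb
    have h0 : (0 : ℝ) ≤ ∏ i ∈ range N, 1 / (1 - (xq F ^ 2) ^ (i + 1)) := Finset.prod_nonneg fun i _ =>
      div_nonneg zero_le_one (sub_nonneg.2 (pow_le_one₀ (sq_nonneg _) (by linarith)))
    have hb' := hb.trans ((mul_le_mul hp1 hp2 h0 (by positivity)).trans hnum)
    rw [show xq F ^ (N + 1) = (xq F ^ 2) ^ m by rw [← hN, ← two_mul, pow_mul]] at hb'
    rw [← Nat.cast_le (α := ℝ)]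
    rw [← Nat.cast_le (α := ℝ)] at hle
    push_cast at hle hb' ⊢
    have hxm : (Fintype.card F : ℝ) ^ m * (xq F ^ 2) ^ m = 1 := by rw [← mul_pow, hqx, one_pow]
    have hqm : (0 : ℝ) ≤ (Fintype.card F : ℝ) ^ m := by positivity
    have := mul_le_mul_of_nonneg_right (mul_le_mul_of_nonneg_right hle (pow_nonneg (sq_nonneg (xq F)) m)) hqm
    have := mul_le_mul_of_nonneg_right hb' hqm
    have e : ((k : ℝ) * (xq F ^ 2) ^ m) * (Fintype.card F : ℝ) ^ m = (k : ℝ) := by
      rw [mul_assoc, mul_comm ((xq F ^ 2) ^ m), hxm, mul_one]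
    nlinarith
  · have h0 : ¬ ((-1 : F) * (-1) ^ ((0 : Fin (N + 1)) : ℕ) = 1) := by simpa using hne
    unfold cand wgt
    simp only [h0, if_false, Nat.cast_one, one_mul]
    rcases Finset.eq_empty_or_nonempty (((range (N + 1 + 1)).biUnion (palF F)).filter fun P => P.natDegree = D)
      with h | ⟨P, hP⟩
    · rw [h, Finset.sum_empty]; exact zero_le_one
    · obtain ⟨hP1, hP2⟩ := Finset.mem_filter.1 hP
      obtain ⟨d, -, hd⟩ := Finset.mem_biUnion.1 hP1
      have hD : D = d + d := hP2 ▸ (mem_palF.1 hd).2.1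
      refine (Finset.sum_le_sum_of_subset_of_nonneg (t := palF F d) ?_ fun _ _ _ => by positivity).trans ?_
      · intro R hR
        obtain ⟨hR1, hR2⟩ := Finset.mem_filter.1 hR
        obtain ⟨d', -, hd'⟩ := Finset.mem_biUnion.1 hR1
        have := (mem_palF.1 hd').2.1
        rwa [show d = d' by omega]
      · rw [Finset.sum_const, card_palF, nsmul_eq_mul, Nat.cast_pow, hD, ← two_mul, pow_mul, ← mul_pow, hqx, one_pow]

theorem orth_upper (h2 : (2 : F) ≠ 0) {m : ℕ} (hm : 1 ≤ m) (G : Matrix (Fin (m + m)) (Fin (m + m)) F)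
    (hG : G.det ≠ 0) (hGs : Gᵀ = (1 : F) • G) :
    2 * Nat.card (ConjClasses ↥(Iso G)) ≤ 19 * Fintype.card F ^ m := by
  classical
  obtain ⟨hx, hqx, hx1, hu, hxu⟩ := xq_facts h2
  obtain ⟨N, hN⟩ : ∃ N, m + m = N + 1 := ⟨m + m - 1, by omega⟩
  have hle := (classes_le G (one_mul (1 : F)) h2 (by omega) hG hGs).2 rfl
  rw [Finset.sum_add_distrib] at hle
  generalize Nat.card (ConjClasses ↥(Iso G)) = k at hle ⊢
  rw [hN] at hle
  have hne : (-1 : F) ≠ 1 := fun e => h2 (by linear_combination -e)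
  have hbc := total_le (F := F) (s := 1) h2 (N := N) hx hqx hx1 (28 / 9) (by norm_num) fun D => ?_
  · obtain ⟨hb, hc⟩ := hbc
    have h1 : (∏ i ∈ range N, if (1 : F) * (-1) ^ (i + 1) = 1 then (1 + xq F ^ (i + 2)) ^ 4 else 1) =
        ∏ j ∈ range (N / 2), (1 + xq F * (xq F ^ 2) ^ (j + 1)) ^ 4 := by
      rw [← (Numeric.parity_prod (fun j => (1 + xq F * (xq F ^ 2) ^ (j + 1)) ^ 4) N).2]
      refine Finset.prod_congr rfl fun i _ => ?_
      rcases Nat.even_or_odd i with he | ho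
      · rw [if_pos he, if_neg (by rw [pow_succ, he.neg_one_pow, one_mul, one_mul]; exact hne)]
      · obtain ⟨k, rfl⟩ := ho
        rw [if_neg (Nat.not_even_iff_odd.2 ⟨k, rfl⟩),
          if_pos (by rw [show 2 * k + 1 + 1 = 2 * (k + 1) by omega, pow_mul, neg_one_sq, one_pow, one_mul]),
          show (2 * k + 1) / 2 = k by omega, ← pow_mul, ← pow_succ', show 2 * (k + 1) + 1 = 2 * k + 1 + 2 by omega]
    have hp1 : ∏ j ∈ range (N / 2), (1 + xq F * (xq F ^ 2) ^ (j + 1)) ^ 4 ≤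
        (∏ k ∈ range 8, (1 + 5774 / 10000 * (1 / 3 : ℝ) ^ (k + 1))) ^ 4 * (1 / (1 - 3 / 2 * (1 / 3) ^ 9)) ^ 4 := by
      refine le_trans (Finset.prod_le_prod (g := fun j => (1 + 5774 / 10000 * (xq F ^ 2) ^ (j + 1)) ^ 4)
        (fun j _ => by positivity) fun j _ => by gcongr) ?_
      exact Numeric.plus_prod_le (sq_nonneg _) hu (by norm_num) (by norm_num) _
    have hp2 := Numeric.inv_prod_le (sq_nonneg (xq F)) hu N
    have hnum : (28 / 9 : ℝ) * (((∏ k ∈ range 8, (1 + 5774 / 10000 * (1 / 3 : ℝ) ^ (k + 1))) ^ 4 *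
        (1 / (1 - 3 / 2 * (1 / 3) ^ 9)) ^ 4) * (1786 / 1000)) + 1786 / 1000 ≤ 19 := by
      norm_num [Finset.prod_range_succ]
    rw [h1] at hb
    have h0 : (0 : ℝ) ≤ ∏ i ∈ range N, 1 / (1 - (xq F ^ 2) ^ (i + 1)) := Finset.prod_nonneg fun i _ =>
      div_nonneg zero_le_one (sub_nonneg.2 (pow_le_one₀ (sq_nonneg _) (by linarith)))
    have hb' := (add_le_add (hb.trans (mul_le_mul_of_nonneg_left (mul_le_mul hp1 hp2 h0 (by positivity))
      (by norm_num))) (hc.trans hp2)).trans hnum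
    rw [← add_mul, show xq F ^ (N + 1) = (xq F ^ 2) ^ m by rw [← hN, ← two_mul, pow_mul]] at hb'
    rw [← Nat.cast_le (α := ℝ)]
    rw [← Nat.cast_le (α := ℝ)] at hle
    push_cast at hle hb' ⊢
    have hxm : (Fintype.card F : ℝ) ^ m * (xq F ^ 2) ^ m = 1 := by rw [← mul_pow, hqx, one_pow]
    have hqm : (0 : ℝ) ≤ (Fintype.card F : ℝ) ^ m := by positivity
    have := mul_le_mul_of_nonneg_right (mul_le_mul_of_nonneg_right hle (pow_nonneg (sq_nonneg (xq F)) m)) hqm
    have := mul_le_mul_of_nonneg_right hb' hqm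
    have e : ((2 * k : ℝ) * (xq F ^ 2) ^ m) * (Fintype.card F : ℝ) ^ m = 2 * (k : ℝ) := by
      rw [mul_assoc, mul_comm ((xq F ^ 2) ^ m), hxm, mul_one]
    nlinarith
  · have h0 : (1 : F) * (-1) ^ ((0 : Fin (N + 1)) : ℕ) = 1 := by simp
    unfold cand wgt
    simp only [h0, if_true]
    set q : ℝ := (Fintype.card F : ℝ) with hq
    have h3 : 3 ≤ q := by rw [hq]; exact_mod_cast three_le_card h2
    -- the members of one degree
    have hdeg : ∀ D', ∀ P ∈ sdF F D', P.natDegree = D' := by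
      intro D' P hP
      rw [sdF] at hP
      have e : ∀ (c : F) (d : ℕ) (R : Polynomial F), Pal d R →
          ((Polynomial.X - Polynomial.C c) * R).natDegree = d + d + 1 := fun c d R hR => by
        rw [(Polynomial.monic_X_sub_C c).natDegree_mul hR.1, Polynomial.natDegree_X_sub_C, hR.2.1]; omega
      split_ifs at hP with he hz
      · rw [Finset.union_empty] at hP
        obtain ⟨j, rfl⟩ := he
        rw [(mem_palF.1 hP).2.1]; omega
      · obtain ⟨j, rfl⟩ := he
        rcases Finset.mem_union.1 hP with h | h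
        · rw [(mem_palF.1 h).2.1]; omega
        · obtain ⟨R, hR, rfl⟩ := Finset.mem_image.1 h
          rw [(Polynomial.monic_X_sub_C (1 : F)).natDegree_mul ((Polynomial.monic_X_sub_C _).mul (mem_palF.1 hR).1),
            Polynomial.natDegree_X_sub_C, e _ _ _ (mem_palF.1 hR)]
          omega
      · obtain ⟨j, rfl⟩ := Nat.not_even_iff_odd.1 he
        rcases Finset.mem_union.1 hP with h | h <;> obtain ⟨R, hR, rfl⟩ := Finset.mem_image.1 h <;>
          rw [e _ _ _ (mem_palF.1 hR)] <;> omega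
    refine (Finset.sum_le_sum_of_subset_of_nonneg (t := sdF F D) ?_ fun _ _ _ => by positivity).trans ?_
    · intro P hP
      obtain ⟨hP1, hP2⟩ := Finset.mem_filter.1 hP
      obtain ⟨D', -, hD'⟩ := Finset.mem_biUnion.1 hP1
      rw [← hP2, hdeg D' P hD']
      exact hD'
    rw [← Finset.sum_mul, ← Nat.cast_sum]
    rcases Nat.even_or_odd D with ⟨d, rfl⟩ | ⟨d, rfl⟩
    · have h := wt_even h2 d
      rw [← Nat.cast_le (α := ℝ)] at h
      have h' := mul_le_mul_of_nonneg_right h (pow_nonneg hx.le (d + d))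
      refine h'.trans ?_
      have e : xq F ^ (d + d) = (xq F ^ 2) ^ d := by rw [← two_mul, pow_mul]
      rw [e]
      have hu0 := sq_nonneg (xq F)
      rcases Nat.lt_or_ge d 2 with hd | hd
      · interval_cases d
        · simp; norm_num
        · simp [← hq]
          nlinarith
      · obtain ⟨j, rfl⟩ : ∃ j, d = j + 2 := ⟨d - 2, by omega⟩
        simp only [show j + 2 ≠ 0 by omega, show ¬ j + 2 < 2 by omega, if_false, Nat.cast_add, Nat.cast_mul,
          Nat.cast_pow, Nat.cast_ofNat, show j + 2 - 1 = j + 1 by omega, show j + 2 - 2 = j by omega, ← hq]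
        have hj : q ^ j * (xq F ^ 2) ^ j = 1 := by rw [← mul_pow, hqx, one_pow]
        calc (q ^ (j + 2) + 6 * q ^ (j + 1) + q ^ j) * (xq F ^ 2) ^ (j + 2)
            = (q ^ j * (xq F ^ 2) ^ j) * ((q * xq F ^ 2) ^ 2 + 6 * ((q * xq F ^ 2) * xq F ^ 2) + (xq F ^ 2) ^ 2) := by ring
          _ ≤ 28 / 9 := by rw [hj, hqx]; nlinarith
    · have h := wt_odd h2 d
      rw [show d + d + 1 = 2 * d + 1 by omega, ← Nat.cast_le (α := ℝ)] at h
      have h' := mul_le_mul_of_nonneg_right h (pow_nonneg hx.le (2 * d + 1))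
      refine h'.trans ?_
      have hu0 := sq_nonneg (xq F)
      rcases Nat.eq_zero_or_pos d with rfl | hd
      · simp; nlinarith
      · obtain ⟨j, rfl⟩ : ∃ j, d = j + 1 := ⟨d - 1, by omega⟩
        simp only [show j + 1 ≠ 0 by omega, if_false, Nat.cast_add, Nat.cast_mul, Nat.cast_pow, Nat.cast_ofNat,
          Nat.add_sub_cancel, ← hq]
        have hj : q ^ j * (xq F ^ 2) ^ j = 1 := by rw [← mul_pow, hqx, one_pow]
        calc (4 * q ^ (j + 1) + 4 * q ^ j) * xq F ^ (2 * (j + 1) + 1)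
            = (q ^ j * (xq F ^ 2) ^ j) * ((4 * (q * xq F ^ 2) + 4 * xq F ^ 2) * xq F) := by ring
          _ ≤ 28 / 9 := by rw [hj, hqx, one_mul, mul_one]; nlinarith

end Cfsg.Agent.Lib.IsoClassCount
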