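import Cfsg.Agent.Lib.IsoClassCount.OddClasses
import Cfsg.Agent.Lib.IsoClassCount.Upper

/-!
The numerical bounds for odd dimension.
-/

set_option autoImplicit false
set_option linter.unusedSectionVars false

namespace Cfsg.Agent.Lib.IsoClassCount

open Finset Matrix Polynomial

universe u
variable {F : Type u} [Field F] [Fintype F] {N : ℕ}

open scoped _root_.Classical in
/-- All weights of one degree, scaled. -/
theorem slot_le (h2 : (2 : F) ≠ 0) {x : ℝ} (hx : 0 ≤ x) (hqx : (Fintype.card F : ℝ) * x ^ 2 = 1) (D : ℕ)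
    (T : Finset F[X]) (hT : T ⊆ cand (F := F) (n := N + 1) 1 0) (hD : ∀ P ∈ T, P.natDegree = D) :
    (∑ P ∈ T, (wgt 1 (0 : Fin (N + 1)) P : ℝ) ≤ (∑ P ∈ sdF F D, wt P : ℕ)) ∧
      (∑ P ∈ T, (smpW (0 : Fin (N + 1)) P : ℝ) ≤ (((sdF F D).filter Smp).card : ℕ)) := by
  classical
  have h0 : (1 : F) * (-1) ^ ((0 : Fin (N + 1)) : ℕ) = 1 := by simp
  have hdeg : ∀ D', ∀ P ∈ sdF F D', P.natDegree = D' := by
    intro D' P hP
    rw [sdF] at hP
    have e : ∀ (c : F) (d : ℕ) (R : F[X]), Pal d R → ((X - C c) * R).natDegree = d + d + 1 := fun c d R hR => by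
      rw [(monic_X_sub_C c).natDegree_mul hR.1, natDegree_X_sub_C, hR.2.1]; omega
    split_ifs at hP with he hz
    · rw [Finset.union_empty] at hP
      obtain ⟨j, rfl⟩ := he
      rw [(mem_palF.1 hP).2.1]; omega
    · obtain ⟨j, rfl⟩ := he
      rcases Finset.mem_union.1 hP with h | h
      · rw [(mem_palF.1 h).2.1]; omega
      · obtain ⟨R, hR, rfl⟩ := Finset.mem_image.1 h
        rw [(monic_X_sub_C (1 : F)).natDegree_mul ((monic_X_sub_C _).mul (mem_palF.1 hR).1),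
          natDegree_X_sub_C, e _ _ _ (mem_palF.1 hR)]
        omega
    · obtain ⟨j, rfl⟩ := Nat.not_even_iff_odd.1 he
      rcases Finset.mem_union.1 hP with h | h <;> obtain ⟨R, hR, rfl⟩ := Finset.mem_image.1 h <;>
        rw [e _ _ _ (mem_palF.1 hR)] <;> omega
  have hsub : T ⊆ sdF F D := by
    intro P hP
    have hc := hT hP
    unfold cand at hc
    rw [if_pos h0] at hc
    obtain ⟨D', -, hD'⟩ := Finset.mem_biUnion.1 hc
    rwa [← hD P hP, hdeg D' P hD']
  constructor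
  · rw [Nat.cast_sum]
    refine le_trans (le_of_eq (Finset.sum_congr rfl fun P _ => ?_))
      (Finset.sum_le_sum_of_subset_of_nonneg hsub fun _ _ _ => by positivity)
    unfold wgt
    rw [if_pos h0]
  · rw [Finset.card_filter, Nat.cast_sum]
    refine le_trans (le_of_eq (Finset.sum_congr rfl fun P _ => ?_))
      (Finset.sum_le_sum_of_subset_of_nonneg hsub fun _ _ _ => by positivity)
    unfold smpW
    by_cases hs : Smp P
    · rw [if_pos hs, if_pos fun _ => hs]
    · rw [if_neg hs, if_neg fun h => hs (h h0)]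

/-- The scaled weights: any degree, and odd degree. -/
theorem slot_wt (h2 : (2 : F) ≠ 0) {x : ℝ} (hx : 0 ≤ x) (hx1 : x ≤ 6 / 10) (hqx : (Fintype.card F : ℝ) * x ^ 2 = 1) (D : ℕ) :
    (((∑ P ∈ sdF F D, wt P : ℕ) : ℝ) * x ^ D ≤ max (1 + 6 * x ^ 2 + x ^ 4) ((4 + 4 * x ^ 2) * x)) ∧
      (Odd D → ((∑ P ∈ sdF F D, wt P : ℕ) : ℝ) * x ^ D ≤ (4 + 4 * x ^ 2) * x) := by
  set q : ℝ := (Fintype.card F : ℝ) with hq
  have hu := sq_nonneg x
  have hodd : ∀ d : ℕ, ((∑ P ∈ sdF F (2 * d + 1), wt P : ℕ) : ℝ) * x ^ (2 * d + 1) ≤ (4 + 4 * x ^ 2) * x := by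
    intro d
    have h := wt_odd h2 d (F := F)
    rw [show d + d + 1 = 2 * d + 1 by omega, ← Nat.cast_le (α := ℝ)] at h
    refine (mul_le_mul_of_nonneg_right h (pow_nonneg hx _)).trans ?_
    rcases Nat.eq_zero_or_pos d with rfl | hd
    · simp; nlinarith
    · obtain ⟨j, rfl⟩ : ∃ j, d = j + 1 := ⟨d - 1, by omega⟩
      simp only [show j + 1 ≠ 0 by omega, if_false, Nat.cast_add, Nat.cast_mul, Nat.cast_pow, Nat.cast_ofNat,
        Nat.add_sub_cancel, ← hq]
      have hj : q ^ j * (x ^ 2) ^ j = 1 := by rw [← mul_pow, hqx, one_pow]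
      calc (4 * q ^ (j + 1) + 4 * q ^ j) * x ^ (2 * (j + 1) + 1)
          = (q ^ j * (x ^ 2) ^ j) * ((4 * (q * x ^ 2) + 4 * x ^ 2) * x) := by ring
        _ ≤ _ := by rw [hj, hqx, one_mul, mul_one]
  refine ⟨?_, fun ⟨d, hd⟩ => hd ▸ hodd d⟩
  rcases Nat.even_or_odd D with ⟨d, rfl⟩ | ⟨d, rfl⟩
  · refine le_trans ?_ (le_max_left _ _)
    have h := wt_even h2 d (F := F)
    rw [← Nat.cast_le (α := ℝ)] at h
    refine (mul_le_mul_of_nonneg_right h (pow_nonneg hx _)).trans ?_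
    rw [show x ^ (d + d) = (x ^ 2) ^ d by rw [← two_mul, pow_mul]]
    rcases Nat.lt_or_ge d 2 with hd | hd
    · interval_cases d
      · simp; nlinarith
      · simp [← hq]; nlinarith
    · obtain ⟨j, rfl⟩ : ∃ j, d = j + 2 := ⟨d - 2, by omega⟩
      simp only [show j + 2 ≠ 0 by omega, show ¬ j + 2 < 2 by omega, if_false, Nat.cast_add, Nat.cast_mul,
        Nat.cast_pow, Nat.cast_ofNat, show j + 2 - 1 = j + 1 by omega, show j + 2 - 2 = j by omega, ← hq]
      have hj : q ^ j * (x ^ 2) ^ j = 1 := by rw [← mul_pow, hqx, one_pow]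
      calc (q ^ (j + 2) + 6 * q ^ (j + 1) + q ^ j) * (x ^ 2) ^ (j + 2)
          = (q ^ j * (x ^ 2) ^ j) * ((q * x ^ 2) ^ 2 + 6 * ((q * x ^ 2) * x ^ 2) + (x ^ 2) ^ 2) := by ring
        _ ≤ _ := by rw [hj, hqx]; ring_nf; exact le_rfl
  · exact (hodd d).trans (le_max_right _ _)

theorem pow_split {x : ℝ} (S : Fin N → F[X]) (D m : ℕ)
    (h : D + ∑ i : Fin N, ((i : ℕ) + 2) * (S i).natDegree = m) :
    x ^ m = x ^ D * ∏ i : Fin N, (x ^ ((i : ℕ) + 2)) ^ (S i).natDegree := by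
  rw [← h, pow_add, ← Finset.prod_pow_eq_pow_sum]
  exact congrArg (x ^ D * ·) (Finset.prod_congr rfl fun i _ => pow_mul _ _ _)

open scoped _root_.Classical in
/-- The tail sums. -/
theorem tail_le (h2 : (2 : F) ≠ 0) {x : ℝ} (hx : 0 < x) (hqx : (Fintype.card F : ℝ) * x ^ 2 = 1) (hx1 : x < 1) :
    (∑ S ∈ Fintype.piFinset (fun i : Fin N => cand (F := F) (n := N + 1) 1 i.succ),
      ∏ i : Fin N, (wgt 1 i.succ (S i) : ℝ) * (x ^ ((i : ℕ) + 2)) ^ (S i).natDegree ≤
      ∏ i ∈ range N, (if Even i then 1 else (1 + x ^ (i + 2)) ^ 4) * (1 / (1 - (x ^ 2) ^ (i + 1)))) ∧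
    (∑ S ∈ Fintype.piFinset (fun i : Fin N => cand (F := F) (n := N + 1) 1 i.succ),
      ∏ i : Fin N, (smpW i.succ (S i) : ℝ) * (x ^ ((i : ℕ) + 2)) ^ (S i).natDegree ≤
      ∏ i ∈ range N, (if Even i then 1 else (1 + x ^ (i + 2)) ^ 2 * (1 - (x ^ (i + 2)) ^ 2) ^ 2) *
        (1 / (1 - (x ^ 2) ^ (i + 1)))) := by
  classical
  have hq : ∀ i : ℕ, (Fintype.card F : ℝ) * (x ^ (i + 2)) ^ 2 = (x ^ 2) ^ (i + 1) := fun i => by
    calc (Fintype.card F : ℝ) * (x ^ (i + 2)) ^ 2 = ((Fintype.card F : ℝ) * x ^ 2) * (x ^ 2) ^ (i + 1) := by ring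
      _ = _ := by rw [hqx, one_mul]
  have hlt : ∀ i : ℕ, (Fintype.card F : ℝ) * (x ^ (i + 2)) ^ 2 < 1 := fun i => by
    rw [hq]; exact pow_lt_one₀ (by positivity) (pow_lt_one₀ hx.le hx1 two_ne_zero) (Nat.succ_ne_zero i)
  have hne : (-1 : F) ≠ 1 := fun e => h2 (by linear_combination -e)
  have hcond : ∀ i : Fin N, ((1 : F) * (-1) ^ ((i.succ : Fin (N + 1)) : ℕ) = 1) ↔ ¬ Even (i : ℕ) := by
    intro i
    rw [Fin.val_succ, one_mul]
    rcases Nat.even_or_odd (i : ℕ) with he | ho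
    · rw [pow_succ, he.neg_one_pow, one_mul]
      exact iff_of_false hne (not_not.2 he)
    · rw [pow_succ, ho.neg_one_pow, neg_mul_neg, one_mul]
      exact iff_of_true rfl (Nat.not_even_iff_odd.2 ho)
  constructor
  · rw [← Finset.prod_univ_sum (fun i : Fin N => cand (F := F) (n := N + 1) 1 i.succ)
        (fun (i : Fin N) P => (wgt 1 i.succ P : ℝ) * (x ^ ((i : ℕ) + 2)) ^ P.natDegree),
      ← Fin.prod_univ_eq_prod_range (fun i => (if Even i then 1 else (1 + x ^ (i + 2)) ^ 4) * (1 / (1 - (x ^ 2) ^ (i + 1)))) N]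
    refine Finset.prod_le_prod (fun i _ => Finset.sum_nonneg fun P _ => by positivity) fun i _ => ?_
    refine ((entry_le h2 i.succ (pow_nonneg hx.le _) (hlt i)).1).trans_eq ?_
    rw [hq, mul_one_div]
    by_cases he : Even (i : ℕ)
    · rw [if_pos he, if_neg (fun h => (hcond i).1 h he)]
    · rw [if_neg he, if_pos ((hcond i).2 he)]
  · rw [← Finset.prod_univ_sum (fun i : Fin N => cand (F := F) (n := N + 1) 1 i.succ)
        (fun (i : Fin N) P => (smpW i.succ P : ℝ) * (x ^ ((i : ℕ) + 2)) ^ P.natDegree),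
      ← Fin.prod_univ_eq_prod_range (fun i => (if Even i then 1 else (1 + x ^ (i + 2)) ^ 2 * (1 - (x ^ (i + 2)) ^ 2) ^ 2) *
        (1 / (1 - (x ^ 2) ^ (i + 1)))) N]
    refine Finset.prod_le_prod (fun i _ => Finset.sum_nonneg fun P _ => by positivity) fun i _ => ?_
    refine (smp_entry h2 i.succ (pow_nonneg hx.le _) (pow_le_one₀ hx.le hx1.le) (hlt i)).trans_eq ?_
    rw [hq, mul_one_div]
    by_cases he : Even (i : ℕ)
    · rw [if_pos he, if_neg (fun h => (hcond i).1 h he)]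
    · rw [if_neg he, if_pos ((hcond i).2 he)]

theorem prod_sub_one_le {lam : ℝ} (h0 : 0 ≤ lam) (h1 : lam ≤ 1) (a b : ℕ → ℝ) (ha : ∀ i, 0 ≤ a i) (hb : ∀ i, a i ≤ lam * b i)
    (hb0 : ∀ i, 0 ≤ b i) (M : ℕ) :
    ∏ i ∈ range M, (1 + a i) - 1 ≤ lam * (∏ i ∈ range M, (1 + b i) - 1) ∧ 1 ≤ ∏ i ∈ range M, (1 + a i) ∧
      1 ≤ ∏ i ∈ range M, (1 + b i) := by
  induction M with
  | zero => simp
  | succ M ih =>
    obtain ⟨i1, i2, i3⟩ := ih
    rw [Finset.prod_range_succ, Finset.prod_range_succ]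
    refine ⟨?_, one_le_mul_of_one_le_of_one_le i2 (by linarith [ha M]), one_le_mul_of_one_le_of_one_le i3 (by linarith [hb0 M])⟩
    have e1 := mul_le_mul i1 (hb M) (ha M) (mul_nonneg h0 (by linarith))
    have e2 := mul_le_mul_of_nonneg_right (mul_le_mul_of_nonneg_left h1 h0) (mul_nonneg (show 0 ≤ ∏ i ∈ range M, (1 + b i) - 1 by linarith) (hb0 M))
    nlinarith [hb M]

set_option maxHeartbeats 1000000 in
/-- The bound at five or more. -/
theorem upper_five (h2 : (2 : F) ≠ 0) (hq5 : 5 ≤ Fintype.card F) {m : ℕ} :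
    5 * (∑ T ∈ tuples F (m + m + 1) 1, ∏ i, wgt 1 i (T i)) ≤ 73 * Fintype.card F ^ m := by
  classical
  obtain ⟨hx, hqx, hx1, -, -⟩ := xq_facts h2
  set x := xq F with hxdef
  have h5 : (5 : ℝ) ≤ Fintype.card F := by exact_mod_cast hq5
  have hu : x ^ 2 ≤ 1 / 5 := by nlinarith
  have hx0 : x ≤ 4473 / 10000 := by nlinarith
  set N := m + m with hN
  set Ko := (4 + 4 * x ^ 2) * x
  set K := max (1 + 6 * x ^ 2 + x ^ 4) Ko
  let w : (Fin N → F[X]) → ℝ := fun S => ∏ i : Fin N, (wgt 1 i.succ (S i) : ℝ) * (x ^ ((i : ℕ) + 2)) ^ (S i).natDegree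
  have hw0 : ∀ S, 0 ≤ w S := fun S => Finset.prod_nonneg fun i _ => by positivity
  let S0 : Fin N → F[X] := fun _ => 1
  have hpi : S0 ∈ Fintype.piFinset (fun i : Fin N => cand (F := F) (n := N + 1) 1 i.succ) := by
    refine Fintype.mem_piFinset.2 fun i => ?_
    have h1 : (1 : F[X]) ∈ palF F 0 := mem_palF.2 ⟨monic_one, natDegree_one, by rw [← Polynomial.C_1, reverse_C]⟩
    unfold cand
    split_ifs
    · exact Finset.mem_biUnion.2 ⟨0, Finset.mem_range.2 (by omega), by simp [sdF, h1, S0]⟩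
    · exact Finset.mem_biUnion.2 ⟨0, Finset.mem_range.2 (by omega), h1⟩
  have hw1 : w S0 = 1 := Finset.prod_eq_one fun i _ => by
    simp only [S0, natDegree_one, pow_zero, mul_one]
    unfold wgt
    split_ifs <;> simp [wt]
  have hb : ((∑ T ∈ tuples F (N + 1) 1, ∏ i, wgt 1 i (T i) : ℕ) : ℝ) * x ^ (N + 1) ≤
      ∑ S ∈ Fintype.piFinset (fun i : Fin N => cand (F := F) (n := N + 1) 1 i.succ), (if S = S0 then Ko else K) * w S := by
    rw [Nat.cast_sum, Finset.sum_mul]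
    refine peel_split (cand (F := F) (n := N + 1) 1) (fun T => ((∏ i, wgt 1 i (T i) : ℕ) : ℝ) * x ^ (N + 1))
      natDegree (N + 1) _ fun S hS T hT hdeg => ?_
    rcases Finset.eq_empty_or_nonempty T with rfl | ⟨P0, hP0⟩
    · rw [Finset.sum_empty]
      refine mul_nonneg ?_ (hw0 S)
      split_ifs
      · positivity
      · exact le_max_of_le_right (by positivity)
    set D := P0.natDegree
    have hD : ∀ P ∈ T, P.natDegree = D := fun P hP => by have := hdeg P hP; have := hdeg P0 hP0; omega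
    have e : ∀ P ∈ T, ((∏ i, wgt 1 i ((Fin.cons P S : Fin (N + 1) → F[X]) i) : ℕ) : ℝ) * x ^ (N + 1) =
        (wgt 1 (0 : Fin (N + 1)) P : ℝ) * x ^ D * w S := by
      intro P hP
      rw [Fin.prod_univ_succ, Nat.cast_mul, Nat.cast_prod, pow_split S D (N + 1) (by rw [← hD P hP]; exact hdeg P hP)]
      simp only [Fin.cons_zero, Fin.cons_succ, w, Finset.prod_mul_distrib]
      ring
    rw [Finset.sum_congr rfl e, ← Finset.sum_mul, ← Finset.sum_mul]
    refine mul_le_mul_of_nonneg_right ?_ (hw0 S)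
    refine (mul_le_mul_of_nonneg_right (slot_le h2 hx.le hqx D T hT hD).1 (pow_nonneg hx.le _)).trans ?_
    obtain ⟨ha, hodd⟩ := slot_wt h2 hx.le (by linarith) hqx D (F := F)
    split_ifs with hS0
    · refine hodd ?_
      have := hdeg P0 hP0
      simp [hS0, S0, natDegree_one] at this
      exact ⟨m, by omega⟩
    · exact ha
  set 𝒮 := Fintype.piFinset (fun i : Fin N => cand (F := F) (n := N + 1) 1 i.succ)
  have hsplit : ∑ S ∈ 𝒮, (if S = S0 then Ko else K) * w S = Ko + K * (∑ S ∈ 𝒮, w S - 1) := by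
    have h1 : ∀ S ∈ 𝒮, (if S = S0 then Ko else K) * w S = K * w S + if S = S0 then (Ko - K) * w S else 0 := by
      intro S _; split_ifs <;> ring
    rw [Finset.sum_congr rfl h1, Finset.sum_add_distrib, Finset.sum_ite_eq', if_pos hpi, hw1, ← Finset.mul_sum]
    ring
  rw [hsplit] at hb
  have htail := (tail_le h2 hx hqx hx1 (F := F) (N := N)).1
  -- the product against its value at five
  set x0 : ℝ := 4473 / 10000
  set lam := x / x0
  have hl0 : 0 ≤ lam := div_nonneg hx.le (by norm_num)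
  have hl1 : lam ≤ 1 := (div_le_one (by norm_num)).2 hx0
  have hxl : x = lam * x0 := (div_mul_cancel₀ x (by norm_num)).symm
  have hlp : ∀ k, 1 ≤ k → x ^ k ≤ lam * x0 ^ k := by
    intro k hk
    rw [hxl, mul_pow]
    exact mul_le_mul_of_nonneg_right (pow_le_of_le_one hl0 hl1 (by omega)) (by positivity)
  let a : ℕ → ℝ := fun i => (if Even i then 1 else (1 + x ^ (i + 2)) ^ 4) * (1 / (1 - (x ^ 2) ^ (i + 1))) - 1
  let b : ℕ → ℝ := fun i => (if Even i then 1 else (1 + x0 ^ (i + 2)) ^ 4) * (1 / (1 - (x0 ^ 2) ^ (i + 1))) - 1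
  have hx0' : x0 ^ 2 ≤ 1 / 3 := by norm_num
  have hden : ∀ (y : ℝ), 0 ≤ y → y ≤ x0 → ∀ i : ℕ, 0 < 1 - (y ^ 2) ^ (i + 1) := fun y hy hy0 i => by
    have hy1 : y ≤ 4473 / 10000 := hy0
    have hy2 : y ^ 2 ≤ 1 / 4 := by nlinarith
    have : (y ^ 2) ^ (i + 1) ≤ y ^ 2 := pow_le_of_le_one (sq_nonneg y) (by linarith) (Nat.succ_ne_zero i)
    linarith
  have hfac : ∀ i, 0 ≤ a i ∧ a i ≤ lam * b i ∧ 0 ≤ b i := by
    intro i
    have d1 := hden x hx.le hx0 i
    have d0 := hden x0 (by norm_num) le_rfl i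
    set p := (x ^ 2) ^ (i + 1)
    set p0 := (x0 ^ 2) ^ (i + 1)
    have hp : 0 ≤ p := by positivity
    have hp0 : 0 ≤ p0 := by positivity
    have hpp : p ≤ lam * p0 := by
      simp only [p, p0, ← pow_mul]; exact hlp _ (by omega)
    have hpp' : p ≤ p0 := hpp.trans (mul_le_of_le_one_left hp0 hl1)
    have e1 : 1 / (1 - p) - 1 ≤ lam * (1 / (1 - p0) - 1) := by
      rw [div_sub_one d1.ne', div_sub_one d0.ne', mul_div_assoc', div_le_div_iff₀ d1 d0]
      nlinarith
    have g1 : 0 ≤ 1 / (1 - p) - 1 := by rw [div_sub_one d1.ne']; exact div_nonneg (by linarith) d1.le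
    have g0 : 0 ≤ 1 / (1 - p0) - 1 := by rw [div_sub_one d0.ne']; exact div_nonneg (by linarith) d0.le
    set J : ℕ → ℝ := fun k => if k = 0 then 1 / (1 - p) - 1 else x ^ (i + 2)
    set J0 : ℕ → ℝ := fun k => if k = 0 then 1 / (1 - p0) - 1 else x0 ^ (i + 2)
    have hJ := prod_sub_one_le hl0 hl1 J J0
      (fun k => by simp only [J]; split_ifs <;> [exact g1; positivity])
      (fun k => by simp only [J, J0]; split_ifs <;> [exact e1; exact hlp _ (by omega)])
      (fun k => by simp only [J0]; split_ifs <;> [exact g0; positivity])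
      (if Even i then 1 else 5)
    have eJ : ∏ k ∈ range (if Even i then 1 else 5), (1 + J k) =
        (if Even i then 1 else (1 + x ^ (i + 2)) ^ 4) * (1 / (1 - p)) := by
      split_ifs <;> simp [Finset.prod_range_succ, J] <;> ring
    have eJ0 : ∏ k ∈ range (if Even i then 1 else 5), (1 + J0 k) =
        (if Even i then 1 else (1 + x0 ^ (i + 2)) ^ 4) * (1 / (1 - p0)) := by
      split_ifs <;> simp [Finset.prod_range_succ, J0] <;> ring
    rw [eJ, eJ0] at hJ
    exact ⟨sub_nonneg.2 hJ.2.1, hJ.1, sub_nonneg.2 hJ.2.2⟩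
  have hF := (prod_sub_one_le hl0 hl1 a b (fun i => (hfac i).1) (fun i => (hfac i).2.1) (fun i => (hfac i).2.2) N).1
  simp only [a, b, add_sub_cancel] at hF
  have hb0 : ∏ i ∈ range N, (if Even i then 1 else (1 + x0 ^ (i + 2)) ^ 4) * (1 / (1 - (x0 ^ 2) ^ (i + 1))) ≤ 257 / 100 := by
    rw [Finset.prod_mul_distrib]
    have h1 : (∏ i ∈ range N, if Even i then (1 : ℝ) else (1 + x0 ^ (i + 2)) ^ 4) ≤
        (1 / (1 - 3 / 2 * (x0 * x0 ^ 2))) ^ 4 := by
      rw [show (∏ i ∈ range N, if Even i then (1 : ℝ) else (1 + x0 ^ (i + 2)) ^ 4) =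
          ∏ j ∈ range (N / 2), (1 + x0 * x0 ^ 2 * (x0 ^ 2) ^ j) ^ 4 by
        rw [← (Numeric.parity_prod (fun j => (1 + x0 * x0 ^ 2 * (x0 ^ 2) ^ j) ^ 4) N).2]
        refine Finset.prod_congr rfl fun i _ => ?_
        rcases Nat.even_or_odd i with he | ⟨k, rfl⟩
        · rw [if_pos he, if_pos he]
        · rw [if_neg (Nat.not_even_iff_odd.2 ⟨k, rfl⟩), if_neg (Nat.not_even_iff_odd.2 ⟨k, rfl⟩),
            show (2 * k + 1) / 2 = k by omega]
          ring]
      rw [Finset.prod_pow]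
      exact pow_le_pow_left₀ (Finset.prod_nonneg fun k _ => by positivity)
        (Numeric.prod_inv_le (by norm_num) (sq_nonneg _) hx0' (by norm_num) _).2 4
    have h2' : ∏ i ∈ range N, 1 / (1 - (x0 ^ 2) ^ (i + 1)) ≤ 1 / (1 - 3 / 2 * x0 ^ 2) := by
      refine le_trans (le_of_eq (Finset.prod_congr rfl fun i _ => ?_))
        (Numeric.prod_inv_le (c := x0 ^ 2) (r := x0 ^ 2) (sq_nonneg _) (sq_nonneg _) hx0' (by norm_num) N).1
      rw [pow_succ']
    refine (mul_le_mul h1 h2' (Finset.prod_nonneg fun i _ =>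
      one_div_nonneg.2 (hden x0 (by norm_num) le_rfl i).le) (by positivity)).trans ?_
    norm_num [x0]
  have kA : 1 + 6 * x ^ 2 + x ^ 4 ≤ 225 / 100 := by
    rw [show x ^ 4 = x ^ 2 * x ^ 2 by ring]
    nlinarith [mul_le_mul hu hu (sq_nonneg x) (by norm_num)]
  have kB : (4 + 4 * x ^ 2) * x ≤ 225 / 100 :=
    (mul_le_mul (show 4 + 4 * x ^ 2 ≤ 48 / 10 by linarith) hx0 hx.le (by norm_num)).trans (by norm_num)
  have hK : K ≤ 225 / 100 := max_le kA kB
  have hK0 : 0 ≤ K := le_max_of_le_left (by positivity)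
  have hb2 : ((∑ T ∈ tuples F (N + 1) 1, ∏ i, wgt 1 i (T i) : ℕ) : ℝ) * x ^ (N + 1) ≤ 73 / 5 * x := by
    refine hb.trans ?_
    have e2 : (∏ i ∈ range N, (if Even i then (1 : ℝ) else (1 + x ^ (i + 2)) ^ 4) * (1 / (1 - (x ^ 2) ^ (i + 1)))) - 1 ≤
        lam * (157 / 100) := hF.trans (mul_le_mul_of_nonneg_left (by linarith) hl0)
    have e3 := mul_le_mul_of_nonneg_left ((sub_le_sub_right htail 1).trans e2) hK0
    have e4 : K * (lam * (157 / 100)) ≤ 225 / 100 * (157 / 100) / x0 * x := by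
      have := mul_le_mul_of_nonneg_right hK (show 0 ≤ lam * (157 / 100) by positivity)
      calc K * (lam * (157 / 100)) ≤ 225 / 100 * (lam * (157 / 100)) := this
        _ = _ := by simp only [lam]; ring
    have e5 : Ko ≤ 48 / 10 * x := mul_le_mul_of_nonneg_right (by linarith) hx.le
    have e6 : 48 / 10 * x + 225 / 100 * (157 / 100) / x0 * x ≤ 73 / 5 * x := by
      rw [← add_mul]; exact mul_le_mul_of_nonneg_right (by norm_num [x0]) hx.le
    exact le_trans (add_le_add le_rfl (e3.trans e4)) (le_trans (add_le_add e5 le_rfl) e6)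
  rw [← Nat.cast_le (α := ℝ)]
  push_cast at hb2 ⊢
  rw [show x ^ (N + 1) = (x ^ 2) ^ m * x by rw [← pow_mul, ← pow_succ, hN]; congr 1; omega] at hb2
  have hxm : (Fintype.card F : ℝ) ^ m * (x ^ 2) ^ m = 1 := by rw [← mul_pow, hqx, one_pow]
  rw [← mul_assoc] at hb2
  have h' := le_of_mul_le_mul_right hb2 hx
  have h'' := mul_le_mul_of_nonneg_right h' (show (0 : ℝ) ≤ (Fintype.card F : ℝ) ^ m by positivity)
  rw [mul_assoc, mul_comm ((x ^ 2) ^ m), hxm, mul_one] at h''
  linarith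

set_option maxHeartbeats 1000000 in
/-- The bound at three. -/
theorem upper_three (h2 : (2 : F) ≠ 0) (hq3 : Fintype.card F = 3) {m : ℕ} :
    5 * ((∑ T ∈ tuples F (m + m + 1) 1, ∏ i, wgt 1 i (T i)) + 6 * (smpTuples F (m + m + 1)).card) ≤
      4 * 73 * Fintype.card F ^ m := by
  classical
  obtain ⟨hx, hqx, hx1, hu, hxu⟩ := xq_facts h2
  set x := xq F with hxdef
  have hq : (Fintype.card F : ℝ) = 3 := by exact_mod_cast hq3
  have hx2 : x ^ 2 = 1 / 3 := by rw [hq] at hqx; linarith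
  have hxl : 5772 / 10000 ≤ x := by nlinarith
  set N := m + m with hN
  let w : (Fin N → F[X]) → ℝ := fun S => ∏ i : Fin N, (wgt 1 i.succ (S i) : ℝ) * (x ^ ((i : ℕ) + 2)) ^ (S i).natDegree
  let v : (Fin N → F[X]) → ℝ := fun S => ∏ i : Fin N, (smpW i.succ (S i) : ℝ) * (x ^ ((i : ℕ) + 2)) ^ (S i).natDegree
  have hv0 : ∀ S, 0 ≤ v S := fun S => Finset.prod_nonneg fun i _ => by positivity
  have hvw : ∀ S, v S ≤ w S := fun S => Finset.prod_le_prod (fun i _ => by positivity) fun i _ => by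
    refine mul_le_mul_of_nonneg_right ?_ (by positivity)
    have : 1 ≤ wgt (F := F) 1 i.succ (S i) := by unfold wgt wt; split_ifs <;> norm_num
    unfold smpW
    split_ifs
    · exact_mod_cast this
    · simp
  have hb : (((∑ T ∈ tuples F (N + 1) 1, ∏ i, wgt 1 i (T i)) + 6 * (smpTuples F (N + 1)).card : ℕ) : ℝ) * x ^ (N + 1) ≤
      ∑ S ∈ Fintype.piFinset (fun i : Fin N => cand (F := F) (n := N + 1) 1 i.succ),
        (28 / 9 * w S + (4 * (4 * x) - 28 / 9) * v S) := by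
    have hsm : (smpTuples F (N + 1)).card = ∑ T ∈ tuples F (N + 1) 1, ∏ i, smpW i (T i) := by
      rw [smpTuples, Finset.card_filter]
      refine Finset.sum_congr rfl fun T _ => ?_
      unfold smpW
      by_cases hT : ∀ i : Fin (N + 1), (1 : F) * (-1) ^ (i : ℕ) = 1 → Smp (T i)
      · rw [if_pos hT]; exact (Finset.prod_eq_one fun i _ => if_pos (hT i)).symm
      · obtain ⟨i, hi⟩ := not_forall.1 hT
        rw [if_neg hT]; exact (Finset.prod_eq_zero (Finset.mem_univ i) (if_neg hi)).symm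
    rw [hsm, Finset.mul_sum, ← Finset.sum_add_distrib, Nat.cast_sum, Finset.sum_mul]
    refine peel_split (cand (F := F) (n := N + 1) 1)
      (fun T => ((∏ i, wgt 1 i (T i) + 6 * ∏ i, smpW i (T i) : ℕ) : ℝ) * x ^ (N + 1))
      natDegree (N + 1) _ fun S hS T hT hdeg => ?_
    rcases Finset.eq_empty_or_nonempty T with rfl | ⟨P0, hP0⟩
    · rw [Finset.sum_empty]
      nlinarith [hv0 S, hvw S]
    set D := P0.natDegree
    have hD : ∀ P ∈ T, P.natDegree = D := fun P hP => by have := hdeg P hP; have := hdeg P0 hP0; omega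
    have e : ∀ P ∈ T, ((∏ i, wgt 1 i ((Fin.cons P S : Fin (N + 1) → F[X]) i) +
          6 * ∏ i, smpW i ((Fin.cons P S : Fin (N + 1) → F[X]) i) : ℕ) : ℝ) * x ^ (N + 1) =
        ((wgt 1 (0 : Fin (N + 1)) P : ℝ) * x ^ D) * w S + 6 * (((smpW (0 : Fin (N + 1)) P : ℝ) * x ^ D) * v S) := by
      intro P hP
      rw [Fin.prod_univ_succ, Fin.prod_univ_succ, Nat.cast_add, Nat.cast_mul, Nat.cast_mul, Nat.cast_mul, Nat.cast_prod,
        Nat.cast_prod, pow_split S D (N + 1) (by rw [← hD P hP]; exact hdeg P hP)]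
      simp only [Fin.cons_zero, Fin.cons_succ, w, v, Finset.prod_mul_distrib]
      push_cast
      ring
    rw [Finset.sum_congr rfl e, Finset.sum_add_distrib, ← Finset.sum_mul, ← Finset.mul_sum, ← Finset.sum_mul,
      ← Finset.sum_mul, ← Finset.sum_mul]
    obtain ⟨hA, hB⟩ := slot_le h2 hx.le hqx D T hT hD
    have hA' := mul_le_mul_of_nonneg_right hA (pow_nonneg hx.le D)
    have hB' := mul_le_mul_of_nonneg_right hB (pow_nonneg hx.le D)
    -- the two kinds of weight at one degree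
    have k1 : ((∑ P ∈ sdF F D, wt P : ℕ) : ℝ) * x ^ D ≤ 28 / 9 := by
      refine (slot_wt h2 hx.le (by linarith) hqx D).1.trans (max_le ?_ ?_)
      · rw [show x ^ 4 = (x ^ 2) ^ 2 by ring, hx2]; norm_num
      · rw [hx2]; nlinarith
    have k2 : ((∑ P ∈ sdF F D, wt P : ℕ) : ℝ) * x ^ D + 6 * ((((sdF F D).filter Smp).card : ℕ) * x ^ D) ≤ 4 * (4 * x) := by
      have hc := smp_card h2 D (F := F)
      have hn : ∀ d, ((palN F d).card : ℝ) * (x ^ 2) ^ d ≤ if d = 0 then 1 else if d = 1 then 1 / 3 else 4 / 9 := by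
        intro d
        have h := card_palN h2 d (F := F)
        rw [hq3] at h
        rcases Nat.lt_or_ge d 2 with hd | hd
        · interval_cases d
          · simp at h ⊢; exact_mod_cast h
          · simp at h ⊢
            have : ((palN F 1).card : ℝ) ≤ 1 := by exact_mod_cast (show (palN F 1).card ≤ 1 by omega)
            rw [hx2]; linarith
        · obtain ⟨j, rfl⟩ : ∃ j, d = j + 2 := ⟨d - 2, by omega⟩
          rw [if_neg (by omega), if_neg (by omega)] at h ⊢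
          rw [show j + 2 - 1 = j + 1 by omega, show j + 2 - 2 = j by omega] at h
          rw [← Nat.cast_le (α := ℝ)] at h
          push_cast at h
          have h' := mul_le_mul_of_nonneg_right h (pow_nonneg (sq_nonneg x) (j + 2))
          rw [hx2] at h' ⊢
          have hj : (3 : ℝ) ^ j * (1 / 3) ^ j = 1 := by rw [← mul_pow]; norm_num
          rw [pow_add (1 / 3 : ℝ)] at h' ⊢
          rw [pow_succ (3 : ℝ) j, pow_add (3 : ℝ) j 2] at h'
          linear_combination h' + (4 / 9 : ℝ) * hj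
      rcases Nat.even_or_odd D with ⟨d, hd⟩ | ⟨d, hd⟩
      · rw [hd, if_pos ⟨d, rfl⟩, show (d + d) / 2 = d by omega, ← Nat.cast_le (α := ℝ)] at hc
        have hc' := mul_le_mul_of_nonneg_right hc (pow_nonneg hx.le (d + d))
        have hx4 : x ^ (d + d) = (x ^ 2) ^ d := by rw [← two_mul, pow_mul]
        rw [hd]
        have hw1 : ((∑ P ∈ sdF F (d + d), wt P : ℕ) : ℝ) * x ^ (d + d) ≤ 28 / 9 := by rw [← hd]; exact k1
        rcases Nat.lt_or_ge d 2 with hd2 | hd2
        · interval_cases d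
          · have h0 := wt_even h2 0 (F := F)
            rw [← Nat.cast_le (α := ℝ)] at h0
            have := hn 0
            have hp : ((palN F 0).card : ℝ) ≤ 1 := by simpa using this
            simp at hc' h0 ⊢
            rw [← Nat.cast_le (α := ℝ)] at hc'
            nlinarith
          · have h0 := wt_even h2 1 (F := F)
            rw [hq3, ← Nat.cast_le (α := ℝ)] at h0
            have n1 : ((palN F 1).card : ℝ) * (1 / 3) ≤ 1 / 3 := by simpa [hx2] using hn 1
            have n0 : ((palN F 0).card : ℝ) ≤ 1 := by simpa using hn 0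
            have hs : (((sdF F (1 + 1)).filter Smp).card : ℝ) ≤ (palN F 1).card + (palN F 0).card := by
              simpa using hc
            have hw9 : ((∑ P ∈ sdF F (1 + 1), wt P : ℕ) : ℝ) ≤ 9 := by simpa using h0.trans (by norm_num)
            rw [show x ^ (1 + 1) = (1 / 3 : ℝ) from hx2]
            linarith
        · rw [if_neg (by omega)] at hc'
          push_cast at hc'
          obtain ⟨j, rfl⟩ : ∃ j, d = j + 1 := ⟨d - 1, by omega⟩
          have n1 := hn (j + 1)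
          have n0 := hn j
          rw [if_neg (by omega), if_neg (by omega)] at n1
          rw [hx4] at hc' hw1 ⊢
          rw [show j + 1 - 1 = j by omega, add_mul, pow_succ, hx2] at hc'
          rw [pow_succ, hx2] at hw1 n1 ⊢
          rw [hx2] at n0
          have n0' : ((palN F j).card : ℝ) * (1 / 3) ^ j ≤ 4 / 9 := by
            refine n0.trans ?_
            rw [if_neg (by omega)]
            split_ifs <;> norm_num
          nlinarith
      · rw [hd, if_neg (by rw [Nat.even_iff]; omega), show (2 * d + 1) / 2 = d by omega, ← Nat.cast_le (α := ℝ)] at hc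
        push_cast at hc
        have hc' := mul_le_mul_of_nonneg_right hc (pow_nonneg hx.le (2 * d + 1))
        have hx4 : x ^ (2 * d + 1) = (x ^ 2) ^ d * x := by rw [← pow_mul, pow_succ]
        rw [hd]
        have n1 := mul_le_mul_of_nonneg_right (hn d) hx.le
        rcases Nat.eq_zero_or_pos d with rfl | hdp
        · have h0 := wt_odd h2 0 (F := F)
          rw [← Nat.cast_le (α := ℝ)] at h0
          have h0' := mul_le_mul_of_nonneg_right h0 hx.le
          simp at hc' n1 h0' ⊢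
          nlinarith
        · have h0 := (slot_wt h2 hx.le (by linarith) hqx (2 * d + 1) (F := F)).2 ⟨d, rfl⟩
          rw [hx2] at h0
          rw [hx4] at hc' h0 ⊢
          have h4 : ((palN F d).card : ℝ) * (x ^ 2) ^ d * x ≤ 4 / 9 * x := by
            refine n1.trans (mul_le_mul_of_nonneg_right ?_ hx.le)
            rw [if_neg (by omega)]
            split_ifs <;> norm_num
          nlinarith
    have k3 : 0 ≤ ((((sdF F D).filter Smp).card : ℕ) : ℝ) * x ^ D := by positivity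
    have k4 : 0 ≤ ((∑ P ∈ sdF F D, wt P : ℕ) : ℝ) * x ^ D := by positivity
    have hvS := hv0 S
    have hwv := sub_nonneg.2 (hvw S)
    have t1 := mul_le_mul_of_nonneg_right hA' (le_trans hvS (hvw S))
    have t2 := mul_le_mul_of_nonneg_right hB' hvS
    have t3 := mul_le_mul_of_nonneg_right k1 hwv
    have t4 := mul_le_mul_of_nonneg_right k2 hvS
    linear_combination t1 + 6 * t2 + t3 + t4
  rw [Finset.sum_add_distrib, ← Finset.mul_sum, ← Finset.mul_sum] at hb
  obtain ⟨hF, hG⟩ := tail_le h2 hx hqx hx1 (F := F) (N := N)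
  rw [Finset.prod_mul_distrib] at hF hG
  have hI := Numeric.inv_prod_le (sq_nonneg x) hu N
  have hI0 : (0 : ℝ) ≤ ∏ i ∈ range N, 1 / (1 - (x ^ 2) ^ (i + 1)) := Finset.prod_nonneg fun i _ =>
    div_nonneg zero_le_one (sub_nonneg.2 (pow_le_one₀ (sq_nonneg _) (by linarith)))
  have hP4 : (∏ i ∈ range N, if Even i then (1 : ℝ) else (1 + x ^ (i + 2)) ^ 4) ≤
      (∏ k ∈ range 8, (1 + 5774 / 10000 * (1 / 3 : ℝ) ^ (k + 1))) ^ 4 * (1 / (1 - 3 / 2 * (1 / 3) ^ 9)) ^ 4 := by
    rw [show (∏ i ∈ range N, if Even i then (1 : ℝ) else (1 + x ^ (i + 2)) ^ 4) =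
        ∏ j ∈ range (N / 2), (1 + x * (x ^ 2) ^ (j + 1)) ^ 4 by
      rw [← (Numeric.parity_prod (fun j => (1 + x * (x ^ 2) ^ (j + 1)) ^ 4) N).2]
      refine Finset.prod_congr rfl fun i _ => ?_
      rcases Nat.even_or_odd i with he | ⟨k, rfl⟩
      · rw [if_pos he, if_pos he]
      · rw [if_neg (Nat.not_even_iff_odd.2 ⟨k, rfl⟩), if_neg (Nat.not_even_iff_odd.2 ⟨k, rfl⟩),
          show (2 * k + 1) / 2 = k by omega]
        ring]
    refine le_trans (Finset.prod_le_prod (g := fun j => (1 + 5774 / 10000 * (x ^ 2) ^ (j + 1)) ^ 4)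
      (fun j _ => by positivity) fun j _ => by gcongr) ?_
    exact Numeric.plus_prod_le (sq_nonneg _) hu (by norm_num) (by norm_num) _
  have hP2 : (∏ i ∈ range N, if Even i then (1 : ℝ) else (1 + x ^ (i + 2)) ^ 2 * (1 - (x ^ (i + 2)) ^ 2) ^ 2) ≤
      ((∏ k ∈ range 8, (1 + 5774 / 10000 * (1 / 3 : ℝ) ^ (k + 1)) * (1 - (5772 / 10000 * (1 / 3 : ℝ) ^ (k + 1)) ^ 2)) *
        (1 / (1 - 3 / 2 * (1 / 3) ^ 9))) ^ 2 := by
    rw [show (∏ i ∈ range N, if Even i then (1 : ℝ) else (1 + x ^ (i + 2)) ^ 2 * (1 - (x ^ (i + 2)) ^ 2) ^ 2) =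
        ∏ j ∈ range (N / 2), ((1 + x * (x ^ 2) ^ (j + 1)) * (1 - (x * (x ^ 2) ^ (j + 1)) ^ 2)) ^ 2 by
      rw [← (Numeric.parity_prod (fun j => ((1 + x * (x ^ 2) ^ (j + 1)) * (1 - (x * (x ^ 2) ^ (j + 1)) ^ 2)) ^ 2) N).2]
      refine Finset.prod_congr rfl fun i _ => ?_
      rcases Nat.even_or_odd i with he | ⟨k, rfl⟩
      · rw [if_pos he, if_pos he]
      · rw [if_neg (Nat.not_even_iff_odd.2 ⟨k, rfl⟩), if_neg (Nat.not_even_iff_odd.2 ⟨k, rfl⟩),
          show (2 * k + 1) / 2 = k by omega]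
        ring, hx2, Finset.prod_pow]
    have hsm : ∀ k : ℕ, x * (1 / 3 : ℝ) ^ (k + 1) ≤ 1 / 5 := fun k => by
      have : (1 / 3 : ℝ) ^ (k + 1) ≤ 1 / 3 := pow_le_of_le_one (by norm_num) (by norm_num) (Nat.succ_ne_zero k)
      nlinarith
    have hbase : ∀ k : ℕ, 0 ≤ 1 - (x * (1 / 3 : ℝ) ^ (k + 1)) ^ 2 ∧
        1 ≤ (1 + x * (1 / 3 : ℝ) ^ (k + 1)) * (1 - (x * (1 / 3 : ℝ) ^ (k + 1)) ^ 2) := fun k => by
      set y := x * (1 / 3 : ℝ) ^ (k + 1)
      have := hsm k
      have hy : 0 ≤ y := by positivity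
      exact ⟨by nlinarith, by nlinarith [mul_nonneg hy hy]⟩
    refine pow_le_pow_left₀ (Finset.prod_nonneg fun k _ => le_trans zero_le_one (hbase k).2) ?_ 2
    refine (Numeric.split8 _ (fun k => (hbase k).2) _ fun M => ?_).trans
      (mul_le_mul_of_nonneg_right (Finset.prod_le_prod (fun k _ => le_trans zero_le_one (hbase k).2) fun k _ => ?_) (by norm_num))
    · refine le_trans (Finset.prod_le_prod (g := fun k => 1 + (1 / 3 : ℝ) ^ 9 * (1 / 3) ^ k)
        (fun k _ => le_trans zero_le_one (hbase _).2) fun k _ => ?_)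
        (Numeric.prod_inv_le (by norm_num) (by norm_num) le_rfl (by norm_num) M).2
      refine le_trans (mul_le_of_le_one_right (by positivity) (sub_le_self 1 (sq_nonneg _))) ?_
      rw [← pow_add, show 9 + k = 8 + k + 1 by omega]
      have : (1 / 3 : ℝ) ^ (8 + k + 1) * x ≤ (1 / 3 : ℝ) ^ (8 + k + 1) * 1 := mul_le_mul_of_nonneg_left hx1.le (by positivity)
      linarith
    · refine mul_le_mul (by gcongr) ?_ (hbase k).1 (by positivity)
      gcongr
  have hcast : ((((∑ T ∈ tuples F (N + 1) 1, ∏ i, wgt 1 i (T i)) + 6 * (smpTuples F (N + 1)).card : ℕ) : ℝ)) * x ^ (N + 1) ≤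
      4 * 73 / 5 * x := by
    refine hb.trans ?_
    have hc1 : (0 : ℝ) ≤ 4 * (4 * x) - 28 / 9 := by linarith
    have hc2 : 4 * (4 * x) - 28 / 9 ≤ 4 * (4 * (5774 / 10000)) - (28 / 9 : ℝ) := by linarith
    have e1 := hF.trans (mul_le_mul hP4 hI hI0 (by positivity))
    have e2 := hG.trans (mul_le_mul hP2 hI hI0 (sq_nonneg _))
    refine le_trans (add_le_add (mul_le_mul_of_nonneg_left e1 (by norm_num))
      (mul_le_mul hc2 e2 (Finset.sum_nonneg fun S _ => hv0 S) (by norm_num))) ?_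
    refine le_trans ?_ (mul_le_mul_of_nonneg_left hxl (by norm_num))
    norm_num [Finset.prod_range_succ]
  rw [← Nat.cast_le (α := ℝ)]
  push_cast at hcast ⊢
  rw [show x ^ (N + 1) = (x ^ 2) ^ m * x by rw [← pow_mul, ← pow_succ, hN]; congr 1; omega] at hcast
  have hxm : (Fintype.card F : ℝ) ^ m * (x ^ 2) ^ m = 1 := by rw [← mul_pow, hqx, one_pow]
  rw [← mul_assoc] at hcast
  have h' := le_of_mul_le_mul_right hcast hx
  have h'' := mul_le_mul_of_nonneg_right h' (show (0 : ℝ) ≤ (Fintype.card F : ℝ) ^ m by positivity)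
  rw [mul_assoc, mul_comm ((x ^ 2) ^ m), hxm, mul_one] at h''
  linarith

end Cfsg.Agent.Lib.IsoClassCount
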