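import Cfsg.Agent.Lib.IsoClassCount.Glue
import Cfsg.Agent.Lib.IsoClassCount.Poly
import Cfsg.Agent.Lib.GLn.ClassInvariant

/-!
The eigen-parts at `±1` from an elementary divisor decomposition, and the tuple of an isometry.
-/

set_option autoImplicit false
set_option linter.unusedSectionVars false

namespace Cfsg.Agent.Lib.IsoClassCount

open Polynomial Matrix Cfsg.Agent.Lib.Jordan Cfsg.Agent.Lib.GLn.ClassInvariant

universe u
variable {F : Type u} [Field F] [Fintype F] {n : ℕ} {g : GL (Fin n) F} (D : Decomp g)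

/-- The product of the blocks. -/
abbrev Blocks : Type u := Π i, F[X] ⧸ Ideal.span {D.p i ^ D.e i}

/-- Block coordinates. -/
noncomputable def blk : (Fin n → F) ≃ₗ[F] Blocks D :=
  (Module.AEval'.of (Matrix.toLin' (g : Matrix (Fin n) (Fin n) F))).trans (D.φ.restrictScalars F)

theorem blk_g (v : Fin n → F) : blk D ((g : Matrix (Fin n) (Fin n) F) *ᵥ v) = (X : F[X]) • blk D v := by
  show D.φ (Module.AEval'.of _ _) = (X : F[X]) • D.φ (Module.AEval'.of _ v)
  rw [← map_smul, Module.AEval'.X_smul_of]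
  rfl

theorem blk_blockEnd (a : D.ι → F[X]) (v : Fin n → F) (j : D.ι) :
    blk D (LinearMap.toMatrix' (D.blockEnd a) *ᵥ v) j = a j • blk D v j := by
  rw [LinearMap.toMatrix'_mulVec, Decomp.blockEnd, LinearEquiv.conj_apply_apply, LinearEquiv.symm_symm]
  show blk D ((blk D).symm _) j = _
  rw [LinearEquiv.apply_symm_apply]
  rfl

theorem blk_pow (c : F) (k : ℕ) (v : Fin n → F) :
    blk D (((g : Matrix (Fin n) (Fin n) F) - c • 1) ^ k *ᵥ v) = ((X : F[X]) - C c) ^ k • blk D v := by
  induction k with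
  | zero => simp
  | succ k ih =>
    rw [pow_succ', pow_succ', ← Matrix.mulVec_mulVec, Matrix.sub_mulVec, map_sub, blk_g, Matrix.smul_mulVec,
      Matrix.one_mulVec, map_smul, ih, mul_smul, ← algebraMap_smul F[X] c (((X : F[X]) - C c) ^ k • blk D v)]
    exact (sub_smul (X : F[X]) (algebraMap F F[X] c) _).symm

theorem blk_ext {A B : Matrix (Fin n) (Fin n) F} (h : ∀ v j, blk D (A *ᵥ v) j = blk D (B *ᵥ v) j) : A = B :=
  Matrix.ext_iff_mulVec.2 fun v => (blk D).injective (funext (h v))

theorem X_sub_C_ne {a b : F} (h : a ≠ b) : (X - C a : F[X]) ≠ X - C b := fun e =>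
  h (C_injective (sub_right_injective e))

/-- The coefficient functionals of a block at `ε`. -/
noncomputable def coord (ε : F) (e s : ℕ) : (F[X] ⧸ Ideal.span {(X - C ε) ^ e}) →ₗ[F] F :=
  (ε ^ s) • ((lcoeff F s).comp ((Polynomial.taylor ε).comp (AdjoinRoot.modByMonicHom ((monic_X_sub_C ε).pow e))))

theorem coord_mk (ε : F) (e s : ℕ) (a : F[X]) :
    coord ε e s (Submodule.Quotient.mk a) = ε ^ s * (taylor ε (a %ₘ (X - C ε) ^ e)).coeff s := rfl

theorem sum_coord {ε : F} (hε : ε * ε = 1) (e : ℕ) (y : F[X] ⧸ Ideal.span {(X - C ε) ^ e}) :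
    ∑ s : Fin e, coord ε e s y • (Submodule.Quotient.mk ((C ε * X - 1) ^ (s : ℕ)) :
      F[X] ⧸ Ideal.span {(X - C ε) ^ e}) = y := by
  obtain ⟨a, rfl⟩ := Submodule.Quotient.mk_surjective _ y
  have hm := (monic_X_sub_C ε).pow e
  have ha : (Submodule.Quotient.mk a : F[X] ⧸ Ideal.span {(X - C ε) ^ e}) =
      Submodule.Quotient.mk (a %ₘ (X - C ε) ^ e) := by
    rw [Submodule.Quotient.eq, Ideal.mem_span_singleton]
    exact ⟨a /ₘ (X - C ε) ^ e, sub_eq_iff_eq_add'.2 (modByMonic_add_div a ((X - C ε) ^ e)).symm⟩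
  have hpoly : ∑ s : Fin e, (ε ^ (s : ℕ) * (taylor ε (a %ₘ (X - C ε) ^ e)).coeff s) • (C ε * X - 1) ^ (s : ℕ) =
      a %ₘ (X - C ε) ^ e := by
    apply Polynomial.taylor_injective ε
    set b := taylor ε (a %ₘ (X - C ε) ^ e)
    rcases Nat.eq_zero_or_pos e with rfl | he
    · have : b = 0 := by simp [b]
      simp [this]
    have hb : b.natDegree < e := by
      rw [Polynomial.natDegree_taylor]
      have h1 := natDegree_modByMonic_lt a hm (by
        intro h
        have := congrArg natDegree h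
        rw [natDegree_pow, natDegree_X_sub_C, natDegree_one] at this
        omega)
      rwa [natDegree_pow, natDegree_X_sub_C, mul_one] at h1
    rw [map_sum]
    conv_rhs => rw [b.as_sum_range' e hb, ← Fin.sum_univ_eq_sum_range (fun i => monomial i (b.coeff i))]
    refine Finset.sum_congr rfl fun s _ => ?_
    rw [map_smul, taylor_pow, map_sub, taylor_mul, taylor_C, taylor_X, taylor_one,
      show C ε * (X + C ε) - C 1 = C ε * X by rw [mul_add, ← C_mul, hε, add_sub_cancel_right],
      mul_pow, ← C_pow, ← C_mul_X_pow_eq_monomial, smul_eq_C_mul, ← mul_assoc, ← C_mul]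
    congr 2
    rw [mul_comm (ε ^ (s : ℕ)) (b.coeff s), mul_assoc, ← mul_pow, hε, one_pow, mul_one]
  conv_rhs => rw [ha, ← hpoly]
  show _ = ((Submodule.mkQ (Ideal.span {(X - C ε) ^ e})).restrictScalars F) _
  rw [map_sum]
  refine Finset.sum_congr rfl fun s _ => ?_
  rw [map_smul, coord_mk]
  rfl

theorem coord_basis {ε : F} (hε : ε * ε = 1) {e : ℕ} (s r : Fin e) :
    coord ε e s (Submodule.Quotient.mk ((C ε * X - 1) ^ (r : ℕ))) = if s = r then 1 else 0 := by
  have he : 0 < e := r.pos
  have hd : ((C ε * X - 1) ^ (r : ℕ) : F[X]).degree < ((X - C ε) ^ e).degree := by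
    rw [degree_pow, degree_pow, degree_X_sub_C]
    have h1 : (C ε * X - 1 : F[X]).degree ≤ 1 :=
      (degree_sub_le _ _).trans (max_le (degree_C_mul_X_le ε) (degree_one_le.trans (by norm_num)))
    calc (r : ℕ) • (C ε * X - 1 : F[X]).degree ≤ (r : ℕ) • (1 : WithBot ℕ) := nsmul_le_nsmul_right h1 _
      _ < e • (1 : WithBot ℕ) := by
        rw [nsmul_eq_mul, mul_one, nsmul_eq_mul, mul_one]
        exact_mod_cast r.2
  rw [coord_mk, (modByMonic_eq_self_iff ((monic_X_sub_C ε).pow e)).2 hd, taylor_pow, map_sub, taylor_mul, taylor_C,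
    taylor_X, taylor_one, show C ε * (X + C ε) - C 1 = C ε * X by rw [mul_add, ← C_mul, hε, add_sub_cancel_right],
    mul_pow, ← C_pow, coeff_C_mul, coeff_X_pow]
  by_cases h : s = r
  · subst h; rw [if_pos rfl, if_pos rfl, mul_one, ← mul_pow, hε, one_pow]
  · rw [if_neg h, if_neg (fun e => h (Fin.ext e)), mul_zero, mul_zero]

open scoped _root_.Classical in
/-- The part of an element at `ε`, with the multiplicities of its block sizes. -/
theorem exists_part (hn : 1 ≤ n) {ε : F} (hε : ε * ε = 1) :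
    ∃ P : Part (g : Matrix (Fin n) (Fin n) F) ε, (∀ i, mult P.d i = D.count (X - C ε) i) ∧
      ∀ v j, blk D (P.E *ᵥ v) j =
        if D.p j = X - C ε then blk D v j else 0 := by
  classical
  let J := {j : D.ι // D.p j = X - C ε}
  let k0 : Fin (Fintype.card J) ≃ J := (Fintype.equivFin J).symm
  let d : Fin (Fintype.card J) → ℕ := fun k => D.e (k0 k).1
  have hd : ∀ k, 1 ≤ d k := fun k => (D.hpe _).2.2.2
  have hspan : ∀ k, Ideal.span {D.p (k0 k).1 ^ D.e (k0 k).1} = Ideal.span {(X - C ε) ^ d k} := fun k => by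
    rw [(k0 k).2]
  let cast : ∀ k, (F[X] ⧸ Ideal.span {D.p (k0 k).1 ^ D.e (k0 k).1}) ≃ₗ[F[X]] F[X] ⧸ Ideal.span {(X - C ε) ^ d k} :=
    fun k => Submodule.quotEquivOfEq _ _ (hspan k)
  have hcast : ∀ k (a : F[X]), cast k (Submodule.Quotient.mk a) = Submodule.Quotient.mk a := fun k a => rfl
  let w : F[X] := C ε * X - 1
  -- the columns
  let col : Idx d → Fin n → F := fun a =>
    (blk D).symm (Pi.single (k0 a.1).1 (Submodule.Quotient.mk (w ^ (a.2 : ℕ))))
  let Φ : Matrix (Fin n) (Idx d) F := Matrix.of fun x a => col a x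
  let ψ : (Fin n → F) →ₗ[F] (Idx d → F) := LinearMap.pi fun a =>
    (coord ε (d a.1) a.2).comp (((cast a.1).restrictScalars F).toLinearMap.comp
      ((LinearMap.proj (k0 a.1).1).comp (blk D).toLinearMap))
  have hψ : ∀ v a, ψ v a = coord ε (d a.1) a.2 (cast a.1 (blk D v (k0 a.1).1)) := fun v a => rfl
  let E : Matrix (Fin n) (Fin n) F :=
    LinearMap.toMatrix' (D.blockEnd fun j => if D.p j = X - C ε then 1 else 0)
  have hEb : ∀ v j, blk D (E *ᵥ v) j = if D.p j = X - C ε then blk D v j else 0 := fun v j => by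
    rw [blk_blockEnd]; split_ifs <;> simp
  have hΦv : ∀ c, Φ *ᵥ c = ∑ a, c a • col a := fun c => by
    funext x
    simp [Φ, Matrix.mulVec, dotProduct, mul_comm]
  have hleft : LinearMap.toMatrix' ψ * Φ = 1 := by
    ext a b
    show ∑ x, LinearMap.toMatrix' ψ a x * col b x = _
    rw [show ∑ x, LinearMap.toMatrix' ψ a x * col b x = (LinearMap.toMatrix' ψ *ᵥ col b) a from rfl,
      LinearMap.toMatrix'_mulVec, hψ]
    simp only [col, LinearEquiv.apply_symm_apply]
    obtain ⟨k, s⟩ := a
    obtain ⟨l, r⟩ := b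
    by_cases hkl : k = l
    · subst hkl
      rw [Pi.single_eq_same, hcast, coord_basis hε]
      by_cases h : s = r
      · subst h; rw [if_pos rfl, Matrix.one_apply_eq]
      · rw [if_neg h]
        exact (Matrix.one_apply_ne (show (⟨k, s⟩ : Idx d) ≠ ⟨k, r⟩ from fun e => h (eq_of_heq (Sigma.mk.inj_iff.1 e).2))).symm
    · rw [Pi.single_eq_of_ne (fun e => hkl (k0.injective (Subtype.ext e))), map_zero, map_zero,
        Matrix.one_apply_ne (fun e => hkl (congrArg Sigma.fst e))]
  have hright : Φ * LinearMap.toMatrix' ψ = E := by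
    refine blk_ext D fun v j => ?_
    rw [← Matrix.mulVec_mulVec, LinearMap.toMatrix'_mulVec, hΦv, map_sum, Finset.sum_apply, hEb,
      Fintype.sum_sigma]
    simp only [map_smul, Pi.smul_apply, col, LinearEquiv.apply_symm_apply]
    by_cases hj : D.p j = X - C ε
    · rw [if_pos hj]
      obtain ⟨k, hk⟩ := k0.surjective ⟨j, hj⟩
      have hkj : (k0 k).1 = j := congrArg Subtype.val hk
      subst hkj
      rw [Finset.sum_eq_single k]
      · simp only [Pi.single_eq_same, hψ]
        apply (cast k).injective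
        rw [map_sum]
        refine Eq.trans (Finset.sum_congr rfl fun s _ => ?_) (sum_coord hε (d k) _)
        exact map_smul ((cast k).restrictScalars F) _ _
      · intro l _ hl
        refine Finset.sum_eq_zero fun s _ => ?_
        rw [Pi.single_eq_of_ne (fun e => hl (k0.injective (Subtype.ext e)).symm), smul_zero]
      · simp
    · rw [if_neg hj]
      refine Finset.sum_eq_zero fun k _ => Finset.sum_eq_zero fun s _ => ?_
      rw [Pi.single_eq_of_ne (fun e => hj (by rw [e]; exact (k0 k).2)), smul_zero]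
  have hgΦ : (g : Matrix (Fin n) (Fin n) F) * Φ = ε • (Φ * Cfsg.jordanTypeMatrix d F) := by
    refine Matrix.ext_iff_mulVec.2 fun c => ?_
    rw [← Matrix.mulVec_mulVec, Matrix.smul_mulVec, ← Matrix.mulVec_mulVec,
      show Cfsg.jordanTypeMatrix d F = 1 + nmat d F by rw [nmat, add_sub_cancel], Matrix.add_mulVec, Matrix.one_mulVec,
      Matrix.mulVec_add]
    refine (blk D).injective ?_
    rw [blk_g, map_smul, map_add]
    have hN : blk D (Φ *ᵥ (nmat d F *ᵥ c)) = w • blk D (Φ *ᵥ c) := by
      simp only [hΦv, map_sum, map_smul, col, LinearEquiv.apply_symm_apply, Finset.smul_sum, Fintype.sum_sigma]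
      refine Finset.sum_congr rfl fun k _ => ?_
      obtain ⟨e, he⟩ : ∃ e, d k = e + 1 := ⟨d k - 1, by have := hd k; omega⟩
      have hw : ∀ i : ℕ, w • (Submodule.Quotient.mk (w ^ i) : F[X] ⧸ Ideal.span {D.p (k0 k).1 ^ D.e (k0 k).1}) =
          Submodule.Quotient.mk (w ^ (i + 1)) := fun i => by
        rw [← Submodule.Quotient.mk_smul, smul_eq_mul, pow_succ']
      have htop : (Submodule.Quotient.mk (w ^ d k) : F[X] ⧸ Ideal.span {D.p (k0 k).1 ^ D.e (k0 k).1}) = 0 := by
        rw [Submodule.Quotient.mk_eq_zero, hspan, Ideal.mem_span_singleton,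
          show w = C ε * (X - C ε) by simp [w, mul_sub, ← C_mul, hε], mul_pow]
        exact dvd_mul_left _ _
      have hws : ∀ i : ℕ, w • (Pi.single (k0 k).1 (Submodule.Quotient.mk (w ^ i)) : Blocks D) =
          Pi.single (k0 k).1 (Submodule.Quotient.mk (w ^ (i + 1))) := fun i => funext fun j => by
        by_cases hj : j = (k0 k).1
        · subst hj; rw [Pi.smul_apply, Pi.single_eq_same, Pi.single_eq_same, hw]
        · rw [Pi.smul_apply, Pi.single_eq_of_ne hj, Pi.single_eq_of_ne hj, smul_zero]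
      simp only [nmat_mulVec]
      rw [show ∀ f : Fin (d k) → Blocks D, ∑ s, f s = ∑ s : Fin (e + 1), f (Fin.cast he.symm s) from
        fun f => (Equiv.sum_comp (finCongr he.symm) f).symm,
        show ∀ f : Fin (d k) → Blocks D, ∑ s, f s = ∑ s : Fin (e + 1), f (Fin.cast he.symm s) from
        fun f => (Equiv.sum_comp (finCongr he.symm) f).symm, Fin.sum_univ_succ, Fin.sum_univ_castSucc]
      have hz : ∀ y : Blocks D, (0 : F) • y = 0 := fun y => funext fun i => zero_smul F (y i)
      rw [dif_pos (by simp), hz, zero_add]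
      rw [smul_comm w, hws,
        show ((Fin.cast he.symm (Fin.last e) : Fin (d k)) : ℕ) + 1 = d k by simp; omega, htop, Pi.single_zero,
        smul_zero, add_zero]
      refine Finset.sum_congr rfl fun s _ => ?_
      rw [smul_comm w, hws, dif_neg (by simp)]
      congr 2
    rw [hN]
    funext j
    obtain ⟨z, hz⟩ := Submodule.Quotient.mk_surjective _ (blk D (Φ *ᵥ c) j)
    rw [Pi.smul_apply, Pi.smul_apply, Pi.add_apply, Pi.smul_apply, ← hz, ← Submodule.Quotient.mk_smul,
      ← Submodule.Quotient.mk_smul, ← Submodule.Quotient.mk_add, ← Submodule.Quotient.mk_smul]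
    congr 1
    rw [smul_eq_C_mul, smul_eq_mul, smul_eq_mul, show z + w * z = C ε * X * z by simp only [w]; ring,
      ← mul_assoc, ← mul_assoc, ← C_mul, hε, C_1, one_mul]
  have hcop : ∀ j, D.p j ≠ X - C ε → ∃ u : F[X], D.p j ^ D.e j ∣ (X - C ε) ^ n * u - 1 := by
    intro j hj
    obtain ⟨a, b, hab⟩ := (((D.hpe j).2.1.coprime_iff_not_dvd).2 fun h => hj
      (eq_of_monic_of_associated (D.hpe j).1 (monic_X_sub_C ε)
        ((D.hpe j).2.1.associated_of_dvd (irreducible_X_sub_C ε) h))).pow (m := D.e j) (n := n)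
    exact ⟨b, -a, by linear_combination hab⟩
  choose u hu using hcop
  let a : D.ι → F[X] := fun j => if h : D.p j = X - C ε then 0 else u j h
  have hcomm : ∀ b, Commute (g : Matrix (Fin n) (Fin n) F) (LinearMap.toMatrix' (D.blockEnd b)) := by
    intro b
    have := (D.blockEnd_comm b).symm.map (LinearMap.toMatrixAlgEquiv' : Module.End F (Fin n → F) ≃ₐ[F] _)
    rw [show LinearMap.toMatrixAlgEquiv' (Matrix.toLin' (g : Matrix (Fin n) (Fin n) F)) = (g : Matrix (Fin n) (Fin n) F) from
      LinearMap.toMatrix'_toLin' _] at this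
    exact this
  refine ⟨⟨Fintype.card J, d, hd, E, ⟨Φ, LinearMap.toMatrix' ψ, hleft, hright⟩, hgΦ, hcomm _, n,
    LinearMap.toMatrix' (D.blockEnd a), hcomm _, ?_, ?_, hn⟩, fun i => ?_, hEb⟩
  · refine blk_ext D fun v j => ?_
    rw [← Matrix.mulVec_mulVec, blk_pow, Pi.smul_apply, hEb, Matrix.zero_mulVec, map_zero, Pi.zero_apply]
    split_ifs with hj
    · obtain ⟨y, hy⟩ := Submodule.Quotient.mk_surjective _ (blk D v j)
      rw [← hy, ← Submodule.Quotient.mk_smul, Submodule.Quotient.mk_eq_zero, Ideal.mem_span_singleton, hj, smul_eq_mul]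
      exact dvd_mul_of_dvd_left (pow_dvd_pow _ (D.e_le j)) _
    · rw [smul_zero]
  · refine blk_ext D fun v j => ?_
    rw [← Matrix.mulVec_mulVec, blk_pow, Pi.smul_apply, blk_blockEnd, Matrix.sub_mulVec, Matrix.one_mulVec, map_sub,
      Pi.sub_apply, hEb]
    by_cases hj : D.p j = X - C ε
    · simp [a, hj]
    · rw [if_neg hj, sub_zero]
      simp only [a, dif_neg hj, smul_smul]
      obtain ⟨y, hy⟩ := Submodule.Quotient.mk_surjective _ (blk D v j)
      rw [← hy, ← Submodule.Quotient.mk_smul, Submodule.Quotient.eq, Ideal.mem_span_singleton, smul_eq_mul]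
      obtain ⟨z, hz⟩ := hu j hj
      exact ⟨-(z * y), by linear_combination (-y) * hz⟩
  · show (Finset.univ.filter fun k => d k = i).card = _
    rw [Decomp.count]
    refine Finset.card_bij (fun k _ => (k0 k).1) (fun k hk => ?_) (fun k _ l _ h => k0.injective (Subtype.ext h))
      (fun j hj => ?_)
    · exact Finset.mem_filter.2 ⟨Finset.mem_univ _, (Finset.mem_filter.1 hk).2, (k0 k).2.symm⟩
    · obtain ⟨k, hk⟩ := k0.surjective ⟨j, (Finset.mem_filter.1 hj).2.2.symm⟩
      refine ⟨k, Finset.mem_filter.2 ⟨Finset.mem_univ _, ?_⟩, congrArg Subtype.val hk⟩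
      show D.e (k0 k).1 = i
      rw [hk]; exact (Finset.mem_filter.1 hj).2.1

open scoped _root_.Classical in
theorem parts_orth {P : Part (g : Matrix (Fin n) (Fin n) F) 1} {Q : Part (g : Matrix (Fin n) (Fin n) F) (-1)}
    (h2 : (2 : F) ≠ 0)
    (hP : ∀ v j, blk D (P.E *ᵥ v) j = if D.p j = X - C 1 then blk D v j else 0)
    (hQ : ∀ v j, blk D (Q.E *ᵥ v) j = if D.p j = X - C (-1) then blk D v j else 0) :
    P.E * Q.E = 0 ∧ Q.E * P.E = 0 := by
  have hne : (1 : F) ≠ -1 := fun e => h2 (by linear_combination e)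
  constructor <;> refine blk_ext D fun v j => ?_
  · rw [← Matrix.mulVec_mulVec, hP, hQ, Matrix.zero_mulVec, map_zero, Pi.zero_apply]
    split_ifs with h h'
    · exact absurd (h.symm.trans h') (X_sub_C_ne hne)
    · rfl
    · rfl
  · rw [← Matrix.mulVec_mulVec, hQ, hP, Matrix.zero_mulVec, map_zero, Pi.zero_apply]
    split_ifs with h h'
    · exact absurd (h'.symm.trans h) (X_sub_C_ne hne)
    · rfl
    · rfl

/-! ### The tuple -/

theorem rootMultiplicity_tupFun (c : F) (i : Fin n) :
    rootMultiplicity c (D.tupFun i) = D.count (X - C c) ((i : ℕ) + 1) := by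
  classical
  rw [← count_roots, Decomp.tupFun, roots_multiset_prod _ (fun h => (D.mem_parts h).1.ne_zero rfl), Multiset.count_bind,
    ← D.count_parts]
  rw [Multiset.count_eq_card_filter_eq]
  have key : ∀ m : Multiset F[X], (∀ p ∈ m, p ∈ D.parts i) →
      (m.map fun p => p.roots.count c).sum = Multiset.card (m.filter fun p => X - C c = p) := by
    intro m
    induction m using Multiset.induction_on with
    | empty => simp
    | cons a m ih =>
      intro hm
      rw [Multiset.map_cons, Multiset.sum_cons, ih fun p hp => hm p (Multiset.mem_cons_of_mem hp), Multiset.filter_cons]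
      obtain ⟨h1, h2, -⟩ := D.mem_parts (hm a (Multiset.mem_cons_self _ _))
      by_cases ha : X - C c = a
      · rw [if_pos ha, Multiset.card_add, Multiset.card_singleton, ← ha, count_roots, rootMultiplicity_X_sub_C_self]
      · rw [if_neg ha, Multiset.card_add, Multiset.card_zero, count_roots, rootMultiplicity_eq_zero]
        intro hr
        exact ha (eq_of_monic_of_associated (monic_X_sub_C c) h1
          ((irreducible_X_sub_C c).associated_of_dvd h2 (dvd_iff_isRoot.2 hr)))
  exact key _ fun p hp => hp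

theorem natCard_ker (A : Matrix (Fin n) (Fin n) F) :
    Nat.card {v : Fin n → F // A.toLin' v = 0} = Fintype.card F ^ (n - A.rank) := by
  have h1 := (Matrix.toLin' A).finrank_range_add_finrank_ker
  rw [Module.finrank_fin_fun, Matrix.toLin'_apply',
    show Module.finrank F (LinearMap.range A.mulVecLin) = A.rank from rfl] at h1
  show Nat.card (LinearMap.ker (Matrix.toLin' A)) = _
  rw [Module.natCard_eq_pow_finrank (K := F), Nat.card_eq_fintype_card, Matrix.toLin'_apply']
  congr 1
  omega

theorem aeval_toLin' (A : Matrix (Fin n) (Fin n) F) (P : F[X]) :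
    aeval (Matrix.toLin' A) P = Matrix.toLin' (aeval A P) :=
  (Polynomial.aeval_algHom_apply (Matrix.toLinAlgEquiv' : Matrix (Fin n) (Fin n) F ≃ₐ[F] _).toAlgHom A P)

theorem kerCard_dualP {s : F} {G : Matrix (Fin n) (Fin n) F} (hG : Form s (g : Matrix (Fin n) (Fin n) F) G)
    {P : F[X]} (h0 : P.coeff 0 ≠ 0) (k : ℕ) : kerCard g (dualP P) k = kerCard g P k := by
  unfold kerCard
  rw [show dualP P ^ k = C ((P.coeff 0)⁻¹ ^ k) * (P ^ k).reverse by
    rw [dualP, mul_pow, ← C_pow]
    congr 1
    induction k with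
    | zero => rw [pow_zero, pow_zero, ← C_1, reverse_C]
    | succ k ih => rw [pow_succ, pow_succ, reverse_mul_of_domain, ih],
    aeval_toLin', aeval_toLin', natCard_ker, natCard_ker]
  congr 2
  set A : Matrix (Fin n) (Fin n) F := (g : Matrix (Fin n) (Fin n) F) with hA
  set Q := P ^ k
  have hc : IsUnit ((algebraMap F (Matrix (Fin n) (Fin n) F)) ((P.coeff 0)⁻¹ ^ k)).det := by
    rw [Matrix.algebraMap_eq_diagonal, Matrix.det_diagonal]
    exact isUnit_iff_ne_zero.2 (Finset.prod_ne_zero_iff.2 fun _ _ => pow_ne_zero _ (inv_ne_zero h0))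
  rw [map_mul, aeval_C, Matrix.rank_mul_eq_right_of_isUnit_det _ _ hc]
  have hu : IsUnit A.det := hG.det_g
  have hGu : IsUnit G.det := isUnit_iff_ne_zero.2 hG.det
  have h1 : SemiconjBy G A⁻¹ Aᵀ := by
    show G * A⁻¹ = Aᵀ * G
    calc G * A⁻¹ = Aᵀ * G * A * A⁻¹ := by rw [hG.inv]
      _ = Aᵀ * G := by rw [Matrix.mul_nonsing_inv_cancel_right _ _ hu]
  have e1 : aeval A Q.reverse = A ^ Q.natDegree * aeval A⁻¹ Q := by
    rw [aeval_eq_sum_range' (Nat.lt_succ_of_le (reverse_natDegree_le Q)), aeval_eq_sum_range, Finset.mul_sum,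
      ← Finset.sum_range_reflect (fun i => Q.reverse.coeff i • A ^ i)]
    refine Finset.sum_congr rfl fun i hi => ?_
    rw [Finset.mem_range] at hi
    rw [show Q.natDegree.succ - 1 - i = Q.natDegree - i by omega, coeff_reverse, revAt_le (by omega),
      Nat.sub_sub_self (by omega), Matrix.mul_smul]
    congr 1
    conv_rhs => rw [show Q.natDegree = (Q.natDegree - i) + i by omega, pow_add, mul_assoc,
      ← ((show Commute A A⁻¹ by
        show _ * _ = _ * _
        rw [Matrix.mul_nonsing_inv _ hu, Matrix.nonsing_inv_mul _ hu]).mul_pow i),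
      Matrix.mul_nonsing_inv _ hu, one_pow, mul_one]
  have e2 : SemiconjBy G (aeval A⁻¹ Q) (aeval A Q)ᵀ := by
    induction Q using Polynomial.induction_on' with
    | add p q hp hq =>
      rw [map_add, map_add, Matrix.transpose_add]
      exact hp.add_right hq
    | monomial i c =>
      rw [aeval_monomial, aeval_monomial, Matrix.transpose_mul, Matrix.transpose_pow,
        Matrix.algebraMap_eq_diagonal, Matrix.diagonal_transpose, ← Matrix.algebraMap_eq_diagonal]
      rw [← Algebra.commutes c ((Aᵀ) ^ i)]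
      exact (Algebra.commute_algebraMap_right c G).semiconjBy.mul_right (h1.pow_right i)
  rw [e1, Matrix.rank_mul_eq_right_of_isUnit_det _ _ (by rw [Matrix.det_pow]; exact hu.pow _),
    ← Matrix.rank_mul_eq_right_of_isUnit_det G _ hGu, e2.eq, Matrix.rank_mul_eq_left_of_isUnit_det _ _ hGu,
    Matrix.rank_transpose]

/-- The tuple of an isometry is self-reciprocal. -/
theorem sd_tupFun {s : F} {G : Matrix (Fin n) (Fin n) F} (hG : Form s (g : Matrix (Fin n) (Fin n) F) G) (i : Fin n) :
    SD (D.tupFun i) := by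
  classical
  refine ⟨(D.tupFun_spec.1 i).1, (D.tupFun_spec.1 i).2, ?_⟩
  show dualP (D.parts i).prod = (D.parts i).prod
  have hprod : ∀ s : Multiset F[X], dualP s.prod = (s.map dualP).prod := fun s => by
    induction s using Multiset.induction_on with
    | empty => rw [Multiset.prod_zero, Multiset.map_zero, Multiset.prod_zero, dualP_one]
    | cons a s ih => rw [Multiset.prod_cons, dualP_mul, Multiset.map_cons, Multiset.prod_cons, ih]
  rw [hprod]
  congr 1
  have hcount : ∀ x : F[X], x.Monic → Irreducible x → x.coeff 0 ≠ 0 →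
      (D.parts i).count (dualP x) = (D.parts i).count x := fun x hx hxi hx0 => by
    rw [D.count_parts, D.count_parts]
    exact Decomp.minSum_eq_of_kerCard D D (monic_dualP hx0) (irreducible_dualP hx hxi hx0) hx hxi
      (natDegree_dualP hx0) (fun k => kerCard_dualP hG hx0 k) i
  have hinj : Set.InjOn dualP {x | x ∈ D.parts i} := fun x hx y hy e => by
    have := congrArg dualP e
    rwa [dualP_dualP (D.mem_parts hx).1 (D.mem_parts hx).2.2, dualP_dualP (D.mem_parts hy).1 (D.mem_parts hy).2.2] at this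
  refine Multiset.ext.2 fun y => ?_
  by_cases hy : y ∈ (D.parts i).map dualP
  · obtain ⟨x, hx, rfl⟩ := Multiset.mem_map.1 hy
    rw [Multiset.count_map_eq_count _ _ hinj _ hx, hcount x (D.mem_parts hx).1 (D.mem_parts hx).2.1 (D.mem_parts hx).2.2]
  · rw [Multiset.count_eq_zero_of_notMem hy, eq_comm]
    by_contra hne
    have hym := Multiset.count_ne_zero.1 hne
    obtain ⟨h1, h2, h3⟩ := D.mem_parts hym
    rw [← hcount y h1 h2 h3] at hne
    exact hy (Multiset.mem_map.2 ⟨dualP y, Multiset.count_ne_zero.1 hne, dualP_dualP h1 h3⟩)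

end Cfsg.Agent.Lib.IsoClassCount
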